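import Cfsg.Agent.H43.MCBase
import Cfsg.Prelude.Def_Transfer
import Cfsg.Prelude.Def_Solvable

/-!
# S3905: statements of the pieces (team project of helper43)

Every `St…` below is a `Prop`; a piece is a theorem `… : St….{u}` (possibly with other `St…` as
hypotheses).  Notation: `Z = ZN N = N ⊓ C_G(N)` (the centre of `N`), `Hyp N` the hypothesis of
S3905 (`Cfsg.Agent.H43.MC.Hyp`, in `MCBase`).
-/

set_option autoImplicit false

namespace Cfsg.Agent.H43.MC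

universe u

/-- PRIM: an element outside a subgroup has a power of prime power order outside it. -/
def StPrim : Prop :=
  ∀ (G : Type u) [Group G] [Finite G] (K : Subgroup G) (g : G), g ∉ K →
    ∃ r m k : ℕ, r.Prime ∧ g ^ m ∉ K ∧ orderOf (g ^ m) = r ^ k

/-- SPLIT: `g = g_p * g_{p'}` with both factors powers of `g`. -/
def StSplit : Prop :=
  ∀ (G : Type u) [Group G] [Finite G] (p : ℕ), p.Prime → ∀ g : G,
    ∃ a b : ℕ, g = g ^ a * g ^ b ∧ (∃ k : ℕ, orderOf (g ^ a) = p ^ k) ∧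
      (orderOf (g ^ b)).Coprime p

/-- F5: `C_N(x)` is normal in `N` or self-normalizing in `N`. -/
def StF5 : Prop :=
  ∀ (G : Type u) [Group G] [Finite G] (N : Subgroup G) [N.Normal], Hyp N →
    ∀ x : G, x ∈ N → x ∉ Subgroup.centralizer (N : Set G) →
      (∀ n ∈ N, ∀ c ∈ N, Commute c x → Commute (n * c * n⁻¹) x) ∨
      (∀ n ∈ N, (∀ c ∈ N, Commute c x → Commute (n * c * n⁻¹) x) → Commute n x)

/-- A counterexample to the β-lemma: commuting non-central `x, y ∈ N`, `x` a `p`-element,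
`y` a `p'`-element. -/
structure BetaCE {G : Type u} [Group G] (N : Subgroup G) (p : ℕ) (x y : G) : Prop where
  hp : p.Prime
  hxN : x ∈ N
  hxZ : x ∉ Subgroup.centralizer (N : Set G)
  hxo : ∃ k : ℕ, orderOf x = p ^ k
  hyN : y ∈ N
  hyZ : y ∉ Subgroup.centralizer (N : Set G)
  hxy : Commute x y
  hyo : (orderOf y).Coprime p

/-- BETA-CL: in a counterexample, every non-central `c ∈ C_N(x)` has `C_G(c) = C_G(x)`. -/
def StBetaCL : Prop :=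
  ∀ (G : Type u) [Group G] [Finite G] (N : Subgroup G) [N.Normal], Hyp N →
    ∀ (p : ℕ) (x y : G), BetaCE N p x y →
      ∀ c : G, c ∈ N → Commute c x → c ∉ Subgroup.centralizer (N : Set G) →
        Subgroup.centralizer ({c} : Set G) = Subgroup.centralizer ({x} : Set G)

/-- BETA-N: no counterexample with `C_G(x)` normal. -/
def StBetaN : Prop :=
  ∀ (G : Type u) [Group G] [Finite G] (N : Subgroup G) [N.Normal], Hyp N →
    ∀ (p : ℕ) (x y : G), BetaCE N p x y →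
      (Subgroup.centralizer ({x} : Set G)).Normal → False

/-- FROBINT: Frobenius' theorem (S0035) for `C/Z ≤ N/Z`, stated inside `G`. -/
def StFrobInt : Prop :=
  ∀ (G : Type u) [Group G] [Finite G] (N C : Subgroup G),
    C ≤ N → ZN N ≤ C → C ≠ N → ¬ C ≤ ZN N →
    (∀ n ∈ N, n ∉ C → ∀ c ∈ C, n * c * n⁻¹ ∈ C → c ∈ ZN N) →
    ∃ K : Subgroup G, K ≤ N ∧ ZN N ≤ K ∧ (∀ n ∈ N, ∀ k ∈ K, n * k * n⁻¹ ∈ K) ∧
      (∀ k ∈ K, k ∈ C → k ∈ ZN N) ∧ (∀ n ∈ N, ∃ k ∈ K, ∃ c ∈ C, n = k * c) ∧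
      (∀ k ∈ N, k ∈ K ↔ (k ∈ ZN N ∨ ∀ n ∈ N, n * k * n⁻¹ ∉ C))

/-- BETA-F: no counterexample with `C_G(x)` not normal. -/
def StBetaF : Prop :=
  ∀ (G : Type u) [Group G] [Finite G] (N : Subgroup G) [N.Normal], Hyp N →
    ∀ (p : ℕ) (x y : G), BetaCE N p x y →
      ¬ (Subgroup.centralizer ({x} : Set G)).Normal → False

/-- BETA: the β-lemma. -/
def StBeta : Prop :=
  ∀ (G : Type u) [Group G] [Finite G] (N : Subgroup G) [N.Normal], Hyp N →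
    ∀ (p : ℕ) (x y : G), BetaCE N p x y → False

/-- NCOND: normalizer condition: `A ≤ S < T`, `A` normalized by `T`, `T/A` a `p`-group. -/
def StNCond : Prop :=
  ∀ (G : Type u) [Group G] [Finite G] (p : ℕ), p.Prime → ∀ (A S T : Subgroup G),
    A ≤ S → S ≤ T → S ≠ T → (∀ t ∈ T, ∀ a ∈ A, t * a * t⁻¹ ∈ A) →
    (∀ t ∈ T, ∃ k : ℕ, t ^ (p ^ k) ∈ A) →
    ∃ n ∈ T, n ∉ S ∧ ∀ s ∈ S, n * s * n⁻¹ ∈ S

/-- INTP: (via S1992) if the β-property holds in `N` and all `C_N(x)` (`x ∈ N ∖ Z` of prime power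
order) are self-normalizing in `N`, then `N` is abelian. -/
def StIntP : Prop :=
  ∀ (G : Type u) [Group G] [Finite G] (N : Subgroup G),
    (∀ (p : ℕ) (x y : G), p.Prime → x ∈ N → x ∉ Subgroup.centralizer (N : Set G) →
      (∃ k : ℕ, orderOf x = p ^ k) → y ∈ N → Commute x y → (orderOf y).Coprime p →
      y ∈ Subgroup.centralizer (N : Set G)) →
    (∀ x : G, x ∈ N → x ∉ Subgroup.centralizer (N : Set G) →
      (∃ p k : ℕ, p.Prime ∧ orderOf x = p ^ k) →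
      ∀ n ∈ N, (∀ c ∈ N, Commute c x → Commute (n * c * n⁻¹) x) → Commute n x) →
    N ≤ Subgroup.centralizer (N : Set G)

/-- CF: a chief factor `B/A` which is an `r`-group is elementary abelian. -/
def StCF : Prop :=
  ∀ (G : Type u) [Group G] [Finite G] (r : ℕ), r.Prime → ∀ (A B : Subgroup G),
    A.Normal → B.Normal → A ≤ B →
    (∀ b ∈ B, ∃ k : ℕ, b ^ (r ^ k) ∈ A) →
    (∀ T : Subgroup G, T.Normal → A ≤ T → T ≤ B → T = A ∨ T = B) →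
    (∀ a ∈ B, ∀ b ∈ B, a * b * a⁻¹ * b⁻¹ ∈ A) ∧ (∀ b ∈ B, b ^ r ∈ A)

/-- `N/Z(N)` is elementary abelian of exponent `p`, stated inside `G`. -/
def IntEA {G : Type u} [Group G] (N : Subgroup G) (p : ℕ) : Prop :=
  (∀ a ∈ N, ∀ b ∈ N, a * b * a⁻¹ * b⁻¹ ∈ Subgroup.centralizer (N : Set G)) ∧
  (∀ a ∈ N, a ^ p ∈ Subgroup.centralizer (N : Set G))

/-- PGRP: if `N/Z` is a `p`-group then it is elementary abelian. -/
def StPGrp : Prop :=
  ∀ (G : Type u) [Group G] [Finite G] (N : Subgroup G) [N.Normal], Hyp N →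
    ∀ p : ℕ, p.Prime → (∀ n ∈ N, ∃ k : ℕ, n ^ (p ^ k) ∈ ZN N) → IntEA N p

/-- `L/Z` is a minimal normal subgroup of `G/Z` inside `N/Z`, elementary abelian `p`-group. -/
structure GoodL {G : Type u} [Group G] (N : Subgroup G) (p : ℕ) (L : Subgroup G) : Prop where
  hp : p.Prime
  hLN : L ≤ N
  hZL : ZN N ≤ L
  hLZ : ¬ L ≤ ZN N
  hnorm : L.Normal
  hcomm : ∀ a ∈ L, ∀ b ∈ L, a * b * a⁻¹ * b⁻¹ ∈ ZN N
  hpow : ∀ a ∈ L, a ^ p ∈ ZN N
  hmin : ∀ T : Subgroup G, T.Normal → ZN N ≤ T → T ≤ L → T ≤ ZN N ∨ T = L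

/-- MAIN-A: from a `p`-element `x ∈ N ∖ Z` with `C_N(x) ⊴ N`, get a `GoodL`. -/
def StMainA : Prop :=
  ∀ (G : Type u) [Group G] [Finite G] (N : Subgroup G) [N.Normal], Hyp N →
    ∀ (p : ℕ) (x : G), p.Prime → x ∈ N → x ∉ Subgroup.centralizer (N : Set G) →
      (∃ k : ℕ, orderOf x = p ^ k) →
      (∀ n ∈ N, ∀ c ∈ N, Commute c x → Commute (n * c * n⁻¹) x) →
      ∃ L : Subgroup G, GoodL N p L

/-- MAIN-B: for `y ∈ N` not centralizing `L`: `N = L · C_N(y)` and `L ∩ C_G(y) ≤ Z`. -/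
def StMainB : Prop :=
  ∀ (G : Type u) [Group G] [Finite G] (N : Subgroup G) [N.Normal], Hyp N →
    ∀ (p : ℕ) (L : Subgroup G), GoodL N p L → ∀ y : G, y ∈ N → (∃ l ∈ L, ¬ Commute l y) →
      (∀ n ∈ N, ∃ l ∈ L, ∃ c ∈ N, Commute c y ∧ n = l * c) ∧
      (∀ l ∈ L, Commute l y → l ∈ ZN N)

/-- The data of the Frobenius case: `y ∈ N` an `r`-element (`r ≠ p`) not centralizing `L`. -/
structure FData {G : Type u} [Group G] (N : Subgroup G) (p r : ℕ) (L : Subgroup G) (y : G) :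
    Prop where
  good : GoodL N p L
  hr : r.Prime
  hne : r ≠ p
  hyN : y ∈ N
  hyo : ∃ k : ℕ, orderOf y = r ^ k
  hyL : ∃ l ∈ L, ¬ Commute l y

/-- MAIN-D1: `L` is abelian and `C_N(y)/Z` acts fixed-point-freely on `L/Z`. -/
def StMainD1 : Prop :=
  ∀ (G : Type u) [Group G] [Finite G] (N : Subgroup G) [N.Normal], Hyp N →
    ∀ (p r : ℕ) (L : Subgroup G) (y : G), FData N p r L y →
      (∀ a ∈ L, ∀ b ∈ L, a * b = b * a) ∧
      (∀ t ∈ N, Commute t y → t ∉ Subgroup.centralizer (N : Set G) →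
        ∀ l ∈ L, t * l * t⁻¹ * l⁻¹ ∈ ZN N → l ∈ ZN N)

/-- MAIN-D2: `C_N(y)/Z` is elementary abelian of exponent `r`. -/
def StMainD2 : Prop :=
  ∀ (G : Type u) [Group G] [Finite G] (N : Subgroup G) [N.Normal], Hyp N →
    ∀ (p r : ℕ) (L : Subgroup G) (y : G), FData N p r L y →
      (∀ a ∈ N, Commute a y → ∀ b ∈ N, Commute b y → a * b * a⁻¹ * b⁻¹ ∈ ZN N) ∧
      (∀ a ∈ N, Commute a y → a ^ r ∈ ZN N)

/-- CYC: (via S0041) an elementary abelian `r`-group `R/Z` acting fixed-point-freely on the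
nontrivial abelian group `L/Z` has order `r`. -/
def StCyc : Prop :=
  ∀ (G : Type u) [Group G] [Finite G] (N : Subgroup G) (r : ℕ), r.Prime → ∀ (L R : Subgroup G),
    ZN N ≤ L → L ≤ N → ZN N ≤ R → R ≤ N → ¬ L ≤ ZN N → ¬ R ≤ ZN N →
    (∀ n ∈ N, ∀ l ∈ L, n * l * n⁻¹ ∈ L) →
    (∀ a ∈ L, ∀ b ∈ L, a * b = b * a) →
    (∀ a ∈ R, ∀ b ∈ R, a * b * a⁻¹ * b⁻¹ ∈ ZN N) → (∀ a ∈ R, a ^ r ∈ ZN N) →
    (∀ t ∈ R, t ∉ ZN N → ∀ l ∈ L, t * l * t⁻¹ * l⁻¹ ∈ ZN N → l ∈ ZN N) →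
    (ZN N).relIndex R = r

/-- XFER-EA: transfer of `IntEA` to the quotient `N ⧸ Z(N)`. -/
def StXferEA : Prop :=
  ∀ (G : Type u) [Group G] (N : Subgroup G) (p : ℕ), IntEA N p →
    Cfsg.IsElementaryAbelian p (⊤ : Subgroup (↥N ⧸ Subgroup.center ↥N))

/-- `N/Z = (L/Z) ⋊ (R/Z)` is a Frobenius group with elementary abelian kernel `L/Z` and complement
`R/Z` of prime order `r`, stated inside `G`. -/
structure IntFrob {G : Type u} [Group G] (N : Subgroup G) (p r : ℕ) (L R : Subgroup G) :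
    Prop where
  hp : p.Prime
  hr : r.Prime
  hZL : ZN N ≤ L
  hLN : L ≤ N
  hZR : ZN N ≤ R
  hRN : R ≤ N
  hnorm : ∀ n ∈ N, ∀ l ∈ L, n * l * n⁻¹ ∈ L
  hint : ∀ l ∈ L, l ∈ R → l ∈ ZN N
  hprod : ∀ n ∈ N, ∃ l ∈ L, ∃ c ∈ R, n = l * c
  hab : ∀ a ∈ L, ∀ b ∈ L, a * b = b * a
  hpow : ∀ a ∈ L, a ^ p ∈ ZN N
  hLZ : ¬ L ≤ ZN N
  hcard : (ZN N).relIndex R = r
  hfpf : ∀ t ∈ R, t ∉ ZN N → ∀ l ∈ L, t * l * t⁻¹ * l⁻¹ ∈ ZN N → l ∈ ZN N

/-- XFER-FR: transfer of `IntFrob` to the quotient `N ⧸ Z(N)`. -/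
def StXferFr : Prop :=
  ∀ (G : Type u) [Group G] [Finite G] (N : Subgroup G) (p r : ℕ) (L R : Subgroup G),
    IntFrob N p r L R →
    ∃ (Q K : Subgroup (↥N ⧸ Subgroup.center ↥N)) (p' : ℕ), p'.Prime ∧
      Cfsg.IsFrobeniusComplement Q ∧ (Nat.card ↥Q).Prime ∧ K.Normal ∧
      (K : Set (↥N ⧸ Subgroup.center ↥N)) = Cfsg.frobeniusKernel Q ∧
      Cfsg.IsElementaryAbelian p' K

end Cfsg.Agent.H43.MC
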