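import Mathlib
import Cfsg.Agent.H75.TwJT
import Cfsg.Agent.H75.TwFrob
import Cfsg.Agent.H16.MultTrans

set_option autoImplicit false

open Equiv Equiv.Perm

open Cfsg.Agent.H75.Tw

namespace Cfsg.Agent.H43.AG

/-- TWCORE: a primitive group of even permutations of degree `p + 2` containing a `p`-cycle. -/
theorem twin_core {α : Type*} [Fintype α] [DecidableEq α] (G : Subgroup (Perm α)) {p : ℕ}
    (hp : p.Prime) (hp5 : 5 ≤ p) (hcard : Fintype.card α = p + 2)
    (hprim : MulAction.IsPreprimitive G α) (hGalt : G ≤ alternatingGroup α) {σ : Perm α}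
    (hσ : σ.IsCycle) (hσp : σ.support.card = p) (hσG : σ ∈ G) :
    MulAction.IsMultiplyPretransitive G α 3 ∧
    (MulAction.IsMultiplyPretransitive G α 4 ∨
      ∃ e : ℕ, e ∣ p - 1 ∧ e < p - 1 ∧ (p % 4 = 3 → Odd e) ∧
        Nat.card G = (p + 2) * (p + 1) * (p * e)) := by
  classical
  have h3 : MulAction.IsMultiplyPretransitive G α 3 :=
    jordan_multi G hprim hp hσ hσp hσG hcard (by norm_num)
  refine ⟨h3, ?_⟩
  have hcardα : Nat.card α = p + 2 := by rw [Nat.card_eq_fintype_card, hcard]
  have h2 : MulAction.IsMultiplyPretransitive G α 2 :=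
    MulAction.isMultiplyPretransitive_of_le (n := 3) (by norm_num) (by rw [hcardα]; omega)
  obtain ⟨s, hsdef⟩ : ∃ s : Set α, s = ((σ.support : Set α))ᶜ := ⟨_, rfl⟩
  have hs2 : s.ncard = 2 := by
    have h := Set.ncard_add_ncard_compl (σ.support : Set α)
    rw [Set.ncard_coe_finset, hσp, hcardα, ← hsdef] at h
    omega
  have hmem_s : ∀ x : α, x ∈ s ↔ σ x = x := by
    intro x; rw [hsdef]; simp [Equiv.Perm.mem_support]
  have hFtrans : MulAction.IsPretransitive (fixingSubgroup G s)
      (SubMulAction.ofFixingSubgroup G s) := by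
    rw [hsdef]; exact Equiv.Perm.isPretransitive_of_isCycle_mem hσ hσG
  have hβcard : Nat.card (SubMulAction.ofFixingSubgroup G s) = p := by
    have h1 : Nat.card (SubMulAction.ofFixingSubgroup G s) = Nat.card (σ.support) := by
      apply Nat.card_congr
      exact Equiv.subtypeEquivRight (fun x => by
        rw [SubMulAction.mem_ofFixingSubgroup_iff, hmem_s, Equiv.Perm.mem_support])
    rw [h1, Nat.card_eq_fintype_card, Fintype.card_coe, hσp]
  obtain ⟨R, hRdef⟩ : ∃ R : Subgroup (Perm (SubMulAction.ofFixingSubgroup G s)),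
      R = (MulAction.toPermHom (fixingSubgroup G s) (SubMulAction.ofFixingSubgroup G s)).range :=
    ⟨_, rfl⟩
  have hRtrans : MulAction.IsPretransitive R (SubMulAction.ofFixingSubgroup G s) := by
    refine ⟨fun b b' => ?_⟩
    obtain ⟨f, hf⟩ := MulAction.exists_smul_eq (fixingSubgroup G s) b b'
    refine ⟨⟨MulAction.toPermHom _ _ f, hRdef ▸ ⟨f, rfl⟩⟩, ?_⟩
    exact hf
  have hinj : Function.Injective
      (MulAction.toPermHom (fixingSubgroup G s) (SubMulAction.ofFixingSubgroup G s)) := by
    rw [injective_iff_map_eq_one]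
    intro f hf
    apply Subtype.ext
    apply Subtype.ext
    ext x
    by_cases hx : x ∈ s
    · exact (mem_fixingSubgroup_iff G).mp f.2 x hx
    · have hx' : x ∈ SubMulAction.ofFixingSubgroup G s :=
        (SubMulAction.mem_ofFixingSubgroup_iff _).mpr hx
      have h1 := congrArg (fun t => ((t ⟨x, hx'⟩ : SubMulAction.ofFixingSubgroup G s) : α)) hf
      exact h1
  have hβprime : (Fintype.card (SubMulAction.ofFixingSubgroup G s)).Prime := by
    rw [← Nat.card_eq_fintype_card, hβcard]; exact hp
  rcases prime_degree_dichotomy hβprime R with hA | hB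
  · left
    have hF2 : MulAction.IsMultiplyPretransitive (fixingSubgroup G s)
        (SubMulAction.ofFixingSubgroup G s) 2 := by
      refine ⟨fun x y => ?_⟩
      obtain ⟨r, hr⟩ := hA.exists_smul_eq x y
      obtain ⟨f, hf⟩ : ∃ f, MulAction.toPermHom (fixingSubgroup G s)
          (SubMulAction.ofFixingSubgroup G s) f = (r : Perm _) := by
        have h1 : (r : Perm (SubMulAction.ofFixingSubgroup G s)) ∈ (MulAction.toPermHom
            (fixingSubgroup G s) (SubMulAction.ofFixingSubgroup G s)).range := hRdef ▸ r.2
        exact h1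
      refine ⟨f, ?_⟩
      ext i
      have h1 := congrArg (fun z => ((z i : SubMulAction.ofFixingSubgroup G s) : α)) hr
      rw [← h1]
      change ((MulAction.toPermHom _ _ f (x i) : SubMulAction.ofFixingSubgroup G s) : α) = _
      rw [hf]
      rfl
    exact Cfsg.Agent.H16.isMultiplyPretransitive_add_two_of_fixingSubgroup 2 s hs2 h2 hF2
  · obtain ⟨hfrob, e, he1, he2, hRcard⟩ := hB
    right
    rw [← Nat.card_eq_fintype_card, hβcard] at he1 he2 hRcard
    refine ⟨e, he1, he2, ?_, ?_⟩
    · intro hp4
      by_contra hodd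
      rw [Nat.not_odd_iff_even] at hodd
      have h2R : 2 ∣ Nat.card R := by rw [hRcard]; exact Dvd.dvd.mul_left hodd.two_dvd p
      have : Fact (Nat.Prime 2) := ⟨Nat.prime_two⟩
      obtain ⟨t, ht⟩ := exists_prime_orderOf_dvd_card' (G := ↥R) 2 h2R
      obtain ⟨f, hf⟩ : ∃ f, MulAction.toPermHom (fixingSubgroup G s)
          (SubMulAction.ofFixingSubgroup G s) f = (t : Perm _) := by
        have h1 : (t : Perm (SubMulAction.ofFixingSubgroup G s)) ∈ (MulAction.toPermHom
            (fixingSubgroup G s) (SubMulAction.ofFixingSubgroup G s)).range := hRdef ▸ t.2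
        exact h1
      obtain ⟨g, hgdef⟩ : ∃ g : Perm α, g = ((f : G) : Perm α) := ⟨_, rfl⟩
      have hgalt : g ∈ alternatingGroup α := hGalt (hgdef ▸ (f : G).2)
      have hto : orderOf (t : Perm (SubMulAction.ofFixingSubgroup G s)) = 2 := by
        rw [Subgroup.orderOf_coe]; exact ht
      have hgo : orderOf g = 2 := by
        rw [hgdef, Subgroup.orderOf_coe, Subgroup.orderOf_coe, ← orderOf_injective _ hinj f, hf,
          hto]
      have hgs : ∀ x ∈ s, g x = x := fun x hx => by
        rw [hgdef]; exact (mem_fixingSubgroup_iff G).mp f.2 x hx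
      have hgβ : ∀ b : SubMulAction.ofFixingSubgroup G s,
          g (b : α) = (((t : Perm _) b : SubMulAction.ofFixingSubgroup G s) : α) := by
        intro b; rw [← hf, hgdef]; rfl
      have hfix : ∀ x y : α, x ∉ s → y ∉ s → g x = x → g y = y → x = y := by
        intro x y hx hy hgx hgy
        by_contra hne
        have hx' : x ∈ SubMulAction.ofFixingSubgroup G s :=
          (SubMulAction.mem_ofFixingSubgroup_iff _).mpr hx
        have hy' : y ∈ SubMulAction.ofFixingSubgroup G s :=
          (SubMulAction.mem_ofFixingSubgroup_iff _).mpr hy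
        have h1 := hfrob (t : Perm _) t.2 ⟨x, hx'⟩ ⟨y, hy'⟩
          (by intro h; exact hne (congrArg Subtype.val h))
          (Subtype.ext (by rw [← hgβ]; exact hgx)) (Subtype.ext (by rw [← hgβ]; exact hgy))
        rw [h1, orderOf_one] at hto
        omega
      have hsupp_sub : g.support ⊆ σ.support := by
        intro x hx
        rw [Equiv.Perm.mem_support] at hx ⊢
        intro hσx
        exact hx (hgs x ((hmem_s x).mpr hσx))
      have hcard_ge : p - 1 ≤ g.support.card := by
        have h1 : (σ.support \ g.support).card ≤ 1 := by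
          rw [Finset.card_le_one]
          intro x hx y hy
          rw [Finset.mem_sdiff, Equiv.Perm.mem_support, Equiv.Perm.mem_support, not_not] at hx hy
          exact hfix x y (fun h => hx.1 ((hmem_s x).mp h)) (fun h => hy.1 ((hmem_s y).mp h))
            hx.2 hy.2
        have h2 := Finset.card_sdiff_add_card_eq_card hsupp_sub
        rw [hσp] at h2
        omega
      have hcard_le : g.support.card ≤ p := hσp ▸ Finset.card_le_card hsupp_sub
      obtain ⟨n, hn⟩ := Equiv.Perm.cycleType_prime_order (σ := g) (by rw [hgo]; exact Nat.prime_two)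
      rw [hgo] at hn
      have hsum : g.support.card = 2 * (n + 1) := by
        rw [← Equiv.Perm.sum_cycleType, hn, Multiset.sum_replicate, smul_eq_mul]; ring
      have hsign : Equiv.Perm.sign g = -1 := by
        rw [Equiv.Perm.sign_of_cycleType, hn, Multiset.sum_replicate, Multiset.card_replicate,
          smul_eq_mul]
        have hodd' : Odd ((n + 1) * 2 + (n + 1)) := by
          rw [Nat.odd_iff]; omega
        exact hodd'.neg_one_pow
      rw [Equiv.Perm.mem_alternatingGroup, hsign] at hgalt
      exact absurd hgalt (by decide)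
    · have hFR : Nat.card (fixingSubgroup G s) = Nat.card R := by
        rw [hRdef]; exact Nat.card_congr (MonoidHom.ofInjective hinj).toEquiv
      have hidx := h2.index_of_fixingSubgroup_mul hs2
      rw [hcardα] at hidx
      have hidx' : (fixingSubgroup G s).index = (p + 2) * (p + 1) := by
        have h1 : (p + 2 - 2).factorial = p.factorial := by simp
        have h2' : (p + 2).factorial = (p + 2) * (p + 1) * p.factorial := by
          rw [Nat.factorial_succ, Nat.factorial_succ]; ring
        rw [h1, h2'] at hidx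
        exact Nat.eq_of_mul_eq_mul_right (Nat.factorial_pos p) hidx
      rw [← Subgroup.index_mul_card (fixingSubgroup G s), hidx', hFR, hRcard]

end Cfsg.Agent.H43.AG
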