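import Mathlib
import Cfsg.Agent.H43.AGTwin
import Cfsg.Agent.H75.TwAltIdx
import Cfsg.Agent.H75.TwPrim
import Cfsg.Agent.H73.A150Trans
import Cfsg.Agent.H73.A150SylQ
import Cfsg.Agent.H53.TwTransfer
import Cfsg.Agent.H53.TwIdx6
import Cfsg.Agent.H71.TwNT
import Cfsg.Agent.H36.TwSharp
import Cfsg.Agent.S0713
import Cfsg.Agent.S4220

set_option autoImplicit false

open Equiv Equiv.Perm

open Cfsg.Agent.H75.Tw Cfsg.Agent.H73.A150 Cfsg.Agent.H53.Tw Cfsg.Agent.H71.Tw Cfsg.Agent.H36.Tw

namespace Cfsg.Agent.H43.AG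

theorem sign_cycle_odd {α : Type*} [Fintype α] [DecidableEq α] {σ : Perm α} (hσ : σ.IsCycle)
    (hodd : Odd σ.support.card) : σ ∈ alternatingGroup α := by
  rw [mem_alternatingGroup, hσ.sign, hodd.neg_one_pow, neg_neg]

theorem sign_odd_order {α : Type*} [Fintype α] [DecidableEq α] {σ : Perm α}
    (hodd : Odd (orderOf σ)) : σ ∈ alternatingGroup α := by
  rw [mem_alternatingGroup]
  have h1 : sign σ ^ orderOf σ = 1 := by rw [← map_pow, pow_orderOf_eq_one, map_one]
  rcases Int.units_eq_one_or (sign σ) with h | h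
  · exact h
  · rw [h, hodd.neg_one_pow] at h1
    exact absurd h1 (by decide)

theorem odd_of_prime_ge {p : ℕ} (hp : p.Prime) (h3 : 3 ≤ p) : Odd p :=
  hp.odd_of_ne_two (by omega)

theorem not_prime_pow_of_two_three {n : ℕ} (h2 : 2 ∣ n) (h3 : 3 ∣ n) :
    ¬ ∃ r j : ℕ, r.Prime ∧ n = r ^ j := by
  rintro ⟨r, j, hr, rfl⟩
  have e2 : 2 = r :=
    (Nat.prime_dvd_prime_iff_eq Nat.prime_two hr).mp (Nat.Prime.dvd_of_dvd_pow Nat.prime_two h2)
  have e3 : 3 = r :=
    (Nat.prime_dvd_prime_iff_eq Nat.prime_three hr).mp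
      (Nat.Prime.dvd_of_dvd_pow Nat.prime_three h3)
  omega

/-- Generic case: a `p`-cycle and a `q`-cycle, Jordan with the `p`-cycle. -/
theorem gen_two_cycles {α : Type*} [Fintype α] [DecidableEq α] {σ τ : Perm α} {p q : ℕ}
    (hp : p.Prime) (hq : q.Prime) (hp3 : 3 ≤ p) (hpq : p < q)
    (hσ : σ.IsCycle) (hσp : σ.support.card = p) (hτ : τ.IsCycle) (hτq : τ.support.card = q)
    (hcov : σ.support ∪ τ.support = Finset.univ) (hmeet : ¬ Disjoint σ.support τ.support)
    (hlt : Fintype.card α < 2 * q) (hbig : p + 3 ≤ Fintype.card α) :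
    Subgroup.closure ({σ, τ} : Set (Perm α)) = alternatingGroup α := by
  have hσK : σ ∈ Subgroup.closure ({σ, τ} : Set (Perm α)) := Subgroup.subset_closure (by simp)
  have hτK : τ ∈ Subgroup.closure ({σ, τ} : Set (Perm α)) := Subgroup.subset_closure (by simp)
  have := isPretransitive_of_two_cycles hσ hτ hcov hmeet
  have hprim :=
    isPreprimitive_of_cycle (Subgroup.closure ({σ, τ} : Set (Perm α))) hq hτ hτq hτK hlt
  apply le_antisymm
  · rw [Subgroup.closure_le]
    intro g hg
    simp only [Set.mem_insert_iff, Set.mem_singleton_iff] at hg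
    rcases hg with rfl | rfl
    · exact sign_cycle_odd hσ (hσp ▸ odd_of_prime_ge hp hp3)
    · exact sign_cycle_odd hτ (hτq ▸ odd_of_prime_ge hq (by omega))
  · exact Cfsg.Agent.S0713.result _ hprim hp (by omega) hbig hσ hσp hσK

/-- Fixed-point-free element of order `p` on `2p` points and a `q`-cycle, Jordan with the
`q`-cycle. -/
theorem gen_fpf_cycle {α : Type*} [Fintype α] [DecidableEq α] {σ τ : Perm α} {p q : ℕ}
    (hp : p.Prime) (hq : q.Prime) (hpq : p < q)
    (hσ : orderOf σ = p) (hσs : σ.support = Finset.univ) (hcard : Fintype.card α = 2 * p)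
    (hσalt : σ ∈ alternatingGroup α)
    (hτ : τ.IsCycle) (hτq : τ.support.card = q) (hbig : q + 3 ≤ Fintype.card α) :
    Subgroup.closure ({σ, τ} : Set (Perm α)) = alternatingGroup α := by
  have hσK : σ ∈ Subgroup.closure ({σ, τ} : Set (Perm α)) := Subgroup.subset_closure (by simp)
  have hτK : τ ∈ Subgroup.closure ({σ, τ} : Set (Perm α)) := Subgroup.subset_closure (by simp)
  have hp2 := hp.two_le
  have := isPretransitive_of_fpf hp hσ hσs hcard hτ hτq hpq
  have hprim :=
    isPreprimitive_of_cycle (Subgroup.closure ({σ, τ} : Set (Perm α))) hq hτ hτq hτK (by omega)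
  apply le_antisymm
  · rw [Subgroup.closure_le]
    intro g hg
    simp only [Set.mem_insert_iff, Set.mem_singleton_iff] at hg
    rcases hg with rfl | rfl
    · exact hσalt
    · exact sign_cycle_odd hτ (hτq ▸ odd_of_prime_ge hq (by omega))
  · exact Cfsg.Agent.S0713.result _ hprim hq (by omega) hbig hτ hτq hτK

/-- A `k`-transitive group: its order is a multiple of `n!/(n-k)!`. -/
theorem exists_card_eq_of_multi {α : Type*} [Fintype α] [DecidableEq α] (G : Subgroup (Perm α))
    {k : ℕ} (hk : MulAction.IsMultiplyPretransitive G α k) (hkn : k ≤ Fintype.card α) :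
    ∃ i c : ℕ, i * (Fintype.card α - k).factorial = (Fintype.card α).factorial ∧
      Nat.card G = i * c := by
  obtain ⟨t, -, ht⟩ :=
    Finset.exists_subset_card_eq (s := (Finset.univ : Finset α)) (n := k) (by simpa using hkn)
  have hs : ((t : Set α)).ncard = k := by rw [Set.ncard_coe_finset, ht]
  have h1 := hk.index_of_fixingSubgroup_mul hs
  rw [Nat.card_eq_fintype_card] at h1
  exact ⟨_, _, h1, (Subgroup.index_mul_card _).symm⟩

theorem four7 {α : Type*} [Fintype α] [DecidableEq α] (G : Subgroup (Perm α))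
    (hcard : Fintype.card α = 7) (hGalt : G ≤ alternatingGroup α)
    (h4 : MulAction.IsMultiplyPretransitive G α 4) : alternatingGroup α ≤ G := by
  obtain ⟨i, c, hi, hG⟩ := exists_card_eq_of_multi G h4 (by omega)
  rw [hcard] at hi
  have hi840 : i = 840 := by
    have h1 : (7 - 4).factorial = 6 := by decide
    have h2 : (7).factorial = 5040 := by decide
    rw [h1, h2] at hi
    omega
  by_contra hcon
  have hK' : G.subgroupOf (alternatingGroup α) ≠ ⊤ := by
    rw [Ne, Subgroup.subgroupOf_eq_top]; exact hcon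
  have hidx := alt_index_ge (by omega) _ hK'
  have hcardK' : Nat.card (G.subgroupOf (alternatingGroup α)) = Nat.card G :=
    Nat.card_congr (Subgroup.subgroupOfEquivOfLe hGalt).toEquiv
  have hmul := Subgroup.index_mul_card (G.subgroupOf (alternatingGroup α))
  have halt : Nat.card (alternatingGroup α) = 2520 := by
    have : Nontrivial α := Fintype.one_lt_card_iff_nontrivial.mp (by omega)
    rw [nat_card_alternatingGroup, Nat.card_eq_fintype_card, hcard]; decide
  rw [hcardK', halt, hG, hi840] at hmul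
  rw [hcard] at hidx
  have hc : 0 < c := by
    rcases Nat.eq_zero_or_pos c with h | h
    · rw [h] at hmul; omega
    · exact h
  nlinarith

/-- Twin case: a `p`-cycle and a `(p+2)`-cycle on `p + 2` points, `p ∈ {3, 5, 11}`. -/
theorem gen_twin {α : Type*} [Fintype α] [DecidableEq α] {σ τ : Perm α} {p : ℕ}
    (hp : p = 3 ∨ p = 5 ∨ p = 11) (hcard : Fintype.card α = p + 2)
    (hσ : σ.IsCycle) (hσp : σ.support.card = p) (hτ : τ.IsCycle) (hτq : τ.support.card = p + 2) :
    Subgroup.closure ({σ, τ} : Set (Perm α)) = alternatingGroup α := by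
  have hpp : p.Prime := by rcases hp with rfl | rfl | rfl <;> norm_num
  have hqp : (p + 2).Prime := by rcases hp with rfl | rfl | rfl <;> norm_num
  have hp3 : 3 ≤ p := by rcases hp with rfl | rfl | rfl <;> norm_num
  obtain ⟨K, hKdef⟩ : ∃ K : Subgroup (Perm α), K = Subgroup.closure ({σ, τ} : Set (Perm α)) :=
    ⟨_, rfl⟩
  have hσK : σ ∈ K := hKdef ▸ Subgroup.subset_closure (by simp)
  have hτK : τ ∈ K := hKdef ▸ Subgroup.subset_closure (by simp)
  have hτs : τ.support = Finset.univ := Finset.eq_univ_of_card _ (by rw [hτq, hcard])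
  have hKalt : K ≤ alternatingGroup α := by
    rw [hKdef, Subgroup.closure_le]
    intro g hg
    simp only [Set.mem_insert_iff, Set.mem_singleton_iff] at hg
    rcases hg with rfl | rfl
    · exact sign_cycle_odd hσ (hσp ▸ odd_of_prime_ge hpp hp3)
    · exact sign_cycle_odd hτ (hτq ▸ odd_of_prime_ge hqp (by omega))
  have htrans : MulAction.IsPretransitive K α := by
    rw [hKdef]
    apply isPretransitive_of_two_cycles hσ hτ
    · rw [hτs]; exact Finset.union_eq_right.mpr (Finset.subset_univ _)
    · rw [hτs, Finset.not_disjoint_iff]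
      obtain ⟨a, ha⟩ := Finset.card_pos.mp (by omega : 0 < σ.support.card)
      exact ⟨a, ha, Finset.mem_univ a⟩
  have hprim : MulAction.IsPreprimitive K α := by
    apply MulAction.IsPreprimitive.of_prime_card
    rw [Nat.card_eq_fintype_card, hcard]; exact hqp
  rw [← hKdef]
  apply le_antisymm hKalt
  rcases hp with rfl | rfl | rfl
  · exact alternatingGroup_le_of_isPreprimitive_of_isThreeCycle_mem hprim
      (card_support_eq_three_iff.mp hσp) hσK
  · obtain ⟨h3, h4 | ⟨e, he1, he2, -, hcardK⟩⟩ :=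
      twin_core K (by norm_num) (by norm_num) hcard hprim hKalt hσ hσp hσK
    · exact four7 K hcard hKalt h4
    · exfalso
      have he4 : e ∣ 4 := he1
      have he3 : e < 4 := he2
      interval_cases e
      · omega
      · obtain ⟨r, j, hr, hrj⟩ := sharp3_prime_power K h3 (by omega) (by rw [hcardK, hcard])
        exact not_prime_pow_of_two_three (n := 6) (by norm_num) (by norm_num)
          ⟨r, j, hr, by rw [← hrj, hcard]⟩
      · obtain ⟨f, n, hf, hK, hn⟩ := sylow_count_prime_degree K (q := 7) (by norm_num) hcard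
        rw [hcardK] at hK
        have hf6 : f ≤ 6 := Nat.le_of_dvd (by norm_num) hf
        interval_cases f <;> omega
      · omega
  · obtain ⟨h3, h4 | ⟨e, he1, he2, hodd, hcardK⟩⟩ :=
      twin_core K (by norm_num) (by norm_num) hcard hprim hKalt hσ hσp hσK
    · exact Cfsg.Agent.S4220.result K (k := 2) (p := 5) (r := 3) (by norm_num)
        (by rw [hcard]) (by norm_num) (by norm_num) (by norm_num) (by simp) h4
    · exfalso
      have he10 : e ∣ 10 := he1
      have he9 : e < 10 := he2
      have he_odd : Odd e := hodd (by norm_num)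
      have hcases : e = 1 ∨ e = 5 := by
        interval_cases e <;> first | omega | (exfalso; exact absurd he_odd (by decide))
      rcases hcases with rfl | rfl
      · obtain ⟨r, j, hr, hrj⟩ := sharp3_prime_power K h3 (by omega) (by rw [hcardK, hcard])
        exact not_prime_pow_of_two_three (n := 12) (by norm_num) (by norm_num)
          ⟨r, j, hr, by rw [← hrj, hcard]⟩
      · obtain ⟨f, n, hf, hK, hn⟩ := sylow_count_prime_degree K (q := 13) (by norm_num) hcard
        rw [hcardK] at hK
        have hf12 : f ≤ 12 := Nat.le_of_dvd (by norm_num) hf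
        interval_cases f <;> omega

/-- The case `m = 6`: a fixed-point-free element of order 3 and a 5-cycle on 6 points. -/
theorem gen_six {α : Type*} [Fintype α] [DecidableEq α] (hcard : Fintype.card α = 6)
    {σ τ : Perm α} (hσ : orderOf σ = 3) (hσs : σ.support = Finset.univ) (hτ : τ.IsCycle)
    (hτq : τ.support.card = 5) :
    Subgroup.closure ({σ, τ} : Set (Perm α)) = alternatingGroup α ∨
    Nonempty (Subgroup.closure ({σ, τ} : Set (Perm α)) ≃* alternatingGroup (Fin 5)) := by
  obtain ⟨K, hKdef⟩ : ∃ K : Subgroup (Perm α), K = Subgroup.closure ({σ, τ} : Set (Perm α)) :=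
    ⟨_, rfl⟩
  have hσK : σ ∈ K := hKdef ▸ Subgroup.subset_closure (by simp)
  have hτK : τ ∈ K := hKdef ▸ Subgroup.subset_closure (by simp)
  have hKalt : K ≤ alternatingGroup α := by
    rw [hKdef, Subgroup.closure_le]
    intro g hg
    simp only [Set.mem_insert_iff, Set.mem_singleton_iff] at hg
    rcases hg with rfl | rfl
    · exact sign_odd_order (by rw [hσ]; decide)
    · exact sign_cycle_odd hτ (by rw [hτq]; decide)
  have htrans : MulAction.IsPretransitive K α := by
    rw [hKdef]
    exact isPretransitive_of_fpf (p := 3) (q := 5) (by norm_num) hσ hσs hcard hτ hτq (by norm_num)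
  have hprim := isPreprimitive_of_cycle K (q := 5) (by norm_num) hτ hτq hτK (by omega)
  have h2 : MulAction.IsMultiplyPretransitive K α 2 :=
    jordan_multi K hprim (q := 5) (k := 1) (by norm_num) hτ hτq hτK hcard le_rfl
  obtain ⟨i, c, hi, hG⟩ := exists_card_eq_of_multi K h2 (by omega)
  rw [hcard] at hi
  have hi30 : i = 30 := by
    have h1 : (6 - 2).factorial = 24 := by decide
    have h2 : (6).factorial = 720 := by decide
    rw [h1, h2] at hi
    omega
  rw [← hKdef]
  by_cases hK' : K.subgroupOf (alternatingGroup α) = ⊤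
  · left; exact le_antisymm hKalt (Subgroup.subgroupOf_eq_top.mp hK')
  · right
    have hidx := alt_index_ge (by omega) _ hK'
    have hcardK' : Nat.card (K.subgroupOf (alternatingGroup α)) = Nat.card K :=
      Nat.card_congr (Subgroup.subgroupOfEquivOfLe hKalt).toEquiv
    have hmul := Subgroup.index_mul_card (K.subgroupOf (alternatingGroup α))
    have halt : Nat.card (alternatingGroup α) = 360 := by
      have : Nontrivial α := Fintype.one_lt_card_iff_nontrivial.mp (by omega)
      rw [nat_card_alternatingGroup, Nat.card_eq_fintype_card, hcard]; decide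
    rw [hcardK', halt, hG, hi30] at hmul
    rw [hcard] at hidx
    have hc0 : 0 < c := by
      rcases Nat.eq_zero_or_pos c with h | h
      · rw [h] at hmul; omega
      · exact h
    have hc : c = 1 ∨ c = 2 := by
      have : c ≤ 2 := by nlinarith
      omega
    rcases hc with rfl | rfl
    · exfalso
      obtain ⟨r, j, hr, hrj⟩ := sharp2_prime_power K h2 (by omega) (by rw [hG, hi30, hcard])
      exact not_prime_pow_of_two_three (n := 6) (by norm_num) (by norm_num)
        ⟨r, j, hr, by rw [← hrj, hcard]⟩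
    · have hidx6 : (K.subgroupOf (alternatingGroup α)).index = 6 := by omega
      obtain ⟨e⟩ := alt6_index6 hcard _ hidx6
      exact ⟨(Subgroup.subgroupOfEquivOfLe hKalt).symm.trans e⟩

/-- Two prime cycles covering a set: the group generated is the alternating group. -/
theorem core_cycles {β : Type*} [Fintype β] [DecidableEq β] {p q : ℕ} (hp : p.Prime)
    (hq : q.Prime) (hp3 : 3 ≤ p) (hpq : p < q) (htw : p + 4 ≤ q ∨ p = 3 ∨ p = 5 ∨ p = 11)
    {σ τ : Perm β} (hσc : σ.cycleType = {p}) (hτc : τ.cycleType = {q})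
    (hcov : σ.support ∪ τ.support = Finset.univ) (hmeet : ¬ Disjoint σ.support τ.support)
    (hlt : Fintype.card β < 2 * q) :
    Subgroup.closure ({σ, τ} : Set (Perm β)) = alternatingGroup β ∧ 5 ≤ Fintype.card β := by
  have hσ : σ.IsCycle := card_cycleType_eq_one.mp (by rw [hσc]; rfl)
  have hτ : τ.IsCycle := card_cycleType_eq_one.mp (by rw [hτc]; rfl)
  have hσp : σ.support.card = p := by rw [← sum_cycleType, hσc]; simp
  have hτq : τ.support.card = q := by rw [← sum_cycleType, hτc]; simp
  have hge : q ≤ Fintype.card β := by rw [← hτq]; exact Finset.card_le_univ _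
  have ho1 := odd_of_prime_ge hp hp3
  have ho2 := odd_of_prime_ge hq (by omega)
  have hq5 : 5 ≤ q := by
    rcases ho1 with ⟨a, ha⟩; rcases ho2 with ⟨b, hb⟩; omega
  refine ⟨?_, by omega⟩
  rcases Nat.lt_or_ge (Fintype.card β) (p + 3) with hsmall | hbig
  · have hq2 : q = p + 2 := by
      rcases ho1 with ⟨a, ha⟩; rcases ho2 with ⟨b, hb⟩; omega
    have hcard : Fintype.card β = p + 2 := by omega
    have hp' : p = 3 ∨ p = 5 ∨ p = 11 := by
      rcases htw with h | h
      · omega
      · exact h
    exact gen_twin hp' hcard hσ hσp hτ (hq2 ▸ hτq)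
  · exact gen_two_cycles hp hq hp3 hpq hσ hσp hτ hτq hcov hmeet hlt hbig

theorem main_cycle_case {m p q : ℕ} (hp : p.Prime) (hq : q.Prime) (hp3 : 3 ≤ p) (hpq : p < q)
    (hm2p : m ≤ 2 * p) (htw : p + 4 ≤ q ∨ p = 3 ∨ p = 5 ∨ p = 11)
    (x y : alternatingGroup (Fin m)) (hx : (x : Perm (Fin m)).cycleType = {p})
    (hy : (y : Perm (Fin m)).cycleType = {q}) :
    ∃ d : ℕ, 5 ≤ d ∧ Nonempty (Subgroup.closure ({x, y} : Set (alternatingGroup (Fin m))) ≃*
      alternatingGroup (Fin d)) := by
  obtain ⟨σ, τ, hσc, hτc, hcov, hdisj, ⟨e⟩⟩ := closure_restrict x y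
  rw [hx] at hσc
  rw [hy] at hτc
  have hxs : (x : Perm (Fin m)).support.card = p := by rw [← sum_cycleType, hx]; simp
  have hys : (y : Perm (Fin m)).support.card = q := by rw [← sum_cycleType, hy]; simp
  have hcardle : Fintype.card ↥((x : Perm (Fin m)).support ∪ (y : Perm (Fin m)).support) ≤ m := by
    rw [Fintype.card_coe]
    exact (Finset.card_le_univ _).trans (by simp)
  have hmeet : ¬ Disjoint σ.support τ.support := by
    intro h
    have h' := hdisj h
    have h1 := Finset.card_union_of_disjoint h'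
    rw [hxs, hys] at h1
    rw [Fintype.card_coe] at hcardle
    omega
  obtain ⟨key, h5⟩ := core_cycles hp hq hp3 hpq htw hσc hτc hcov hmeet (by omega)
  exact ⟨_, h5, ⟨e.trans ((MulEquiv.subgroupCongr key).trans
    (Equiv.altCongrHom (Fintype.equivFin _)))⟩⟩

theorem main_pair {m p q : ℕ} (hp : p.Prime) (hq : q.Prime) (hp3 : 3 ≤ p) (hpq : p < q)
    (hm2p : m ≤ 2 * p) (htw : p + 4 ≤ q ∨ p = 3 ∨ p = 5 ∨ p = 11)
    (hfpf : m = 2 * p → (p = 3 ∧ q = 5) ∨ q + 3 ≤ m)
    (x y : alternatingGroup (Fin m)) (hx : orderOf x = p) (hy : orderOf y = q) :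
    ∃ d : ℕ, 5 ≤ d ∧ Nonempty (Subgroup.closure ({x, y} : Set (alternatingGroup (Fin m))) ≃*
      alternatingGroup (Fin d)) := by
  have hxo : orderOf (x : Perm (Fin m)) = p := by rw [Subgroup.orderOf_coe]; exact hx
  have hyo : orderOf (y : Perm (Fin m)) = q := by rw [Subgroup.orderOf_coe]; exact hy
  have hycyc : (y : Perm (Fin m)).IsCycle :=
    isCycle_of_prime_order' (hyo ▸ hq) (by rw [Fintype.card_fin, hyo]; omega)
  have hτq : (y : Perm (Fin m)).support.card = q := by rw [← hycyc.orderOf, hyo]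
  have hy' : (y : Perm (Fin m)).cycleType = {q} := by rw [hycyc.cycleType, hτq]
  obtain ⟨n, hn⟩ := cycleType_prime_order (σ := (x : Perm (Fin m))) (hxo ▸ hp)
  rw [hxo] at hn
  have hsum := sum_cycleType_le (x : Perm (Fin m))
  rw [hn, Multiset.sum_replicate, Fintype.card_fin, smul_eq_mul] at hsum
  have hn01 : n = 0 ∨ n = 1 := by
    have h1 : (n + 1) * p ≤ 2 * p := hsum.trans hm2p
    have h2 := Nat.le_of_mul_le_mul_right h1 hp.pos
    omega
  rcases hn01 with rfl | rfl
  · have hx' : (x : Perm (Fin m)).cycleType = {p} := by rw [hn]; rfl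
    exact main_cycle_case hp hq hp3 hpq hm2p htw x y hx' hy'
  · have hm : m = 2 * p := by omega
    have hsupp : (x : Perm (Fin m)).support = Finset.univ := by
      apply Finset.eq_univ_of_card
      rw [← sum_cycleType, hn, Multiset.sum_replicate, Fintype.card_fin, smul_eq_mul]; omega
    obtain ⟨e⟩ := closure_coe x y
    have hm5 : 5 ≤ m := by omega
    rcases hfpf hm with ⟨rfl, rfl⟩ | hbig
    · have hcard : Fintype.card (Fin m) = 6 := by rw [Fintype.card_fin]; omega
      rcases gen_six hcard hxo hsupp hycyc hτq with h | h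
      · exact ⟨m, hm5, ⟨e.trans (MulEquiv.subgroupCongr h)⟩⟩
      · obtain ⟨e'⟩ := h
        exact ⟨5, le_rfl, ⟨e.trans e'⟩⟩
    · have h := gen_fpf_cycle hp hq hpq hxo hsupp (by rw [Fintype.card_fin]; exact hm) x.2 hycyc
        hτq (by rw [Fintype.card_fin]; exact hbig)
      exact ⟨m, hm5, ⟨e.trans (MulEquiv.subgroupCongr h)⟩⟩

theorem main_thm (m : ℕ) (hm : 5 ≤ m) :
    ∃ p q : ℕ, p.Prime ∧ q.Prime ∧ m ≤ 2 * p ∧ p < q ∧ q ≤ m ∧
      ∀ x y : alternatingGroup (Fin m), orderOf x = p → orderOf y = q →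
        ∃ d : ℕ, 5 ≤ d ∧ Nonempty (Subgroup.closure ({x, y} : Set (alternatingGroup (Fin m))) ≃*
          alternatingGroup (Fin d)) := by
  rcases Nat.lt_or_ge m 17 with hlt | hge
  · have hcases : (m = 5 ∨ m = 6) ∨ (7 ≤ m ∧ m ≤ 10) ∨ (11 ≤ m ∧ m ≤ 14) ∨ (m = 15 ∨ m = 16) := by
      omega
    rcases hcases with h | h | h | h
    · refine ⟨3, 5, by norm_num, by norm_num, by omega, by norm_num, by omega,
        fun x y hx hy => ?_⟩
      exact main_pair (by norm_num) (by norm_num) (by norm_num) (by norm_num) (by omega)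
        (Or.inr (Or.inl rfl)) (fun _ => Or.inl ⟨rfl, rfl⟩) x y hx hy
    · refine ⟨5, 7, by norm_num, by norm_num, by omega, by norm_num, by omega,
        fun x y hx hy => ?_⟩
      exact main_pair (by norm_num) (by norm_num) (by norm_num) (by norm_num) (by omega)
        (Or.inr (Or.inr (Or.inl rfl))) (fun h' => Or.inr (by omega)) x y hx hy
    · refine ⟨7, 11, by norm_num, by norm_num, by omega, by norm_num, by omega,
        fun x y hx hy => ?_⟩
      exact main_pair (by norm_num) (by norm_num) (by norm_num) (by norm_num) (by omega)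
        (Or.inl (by norm_num)) (fun h' => Or.inr (by omega)) x y hx hy
    · refine ⟨11, 13, by norm_num, by norm_num, by omega, by norm_num, by omega,
        fun x y hx hy => ?_⟩
      exact main_pair (by norm_num) (by norm_num) (by norm_num) (by norm_num) (by omega)
        (Or.inr (Or.inr (Or.inr rfl))) (fun h' => Or.inr (by omega)) x y hx hy
  · obtain ⟨p, q, hp, hq, h1, h2, h3⟩ := exists_primes_gap m hge
    refine ⟨p, q, hp, hq, by omega, by omega, h3, fun x y hx hy => ?_⟩
    exact main_pair hp hq (by omega) (by omega) (by omega) (Or.inl h2) (fun h' => by omega) x y hx hy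

end Cfsg.Agent.H43.AG
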