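import Mathlib

set_option autoImplicit false

namespace Cfsg.Agent.H43

open Equiv

/-- `(0 1 2 3)(4 5)` in `Perm (Fin 6)`. -/
def r6 : Perm (Fin 6) := swap 0 1 * swap 1 2 * swap 2 3 * swap 4 5

/-- `(1 3)(4 5)` in `Perm (Fin 6)`. -/
def s6 : Perm (Fin 6) := swap 1 3 * swap 4 5

theorem r6_pow_four : r6 ^ 4 = 1 := by decide
theorem s6_pow_two : s6 ^ 2 = 1 := by decide
theorem s6_conj_r6 : s6 * r6 * s6⁻¹ = r6⁻¹ := by decide
theorem r6_pow_two_ne : r6 ^ 2 ≠ 1 := by decide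
theorem sign_r6 : Perm.sign r6 = 1 := by
  simp [r6, Perm.sign_swap]
theorem sign_s6 : Perm.sign s6 = 1 := by
  simp [s6, Perm.sign_swap]

/-- The embedding of `Fin 6` as the first six points of `Fin n`. -/
def fin6Equiv (n : ℕ) (hn : 6 ≤ n) : Fin 6 ≃ {i : Fin n // (i : ℕ) < 6} where
  toFun j := ⟨Fin.castLE hn j, j.2⟩
  invFun i := ⟨i.1.1, i.2⟩
  left_inv j := by simp
  right_inv i := by simp

/-- For `n ≥ 6` the alternating group `A_n` contains a non-abelian dihedral subgroup of order 8. -/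
theorem exists_dihedral_alternating (n : ℕ) (hn : 6 ≤ n) :
    ∃ r s : alternatingGroup (Fin n), r ^ 4 = 1 ∧ s ^ 2 = 1 ∧ s * r * s⁻¹ = r⁻¹ ∧ r ^ 2 ≠ 1 := by
  let φ : Perm (Fin 6) →* Perm (Fin n) := Perm.extendDomainHom (fin6Equiv n hn)
  have hφ : Function.Injective φ := Perm.extendDomainHom_injective _
  have hr : φ r6 ∈ alternatingGroup (Fin n) := by
    rw [Perm.mem_alternatingGroup]
    change Perm.sign (r6.extendDomain (fin6Equiv n hn)) = 1
    rw [Perm.sign_extendDomain, sign_r6]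
  have hs : φ s6 ∈ alternatingGroup (Fin n) := by
    rw [Perm.mem_alternatingGroup]
    change Perm.sign (s6.extendDomain (fin6Equiv n hn)) = 1
    rw [Perm.sign_extendDomain, sign_s6]
  refine ⟨⟨φ r6, hr⟩, ⟨φ s6, hs⟩, ?_, ?_, ?_, ?_⟩
  · apply Subtype.ext
    change (φ r6) ^ 4 = 1
    rw [← map_pow, r6_pow_four, map_one]
  · apply Subtype.ext
    change (φ s6) ^ 2 = 1
    rw [← map_pow, s6_pow_two, map_one]
  · apply Subtype.ext
    change φ s6 * φ r6 * (φ s6)⁻¹ = (φ r6)⁻¹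
    rw [← map_inv, ← map_mul, ← map_mul, s6_conj_r6, map_inv]
  · intro h
    have h' : (φ r6) ^ 2 = 1 := congrArg Subtype.val h
    rw [← map_pow, ← map_one φ] at h'
    exact r6_pow_two_ne (hφ h')

end Cfsg.Agent.H43
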