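import Mathlib

set_option autoImplicit false

namespace Cfsg.Agent.H43

open Nat

/-- The 2-adic valuation of `n!`. -/
def v2 (n : ℕ) : ℕ := padicValNat 2 n !

theorem v2_rec (n : ℕ) : v2 n = n / 2 + v2 (n / 2) := by
  unfold v2
  have h := Nat.div_add_mod n 2
  have hlt : n % 2 < 2 := Nat.mod_lt _ (by norm_num)
  conv_lhs => rw [← h]
  rw [padicValNat_factorial_mul_add (p := 2) (n / 2) hlt, padicValNat_factorial_mul, add_comm]

theorem v2_mono {a b : ℕ} (h : a ≤ b) : v2 a ≤ v2 b := by
  unfold v2
  have hd : a ! ∣ b ! := Nat.factorial_dvd_factorial h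
  exact (padicValNat_dvd_iff_le (Nat.factorial_ne_zero b)).mp
    ((pow_padicValNat_dvd).trans hd)

theorem v2_add (a b : ℕ) : v2 a + v2 b ≤ v2 (a + b) := by
  unfold v2
  have hd : a ! * b ! ∣ (a + b)! := Nat.factorial_mul_factorial_dvd_factorial_add a b
  have h1 : padicValNat 2 (a ! * b !) = padicValNat 2 a ! + padicValNat 2 b ! :=
    padicValNat.mul (Nat.factorial_ne_zero a) (Nat.factorial_ne_zero b)
  rw [← h1]
  exact (padicValNat_dvd_iff_le (Nat.factorial_ne_zero (a + b))).mp
    ((pow_padicValNat_dvd).trans hd)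

theorem v2_rec4 (n : ℕ) : v2 n = n / 2 + n / 4 + v2 (n / 4) := by
  rw [v2_rec n, v2_rec (n / 2), Nat.div_div_eq_div_mul]
  ring

theorem v2_add_gain (a b c : ℕ) (h : a / 2 + a / 4 + b / 2 + b / 4 + c ≤ (a + b) / 2 + (a + b) / 4) :
    v2 a + v2 b + c ≤ v2 (a + b) := by
  rw [v2_rec4 a, v2_rec4 b, v2_rec4 (a + b)]
  have h1 : v2 (a / 4) + v2 (b / 4) ≤ v2 ((a + b) / 4) :=
    (v2_add _ _).trans (v2_mono (by omega))
  omega

/-- The order of a Sylow 2-subgroup of the symmetric group of degree `n`. -/
def g2 (n : ℕ) : ℕ := 2 ^ v2 n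

/-- The maximal order of a nilpotent subgroup of the symmetric group of degree `n`. -/
def nilBound (n : ℕ) : ℕ := if n % 4 = 3 then 3 * g2 (n - 3) else g2 n

theorem g2_pos (n : ℕ) : 0 < g2 n := pow_pos (by norm_num) _

theorem g2_three_mod_four {n : ℕ} (h : n % 4 = 3) : g2 n = 2 * g2 (n - 3) := by
  unfold g2
  have h1 : v2 n = v2 (n - 3) + 1 := by
    rw [v2_rec4 n, v2_rec4 (n - 3)]
    have : (n - 3) / 4 = n / 4 := by omega
    rw [this]
    omega
  rw [h1, pow_succ, mul_comm]

theorem two_mul_nilBound {n : ℕ} (h : n % 4 = 3) : 2 * nilBound n = 3 * g2 n := by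
  unfold nilBound
  rw [if_pos h, g2_three_mod_four h]
  ring

theorem nilBound_of_ne {n : ℕ} (h : n % 4 ≠ 3) : nilBound n = g2 n := by
  unfold nilBound
  rw [if_neg h]

theorem g2_le_nilBound (n : ℕ) : g2 n ≤ nilBound n := by
  by_cases h : n % 4 = 3
  · have := two_mul_nilBound h
    have := g2_pos n
    omega
  · rw [nilBound_of_ne h]

theorem g2_mul_le (a b c : ℕ)
    (h : a / 2 + a / 4 + b / 2 + b / 4 + c ≤ (a + b) / 2 + (a + b) / 4) :
    2 ^ c * (g2 a * g2 b) ≤ g2 (a + b) := by
  unfold g2
  rw [← pow_add, ← pow_add]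
  apply Nat.pow_le_pow_right (by norm_num)
  have := v2_add_gain a b c h
  omega

theorem nilBound_mul_le (a b : ℕ) : nilBound a * nilBound b ≤ nilBound (a + b) := by
  have hpa := g2_pos a
  have hpb := g2_pos b
  have hab := g2_le_nilBound (a + b)
  by_cases ha : a % 4 = 3
  · have h2a := two_mul_nilBound ha
    by_cases hb : b % 4 = 3
    · have h2b := two_mul_nilBound hb
      have key := g2_mul_le a b 2 (by omega)
      have e : 4 * (nilBound a * nilBound b) = 9 * (g2 a * g2 b) := by
        have : 4 * (nilBound a * nilBound b) = (2 * nilBound a) * (2 * nilBound b) := by ring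
        rw [this, h2a, h2b]
        ring
      have hpos : 0 < g2 a * g2 b := Nat.mul_pos hpa hpb
      norm_num at key
      omega
    · rw [nilBound_of_ne hb]
      by_cases hb0 : b % 4 = 0
      · have hab3 : (a + b) % 4 = 3 := by omega
        have h2ab := two_mul_nilBound hab3
        have key := g2_mul_le a b 0 (by omega)
        have e : 2 * (nilBound a * g2 b) = 3 * (g2 a * g2 b) := by
          rw [← mul_assoc, h2a]
          ring
        norm_num at key
        omega
      · have key := g2_mul_le a b 1 (by omega)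
        have e : 2 * (nilBound a * g2 b) = 3 * (g2 a * g2 b) := by
          rw [← mul_assoc, h2a]
          ring
        have hpos : 0 < g2 a * g2 b := Nat.mul_pos hpa hpb
        norm_num at key
        omega
  · rw [nilBound_of_ne ha]
    by_cases hb : b % 4 = 3
    · have h2b := two_mul_nilBound hb
      by_cases ha0 : a % 4 = 0
      · have hab3 : (a + b) % 4 = 3 := by omega
        have h2ab := two_mul_nilBound hab3
        have key := g2_mul_le a b 0 (by omega)
        have e : 2 * (g2 a * nilBound b) = 3 * (g2 a * g2 b) := by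
          rw [mul_left_comm, h2b]
          ring
        norm_num at key
        omega
      · have key := g2_mul_le a b 1 (by omega)
        have e : 2 * (g2 a * nilBound b) = 3 * (g2 a * g2 b) := by
          rw [mul_left_comm, h2b]
          ring
        have hpos : 0 < g2 a * g2 b := Nat.mul_pos hpa hpb
        norm_num at key
        omega
    · rw [nilBound_of_ne hb]
      have key := g2_mul_le a b 0 (by omega)
      norm_num at key
      omega

theorem nilBound_one : nilBound 1 = 1 := by
  unfold nilBound g2 v2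
  simp

theorem nilBound_zero : nilBound 0 = 1 := by
  unfold nilBound g2 v2
  simp

theorem nilBound_pos (n : ℕ) : 0 < nilBound n := lt_of_lt_of_le (g2_pos n) (g2_le_nilBound n)

theorem nilBound_mono {a b : ℕ} (h : a ≤ b) : nilBound a ≤ nilBound b := by
  obtain ⟨c, rfl⟩ := Nat.exists_eq_add_of_le h
  have h1 := nilBound_mul_le a c
  have h2 := nilBound_pos c
  calc nilBound a = nilBound a * 1 := (mul_one _).symm
    _ ≤ nilBound a * nilBound c := Nat.mul_le_mul_left _ h2
    _ ≤ nilBound (a + c) := h1

end Cfsg.Agent.H43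

namespace Cfsg.Agent.H43

open Nat

/-- `(m!)^p * p!` divides `(p * m)!`, in terms of 2-adic valuations. -/
theorem v2_mul_ge (p m : ℕ) (hm : m ≠ 0) : p * v2 m + v2 p ≤ v2 (p * m) := by
  unfold v2
  have hd : m ! ^ p * p ! ∣ (p * m)! := by
    rw [← Nat.uniformBell_mul_eq p hm, mul_assoc]
    exact Dvd.intro_left _ rfl
  have h1 : padicValNat 2 (m ! ^ p * p !) = p * padicValNat 2 m ! + padicValNat 2 p ! := by
    rw [padicValNat.mul (pow_ne_zero _ (Nat.factorial_ne_zero m)) (Nat.factorial_ne_zero p),
      padicValNat.pow (m !) p]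
  rw [← h1]
  exact (padicValNat_dvd_iff_le (Nat.factorial_ne_zero (p * m))).mp
    ((pow_padicValNat_dvd).trans hd)

theorem le_two_pow_v2 {p : ℕ} (hp : 4 ≤ p) : p ≤ 2 ^ v2 p := by
  have h1 : p / 2 + 1 ≤ v2 p := by
    rw [v2_rec4 p]
    have : 1 ≤ p / 4 := by omega
    omega
  have h2 : p ≤ 2 ^ (p / 2 + 1) := by
    have h3 : p / 2 < 2 ^ (p / 2) := Nat.lt_two_pow_self
    rw [pow_succ]
    omega
  exact h2.trans (Nat.pow_le_pow_right (by norm_num) h1)

/-- The `p`-adic valuation of `(p^a)!`. -/
theorem padicValNat_factorial_pow_succ (p : ℕ) [hp : Fact p.Prime] (a : ℕ) :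
    padicValNat p (p ^ (a + 1))! = p * padicValNat p (p ^ a)! + 1 := by
  have hrec : ∀ a, padicValNat p (p ^ (a + 1))! = padicValNat p (p ^ a)! + p ^ a := by
    intro a
    rw [_root_.pow_succ', padicValNat_factorial_mul]
  have hgeo : ∀ a, (p - 1) * padicValNat p (p ^ a)! + 1 = p ^ a := by
    intro a
    induction a with
    | zero => simp
    | succ a ih =>
      rw [hrec, mul_add, _root_.pow_succ']
      have hp1 : 1 ≤ p := hp.out.one_lt.le
      have e : p * p ^ a = (p - 1) * p ^ a + p ^ a := by
        nth_rewrite 1 [show p = (p - 1) + 1 by omega]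
        ring
      omega
  rw [hrec]
  have hp1 : 1 ≤ p := hp.out.one_lt.le
  have e : p * padicValNat p (p ^ a)! =
      (p - 1) * padicValNat p (p ^ a)! + padicValNat p (p ^ a)! := by
    nth_rewrite 1 [show p = (p - 1) + 1 by omega]
    ring
  have := hgeo a
  omega

theorem v2_values : v2 0 = 0 ∧ v2 1 = 0 ∧ v2 3 = 1 ∧ v2 9 = 7 := by
  have h0 : v2 0 = 0 := by simp [v2]
  have h1 : v2 1 = 0 := by simp [v2]
  have h2 : v2 2 = 1 := by rw [v2_rec]; norm_num [h1]
  have h3 : v2 3 = 1 := by rw [v2_rec]; norm_num [h1]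
  have h4 : v2 4 = 3 := by rw [v2_rec]; norm_num [h2]
  have h9 : v2 9 = 7 := by rw [v2_rec]; norm_num [h4]
  exact ⟨h0, h1, h3, h9⟩

/-- A Sylow `p`-subgroup of the symmetric group of degree `p^a` is no larger than the bound. -/
theorem prime_pow_le_nilBound (p : ℕ) [hp : Fact p.Prime] (a : ℕ) :
    p ^ padicValNat p (p ^ a)! ≤ nilBound (p ^ a) := by
  rcases hp.out.eq_two_or_odd with h2 | hodd
  · subst h2
    exact g2_le_nilBound _
  · have hp3 : 3 ≤ p := by
      have := hp.out.two_le
      omega
    by_cases hp5 : 5 ≤ p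
    · have key : ∀ a, p ^ padicValNat p (p ^ a)! ≤ g2 (p ^ a) := by
        intro a
        induction a with
        | zero =>
          simp only [pow_zero, Nat.factorial_one, padicValNat_one_right]
          exact g2_pos 1
        | succ a ih =>
          have e : p ^ (a + 1) = p * p ^ a := _root_.pow_succ' p a
          rw [padicValNat_factorial_pow_succ, e]
          unfold g2 at ih ⊢
          have h1 := v2_mul_ge p (p ^ a) (pow_ne_zero _ hp.out.ne_zero)
          have h2 : p ≤ 2 ^ v2 p := le_two_pow_v2 (by omega)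
          calc p ^ (p * padicValNat p (p ^ a)! + 1)
              = (p ^ padicValNat p (p ^ a)!) ^ p * p := by rw [pow_succ, ← pow_mul, mul_comm p]
            _ ≤ (2 ^ v2 (p ^ a)) ^ p * 2 ^ v2 p :=
                Nat.mul_le_mul (Nat.pow_le_pow_left ih p) h2
            _ = 2 ^ (p * v2 (p ^ a) + v2 p) := by rw [← pow_mul, ← pow_add, mul_comm p]
            _ ≤ 2 ^ v2 (p * p ^ a) := Nat.pow_le_pow_right (by norm_num) h1
      exact (key a).trans (g2_le_nilBound _)
    · have hp3' : p = 3 := by omega
      subst hp3'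
      obtain ⟨h0, h1, h3, h9⟩ := v2_values
      have e1 : padicValNat 3 (3 ^ 1)! = 1 := by
        have := padicValNat_factorial_pow_succ 3 0
        simpa using this
      have e2 : padicValNat 3 (3 ^ 2)! = 4 := by
        have := padicValNat_factorial_pow_succ 3 1
        rw [e1] at this
        simpa using this
      have key : ∀ a, 2 ≤ a → 5 * 3 ^ padicValNat 3 (3 ^ a)! ≤ 4 * g2 (3 ^ a) := by
        intro a ha
        induction a, ha using Nat.le_induction with
        | base =>
          rw [e2]
          unfold g2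
          norm_num [h9]
        | succ a ha ih =>
          have e : 3 ^ (a + 1) = 3 * 3 ^ a := _root_.pow_succ' 3 a
          rw [padicValNat_factorial_pow_succ, e]
          unfold g2 at ih ⊢
          have h1' := v2_mul_ge 3 (3 ^ a) (pow_ne_zero _ (by norm_num))
          rw [h3] at h1'
          have hX : 2 * (2 ^ v2 (3 ^ a)) ^ 3 ≤ 2 ^ v2 (3 * 3 ^ a) := by
            rw [← pow_mul, ← _root_.pow_succ']
            apply Nat.pow_le_pow_right (by norm_num)
            omega
          have hY : 3 ^ (3 * padicValNat 3 (3 ^ a)! + 1) =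
              3 * (3 ^ padicValNat 3 (3 ^ a)!) ^ 3 := by
            rw [pow_succ, ← pow_mul, mul_comm 3 (padicValNat 3 (3 ^ a)!)]
            ring
          rw [hY]
          have hcube := Nat.pow_le_pow_left ih 3
          rw [mul_pow, mul_pow] at hcube
          norm_num at hcube
          omega
      rcases Nat.lt_or_ge a 2 with ha | ha
      · interval_cases a
        · simp [nilBound_one]
        · rw [e1]
          unfold nilBound g2
          norm_num [h0]
      · have h5 := key a ha
        have h6 := g2_le_nilBound (3 ^ a)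
        omega

end Cfsg.Agent.H43
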