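import Mathlib
import Cfsg.Agent.H43.NilBound

set_option autoImplicit false
set_option linter.unusedSimpArgs false

namespace Cfsg.Agent.H43

open Nat

theorem v2_0 : v2 0 = 0 := by simp [v2]

theorem v2_1 : v2 1 = 0 := by simp [v2]

theorem v2_2 : v2 2 = 1 := by rw [v2_rec]; norm_num [v2_1]

theorem v2_3 : v2 3 = 1 := by rw [v2_rec]; norm_num [v2_1]

theorem v2_4 : v2 4 = 3 := by rw [v2_rec]; norm_num [v2_2]

theorem v2_5 : v2 5 = 3 := by rw [v2_rec]; norm_num [v2_2]

theorem v2_6 : v2 6 = 4 := by rw [v2_rec]; norm_num [v2_3]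

theorem v2_7 : v2 7 = 4 := by rw [v2_rec]; norm_num [v2_3]

theorem v2_8 : v2 8 = 7 := by rw [v2_rec]; norm_num [v2_4]

theorem v2_9 : v2 9 = 7 := by rw [v2_rec]; norm_num [v2_4]

theorem v2_10 : v2 10 = 8 := by rw [v2_rec]; norm_num [v2_5]

theorem v2_11 : v2 11 = 8 := by rw [v2_rec]; norm_num [v2_5]

theorem v2_12 : v2 12 = 10 := by rw [v2_rec]; norm_num [v2_6]

theorem v2_13 : v2 13 = 10 := by rw [v2_rec]; norm_num [v2_6]

theorem v2_14 : v2 14 = 11 := by rw [v2_rec]; norm_num [v2_7]

theorem v2_15 : v2 15 = 11 := by rw [v2_rec]; norm_num [v2_7]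

theorem v2_16 : v2 16 = 15 := by rw [v2_rec]; norm_num [v2_8]

theorem v2_17 : v2 17 = 15 := by rw [v2_rec]; norm_num [v2_8]

theorem v2_18 : v2 18 = 16 := by rw [v2_rec]; norm_num [v2_9]

theorem v2_25 : v2 25 = 22 := by rw [v2_rec]; norm_num [v2_12]

theorem v2_27 : v2 27 = 23 := by rw [v2_rec]; norm_num [v2_13]

theorem v2_lt : ∀ {m : ℕ}, 0 < m → v2 m < m := by
  intro m
  induction m using Nat.strong_induction_on with
  | _ m ih =>
    intro hm
    rw [v2_rec]
    by_cases h : m / 2 = 0
    · rw [h, v2_0]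
      omega
    · have := ih (m / 2) (by omega) (by omega)
      omega

/-- Twice the maximal order of a nilpotent subgroup of the alternating group of degree `n`. -/
def altBound2 (n : ℕ) : ℕ :=
  if n ≤ 1 then 2 else if n = 3 then 6 else if n = 5 then 10 else if n = 6 then 18
  else if n = 9 then 162 else nilBound n

/-- The first values of `altBound2`. -/
def altTbl : List ℕ :=
  [2, 2, 2, 6, 8, 10, 18, 24, 128, 162, 256, 384, 1024, 1024, 2048, 3072, 32768, 32768, 65536]

/-- The first values of `nilBound`. -/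
def nilTbl : List ℕ := [1, 1, 2, 3, 8, 8, 16, 24, 128, 128]

theorem nilBound_eq_tbl (n : ℕ) (hn : n ≤ 9) : nilBound n = nilTbl.getD n 0 := by
  interval_cases n <;>
    simp [nilBound, g2, nilTbl, v2_0, v2_1, v2_2, v2_3, v2_4, v2_5, v2_6, v2_7, v2_8, v2_9]

theorem altBound2_eq_tbl (n : ℕ) (hn : n ≤ 18) : altBound2 n = altTbl.getD n 0 := by
  interval_cases n <;>
    simp [altBound2, nilBound, g2, altTbl, v2_0, v2_1, v2_2, v2_3, v2_4, v2_5, v2_6, v2_7, v2_8,
      v2_9, v2_10, v2_11, v2_12, v2_13, v2_14, v2_15, v2_16, v2_17, v2_18]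

theorem altBound2_of_ge {n : ℕ} (h : 10 ≤ n) : altBound2 n = nilBound n := by
  unfold altBound2
  rw [if_neg (by omega), if_neg (by omega), if_neg (by omega), if_neg (by omega), if_neg (by omega)]

theorem nilBound_le_altBound2 (n : ℕ) : nilBound n ≤ altBound2 n := by
  by_cases h : 10 ≤ n
  · rw [altBound2_of_ge h]
  · rw [nilBound_eq_tbl n (by omega), altBound2_eq_tbl n (by omega)]
    have : n ≤ 9 := by omega
    interval_cases n <;> decide

theorem altBound2_le (n : ℕ) : altBound2 n ≤ 2 * nilBound n := by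
  by_cases h : 10 ≤ n
  · rw [altBound2_of_ge h]; omega
  · rw [nilBound_eq_tbl n (by omega), altBound2_eq_tbl n (by omega)]
    have : n ≤ 9 := by omega
    interval_cases n <;> decide

theorem two_le_altBound2 (n : ℕ) : 2 ≤ altBound2 n := by
  by_cases h : 10 ≤ n
  · rw [altBound2_of_ge h]
    have h1 : nilBound 2 ≤ nilBound n := nilBound_mono (by omega)
    rw [nilBound_eq_tbl 2 (by omega)] at h1
    exact h1
  · rw [altBound2_eq_tbl n (by omega)]
    have : n ≤ 9 := by omega
    interval_cases n <;> decide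

theorem altTbl_mul_le : ∀ a < 10, ∀ b < 10,
    altTbl.getD a 0 * altTbl.getD b 0 ≤ 2 * altTbl.getD (a + b) 0 := by
  decide

theorem altBound2_mul_le (a b : ℕ) : altBound2 a * altBound2 b ≤ 2 * altBound2 (a + b) := by
  by_cases h : a ≤ 9 ∧ b ≤ 9
  · rw [altBound2_eq_tbl a (by omega), altBound2_eq_tbl b (by omega),
      altBound2_eq_tbl (a + b) (by omega)]
    exact altTbl_mul_le a (by omega) b (by omega)
  · by_cases ha : 10 ≤ a
    · rw [altBound2_of_ge ha, altBound2_of_ge (by omega : 10 ≤ a + b)]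
      calc nilBound a * altBound2 b ≤ nilBound a * (2 * nilBound b) :=
            Nat.mul_le_mul_left _ (altBound2_le b)
        _ = 2 * (nilBound a * nilBound b) := by ring
        _ ≤ 2 * nilBound (a + b) := Nat.mul_le_mul_left _ (nilBound_mul_le a b)
    · have hb : 10 ≤ b := by omega
      rw [altBound2_of_ge hb, altBound2_of_ge (by omega : 10 ≤ a + b)]
      calc altBound2 a * nilBound b ≤ (2 * nilBound a) * nilBound b :=
            Nat.mul_le_mul_right _ (altBound2_le a)
        _ = 2 * (nilBound a * nilBound b) := by ring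
        _ ≤ 2 * nilBound (a + b) := Nat.mul_le_mul_left _ (nilBound_mul_le a b)

theorem altTbl_mono : ∀ a < 10, altTbl.getD a 0 ≤ altTbl.getD (a + 1) 0 := by
  decide

theorem altBound2_mono_succ (n : ℕ) : altBound2 n ≤ altBound2 (n + 1) := by
  by_cases h : 10 ≤ n
  · rw [altBound2_of_ge h, altBound2_of_ge (by omega : 10 ≤ n + 1)]
    exact nilBound_mono (by omega)
  · rw [altBound2_eq_tbl n (by omega), altBound2_eq_tbl (n + 1) (by omega)]
    exact altTbl_mono n (by omega)

theorem altBound2_mono {a b : ℕ} (h : a ≤ b) : altBound2 a ≤ altBound2 b := by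
  induction b, h using Nat.le_induction with
  | base => exact le_rfl
  | succ b _ ih => exact ih.trans (altBound2_mono_succ b)

theorem nilTbl_sq_le : ∀ m < 5, 2 * (nilTbl.getD m 0) ^ 2 ≤ altTbl.getD (2 * m) 0 := by
  decide

theorem two_mul_nilBound_sq_le (m : ℕ) : 2 * (nilBound m) ^ 2 ≤ altBound2 (2 * m) := by
  by_cases h : 5 ≤ m
  · rw [altBound2_of_ge (by omega : 10 ≤ 2 * m), nilBound_of_ne (by omega : (2 * m) % 4 ≠ 3)]
    have hv : v2 (2 * m) = m + v2 m := by
      rw [v2_rec (2 * m), Nat.mul_div_cancel_left m (by norm_num : 0 < 2)]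
    unfold g2
    rw [hv]
    by_cases hm : m % 4 = 3
    · have hnb : nilBound m = 3 * 2 ^ v2 (m - 3) := by
        unfold nilBound g2
        rw [if_pos hm]
      have hg := g2_three_mod_four hm
      unfold g2 at hg
      have hvm : v2 m = v2 (m - 3) + 1 := by
        have : 2 ^ v2 m = 2 ^ (v2 (m - 3) + 1) := by rw [hg, pow_succ]; ring
        exact Nat.pow_right_injective (le_refl 2) this
      have hlt : v2 (m - 3) < m - 3 := v2_lt (by omega)
      rw [hnb, hvm]
      have h1 : 2 ^ (2 * v2 (m - 3) + 5) ≤ 2 ^ (m + (v2 (m - 3) + 1)) :=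
        Nat.pow_le_pow_right (by norm_num) (by omega)
      have h2 : 2 * (3 * 2 ^ v2 (m - 3)) ^ 2 ≤ 2 ^ (2 * v2 (m - 3) + 5) := by
        rw [mul_pow, ← pow_mul, pow_add, mul_comm (v2 (m - 3)) 2]
        have : 0 < 2 ^ (2 * v2 (m - 3)) := by positivity
        nlinarith
      exact h2.trans h1
    · rw [nilBound_of_ne hm]
      unfold g2
      have hlt : v2 m < m := v2_lt (by omega)
      rw [← pow_mul, ← _root_.pow_succ']
      exact Nat.pow_le_pow_right (by norm_num) (by omega)
  · rw [nilBound_eq_tbl m (by omega), altBound2_eq_tbl (2 * m) (by omega)]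
    exact nilTbl_sq_le m (by omega)

theorem two_mul_nilBound_mul_le (a b n : ℕ) (ha : 2 * a ≤ n) (hb : 2 * b ≤ n) :
    2 * (nilBound a * nilBound b) ≤ altBound2 n := by
  have h1 : nilBound a ≤ nilBound (n / 2) := nilBound_mono (by omega)
  have h2 : nilBound b ≤ nilBound (n / 2) := nilBound_mono (by omega)
  have h3 : nilBound a * nilBound b ≤ nilBound (n / 2) ^ 2 := by
    rw [pow_two]; exact Nat.mul_le_mul h1 h2
  have h4 := two_mul_nilBound_sq_le (n / 2)
  have h5 : altBound2 (2 * (n / 2)) ≤ altBound2 n := altBound2_mono (by omega)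
  omega

/-- Passing from `S_{p^a}` to `S_{p^{a+1}}`: the Sylow `p`-subgroup stays below half of the Sylow
`2`-subgroup. -/
theorem sylow_half_step (p : ℕ) [hp : Fact p.Prime] (a : ℕ)
    (h : 2 * p ^ padicValNat p (p ^ a)! ≤ g2 (p ^ a)) :
    2 * p ^ padicValNat p (p ^ (a + 1))! ≤ g2 (p ^ (a + 1)) := by
  have e : p ^ (a + 1) = p * p ^ a := _root_.pow_succ' p a
  rw [padicValNat_factorial_pow_succ, e]
  unfold g2 at h ⊢
  have h1 := v2_mul_ge p (p ^ a) (pow_ne_zero _ hp.out.ne_zero)
  have h2p : 2 * p ≤ 2 ^ p := by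
    have h3 : p - 1 < 2 ^ (p - 1) := Nat.lt_two_pow_self
    have h4 : 2 ^ p = 2 * 2 ^ (p - 1) := by
      rw [← _root_.pow_succ']
      congr 1
      have := hp.out.two_le
      omega
    have := hp.out.two_le
    omega
  calc 2 * p ^ (p * padicValNat p (p ^ a)! + 1)
      = (2 * p) * (p ^ padicValNat p (p ^ a)!) ^ p := by
        rw [pow_succ, ← pow_mul, mul_comm p (padicValNat p (p ^ a)!)]; ring
    _ ≤ 2 ^ p * (p ^ padicValNat p (p ^ a)!) ^ p := Nat.mul_le_mul_right _ h2p
    _ = (2 * p ^ padicValNat p (p ^ a)!) ^ p := by rw [mul_pow]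
    _ ≤ (2 ^ v2 (p ^ a)) ^ p := Nat.pow_le_pow_left h p
    _ = 2 ^ (p * v2 (p ^ a)) := by rw [← pow_mul, mul_comm]
    _ ≤ 2 ^ v2 (p * p ^ a) := Nat.pow_le_pow_right (by norm_num) (by omega)

theorem sylow_half_of_base (p : ℕ) [hp : Fact p.Prime] (a₀ : ℕ)
    (h : 2 * p ^ padicValNat p (p ^ a₀)! ≤ g2 (p ^ a₀)) (a : ℕ) (ha : a₀ ≤ a) :
    2 * p ^ padicValNat p (p ^ a)! ≤ g2 (p ^ a) := by
  induction a, ha using Nat.le_induction with
  | base => exact h
  | succ a _ ih => exact sylow_half_step p a ih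

theorem padicValNat_factorial_self (p : ℕ) [hp : Fact p.Prime] : padicValNat p (p ^ 1)! = 1 := by
  have := padicValNat_factorial_pow_succ p 0
  simpa using this

/-- An odd Sylow subgroup of `S_{p^a}` has order at most the bound for the alternating group. -/
theorem two_mul_prime_pow_le_altBound2 (p : ℕ) [hp : Fact p.Prime] (hp2 : p ≠ 2) (a : ℕ) :
    2 * p ^ padicValNat p (p ^ a)! ≤ altBound2 (p ^ a) := by
  have hp3 : 3 ≤ p := by
    have := hp.out.two_le
    omega
  have h0 : 2 * p ^ padicValNat p (p ^ 0)! ≤ altBound2 (p ^ 0) := by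
    simp [altBound2]
  rcases Nat.eq_zero_or_pos a with ha0 | ha0
  · subst ha0; exact h0
  have e1 := padicValNat_factorial_self p
  have e2 : padicValNat p (p ^ 2)! = p + 1 := by
    have := padicValNat_factorial_pow_succ p 1
    rw [e1] at this
    simpa using this
  have generic : 2 * p ^ padicValNat p (p ^ a)! ≤ g2 (p ^ a) →
      2 * p ^ padicValNat p (p ^ a)! ≤ altBound2 (p ^ a) := fun h =>
    h.trans ((g2_le_nilBound _).trans (nilBound_le_altBound2 _))
  by_cases hp7 : 7 ≤ p
  · apply generic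
    refine sylow_half_of_base p 1 ?_ a ha0
    rw [e1, pow_one]
    unfold g2
    by_cases hp8 : 8 ≤ p
    · have h1 : p / 2 + 2 ≤ v2 p := by
        rw [v2_rec4 p]
        have : 2 ≤ p / 4 := by omega
        omega
      have h2 : 2 * p ≤ 2 ^ (p / 2 + 2) := by
        have h3 : p / 2 < 2 ^ (p / 2) := Nat.lt_two_pow_self
        rw [pow_add]
        omega
      exact h2.trans (Nat.pow_le_pow_right (by norm_num) h1)
    · have : p = 7 := by omega
      subst this
      rw [v2_7]; norm_num
  · by_cases hp5 : p = 5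
    · subst hp5
      rcases Nat.lt_or_ge a 2 with ha | ha
      · have : a = 1 := by omega
        subst this
        rw [e1]
        simp [altBound2]
      · apply generic
        refine sylow_half_of_base 5 2 ?_ a ha
        rw [e2]
        unfold g2
        norm_num [v2_25]
    · have hp3' : p = 3 := by
        have h4 : p ≠ 4 := fun h => by subst h; exact absurd hp.out (by norm_num)
        have h6 : p ≠ 6 := fun h => by subst h; exact absurd hp.out (by norm_num)
        omega
      subst hp3'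
      have e3 : padicValNat 3 (3 ^ 3)! = 13 := by
        have := padicValNat_factorial_pow_succ 3 2
        rw [e2] at this
        simpa using this
      rcases Nat.lt_or_ge a 3 with ha | ha
      · interval_cases a
        · rw [e1]; simp [altBound2]
        · rw [e2]; simp [altBound2]
      · apply generic
        refine sylow_half_of_base 3 3 ?_ a ha
        rw [e3]
        unfold g2
        norm_num [v2_27]

end Cfsg.Agent.H43
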