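import Mathlib

set_option autoImplicit false

namespace Cfsg.Agent.H43

/-- In a finite nilpotent group, a Sylow `p`-subgroup has a complement centralizing it. -/
theorem exists_sylow_hall_decomp {G : Type*} [Group G] [Finite G] [Group.IsNilpotent G] (p : ℕ)
    [hp : Fact p.Prime] :
    ∃ P Q : Subgroup G, IsPGroup p P ∧ (Nat.card Q).Coprime p ∧
      Nat.card P * Nat.card Q = Nat.card G ∧ (∀ u ∈ P, ∀ q ∈ Q, u * q = q * u) ∧
      (p ∣ Nat.card G → P ≠ ⊥) ∧ (∀ g : G, ∃ u ∈ P, ∃ q ∈ Q, g = u * q) := by
  obtain ⟨P⟩ : Nonempty (Sylow p G) := inferInstance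
  have hPn : (P : Subgroup G).Normal := inferInstance
  obtain ⟨Q, hQ⟩ := Subgroup.exists_right_complement'_of_coprime (N := (P : Subgroup G))
    P.card_coprime_index
  have hcard : Nat.card (P : Subgroup G) * Nat.card Q = Nat.card G := hQ.card_mul_card
  have hQidx : Nat.card Q = (P : Subgroup G).index := by
    have h1 := (P : Subgroup G).card_mul_index
    have hpos : 0 < Nat.card (P : Subgroup G) := Nat.card_pos
    exact Nat.eq_of_mul_eq_mul_left hpos (hcard.trans h1.symm)
  have hQcop : (Nat.card Q).Coprime p := by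
    rw [hQidx]
    exact (Nat.Coprime.symm ((Nat.Prime.coprime_iff_not_dvd hp.out).mpr P.not_dvd_index))
  -- the centralizer of `P` has `p`-power index
  have hCn : (Subgroup.centralizer ((P : Subgroup G) : Set G)).Normal := inferInstance
  have hprime : ∀ r : ℕ, r.Prime →
      r ∣ (Subgroup.centralizer ((P : Subgroup G) : Set G)).index → r = p := by
    intro r hr hdvd
    by_contra hne
    have : Fact r.Prime := ⟨hr⟩
    obtain ⟨R⟩ : Nonempty (Sylow r G) := inferInstance
    have hRn : (R : Subgroup G).Normal := inferInstance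
    have hdis : Disjoint (R : Subgroup G) (P : Subgroup G) :=
      IsPGroup.disjoint_of_ne r p hne _ _ R.isPGroup' P.isPGroup'
    have hle : (R : Subgroup G) ≤ Subgroup.centralizer ((P : Subgroup G) : Set G) := by
      intro x hx
      rw [Subgroup.mem_centralizer_iff]
      intro y hy
      exact (Subgroup.commute_of_normal_of_disjoint _ _ hRn hPn hdis x y hx hy).symm.eq
    exact R.not_dvd_index (hdvd.trans (Subgroup.index_dvd_of_le hle))
  have hQle : Q ≤ Subgroup.centralizer ((P : Subgroup G) : Set G) := by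
    rw [← Subgroup.relIndex_eq_one]
    by_contra hne
    obtain ⟨r, hr, hrdvd⟩ := Nat.exists_prime_and_dvd hne
    have h1 : r ∣ (Subgroup.centralizer ((P : Subgroup G) : Set G)).index :=
      hrdvd.trans (Subgroup.relIndex_dvd_index_of_normal _ _)
    have h2 : r ∣ Nat.card Q := hrdvd.trans (Subgroup.relIndex_dvd_card _ _)
    have h3 := hprime r hr h1
    subst h3
    have := Nat.Coprime.eq_one_of_dvd hQcop.symm h2
    exact hr.one_lt.ne' this
  refine ⟨P, Q, P.isPGroup', hQcop, hcard, ?_, ?_, ?_⟩
  · intro u hu q hq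
    have := hQle hq
    rw [Subgroup.mem_centralizer_iff] at this
    exact this u hu
  · intro hdvd hbot
    have h1 : p ∣ Nat.card (P : Subgroup G) := P.dvd_card_of_dvd_card hdvd
    rw [hbot, Subgroup.card_bot] at h1
    exact hp.out.one_lt.ne' (Nat.dvd_one.mp h1)
  · intro g
    obtain ⟨⟨u, q⟩, huq⟩ := hQ.2 g
    exact ⟨u.1, u.2, q.1, q.2, huq.symm⟩

end Cfsg.Agent.H43
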