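import Mathlib
import Cfsg.Agent.H43.NilBound
import Cfsg.Agent.H43.NilDecomp

set_option autoImplicit false

namespace Cfsg.Agent.H43

open MulAction

section quot

variable {G : Type*} [Group G] {α : Type*} [MulAction G α]

/-- The action of a subgroup `A` on the set of orbits of a subgroup `B` centralized by `A`. -/
def quotAction (A B : Subgroup G) (hcomm : ∀ a ∈ A, ∀ b ∈ B, a * b = b * a) :
    MulAction A (orbitRel.Quotient B α) where
  smul a := Quotient.map' (fun x => (a : G) • x) (by
    intro x y hxy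
    rw [orbitRel_apply] at hxy ⊢
    obtain ⟨b, hb⟩ := hxy
    refine ⟨b, ?_⟩
    change (b : G) • ((a : G) • y) = (a : G) • x
    rw [← hb]
    change (b : G) • ((a : G) • y) = (a : G) • ((b : G) • y)
    rw [← mul_smul, ← mul_smul, hcomm a a.2 b b.2])
  one_smul ω := by
    induction ω using Quotient.inductionOn' with
    | _ x =>
      change Quotient.mk'' (((1 : A) : G) • x) = Quotient.mk'' x
      rw [Subgroup.coe_one, one_smul]
  mul_smul a a' ω := by
    induction ω using Quotient.inductionOn' with
    | _ x =>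
      change Quotient.mk'' (((a * a' : A) : G) • x) = Quotient.mk'' ((a : G) • ((a' : G) • x))
      rw [Subgroup.coe_mul, mul_smul]

/-- The permutation representation of `A` on the orbits of `B`. -/
def quotPerm (A B : Subgroup G) (hcomm : ∀ a ∈ A, ∀ b ∈ B, a * b = b * a) :
    A →* Equiv.Perm (orbitRel.Quotient B α) :=
  @MulAction.toPermHom A (orbitRel.Quotient B α) _ (quotAction A B hcomm)

theorem quotPerm_mk (A B : Subgroup G) (hcomm : ∀ a ∈ A, ∀ b ∈ B, a * b = b * a) (a : A)
    (x : α) :
    quotPerm A B hcomm a (Quotient.mk'' x : orbitRel.Quotient B α) =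
      Quotient.mk'' ((a : G) • x) := rfl

theorem quotPerm_injective [Finite G] (A B : Subgroup G)
    (hcomm : ∀ a ∈ A, ∀ b ∈ B, a * b = b * a)
    (hcop : (Nat.card A).Coprime (Nat.card B))
    (hfaith : ∀ g : G, (∀ x : α, g • x = x) → g = 1) :
    Function.Injective (quotPerm (α := α) A B hcomm) := by
  rw [injective_iff_map_eq_one]
  intro a ha
  have key : ∀ x : α, ((a : G) ^ Nat.card B) • x = x := by
    intro x
    have h1 : quotPerm A B hcomm a (Quotient.mk'' x : orbitRel.Quotient B α) =
        Quotient.mk'' x := by rw [ha]; rfl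
    rw [quotPerm_mk, Quotient.eq'', orbitRel_apply] at h1
    obtain ⟨b, hb⟩ := h1
    have hb' : (b : G) • x = (a : G) • x := hb
    have hpow : ∀ j : ℕ, ((a : G) ^ j) • x = ((b : G) ^ j) • x := by
      intro j
      induction j with
      | zero => simp
      | succ j ihj =>
        have hcp : ∀ i : ℕ, (a : G) ^ i * (b : G) = (b : G) * (a : G) ^ i := by
          intro i
          induction i with
          | zero => simp
          | succ i ihi =>
            rw [pow_succ, mul_assoc, hcomm a a.2 b b.2, ← mul_assoc, ihi, mul_assoc]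
        calc ((a : G) ^ (j + 1)) • x = ((a : G) ^ j) • ((a : G) • x) := by
              rw [pow_succ, mul_smul]
          _ = ((a : G) ^ j) • ((b : G) • x) := by rw [hb']
          _ = (b : G) • (((a : G) ^ j) • x) := by rw [← mul_smul, ← mul_smul, hcp j]
          _ = (b : G) • (((b : G) ^ j) • x) := by rw [ihj]
          _ = ((b : G) ^ (j + 1)) • x := by rw [pow_succ', mul_smul]
    rw [hpow]
    have : (b : G) ^ Nat.card B = 1 := by
      rw [← Subgroup.coe_pow, pow_card_eq_one', Subgroup.coe_one]
    rw [this, one_smul]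
  have h1 : (a : G) ^ Nat.card B = 1 := hfaith _ key
  have h2 : (a : G) ^ Nat.card A = 1 := by
    rw [← Subgroup.coe_pow, pow_card_eq_one', Subgroup.coe_one]
  have h3 : (a : G) ^ (Nat.card A).gcd (Nat.card B) = 1 := pow_gcd_eq_one.mpr ⟨h2, h1⟩
  rw [hcop, pow_one] at h3
  exact Subtype.ext h3

theorem two_mul_card_quotient_le [Finite α] (B : Subgroup G)
    (hB : ∀ x : α, ∃ b ∈ B, b • x ≠ x) :
    2 * Nat.card (orbitRel.Quotient B α) ≤ Nat.card α := by
  classical
  choose c hc hcx using hB
  let φ : orbitRel.Quotient B α × Bool → α := fun w =>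
    if w.2 then c w.1.out • w.1.out else w.1.out
  have hφ : ∀ w, (Quotient.mk'' (φ w) : orbitRel.Quotient B α) = w.1 := by
    rintro ⟨ω, i⟩
    cases i
    · exact Quotient.out_eq' ω
    · have : (Quotient.mk'' (c ω.out • ω.out) : orbitRel.Quotient B α) = Quotient.mk'' ω.out := by
        rw [Quotient.eq'', orbitRel_apply]
        exact ⟨⟨c ω.out, hc ω.out⟩, rfl⟩
      exact this.trans (Quotient.out_eq' ω)
  have hinj : Function.Injective φ := by
    rintro ⟨ω, i⟩ ⟨ω', j⟩ h
    have h1 : ω = ω' := by
      have := congrArg (fun z => (Quotient.mk'' z : orbitRel.Quotient B α)) h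
      simpa [hφ] using this
    subst h1
    cases i <;> cases j
    · rfl
    · exact absurd h.symm (hcx ω.out)
    · exact absurd h (hcx ω.out)
    · rfl
  have := Nat.card_le_card_of_injective φ hinj
  rw [Nat.card_prod] at this
  have h2 : Nat.card Bool = 2 := by rw [Nat.card_eq_fintype_card, Fintype.card_bool]
  rw [h2] at this
  omega

theorem fixes_all_of_fixes_one [IsPretransitive G α] (A B : Subgroup G)
    (hcomm : ∀ a ∈ A, ∀ b ∈ B, a * b = b * a)
    (hgen : ∀ g : G, ∃ a ∈ A, ∃ b ∈ B, g = a * b) (x : α) (hx : ∀ b ∈ B, b • x = x) :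
    ∀ b ∈ B, ∀ y : α, b • y = y := by
  intro b' hb' y
  obtain ⟨g, rfl⟩ := exists_smul_eq G x y
  obtain ⟨a, ha, b, hb, rfl⟩ := hgen g
  rw [mul_smul, hx b hb, ← mul_smul, ← hcomm a ha b' hb', mul_smul, hx b' hb']

theorem card_le_mul_of_invariant [Finite G] [Finite α] (s : Set α)
    (hs : ∀ g : G, ∀ x : α, g • x ∈ s ↔ x ∈ s)
    (hfaith : ∀ g : G, (∀ x : α, g • x = x) → g = 1) :
    ∃ (f₁ : G →* Equiv.Perm s) (f₂ : G →* Equiv.Perm (sᶜ : Set α)),
      Nat.card G ≤ Nat.card f₁.range * Nat.card f₂.range := by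
  have hs' : ∀ g : G, ∀ x : α, g • x ∈ sᶜ ↔ x ∈ sᶜ := by
    intro g x
    simp only [Set.mem_compl_iff, hs]
  let f₁ : G →* Equiv.Perm s :=
    { toFun := fun g => (MulAction.toPerm g).subtypePerm (hs g)
      map_one' := by
        ext x
        simp
      map_mul' := by
        intro g g'
        ext x
        exact mul_smul g g' (x : α) }
  let f₂ : G →* Equiv.Perm (sᶜ : Set α) :=
    { toFun := fun g => (MulAction.toPerm g).subtypePerm (hs' g)
      map_one' := by
        ext x
        simp
      map_mul' := by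
        intro g g'
        ext x
        exact mul_smul g g' (x : α) }
  refine ⟨f₁, f₂, ?_⟩
  let ψ : G → f₁.range × f₂.range := fun g => (⟨f₁ g, g, rfl⟩, ⟨f₂ g, g, rfl⟩)
  have hψ : Function.Injective ψ := by
    intro g g' h
    have h1 : f₁ g = f₁ g' := congrArg (fun w => (w.1 : Equiv.Perm s)) h
    have h2 : f₂ g = f₂ g' := congrArg (fun w => (w.2 : Equiv.Perm (sᶜ : Set α))) h
    have hall : ∀ x : α, g • x = g' • x := by
      intro x
      by_cases hx : x ∈ s
      · have := congrArg (fun σ : Equiv.Perm s => ((σ ⟨x, hx⟩ : s) : α)) h1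
        exact this
      · have := congrArg (fun σ : Equiv.Perm (sᶜ : Set α) => ((σ ⟨x, hx⟩ : (sᶜ : Set α)) : α)) h2
        exact this
    have : g⁻¹ * g' = 1 := by
      apply hfaith
      intro x
      rw [mul_smul, ← hall, inv_smul_smul]
    exact inv_mul_eq_one.mp this
  have := Nat.card_le_card_of_injective ψ hψ
  rwa [Nat.card_prod] at this

end quot

/-- A nilpotent group acting faithfully on `n` points has order at most `nilBound n`. -/
theorem card_le_nilBound_of_injective : ∀ (n : ℕ) (G : Type) [Group G] [Finite G]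
    [Group.IsNilpotent G] (α : Type) [Finite α] (f : G →* Equiv.Perm α),
    Function.Injective f → Nat.card α = n → Nat.card G ≤ nilBound n := by
  intro n
  induction n using Nat.strong_induction_on with
  | _ n ih =>
  intro G _ _ _ α _ f hf hα
  let _ : MulAction G α := MulAction.compHom α f
  have hfaith : ∀ g : G, (∀ x : α, g • x = x) → g = 1 := by
    intro g hg
    apply hf
    rw [map_one]
    ext x
    exact hg x
  by_cases htriv : Nat.card G = 1
  · rw [htriv]; exact nilBound_pos n
  have hne : Nonempty α := by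
    by_contra hemp
    rw [not_nonempty_iff] at hemp
    apply htriv
    have : Subsingleton G := ⟨fun a b => hf (by ext x; exact isEmptyElim x)⟩
    exact Nat.card_of_subsingleton 1
  obtain ⟨x₀⟩ := hne
  by_cases htrans : ∀ y : α, ∃ g : G, g • x₀ = y
  · -- transitive case
    haveI : IsPretransitive G α := ⟨fun x y => by
      obtain ⟨g, hg⟩ := htrans x
      obtain ⟨g', hg'⟩ := htrans y
      exact ⟨g' * g⁻¹, by rw [← hg, ← hg', mul_smul, inv_smul_smul]⟩⟩
    obtain ⟨p, hp, hpdvd⟩ := Nat.exists_prime_and_dvd htriv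
    haveI : Fact p.Prime := ⟨hp⟩
    obtain ⟨P, Q, hP, hQcop, hcard, hcomm, hPne, hgen⟩ := exists_sylow_hall_decomp (G := G) p
    have hPne' := hPne hpdvd
    obtain ⟨k, hk⟩ := (IsPGroup.iff_card).mp hP
    by_cases hQ : Q = ⊥
    · -- `G` is a `p`-group
      have hGk : Nat.card G = p ^ k := by
        rw [← hcard, hQ, Subgroup.card_bot, mul_one, hk]
      have hdvd : n ∣ Nat.card G := by
        rw [← hα, ← MulAction.index_stabilizer_of_transitive G x₀]
        exact Subgroup.index_dvd_card _
      rw [hGk] at hdvd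
      obtain ⟨a, ha, hna⟩ := (Nat.dvd_prime_pow hp).mp hdvd
      have hdvd2 : Nat.card G ∣ Nat.card (Equiv.Perm α) := Subgroup.card_dvd_of_injective f hf
      rw [Nat.card_perm, hα, hGk, hna] at hdvd2
      have hkle : k ≤ padicValNat p (p ^ a).factorial :=
        (padicValNat_dvd_iff_le (Nat.factorial_ne_zero _)).mp hdvd2
      rw [hGk, hna]
      exact (Nat.pow_le_pow_right hp.pos hkle).trans (prime_pow_le_nilBound p a)
    · -- general case: both `P` and `Q` are nontrivial
      have hcomm' : ∀ q ∈ Q, ∀ u ∈ P, q * u = u * q := fun q hq u hu => (hcomm u hu q hq).symm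
      have hgen' : ∀ g : G, ∃ q ∈ Q, ∃ u ∈ P, g = q * u := by
        intro g
        obtain ⟨u, hu, q, hq, rfl⟩ := hgen g
        exact ⟨q, hq, u, hu, hcomm u hu q hq⟩
      have hQfix : ∀ x : α, ∃ q ∈ Q, q • x ≠ x := by
        by_contra hcon
        push Not at hcon
        obtain ⟨x, hx⟩ := hcon
        apply hQ
        rw [Subgroup.eq_bot_iff_forall]
        intro q hq
        exact hfaith q (fixes_all_of_fixes_one P Q hcomm hgen x hx q hq)
      have hPfix : ∀ x : α, ∃ u ∈ P, u • x ≠ x := by
        by_contra hcon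
        push Not at hcon
        obtain ⟨x, hx⟩ := hcon
        apply hPne'
        rw [Subgroup.eq_bot_iff_forall]
        intro u hu
        exact hfaith u (fixes_all_of_fixes_one Q P hcomm' hgen' x hx u hu)
      have hcop : (Nat.card P).Coprime (Nat.card Q) := by
        rw [hk]
        exact Nat.Coprime.pow_left k hQcop.symm
      have h2Q := two_mul_card_quotient_le Q hQfix
      have h2P := two_mul_card_quotient_le P hPfix
      have hpos : 0 < Nat.card α := Nat.card_pos_iff.mpr ⟨⟨x₀⟩, inferInstance⟩
      have b1 : Nat.card P ≤ nilBound (Nat.card (orbitRel.Quotient Q α)) :=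
        ih _ (by omega) P (orbitRel.Quotient Q α) (quotPerm P Q hcomm)
          (quotPerm_injective P Q hcomm hcop hfaith) rfl
      have b2 : Nat.card Q ≤ nilBound (Nat.card (orbitRel.Quotient P α)) :=
        ih _ (by omega) Q (orbitRel.Quotient P α) (quotPerm Q P hcomm')
          (quotPerm_injective Q P hcomm' hcop.symm hfaith) rfl
      calc Nat.card G = Nat.card P * Nat.card Q := hcard.symm
        _ ≤ nilBound (Nat.card (orbitRel.Quotient Q α)) *
            nilBound (Nat.card (orbitRel.Quotient P α)) := Nat.mul_le_mul b1 b2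
        _ ≤ nilBound (Nat.card (orbitRel.Quotient Q α) + Nat.card (orbitRel.Quotient P α)) :=
          nilBound_mul_le _ _
        _ ≤ nilBound n := nilBound_mono (by omega)
  · -- intransitive case
    classical
    push Not at htrans
    obtain ⟨y₀, hy₀⟩ := htrans
    let s : Set α := {y | ∃ g : G, g • x₀ = y}
    have hs : ∀ g : G, ∀ x : α, g • x ∈ s ↔ x ∈ s := by
      intro g x
      constructor
      · rintro ⟨h, hh⟩
        exact ⟨g⁻¹ * h, by rw [mul_smul, hh, inv_smul_smul]⟩
      · rintro ⟨h, rfl⟩
        exact ⟨g * h, mul_smul g h x₀⟩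
    obtain ⟨f₁, f₂, hle⟩ := card_le_mul_of_invariant s hs hfaith
    have hsne : Nonempty s := ⟨⟨x₀, 1, one_smul G x₀⟩⟩
    have hscne : Nonempty (sᶜ : Set α) := ⟨⟨y₀, fun ⟨g, hg⟩ => hy₀ g hg⟩⟩
    have hcards : Nat.card s + Nat.card (sᶜ : Set α) = n := by
      rw [← hα, ← Nat.card_sum]
      exact Nat.card_congr (Equiv.Set.sumCompl s)
    have hp1 : 0 < Nat.card s := Nat.card_pos
    have hp2 : 0 < Nat.card (sᶜ : Set α) := Nat.card_pos
    haveI : Group.IsNilpotent f₁.range :=
      Group.nilpotent_of_surjective f₁.rangeRestrict f₁.rangeRestrict_surjective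
    haveI : Group.IsNilpotent f₂.range :=
      Group.nilpotent_of_surjective f₂.rangeRestrict f₂.rangeRestrict_surjective
    have b1 : Nat.card f₁.range ≤ nilBound (Nat.card s) :=
      ih _ (by omega) f₁.range s f₁.range.subtype (Subgroup.subtype_injective _) rfl
    have b2 : Nat.card f₂.range ≤ nilBound (Nat.card (sᶜ : Set α)) :=
      ih _ (by omega) f₂.range (sᶜ : Set α) f₂.range.subtype (Subgroup.subtype_injective _) rfl
    calc Nat.card G ≤ Nat.card f₁.range * Nat.card f₂.range := hle
      _ ≤ nilBound (Nat.card s) * nilBound (Nat.card (sᶜ : Set α)) := Nat.mul_le_mul b1 b2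
      _ ≤ nilBound (Nat.card s + Nat.card (sᶜ : Set α)) := nilBound_mul_le _ _
      _ = nilBound n := by rw [hcards]

end Cfsg.Agent.H43
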