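import Mathlib
import Cfsg.Agent.H43.NilPerm
import Cfsg.Agent.H43.AltNil

set_option autoImplicit false

namespace Cfsg.Agent.H43

open MulAction

/-- Restriction of a permutation representation to an invariant set and to its complement. -/
theorem exists_restrict_sign {G : Type*} [Group G] {α : Type*} [Fintype α] [DecidableEq α]
    (f : G →* Equiv.Perm α) (s : Set α) [DecidablePred (· ∈ s)]
    (hs : ∀ g : G, ∀ x : α, f g x ∈ s ↔ x ∈ s) :
    ∃ (f₁ : G →* Equiv.Perm {x // x ∈ s}) (f₂ : G →* Equiv.Perm {x // ¬ x ∈ s}),
      (∀ g g' : G, f₁ g = f₁ g' → f₂ g = f₂ g' → f g = f g') ∧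
      (∀ g : G, Equiv.Perm.sign (f g) = Equiv.Perm.sign (f₁ g) * Equiv.Perm.sign (f₂ g)) := by
  have hs' : ∀ g : G, ∀ x : α, ¬ f g x ∈ s ↔ ¬ x ∈ s := fun g x => not_congr (hs g x)
  let f₁ : G →* Equiv.Perm {x // x ∈ s} :=
    { toFun := fun g => (f g).subtypePerm (hs g)
      map_one' := by
        ext x
        simp
      map_mul' := by
        intro g g'
        ext x
        change (f (g * g')) (x : α) = f g (f g' (x : α))
        rw [map_mul]
        rfl }
  let f₂ : G →* Equiv.Perm {x // ¬ x ∈ s} :=
    { toFun := fun g => (f g).subtypePerm (hs' g)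
      map_one' := by
        ext x
        simp
      map_mul' := by
        intro g g'
        ext x
        change (f (g * g')) (x : α) = f g (f g' (x : α))
        rw [map_mul]
        rfl }
  have key : ∀ g : G, f g = (f₁ g).subtypeCongr (f₂ g) := by
    intro g
    ext x
    by_cases hx : x ∈ s
    · rw [Equiv.Perm.subtypeCongr.left_apply _ _ hx]
      rfl
    · rw [Equiv.Perm.subtypeCongr.right_apply _ _ hx]
      rfl
  refine ⟨f₁, f₂, ?_, ?_⟩
  · intro g g' h1 h2
    rw [key g, key g', h1, h2]
  · intro g
    rw [key g, Equiv.Perm.sign_subtypeCongr]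

/-- A transitive nilpotent permutation group is a `p`-group of prime power degree, or a product
of two groups acting faithfully on at most half of the points each. -/
theorem transitive_dichotomy (G : Type) [Group G] [Finite G] [Group.IsNilpotent G] (α : Type)
    [Finite α] (f : G →* Equiv.Perm α) (hf : Function.Injective f)
    (htrans : ∀ x y : α, ∃ g : G, f g x = y) (hne : Nat.card G ≠ 1) :
    (∃ (p : ℕ) (_ : Fact p.Prime) (k a : ℕ), Nat.card G = p ^ k ∧ Nat.card α = p ^ a) ∨
    (∃ a b : ℕ, 2 * a ≤ Nat.card α ∧ 2 * b ≤ Nat.card α ∧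
      Nat.card G ≤ nilBound a * nilBound b) := by
  let _ : MulAction G α := MulAction.compHom α f
  have hfaith : ∀ g : G, (∀ x : α, g • x = x) → g = 1 := by
    intro g hg
    apply hf
    rw [map_one]
    ext x
    exact hg x
  have hne' : Nonempty α := by
    by_contra hemp
    rw [not_nonempty_iff] at hemp
    apply hne
    have : Subsingleton G := ⟨fun a b => hf (by ext x; exact isEmptyElim x)⟩
    exact Nat.card_of_subsingleton 1
  obtain ⟨x₀⟩ := hne'
  have : IsPretransitive G α := ⟨fun x y => htrans x y⟩
  obtain ⟨p, hp, hpdvd⟩ := Nat.exists_prime_and_dvd hne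
  have hpf : Fact p.Prime := ⟨hp⟩
  obtain ⟨P, Q, hP, hQcop, hcard, hcomm, hPne, hgen⟩ := exists_sylow_hall_decomp (G := G) p
  have hPne' := hPne hpdvd
  obtain ⟨k, hk⟩ := (IsPGroup.iff_card).mp hP
  by_cases hQ : Q = ⊥
  · left
    have hGk : Nat.card G = p ^ k := by
      rw [← hcard, hQ, Subgroup.card_bot, mul_one, hk]
    have hdvd : Nat.card α ∣ Nat.card G := by
      rw [← MulAction.index_stabilizer_of_transitive G x₀]
      exact Subgroup.index_dvd_card _
    rw [hGk] at hdvd
    obtain ⟨a, -, hna⟩ := (Nat.dvd_prime_pow hp).mp hdvd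
    exact ⟨p, hpf, k, a, hGk, hna⟩
  · right
    have hcomm' : ∀ q ∈ Q, ∀ u ∈ P, q * u = u * q := fun q hq u hu => (hcomm u hu q hq).symm
    have hgen' : ∀ g : G, ∃ q ∈ Q, ∃ u ∈ P, g = q * u := by
      intro g
      obtain ⟨u, hu, q, hq, rfl⟩ := hgen g
      exact ⟨q, hq, u, hu, hcomm u hu q hq⟩
    have hQfix : ∀ x : α, ∃ q ∈ Q, q • x ≠ x := by
      by_contra hcon
      push Not at hcon
      obtain ⟨x, hx⟩ := hcon
      apply hQ
      rw [Subgroup.eq_bot_iff_forall]
      intro q hq
      exact hfaith q (fixes_all_of_fixes_one P Q hcomm hgen x hx q hq)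
    have hPfix : ∀ x : α, ∃ u ∈ P, u • x ≠ x := by
      by_contra hcon
      push Not at hcon
      obtain ⟨x, hx⟩ := hcon
      apply hPne'
      rw [Subgroup.eq_bot_iff_forall]
      intro u hu
      exact hfaith u (fixes_all_of_fixes_one Q P hcomm' hgen' x hx u hu)
    have hcop : (Nat.card P).Coprime (Nat.card Q) := by
      rw [hk]
      exact Nat.Coprime.pow_left k hQcop.symm
    have h2Q := two_mul_card_quotient_le Q hQfix
    have h2P := two_mul_card_quotient_le P hPfix
    have b1 : Nat.card P ≤ nilBound (Nat.card (orbitRel.Quotient Q α)) :=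
      card_le_nilBound_of_injective _ P (orbitRel.Quotient Q α) (quotPerm P Q hcomm)
        (quotPerm_injective P Q hcomm hcop hfaith) rfl
    have b2 : Nat.card Q ≤ nilBound (Nat.card (orbitRel.Quotient P α)) :=
      card_le_nilBound_of_injective _ Q (orbitRel.Quotient P α) (quotPerm Q P hcomm')
        (quotPerm_injective Q P hcomm' hcop.symm hfaith) rfl
    refine ⟨_, _, h2Q, h2P, ?_⟩
    rw [← hcard]
    exact Nat.mul_le_mul b1 b2

theorem units_eq_of_mul_eq_one {u v : ℤˣ} (h : u * v = 1) : u = v := by
  rcases Int.units_eq_one_or u with rfl | rfl <;> rcases Int.units_eq_one_or v with rfl | rfl <;>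
    simp_all

/-- A nilpotent group of even permutations of `n` points has order at most `altBound2 n / 2`. -/
theorem two_mul_card_le_altBound2 : ∀ (n : ℕ) (G : Type) [Group G] [Finite G]
    [Group.IsNilpotent G] (α : Type) [Fintype α] [DecidableEq α] (f : G →* Equiv.Perm α),
    Function.Injective f → (∀ g, Equiv.Perm.sign (f g) = 1) → Fintype.card α = n →
    2 * Nat.card G ≤ altBound2 n := by
  intro n
  induction n using Nat.strong_induction_on with
  | _ n ih =>
  intro G _ _ _ α _ _ f hf hsign hα
  by_cases htriv : Nat.card G = 1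
  · rw [htriv]
    have := two_le_altBound2 n
    omega
  have hne : Nonempty α := by
    by_contra hemp
    rw [not_nonempty_iff] at hemp
    apply htriv
    have : Subsingleton G := ⟨fun a b => hf (by ext x; exact isEmptyElim x)⟩
    exact Nat.card_of_subsingleton 1
  obtain ⟨x₀⟩ := hne
  have hcardα : Nat.card α = n := by rw [Nat.card_eq_fintype_card, hα]
  by_cases htrans : ∀ y : α, ∃ g : G, f g x₀ = y
  · have htrans' : ∀ x y : α, ∃ g : G, f g x = y := by
      intro x y
      obtain ⟨g, hg⟩ := htrans x
      obtain ⟨g', hg'⟩ := htrans y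
      refine ⟨g' * g⁻¹, ?_⟩
      rw [← hg, ← hg']
      simp
    rcases transitive_dichotomy G α f hf htrans' htriv with ⟨p, hp, k, a, hGk, hna⟩ |
      ⟨a, b, ha, hb, hle⟩
    · rw [hcardα] at hna
      have hdvd2 : Nat.card G ∣ Nat.card (Equiv.Perm α) := Subgroup.card_dvd_of_injective f hf
      rw [Nat.card_perm, hcardα, hGk] at hdvd2
      by_cases hp2 : p = 2
      · subst hp2
        have hnontriv : Nontrivial α := by
          by_contra hsub
          rw [not_nontrivial_iff_subsingleton] at hsub
          apply htriv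
          have : Subsingleton G := ⟨fun a b => hf (Subsingleton.elim _ _)⟩
          exact Nat.card_of_subsingleton 1
        have hle : f.range ≤ alternatingGroup α := by
          rintro _ ⟨g, rfl⟩
          exact Equiv.Perm.mem_alternatingGroup.mpr (hsign g)
        have h1 : Nat.card f.range ∣ Nat.card (alternatingGroup α) := Subgroup.card_dvd_of_le hle
        have h2 : Nat.card f.range = Nat.card G :=
          (Nat.card_congr (Equiv.ofInjective f hf)).symm
        have h3 : 2 * Nat.card (alternatingGroup α) = n.factorial := by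
          have := two_mul_card_alternatingGroup (α := α)
          rw [Nat.card_eq_fintype_card, this, Fintype.card_perm, hα]
        have h4 : 2 ^ (k + 1) ∣ n.factorial := by
          rw [← h3, pow_succ', ← hGk, ← h2]
          exact Nat.mul_dvd_mul_left 2 h1
        have h5 : k + 1 ≤ v2 n := (padicValNat_dvd_iff_le (Nat.factorial_ne_zero n)).mp h4
        calc 2 * Nat.card G = 2 ^ (k + 1) := by rw [hGk, pow_succ']
          _ ≤ 2 ^ v2 n := Nat.pow_le_pow_right (by norm_num) h5
          _ = g2 n := rfl
          _ ≤ nilBound n := g2_le_nilBound n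
          _ ≤ altBound2 n := nilBound_le_altBound2 n
      · rw [hna] at hdvd2
        have hkle : k ≤ padicValNat p (p ^ a).factorial :=
          (padicValNat_dvd_iff_le (Nat.factorial_ne_zero _)).mp hdvd2
        rw [hGk, hna]
        calc 2 * p ^ k ≤ 2 * p ^ padicValNat p (p ^ a).factorial :=
              Nat.mul_le_mul_left 2 (Nat.pow_le_pow_right hp.out.pos hkle)
          _ ≤ altBound2 (p ^ a) := two_mul_prime_pow_le_altBound2 p hp2 a
    · rw [hcardα] at ha hb
      calc 2 * Nat.card G ≤ 2 * (nilBound a * nilBound b) := Nat.mul_le_mul_left 2 hle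
        _ ≤ altBound2 n := two_mul_nilBound_mul_le a b n ha hb
  · classical
    push Not at htrans
    obtain ⟨y₀, hy₀⟩ := htrans
    let s : Set α := {y | ∃ g : G, f g x₀ = y}
    have hs : ∀ g : G, ∀ x : α, f g x ∈ s ↔ x ∈ s := by
      intro g x
      constructor
      · rintro ⟨h, hh⟩
        refine ⟨g⁻¹ * h, ?_⟩
        simp [hh]
      · rintro ⟨h, rfl⟩
        exact ⟨g * h, by rw [map_mul, Equiv.Perm.mul_apply]⟩
    obtain ⟨f₁, f₂, hinj, hsgn⟩ := exists_restrict_sign f s hs
    have hx₀ : x₀ ∈ s := ⟨1, by simp⟩
    have hy₀' : ¬ y₀ ∈ s := fun ⟨g, hg⟩ => hy₀ g hg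
    have hcards : Fintype.card {x // x ∈ s} + Fintype.card {x // ¬ x ∈ s} = n := by
      rw [← hα, ← Fintype.card_sum]
      exact Fintype.card_congr (Equiv.sumCompl (· ∈ s))
    have hp1 : 0 < Fintype.card {x // x ∈ s} := Fintype.card_pos_iff.mpr ⟨⟨x₀, hx₀⟩⟩
    have hp2 : 0 < Fintype.card {x // ¬ x ∈ s} := Fintype.card_pos_iff.mpr ⟨⟨y₀, hy₀'⟩⟩
    have hn1 : Group.IsNilpotent f₁.range :=
      Group.nilpotent_of_surjective f₁.rangeRestrict f₁.rangeRestrict_surjective
    have hn2 : Group.IsNilpotent f₂.range :=
      Group.nilpotent_of_surjective f₂.rangeRestrict f₂.rangeRestrict_surjective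
    by_cases heven : ∀ g, Equiv.Perm.sign (f₁ g) = 1
    · have heven2 : ∀ g, Equiv.Perm.sign (f₂ g) = 1 := by
        intro g
        have := hsgn g
        rw [hsign g, heven g, one_mul] at this
        exact this.symm
      have b1 := ih _ (by omega) f₁.range {x // x ∈ s} f₁.range.subtype
        (Subgroup.subtype_injective _) (by rintro ⟨_, g, rfl⟩; exact heven g) rfl
      have b2 := ih _ (by omega) f₂.range {x // ¬ x ∈ s} f₂.range.subtype
        (Subgroup.subtype_injective _) (by rintro ⟨_, g, rfl⟩; exact heven2 g) rfl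
      have hcard : Nat.card G ≤ Nat.card f₁.range * Nat.card f₂.range := by
        let ψ : G → f₁.range × f₂.range := fun g => (⟨f₁ g, g, rfl⟩, ⟨f₂ g, g, rfl⟩)
        have hψ : Function.Injective ψ := by
          intro g g' h
          have h1 : f₁ g = f₁ g' := congrArg (fun w => (w.1 : Equiv.Perm {x // x ∈ s})) h
          have h2 : f₂ g = f₂ g' := congrArg (fun w => (w.2 : Equiv.Perm {x // ¬ x ∈ s})) h
          exact hf (hinj g g' h1 h2)
        have := Nat.card_le_card_of_injective ψ hψ
        rwa [Nat.card_prod] at this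
      have hmul := altBound2_mul_le (Fintype.card {x // x ∈ s}) (Fintype.card {x // ¬ x ∈ s})
      rw [hcards] at hmul
      have h3 := Nat.mul_le_mul b1 b2
      nlinarith
    · push Not at heven
      obtain ⟨g₀, hg₀⟩ := heven
      have hg₀' : Equiv.Perm.sign (f₁ g₀) = -1 := (Int.units_eq_one_or _).resolve_left hg₀
      have hsame : ∀ g, Equiv.Perm.sign (f₁ g) = Equiv.Perm.sign (f₂ g) := by
        intro g
        have := hsgn g
        rw [hsign g] at this
        exact units_eq_of_mul_eq_one this.symm
      have hcard : 2 * Nat.card G ≤ Nat.card f₁.range * Nat.card f₂.range := by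
        let ψ : G × Bool → f₁.range × f₂.range := fun w =>
          if w.2 then (⟨f₁ (w.1 * g₀), _, rfl⟩, ⟨f₂ w.1, _, rfl⟩)
          else (⟨f₁ w.1, _, rfl⟩, ⟨f₂ w.1, _, rfl⟩)
        have hψ : Function.Injective ψ := by
          rintro ⟨g, b⟩ ⟨g', b'⟩ h
          have h2 : f₂ g = f₂ g' := by
            have := congrArg (fun w => (w.2 : Equiv.Perm {x // ¬ x ∈ s})) h
            cases b <;> cases b' <;> simpa [ψ] using this
          cases b <;> cases b'
          · have h1 : f₁ g = f₁ g' := by
              have := congrArg (fun w => (w.1 : Equiv.Perm {x // x ∈ s})) h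
              simpa [ψ] using this
            rw [hf (hinj g g' h1 h2)]
          · exfalso
            have h1 : f₁ g = f₁ (g' * g₀) := by
              have := congrArg (fun w => (w.1 : Equiv.Perm {x // x ∈ s})) h
              simpa [ψ] using this
            have h3 := congrArg Equiv.Perm.sign h1
            rw [map_mul, map_mul, hg₀', hsame g, hsame g', h2] at h3
            rcases Int.units_eq_one_or (Equiv.Perm.sign (f₂ g')) with h4 | h4 <;>
              rw [h4] at h3 <;> revert h3 <;> decide
          · exfalso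
            have h1 : f₁ (g * g₀) = f₁ g' := by
              have := congrArg (fun w => (w.1 : Equiv.Perm {x // x ∈ s})) h
              simpa [ψ] using this
            have h3 := congrArg Equiv.Perm.sign h1
            rw [map_mul, map_mul, hg₀', hsame g, hsame g', h2] at h3
            rcases Int.units_eq_one_or (Equiv.Perm.sign (f₂ g')) with h4 | h4 <;>
              rw [h4] at h3 <;> revert h3 <;> decide
          · have h1 : f₁ (g * g₀) = f₁ (g' * g₀) := by
              have := congrArg (fun w => (w.1 : Equiv.Perm {x // x ∈ s})) h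
              simpa [ψ] using this
            rw [map_mul, map_mul] at h1
            have h1' : f₁ g = f₁ g' := mul_right_cancel h1
            rw [hf (hinj g g' h1' h2)]
        have := Nat.card_le_card_of_injective ψ hψ
        rw [Nat.card_prod, Nat.card_prod] at this
        have h2 : Nat.card Bool = 2 := by rw [Nat.card_eq_fintype_card, Fintype.card_bool]
        rw [h2] at this
        omega
      have b1 : Nat.card f₁.range ≤ nilBound (Fintype.card {x // x ∈ s}) :=
        card_le_nilBound_of_injective _ f₁.range {x // x ∈ s} f₁.range.subtype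
          (Subgroup.subtype_injective _) (by rw [Nat.card_eq_fintype_card])
      have b2 : Nat.card f₂.range ≤ nilBound (Fintype.card {x // ¬ x ∈ s}) :=
        card_le_nilBound_of_injective _ f₂.range {x // ¬ x ∈ s} f₂.range.subtype
          (Subgroup.subtype_injective _) (by rw [Nat.card_eq_fintype_card])
      calc 2 * Nat.card G ≤ Nat.card f₁.range * Nat.card f₂.range := hcard
        _ ≤ nilBound (Fintype.card {x // x ∈ s}) * nilBound (Fintype.card {x // ¬ x ∈ s}) :=
            Nat.mul_le_mul b1 b2
        _ ≤ nilBound (Fintype.card {x // x ∈ s} + Fintype.card {x // ¬ x ∈ s}) :=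
            nilBound_mul_le _ _
        _ = nilBound n := by rw [hcards]
        _ ≤ altBound2 n := nilBound_le_altBound2 n

end Cfsg.Agent.H43
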