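import Mathlib

set_option autoImplicit false

namespace Cfsg.Agent.H43

open Subgroup

/-- If `x` lies in an abelian Sylow `p`-subgroup `P`, is conjugate to its inverse in `G` and is not
an involution, then `N_G(P)/C_G(P)` has even order (Burnside's fusion argument). -/
theorem two_dvd_index_of_isConj_inv {G : Type*} [Group G] [Finite G] {p : ℕ} [Fact p.Prime]
    (P : Sylow p G) (hP : IsMulCommutative (P : Subgroup G)) (x : G) (hx : x ∈ P)
    (hconj : IsConj x x⁻¹) (hx2 : x ^ 2 ≠ 1) :
    2 ∣ ((centralizer ((P : Subgroup G) : Set G)).subgroupOf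
      (normalizer ((P : Subgroup G) : Set G))).index := by
  obtain ⟨c, hc⟩ := isConj_iff.mp hconj
  have hy : c⁻¹⁻¹ * x * c⁻¹ ∈ P := by
    rw [inv_inv, hc]; exact inv_mem hx
  obtain ⟨n, hn, hnx⟩ := P.conj_eq_normalizer_conj_of_mem x c⁻¹ hx hy
  rw [inv_inv, hc] at hnx
  -- `n⁻¹ * x * n = x⁻¹`
  have hnx' : n⁻¹ * x * n = x⁻¹ := hnx.symm
  set N := normalizer ((P : Subgroup G) : Set G) with hN
  set C := centralizer ((P : Subgroup G) : Set G) with hC
  have hnormal : (C.subgroupOf N).Normal := inferInstance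
  let nbar : N ⧸ C.subgroupOf N := QuotientGroup.mk ⟨n, hn⟩
  have hdvd : orderOf nbar ∣ (C.subgroupOf N).index := by
    rw [Subgroup.index_eq_card]
    exact orderOf_dvd_natCard nbar
  refine dvd_trans ?_ hdvd
  -- the order of `nbar` is even
  by_contra hodd
  have hodd' : Odd (orderOf nbar) := Nat.not_even_iff_odd.mp (fun h => hodd h.two_dvd)
  obtain ⟨j, hj⟩ := hodd'
  have hpow : (⟨n, hn⟩ : N) ^ orderOf nbar ∈ C.subgroupOf N := by
    rw [← QuotientGroup.eq_one_iff, QuotientGroup.mk_pow]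
    exact pow_orderOf_eq_one nbar
  have hcomm1 : Commute (n ^ orderOf nbar) x := by
    have : n ^ orderOf nbar ∈ C := by
      simpa [mem_subgroupOf] using hpow
    exact (this x hx).symm
  have h1 : n⁻¹ * x⁻¹ * n = x := by
    have := congrArg Inv.inv hnx'
    simpa [mul_assoc] using this
  have e1 : x * n = n * x⁻¹ := by
    rw [← hnx']; group
  have e2 : x⁻¹ * n = n * x := by
    nth_rewrite 2 [← h1]; group
  have hcomm2 : Commute (n ^ 2) x := by
    have : n ^ 2 * x = x * n ^ 2 := by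
      rw [pow_two, ← mul_assoc x n n, e1, mul_assoc n x⁻¹ n, e2, mul_assoc]
    exact this
  have hcomm3 : Commute n x := by
    have h3 : n = ((n ^ 2) ^ j)⁻¹ * n ^ orderOf nbar := by
      rw [hj, pow_succ n (2 * j), pow_mul, inv_mul_cancel_left]
    rw [h3]
    exact ((hcomm2.pow_left j).inv_left).mul_left hcomm1
  have hxx : x⁻¹ = x := by
    rw [← hnx', mul_assoc, ← hcomm3.eq, inv_mul_cancel_left]
  apply hx2
  rw [pow_two]
  nth_rewrite 2 [← hxx]
  exact mul_inv_cancel x

end Cfsg.Agent.H43
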