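import Mathlib

set_option autoImplicit false

namespace Cfsg.Agent.H43

/-- A non-identity element of a `p`-group, `p` odd, is not an involution. -/
theorem sq_ne_one_of_mem_sylow {G : Type*} [Group G] {p : ℕ} [Fact p.Prime] (hp : p ≠ 2)
    (P : Sylow p G) {x : G} (hx : x ∈ P) (hx1 : x ≠ 1) : x ^ 2 ≠ 1 := by
  have hprime : p.Prime := Fact.out
  intro h2
  obtain ⟨k, hk⟩ := (IsPGroup.iff_orderOf.mp P.isPGroup') ⟨x, hx⟩
  have hord : orderOf x = p ^ k := by
    rw [← hk]; exact (Subgroup.orderOf_mk x hx).symm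
  have hdvd : orderOf x ∣ 2 := orderOf_dvd_of_pow_eq_one h2
  rw [hord] at hdvd
  rcases Nat.eq_zero_or_pos k with hk0 | hk0
  · rw [hk0, pow_zero, orderOf_eq_one_iff] at hord
    exact hx1 hord
  · have : p ∣ 2 := dvd_trans (dvd_pow_self p hk0.ne') hdvd
    exact hp ((Nat.prime_dvd_prime_iff_eq hprime Nat.prime_two).mp this)

end Cfsg.Agent.H43
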