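import Mathlib
import Cfsg.Agent.H43.Fusion
import Cfsg.Agent.H43.OddElt

set_option autoImplicit false

namespace Cfsg.Agent.H43

open Subgroup Equiv

/-- Burnside: in a finite simple group, a Sylow subgroup that is neither trivial nor everything
is not central in its normalizer. -/
theorem index_centralizer_normalizer_ne_one {G : Type*} [Group G] [Finite G] [IsSimpleGroup G]
    {p : ℕ} [Fact p.Prime] (P : Sylow p G) (hbot : (P : Subgroup G) ≠ ⊥)
    (htop : (P : Subgroup G) ≠ ⊤) :
    ((centralizer ((P : Subgroup G) : Set G)).subgroupOf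
      (normalizer ((P : Subgroup G) : Set G))).index ≠ 1 := by
  intro h
  rw [index_eq_one, subgroupOf_eq_top] at h
  have hc := MonoidHom.ker_transferSylow_isComplement' P h
  rcases (MonoidHom.normal_ker (MonoidHom.transferSylow P h)).eq_bot_or_eq_top with h1 | h1
  · rw [h1, isComplement'_bot_left] at hc
    exact htop hc
  · rw [h1, isComplement'_top_left] at hc
    exact hbot hc

/-- An element normalizing a subgroup `P` with fewer than `q` elements whose `q`-th power
centralizes `P` already centralizes `P`. -/
theorem mem_centralizer_of_pow_prime_mem {G : Type*} [Group G] (P : Subgroup G) [Finite P]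
    {q : ℕ} (hq : q.Prime) (hcard : Nat.card P < q) (g : G)
    (hg : g ∈ normalizer (P : Set G)) (hgq : g ^ q ∈ centralizer (P : Set G)) :
    g ∈ centralizer (P : Set G) := by
  intro x hx
  -- the map `i ↦ g^i x g^-i` from `Fin q` to `P` is not injective
  have hmem : ∀ i : ℕ, g ^ i * x * (g ^ i)⁻¹ ∈ P := by
    intro i
    have : g ^ i ∈ normalizer (P : Set G) := pow_mem hg i
    exact (mem_normalizer_iff.mp this x).mp hx
  let f : Fin q → P := fun i => ⟨g ^ (i : ℕ) * x * (g ^ (i : ℕ))⁻¹, hmem i⟩
  have : Fintype P := Fintype.ofFinite P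
  have hlt : Fintype.card P < Fintype.card (Fin q) := by
    rw [Fintype.card_fin, ← Nat.card_eq_fintype_card]; exact hcard
  obtain ⟨i, j, hij, hfij⟩ := Fintype.exists_ne_map_eq_of_card_lt f hlt
  -- wlog i < j
  have key : ∀ i j : Fin q, i < j → f i = f j → x * g = g * x := by
    intro i j hlt hf
    have hf' : g ^ (i : ℕ) * x * (g ^ (i : ℕ))⁻¹ = g ^ (j : ℕ) * x * (g ^ (j : ℕ))⁻¹ :=
      congrArg Subtype.val hf
    set d := (j : ℕ) - (i : ℕ) with hd
    have hdpos : 0 < d := by
      have : (i : ℕ) < (j : ℕ) := hlt
      omega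
    have hdq : d < q := by
      have := j.2
      omega
    have hj : (j : ℕ) = (i : ℕ) + d := by
      have : (i : ℕ) < (j : ℕ) := hlt
      omega
    have hcd : Commute (g ^ d) x := by
      rw [hj, pow_add] at hf'
      have : x = g ^ d * x * (g ^ d)⁻¹ := by
        have h1 : g ^ (i : ℕ) * x * (g ^ (i : ℕ))⁻¹ =
            g ^ (i : ℕ) * (g ^ d * x * (g ^ d)⁻¹) * (g ^ (i : ℕ))⁻¹ := by
          rw [hf']; group
        exact mul_left_cancel (mul_right_cancel h1)
      have h2 : g ^ d * x = x * g ^ d := by
        nth_rewrite 2 [this]; group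
      exact h2
    have hcq : Commute (g ^ q) x := (hgq x hx).symm
    have hcop : Nat.Coprime d q :=
      Nat.coprime_comm.mp ((Nat.Prime.coprime_iff_not_dvd hq).mpr
        (Nat.not_dvd_of_pos_of_lt hdpos hdq))
    -- Bezout
    have hbez := Nat.gcd_eq_gcd_ab d q
    rw [hcop.gcd_eq_one] at hbez
    have hg1 : g = (g ^ d) ^ (Nat.gcdA d q) * (g ^ q) ^ (Nat.gcdB d q) := by
      rw [← zpow_natCast g d, ← zpow_natCast g q, ← zpow_mul, ← zpow_mul, ← zpow_add]
      have : (d : ℤ) * Nat.gcdA d q + (q : ℤ) * Nat.gcdB d q = 1 := by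
        rw [← hbez]; simp
      rw [this, zpow_one]
    have hcg : Commute g x := by
      rw [hg1]
      exact (hcd.zpow_left _).mul_left (hcq.zpow_left _)
    exact hcg.eq.symm
  rcases lt_or_gt_of_ne hij with h | h
  · exact key i j h hfij
  · exact key j i h hfij.symm


/-- For `n < 2p` a Sylow `p`-subgroup of `A_n` is cyclic (it has order `1` or `p`). -/
theorem isCyclic_sylow_alternating_of_lt (n : ℕ) {p : ℕ} [Fact p.Prime] (hnp : n < 2 * p)
    (P : Sylow p (alternatingGroup (Fin n))) : IsCyclic (P : Subgroup (alternatingGroup (Fin n))) := by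
  have hp : p.Prime := Fact.out
  have hcard : Nat.card (P : Subgroup (alternatingGroup (Fin n))) =
      p ^ Nat.factorization (Nat.card (alternatingGroup (Fin n))) p := P.card_eq_multiplicity
  have hdvd : Nat.card (alternatingGroup (Fin n)) ∣ n.factorial := by
    have h1 : Nat.card (alternatingGroup (Fin n)) ∣ Nat.card (Perm (Fin n)) :=
      Subgroup.card_subgroup_dvd_card _
    rwa [Nat.card_perm, Nat.card_eq_fintype_card (α := Fin n), Fintype.card_fin] at h1
  have hle : Nat.factorization (Nat.card (alternatingGroup (Fin n))) p ≤ 1 := by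
    have h2 : Nat.factorization (Nat.card (alternatingGroup (Fin n))) p ≤
        Nat.factorization n.factorial p :=
      (Nat.factorization_le_iff_dvd Nat.card_pos.ne' (Nat.factorial_ne_zero n)).mpr hdvd p
    have h3 : Nat.factorization n.factorial p = n / p := by
      rw [Nat.factorization_def _ hp]
      have hlog : Nat.log p n < 2 := by
        apply Nat.log_lt_of_lt_pow'
        · omega
        · have : 2 * p ≤ p ^ 2 := by
            rw [pow_two]; exact Nat.mul_le_mul_right p hp.two_le
          omega
      rw [padicValNat_factorial hlog]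
      simp
    have h4 : n / p ≤ 1 := by
      have : n / p < 2 := Nat.div_lt_of_lt_mul (by omega)
      omega
    omega
  rcases Nat.le_one_iff_eq_zero_or_eq_one.mp hle with h0 | h1
  · rw [h0, pow_zero] at hcard
    have : Subsingleton (P : Subgroup (alternatingGroup (Fin n))) :=
      (Nat.card_eq_one_iff_unique.mp hcard).1
    infer_instance
  · rw [h1, pow_one] at hcard
    exact isCyclic_of_prime_card hcard

/-- In `A_n`, an element of odd prime order `p` with `n ≥ 2p` is conjugate to its inverse. -/
theorem isConj_inv_alternating (n : ℕ) {p : ℕ} (hp : p.Prime) (hnp : 2 * p ≤ n)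
    (x : alternatingGroup (Fin n)) (hx : orderOf x = p) : IsConj x x⁻¹ := by
  have hσ : orderOf (x : Perm (Fin n)) = p := by
    rw [← hx]; exact Subgroup.orderOf_coe x
  have hconj : IsConj (x : Perm (Fin n)) (x : Perm (Fin n))⁻¹ := by
    rw [Perm.isConj_iff_cycleType_eq, Perm.cycleType_inv]
  obtain ⟨c, hc⟩ := isConj_iff.mp hconj
  -- an odd permutation centralizing `x`
  have hnot : ¬ Subgroup.centralizer {(x : Perm (Fin n))} ≤ alternatingGroup (Fin n) := by
    rw [Equiv.Perm.centralizer_le_alternating_iff]
    rintro ⟨-, h2, h3⟩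
    obtain ⟨k, hk⟩ := Perm.cycleType_prime_order (σ := (x : Perm (Fin n))) (by rw [hσ]; exact hp)
    rw [hσ] at hk
    have hcount := h3 p
    rw [hk, Multiset.count_replicate_self] at hcount
    have hk0 : k = 0 := by omega
    rw [hk, hk0] at h2
    simp at h2
    have : 3 ≤ p := by
      have := hp.two_le
      omega
    omega
  obtain ⟨d, hd, hdA⟩ := SetLike.not_le_iff_exists.mp hnot
  have hdcomm : d * (x : Perm (Fin n)) = (x : Perm (Fin n)) * d :=
    (Subgroup.mem_centralizer_iff.mp hd (x : Perm (Fin n)) rfl).symm
  have hdsign : Perm.sign d = -1 := by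
    rcases Int.units_eq_one_or (Perm.sign d) with h | h
    · exact absurd (Perm.mem_alternatingGroup.mpr h) hdA
    · exact h
  by_cases hcs : Perm.sign c = 1
  · rw [isConj_iff]
    refine ⟨⟨c, Perm.mem_alternatingGroup.mpr hcs⟩, ?_⟩
    apply Subtype.ext
    exact hc
  · have hcs' : Perm.sign c = -1 := by
      rcases Int.units_eq_one_or (Perm.sign c) with h | h
      · exact absurd h hcs
      · exact h
    rw [isConj_iff]
    refine ⟨⟨c * d, Perm.mem_alternatingGroup.mpr (by rw [Perm.sign_mul, hcs', hdsign]; rfl)⟩, ?_⟩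
    apply Subtype.ext
    change c * d * (x : Perm (Fin n)) * (c * d)⁻¹ = (x : Perm (Fin n))⁻¹
    rw [← hc, mul_assoc c d, hdcomm]
    group

/-- For `p` odd and `n ≥ 2p`, `N(P)/C(P)` has even order for an abelian Sylow `p`-subgroup of `A_n`. -/
theorem two_dvd_index_alternating (n : ℕ) {p : ℕ} [Fact p.Prime] (hp2 : p ≠ 2) (hnp : 2 * p ≤ n)
    (P : Sylow p (alternatingGroup (Fin n)))
    (hP : IsMulCommutative (P : Subgroup (alternatingGroup (Fin n)))) :
    2 ∣ ((centralizer ((P : Subgroup (alternatingGroup (Fin n))) : Set (alternatingGroup (Fin n)))).subgroupOf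
      (normalizer ((P : Subgroup (alternatingGroup (Fin n))) : Set (alternatingGroup (Fin n))))).index := by
  have hp : p.Prime := Fact.out
  have hpn : p ≤ n := by
    have := hp.two_le
    omega
  have hdvd : p ∣ Nat.card (alternatingGroup (Fin n)) := by
    have h1 : p ∣ Nat.card (Perm (Fin n)) := by
      rw [Nat.card_perm, Nat.card_eq_fintype_card, Fintype.card_fin]
      exact Nat.dvd_factorial hp.pos hpn
    have : Nontrivial (Fin n) := by
      have : 2 ≤ n := by
        have := hp.two_le
        omega
      exact Fin.nontrivial_iff_two_le.mpr this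
    rw [← two_mul_nat_card_alternatingGroup] at h1
    rcases (Nat.Prime.dvd_mul hp).mp h1 with h | h
    · exact absurd ((Nat.prime_dvd_prime_iff_eq hp Nat.prime_two).mp h) hp2
    · exact h
  have hdvdP : p ∣ Nat.card (P : Subgroup (alternatingGroup (Fin n))) := by
    rw [P.card_eq_multiplicity]
    apply dvd_pow_self
    exact ((Nat.Prime.factorization_pos_of_dvd hp Nat.card_pos.ne' hdvd)).ne'
  obtain ⟨y, hy⟩ := exists_prime_orderOf_dvd_card' p hdvdP
  have hx : orderOf (y : alternatingGroup (Fin n)) = p :=
    (Subgroup.orderOf_coe y).trans hy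
  have hconj := isConj_inv_alternating n hp hnp (y : alternatingGroup (Fin n)) hx
  have hne : (y : alternatingGroup (Fin n)) ≠ 1 := by
    intro h
    rw [h, orderOf_one] at hx
    exact hp.one_lt.ne hx
  exact two_dvd_index_of_isConj_inv P hP (y : alternatingGroup (Fin n)) y.2 hconj
    (sq_ne_one_of_mem_sylow hp2 P y.2 hne)


set_option maxRecDepth 100000 in
theorem perm5_sq_eq_one : ∀ σ : Perm (Fin 5), Perm.sign σ = 1 → σ ^ 4 = 1 → σ ^ 2 = 1 := by
  decide

theorem card_alternating_five : Nat.card (alternatingGroup (Fin 5)) = 60 := by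
  rw [nat_card_alternatingGroup]
  simp [Nat.factorial]

theorem card_sylow_two_alternating_five (P : Sylow 2 (alternatingGroup (Fin 5))) :
    Nat.card (P : Subgroup (alternatingGroup (Fin 5))) = 4 := by
  rw [P.card_eq_multiplicity, card_alternating_five]
  have : Nat.factorization 60 2 = 2 := by
    have h60 : (60 : ℕ) = 2 ^ 2 * 15 := by norm_num
    rw [h60, Nat.factorization_mul (by norm_num) (by norm_num), Nat.Prime.factorization_pow Nat.prime_two]
    simp [Nat.factorization_eq_zero_of_not_dvd (show ¬ 2 ∣ 15 by norm_num)]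
  rw [this]; norm_num

/-- The Sylow 2-subgroups of `A_5` are Klein four-groups with `|N(P) : C(P)| = 3`. -/
theorem sylow_two_alternating_five (P : Sylow 2 (alternatingGroup (Fin 5)))
    (hP : IsMulCommutative (P : Subgroup (alternatingGroup (Fin 5)))) :
    ((centralizer ((P : Subgroup (alternatingGroup (Fin 5))) : Set (alternatingGroup (Fin 5)))).subgroupOf
      (normalizer ((P : Subgroup (alternatingGroup (Fin 5))) : Set (alternatingGroup (Fin 5))))).index = 3 ∧
    IsKleinFour (P : Subgroup (alternatingGroup (Fin 5))) := by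
  have hcardP := card_sylow_two_alternating_five P
  have hcardG := card_alternating_five
  set N := normalizer ((P : Subgroup (alternatingGroup (Fin 5))) : Set (alternatingGroup (Fin 5))) with hN
  set C := centralizer ((P : Subgroup (alternatingGroup (Fin 5))) : Set (alternatingGroup (Fin 5))) with hC
  have hPC : (P : Subgroup (alternatingGroup (Fin 5))) ≤ C := by
    intro x hx y hy
    have := hP.is_comm.comm (⟨y, hy⟩ : (P : Subgroup (alternatingGroup (Fin 5)))) ⟨x, hx⟩
    exact congrArg Subtype.val this
  have hCN : C ≤ N := centralizer_le_normalizer _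
  constructor
  · -- the index divides 15
    have hidx : (P : Subgroup (alternatingGroup (Fin 5))).index = 15 := by
      have := (P : Subgroup (alternatingGroup (Fin 5))).card_mul_index
      rw [hcardP, hcardG] at this
      omega
    have hdvd15 : (C.subgroupOf N).index ∣ 15 := by
      change C.relIndex N ∣ 15
      rw [← hidx]
      exact (relIndex_dvd_of_le_left N hPC).trans (relIndex_dvd_index_of_le (le_normalizer))
    have hne1 : (C.subgroupOf N).index ≠ 1 := by
      apply index_centralizer_normalizer_ne_one P
      · intro h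
        rw [h, Nat.card_eq_one_iff_unique.mpr ⟨inferInstance, inferInstance⟩] at hcardP
        omega
      · intro h
        rw [h, Subgroup.card_top, hcardG] at hcardP
        omega
    have hnot5 : ¬ 5 ∣ (C.subgroupOf N).index := by
      intro h5
      have hnormal : (C.subgroupOf N).Normal := inferInstance
      rw [Subgroup.index_eq_card] at h5
      have : Fact (Nat.Prime 5) := ⟨by norm_num⟩
      obtain ⟨gbar, hgbar⟩ := exists_prime_orderOf_dvd_card' 5 h5
      obtain ⟨g, rfl⟩ := QuotientGroup.mk_surjective gbar
      have hg5 : g ^ 5 ∈ C.subgroupOf N := by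
        rw [← QuotientGroup.eq_one_iff, QuotientGroup.mk_pow]
        have := pow_orderOf_eq_one (QuotientGroup.mk g : N ⧸ C.subgroupOf N)
        rwa [hgbar] at this
      have hg5' : (g : alternatingGroup (Fin 5)) ^ 5 ∈ C := by
        simpa [mem_subgroupOf] using hg5
      have hgC : (g : alternatingGroup (Fin 5)) ∈ C :=
        mem_centralizer_of_pow_prime_mem (P : Subgroup (alternatingGroup (Fin 5))) (by norm_num)
          (by rw [hcardP]; norm_num) g g.2 hg5'
      have : (QuotientGroup.mk g : N ⧸ C.subgroupOf N) = 1 := by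
        rw [QuotientGroup.eq_one_iff]
        simpa [mem_subgroupOf] using hgC
      rw [this, orderOf_one] at hgbar
      omega
    have hmem : (C.subgroupOf N).index ∈ Nat.divisors 15 := by
      rw [Nat.mem_divisors]; exact ⟨hdvd15, by norm_num⟩
    have hdiv : Nat.divisors 15 = {1, 3, 5, 15} := by decide
    rw [hdiv] at hmem
    simp only [Finset.mem_insert, Finset.mem_singleton] at hmem
    rcases hmem with h | h | h | h
    · exact absurd h hne1
    · exact h
    · exact absurd (by rw [h]) hnot5
    · exact absurd (by rw [h]; norm_num) hnot5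
  · refine ⟨hcardP, ?_⟩
    have hsq : ∀ x : (P : Subgroup (alternatingGroup (Fin 5))), x ^ 2 = 1 := by
      intro x
      have h4 : x ^ 4 = 1 := by
        rw [← hcardP]; exact pow_card_eq_one'
      have h4' : ((x : alternatingGroup (Fin 5)) : Perm (Fin 5)) ^ 4 = 1 := by
        have := congrArg (fun y : (P : Subgroup (alternatingGroup (Fin 5))) =>
          ((y : alternatingGroup (Fin 5)) : Perm (Fin 5))) h4
        simpa using this
      have hs : Perm.sign ((x : alternatingGroup (Fin 5)) : Perm (Fin 5)) = 1 :=
        Perm.mem_alternatingGroup.mp (x : alternatingGroup (Fin 5)).2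
      have h2 := perm5_sq_eq_one _ hs h4'
      apply Subtype.ext
      apply Subtype.ext
      simpa using h2
    have hdvd : Monoid.exponent (P : Subgroup (alternatingGroup (Fin 5))) ∣ 2 :=
      Monoid.exponent_dvd_iff_forall_pow_eq_one.mpr hsq
    have hne : Monoid.exponent (P : Subgroup (alternatingGroup (Fin 5))) ≠ 1 := by
      intro h
      rw [Monoid.exp_eq_one_iff] at h
      rw [Nat.card_eq_one_iff_unique.mpr ⟨h, ⟨1⟩⟩] at hcardP
      omega
    rcases (Nat.dvd_prime Nat.prime_two).mp hdvd with h | h
    · exact absurd h hne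
    · exact h

end Cfsg.Agent.H43
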