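import Mathlib

/-!
# Assembly for S5748 (simple non-abelian CT-groups are `PSL₂(2^f)`)

The main theorem `ct_main` is stated relative to the deep inputs (Suzuki's CA theorem S0182,
the abelian-involution-centraliser theorem S2202, and four small pieces), which are passed as
hypotheses so that this file only depends on Mathlib.
-/

set_option autoImplicit false

namespace Cfsg.Agent.H43.CT

/-- In a CT-group, centralisers of non-identity elements are commutative. -/
theorem cent_comm {G : Type*} [Group G]
    (hct : ∀ a b c : G, a ≠ 1 → b ≠ 1 → c ≠ 1 → Commute a b → Commute b c → Commute a c)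
    (x : G) (hx : x ≠ 1) (a : G) (ha : a ∈ Subgroup.centralizer ({x} : Set G))
    (b : G) (hb : b ∈ Subgroup.centralizer ({x} : Set G)) : a * b = b * a := by
  by_cases ha1 : a = 1
  · subst ha1; simp
  by_cases hb1 : b = 1
  · subst hb1; simp
  rw [Subgroup.mem_centralizer_singleton_iff] at ha hb
  have hax : Commute a x := ha
  have hxb : Commute x b := (show Commute b x from hb).symm
  exact hct a x b ha1 hx hb1 hax hxb

/-- Transfer of the CT property along an isomorphism. -/
theorem ct_of_equiv {G H : Type*} [Group G] [Group H] (e : G ≃* H)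
    (hH : ∀ a b c : H, a ≠ 1 → b ≠ 1 → c ≠ 1 → Commute a b → Commute b c → Commute a c) :
    ∀ a b c : G, a ≠ 1 → b ≠ 1 → c ≠ 1 → Commute a b → Commute b c → Commute a c := by
  intro a b c ha hb hc hab hbc
  have h1 : ∀ g : G, g ≠ 1 → e g ≠ 1 := fun g hg h => hg (by simpa using h)
  have := hH (e a) (e b) (e c) (h1 a ha) (h1 b hb) (h1 c hc) (hab.map e) (hbc.map e)
  have h2 : e (a * c) = e (c * a) := by
    rw [map_mul, map_mul]; exact this
  exact e.injective h2

end Cfsg.Agent.H43.CT
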