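import Mathlib

/-!
# S0688-G1a (team piece for helper1)

In a finite solvable group `H` with a maximal normal abelian subgroup `A` whose centralizer is
not abelian, there is an `H`-normal nonabelian `r`-subgroup `N ≤ C_H(A)` of class two.
-/

set_option autoImplicit false

namespace Cfsg.Agent.H43

open scoped commutatorElement

/-- In class two, `x ^ m` commuting with `y` forces `⁅x, y⁆ ^ m = 1`. -/
theorem g1a_comm_pow {H : Type*} [Group H] (x y : H) (m : ℕ)
    (hc : ⁅x, y⁆ * x = x * ⁅x, y⁆) (hm : x ^ m * y = y * x ^ m) : ⁅x, y⁆ ^ m = 1 := by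
  have h1 : y * x * y⁻¹ = ⁅x, y⁆⁻¹ * x := by
    rw [commutatorElement_def]; group
  have h2 : y * x ^ m * y⁻¹ = (⁅x, y⁆⁻¹ * x) ^ m := by
    rw [← h1, conj_pow]
  have hcomm : Commute ⁅x, y⁆⁻¹ x := by
    have : Commute ⁅x, y⁆ x := hc
    exact this.inv_left
  rw [hcomm.mul_pow] at h2
  have h3 : y * x ^ m * y⁻¹ = x ^ m := by
    rw [← hm]; group
  rw [h3] at h2
  have h4 : ⁅x, y⁆⁻¹ ^ m = 1 := by
    have := h2.symm
    exact mul_eq_right.mp this
  rwa [inv_pow, inv_eq_one] at h4

theorem g1a {H : Type*} [Group H] [Finite H] (hsolv : Group.IsSolvable H)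
    (A : Subgroup H) (hAn : A.Normal) (hAc : IsMulCommutative A)
    (hAmax : ∀ B : Subgroup H, B.Normal → IsMulCommutative B → A ≤ B → B = A)
    (hC : ¬ IsMulCommutative (Subgroup.centralizer (A : Set H))) :
    ∃ (N : Subgroup H) (r : ℕ), r.Prime ∧ N.Normal ∧ N ≤ Subgroup.centralizer (A : Set H) ∧
      (∃ x ∈ N, ∃ y ∈ N, x * y ≠ y * x) ∧ IsPGroup r N ∧
      (∀ x ∈ N, ∀ y ∈ N, ∀ z ∈ N, ⁅x, y⁆ * z = z * ⁅x, y⁆) := by
  classical
  set C : Subgroup H := Subgroup.centralizer (A : Set H) with hCdef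
  have hCn : C.Normal := Subgroup.normal_centralizer
  have hCna : ∃ x ∈ C, ∃ y ∈ C, x * y ≠ y * x := by
    by_contra h
    push Not at h
    apply hC
    exact Subgroup.le_centralizer_iff_isMulCommutative.mp
      (fun x hx => Subgroup.mem_centralizer_iff.mpr (fun y hy => h y hy x hx))
  have hAcomm : ∀ a ∈ A, ∀ b ∈ A, a * b = b * a := by
    intro a ha b hb
    have := (Subgroup.le_centralizer_iff_isMulCommutative.mpr hAc) hb
    exact (Subgroup.mem_centralizer_iff.mp this) a ha
  -- minimal counterexample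
  let S : ℕ → Prop := fun n => ∃ N : Subgroup H, N.Normal ∧ N ≤ C ∧
    (∃ x ∈ N, ∃ y ∈ N, x * y ≠ y * x) ∧ Nat.card N = n
  have hS : ∃ n, S n := ⟨Nat.card C, C, hCn, le_rfl, hCna, rfl⟩
  obtain ⟨N, hNn, hNC, hNna, hNcard⟩ := Nat.find_spec hS
  have hmin : ∀ M : Subgroup H, M.Normal → M ≤ C → (∃ x ∈ M, ∃ y ∈ M, x * y ≠ y * x) →
      Nat.card N ≤ Nat.card M := fun M h1 h2 h3 =>
    hNcard ▸ Nat.find_min' hS ⟨M, h1, h2, h3, rfl⟩
  -- (i) proper normal subgroups of `N` are central in `N`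
  have hi : ∀ M : Subgroup H, M.Normal → M ≤ N → M ≠ N → ∀ m ∈ M, ∀ n ∈ N, m * n = n * m := by
    intro M hMn hMN hne
    have hMab : ∀ x ∈ M, ∀ y ∈ M, x * y = y * x := by
      by_contra h
      push Not at h
      obtain ⟨x, hx, y, hy, hxy⟩ := h
      exact hne (Subgroup.eq_of_le_of_card_ge hMN
        (hmin M hMn (hMN.trans hNC) ⟨x, hx, y, hy, hxy⟩))
    have hMA : ∀ m ∈ M, ∀ a ∈ A, a * m = m * a := by
      intro m hm a ha
      exact (Subgroup.mem_centralizer_iff.mp (hNC (hMN hm))) a ha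
    have hsupn : (M ⊔ A).Normal := Subgroup.sup_normal M A
    have hsupc : IsMulCommutative (M ⊔ A : Subgroup H) := by
      apply Subgroup.le_centralizer_iff_isMulCommutative.mp
      have hcl : ((M ⊔ A : Subgroup H) : Set H) ⊆ Subgroup.closure ((M : Set H) ∪ (A : Set H)) := by
        rw [Subgroup.closure_union, Subgroup.closure_eq, Subgroup.closure_eq]
      have hle : Subgroup.centralizer ((M : Set H) ∪ (A : Set H)) ≤
          Subgroup.centralizer ((M ⊔ A : Subgroup H) : Set H) := by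
        rw [← Subgroup.centralizer_closure]
        exact Subgroup.centralizer_le hcl
      refine le_trans ?_ hle
      refine sup_le ?_ ?_
      · intro m hm
        rw [Subgroup.mem_centralizer_iff]
        rintro z (hz | hz)
        · exact hMab z hz m hm
        · exact hMA m hm z hz
      · intro a ha
        rw [Subgroup.mem_centralizer_iff]
        rintro z (hz | hz)
        · exact (hMA z hz a ha).symm
        · exact hAcomm z hz a ha
    have hMleA : M ≤ A := by
      have := hAmax (M ⊔ A) hsupn hsupc le_sup_right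
      rw [← this]; exact le_sup_left
    intro m hm n hn
    exact ((Subgroup.mem_centralizer_iff.mp (hNC hn)) m (hMleA hm))
  -- (ii) class two
  have hNbot : N ≠ ⊥ := by
    rintro rfl
    obtain ⟨x, hx, y, hy, hxy⟩ := hNna
    rw [Subgroup.mem_bot] at hx hy
    subst hx; subst hy
    exact hxy rfl
  have hcomlt : ⁅N, N⁆ < N := Group.IsSolvable.commutator_lt_of_ne_bot hNbot
  have hcomn : (⁅N, N⁆ : Subgroup H).Normal := Subgroup.commutator_normal N N
  have hcl : ∀ x ∈ N, ∀ y ∈ N, ∀ z ∈ N, ⁅x, y⁆ * z = z * ⁅x, y⁆ := by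
    intro x hx y hy z hz
    exact hi ⁅N, N⁆ hcomn hcomlt.le hcomlt.ne _ (Subgroup.commutator_mem_commutator hx hy) z hz
  -- (iii) `N` is an `r`-group
  obtain ⟨x, hx, y, hy, hxy⟩ := hNna
  have hcne : ⁅x, y⁆ ≠ 1 := by
    intro h
    rw [commutatorElement_eq_one_iff_mul_comm] at h
    exact hxy h
  obtain ⟨r, hr, hrdvd⟩ := Nat.exists_prime_and_dvd (n := orderOf ⁅x, y⁆)
    (by rw [Ne, orderOf_eq_one_iff]; exact hcne)
  have : Fact r.Prime := ⟨hr⟩
  have hNnil : Group.IsNilpotent N := by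
    refine ⟨⟨2, ?_⟩⟩
    rw [eq_top_iff]
    intro a _
    rw [Subgroup.mem_upperCentralSeries_succ_iff]
    intro b
    rw [Subgroup.upperCentralSeries_one, Subgroup.mem_center_iff]
    intro g
    apply Subtype.ext
    have := hcl a a.2 b b.2 g g.2
    simpa [commutatorElement_def] using this.symm
  have hPn : ∀ (p : ℕ) (_ : Fact p.Prime) (P : Sylow p N), (P : Subgroup N).Normal :=
    ((Group.isNilpotent_of_finite_tfae (G := N)).out 0 3).mp hNnil
  obtain ⟨P⟩ : Nonempty (Sylow r N) := inferInstance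
  have hPnorm : (P : Subgroup N).Normal := hPn r inferInstance P
  have hPchar : (P : Subgroup N).Characteristic := Sylow.characteristic_of_normal P hPnorm
  have hMn : ((P : Subgroup N).map N.subtype).Normal :=
    ConjAct.normal_of_characteristic_of_normal
  have hMle : (P : Subgroup N).map N.subtype ≤ N := Subgroup.map_subtype_le _
  have hMeq : (P : Subgroup N).map N.subtype = N := by
    by_contra hne
    have hcent := hi _ hMn hMle hne
    have hxm : (⟨x, hx⟩ : N) ^ (P : Subgroup N).index ∈ (P : Subgroup N) :=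
      Subgroup.pow_index_mem _ _
    have hxm' : x ^ (P : Subgroup N).index ∈ (P : Subgroup N).map N.subtype :=
      ⟨_, hxm, by simp⟩
    have h1 := g1a_comm_pow x y (P : Subgroup N).index (hcl x hx y hy x hx)
      (hcent _ hxm' y hy)
    have h2 : orderOf ⁅x, y⁆ ∣ (P : Subgroup N).index := orderOf_dvd_of_pow_eq_one h1
    exact P.not_dvd_index (hrdvd.trans h2)
  refine ⟨N, r, hr, hNn, hNC, ⟨x, hx, y, hy, hxy⟩, ?_, hcl⟩
  intro g
  have hg : (g : H) ∈ (P : Subgroup N).map N.subtype := by rw [hMeq]; exact g.2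
  obtain ⟨g', hg', hgg'⟩ := hg
  have hgeq : g' = g := Subtype.ext (by simpa using hgg')
  subst hgeq
  obtain ⟨k, hk⟩ := P.2 ⟨g', hg'⟩
  refine ⟨k, ?_⟩
  have := congrArg Subtype.val hk
  simpa using this

end Cfsg.Agent.H43
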