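import Mathlib
import Cfsg.Prelude.Def_Transfer
import Cfsg.Agent.H43.GLWreath
import Cfsg.Agent.H43.InvDiag
import Cfsg.Agent.H43.NonSq

set_option autoImplicit false

/-! Helper lemmas (helper43): an upper bound for the order of a family of commuting involutory
matrices normalized by block elements of order `8` (the normal `2`-rank of `GL_n(q)`,
`q ≡ 3 (mod 4)`). -/

namespace Cfsg.Agent.H43

open Matrix Module

section joint

variable {F : Type*} [Field F] {n : Type*} [Fintype n] [DecidableEq n] {α : Type*}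

/-- `u` is a joint eigenvector of the family `M` with character `θ`. -/
def JointEig (M : α → Matrix n n F) (u : n → F) (θ : α → F) : Prop :=
  ∀ a, M a *ᵥ u = θ a • u

theorem JointEig.mulVec {M : α → Matrix n n F} {u : n → F} {θ : α → F} (h : JointEig M u θ)
    {ρ : Matrix n n F} {π : α → α} (hπ : ∀ a, M a * ρ = ρ * M (π a)) :
    JointEig M (ρ *ᵥ u) (θ ∘ π) := by
  intro a
  rw [Matrix.mulVec_mulVec, hπ, ← Matrix.mulVec_mulVec, h (π a), Matrix.mulVec_smul]
  rfl

theorem JointEig.pow_mulVec {M : α → Matrix n n F} {u : n → F} {θ : α → F} (h : JointEig M u θ)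
    {ρ : Matrix n n F} {π : α → α} (hπ : ∀ a, M a * ρ = ρ * M (π a)) (m : ℕ) :
    JointEig M ((ρ ^ m) *ᵥ u) (θ ∘ π^[m]) := by
  induction m with
  | zero => simpa using h
  | succ m ih =>
    have := ih.mulVec hπ
    rw [Matrix.mulVec_mulVec, ← pow_succ'] at this
    rw [Function.iterate_succ]
    exact this

theorem JointEig.char_unique {M : α → Matrix n n F} {u : n → F} {θ θ' : α → F}
    (h : JointEig M u θ) (h' : JointEig M u θ') (hu : u ≠ 0) : θ = θ' := by
  funext a
  have := (h a).symm.trans (h' a)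
  exact smul_left_injective F hu this

theorem coord_mulVec (M : α → Matrix n n F) (b : Basis n F (n → F)) (ε : α → n → F)
    (hb : ∀ a k, M a *ᵥ b k = ε a k • b k) (a : α) (u : n → F) (j : n) :
    b.repr (M a *ᵥ u) j = ε a j * b.repr u j := by
  have h1 : (b.coord j).comp (Matrix.mulVecLin (M a)) = ε a j • b.coord j := by
    apply b.ext
    intro l
    rw [LinearMap.comp_apply, Matrix.mulVecLin_apply, hb, LinearMap.smul_apply, map_smul,
      Basis.coord_apply, Basis.repr_self, smul_eq_mul, smul_eq_mul]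
    by_cases h : l = j
    · subst h; rfl
    · rw [Finsupp.single_eq_of_ne' h, mul_zero, mul_zero]
  have := congrArg (fun f => f u) h1
  simpa using this

theorem JointEig.char_eq_of_coord_ne {M : α → Matrix n n F} {b : Basis n F (n → F)}
    {ε : α → n → F} (hb : ∀ a k, M a *ᵥ b k = ε a k • b k) {u : n → F} {θ : α → F}
    (h : JointEig M u θ) {j : n} (hj : b.repr u j ≠ 0) (a : α) : θ a = ε a j := by
  have h1 := coord_mulVec M b ε hb a u j
  rw [h a, map_smul, Finsupp.smul_apply, smul_eq_mul] at h1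
  exact mul_right_cancel₀ hj h1

theorem JointEig.eq_smul_of_simple {M : α → Matrix n n F} {b : Basis n F (n → F)}
    {ε : α → n → F} (hb : ∀ a k, M a *ᵥ b k = ε a k • b k) {k : n}
    (hk : ∀ j, (∀ a, ε a j = ε a k) → j = k) {u : n → F}
    (h : JointEig M u (fun a => ε a k)) : u = b.repr u k • b k := by
  have h0 : ∀ j, j ≠ k → b.repr u j = 0 := by
    intro j hj
    by_contra hne
    exact hj (hk j (fun a => (h.char_eq_of_coord_ne hb hne a).symm))
  conv_lhs => rw [← b.sum_repr u]
  rw [Finset.sum_eq_single k]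
  · intro j _ hj
    rw [h0 j hj, zero_smul]
  · intro h
    exact absurd (Finset.mem_univ _) h

/-- A matrix `ρ` acting as `x` on a two-dimensional coordinate block (with projection `p` and
extension by zero `q`) and as the identity on the complementary coordinates. -/
structure BlockAct (ρ : Matrix n n F) (x : Matrix (Fin 2) (Fin 2) F)
    (p : (n → F) →ₗ[F] (Fin 2 → F)) (q : (Fin 2 → F) →ₗ[F] (n → F)) : Prop where
  pq : ∀ w, p (q w) = w
  act : ∀ u, ρ *ᵥ u = u + q (x *ᵥ p u - p u)

theorem BlockAct.pow_act {ρ : Matrix n n F} {x : Matrix (Fin 2) (Fin 2) F}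
    {p : (n → F) →ₗ[F] (Fin 2 → F)} {q : (Fin 2 → F) →ₗ[F] (n → F)} (h : BlockAct ρ x p q)
    (m : ℕ) (u : n → F) : (ρ ^ m) *ᵥ u = u + q ((x ^ m) *ᵥ p u - p u) := by
  induction m with
  | zero => simp
  | succ m ih =>
    rw [pow_succ', ← Matrix.mulVec_mulVec, h.act, ih]
    have : p (u + q ((x ^ m) *ᵥ p u - p u)) = (x ^ m) *ᵥ p u := by
      rw [map_add, h.pq]
      abel
    rw [this, Matrix.mulVec_mulVec, ← pow_succ', add_assoc, ← map_add]
    congr 2
    abel

theorem BlockAct.p_pow {ρ : Matrix n n F} {x : Matrix (Fin 2) (Fin 2) F}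
    {p : (n → F) →ₗ[F] (Fin 2 → F)} {q : (Fin 2 → F) →ₗ[F] (n → F)} (h : BlockAct ρ x p q)
    (m : ℕ) (u : n → F) : p ((ρ ^ m) *ᵥ u) = (x ^ m) *ᵥ p u := by
  rw [h.pow_act, map_add, h.pq]
  abel

/-- The key step: a joint eigenvector with a simple character has zero component in every block
on which a normalizing element acts as `x`, where `x ^ 8 = 1` and `x ^ 2` has no eigenvector. -/
theorem block_coord_zero {M : α → Matrix n n F} {b : Basis n F (n → F)} {ε : α → n → F}
    (hb : ∀ a k, M a *ᵥ b k = ε a k • b k) {ρ : Matrix n n F} {x : Matrix (Fin 2) (Fin 2) F}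
    {p : (n → F) →ₗ[F] (Fin 2 → F)} {q : (Fin 2 → F) →ₗ[F] (n → F)} (hρ : BlockAct ρ x p q)
    (hx8 : x ^ 8 = 1) (hx : ∀ (μ : F) (w : Fin 2 → F), (x * x) *ᵥ w = μ • w → w = 0)
    (hnorm : ∀ a, ∃ a', M a * ρ = ρ * M a') {k : n}
    (hk : ∀ j, (∀ a, ε a j = ε a k) → j = k) : p (b k) = 0 := by
  choose π hπ using hnorm
  obtain ⟨v, hvdef⟩ : ∃ v, v = b k := ⟨_, rfl⟩
  rw [← hvdef]
  have hv : JointEig M v (fun a => ε a k) := by
    intro a
    rw [hvdef]
    exact hb a k
  have hv0 : v ≠ 0 := by
    rw [hvdef]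
    exact b.ne_zero k
  have hu : ∀ m, JointEig M ((ρ ^ m) *ᵥ v) ((fun a => ε a k) ∘ π^[m]) :=
    fun m => hv.pow_mulVec hπ m
  have h8 : ∀ u : n → F, (ρ ^ 8) *ᵥ u = u := by
    intro u
    rw [hρ.pow_act, hx8, Matrix.one_mulVec, sub_self, map_zero, add_zero]
  have key : ∃ c : F, (ρ ^ 2) *ᵥ v = c • v := by
    by_cases hd : ∃ m m' : ℕ, m < m' ∧ m' ≤ 3 ∧
        (fun a => ε a k) ∘ π^[m] = (fun a => ε a k) ∘ π^[m']
    · obtain ⟨m, m', hlt, hle, heq⟩ := hd
      have h1 := (hu m).pow_mulVec hπ (8 - m)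
      have h2 := (hu m').pow_mulVec hπ (8 - m)
      rw [Matrix.mulVec_mulVec, ← pow_add, show 8 - m + m = 8 by omega, h8] at h1
      rw [Matrix.mulVec_mulVec, ← pow_add, show 8 - m + m' = (m' - m) + 8 by omega, pow_add,
        ← Matrix.mulVec_mulVec, h8, ← heq] at h2
      have h3 := h1.char_unique hv hv0
      rw [h3] at h2
      have h4 := h2.eq_smul_of_simple hb hk
      rw [← hvdef] at h4
      obtain ⟨c, hc⟩ : ∃ c : F, (ρ ^ (m' - m)) *ᵥ v = c • v := ⟨_, h4⟩
      have hpow : ∀ t : ℕ, (ρ ^ ((m' - m) * t)) *ᵥ v = c ^ t • v := by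
        intro t
        induction t with
        | zero => simp
        | succ t ih =>
          rw [Nat.mul_succ, pow_add, ← Matrix.mulVec_mulVec, hc, Matrix.mulVec_smul, ih, smul_smul,
            pow_succ']
      have hd : m' - m = 1 ∨ m' - m = 2 ∨ m' - m = 3 := by omega
      rcases hd with hd | hd | hd
      · refine ⟨c ^ 2, ?_⟩
        have := hpow 2
        rwa [hd] at this
      · refine ⟨c ^ 1, ?_⟩
        have := hpow 1
        rwa [hd] at this
      · refine ⟨c ^ 6, ?_⟩
        have := hpow 6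
        rw [hd, show 3 * 6 = 2 + 8 + 8 by norm_num, pow_add, pow_add, ← Matrix.mulVec_mulVec,
          ← Matrix.mulVec_mulVec, h8, h8] at this
        exact this
    · exfalso
      push Not at hd
      obtain ⟨w, hw⟩ : ∃ w : Fin 3 → (Fin 2 → F),
          w = fun t => (x ^ (t.val + 1)) *ᵥ p v - p v := ⟨_, rfl⟩
      have hdep : ¬ LinearIndependent F w := by
        intro hli
        have := hli.fintype_card_le_finrank
        rw [Module.finrank_fintype_fun_eq_card] at this
        simp at this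
      rw [Fintype.not_linearIndependent_iff] at hdep
      obtain ⟨g, hg, t₀, ht₀⟩ := hdep
      have hrel : ∑ t : Fin 3, g t • ((ρ ^ (t.val + 1)) *ᵥ v - v) = 0 := by
        have : ∀ t : Fin 3, (ρ ^ (t.val + 1)) *ᵥ v - v = q (w t) := by
          intro t
          rw [hρ.pow_act, hw]
          simp
        simp_rw [this, ← map_smul, ← map_sum, hg, map_zero]
      have hne : (ρ ^ (t₀.val + 1)) *ᵥ v ≠ 0 := by
        intro h0
        have h5 := congrArg (fun u => (ρ ^ (8 - (t₀.val + 1))) *ᵥ u) h0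
        simp only [Matrix.mulVec_mulVec, ← pow_add, Matrix.mulVec_zero] at h5
        have ht := t₀.isLt
        rw [show 8 - (t₀.val + 1) + (t₀.val + 1) = 8 by omega, h8] at h5
        exact hv0 h5
      obtain ⟨j, hj⟩ : ∃ j, b.repr ((ρ ^ (t₀.val + 1)) *ᵥ v) j ≠ 0 := by
        by_contra hall
        push Not at hall
        apply hne
        apply b.repr.injective
        ext j
        simp [hall j]
      have hchar : ∀ m, m ≤ 3 → m ≠ t₀.val + 1 → b.repr ((ρ ^ m) *ᵥ v) j = 0 := by
        intro m hm hmt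
        by_contra hne'
        have e1 := fun a => (hu m).char_eq_of_coord_ne hb hne' a
        have e2 := fun a => (hu (t₀.val + 1)).char_eq_of_coord_ne hb hj a
        have e3 : (fun a => ε a k) ∘ π^[m] = (fun a => ε a k) ∘ π^[t₀.val + 1] := by
          funext a
          exact (e1 a).trans (e2 a).symm
        have ht := t₀.isLt
        rcases lt_or_gt_of_ne hmt with hlt | hgt
        · exact hd m (t₀.val + 1) hlt (by omega) e3
        · exact hd (t₀.val + 1) m hgt hm e3.symm
      have hv0j : b.repr v j = 0 := by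
        have := hchar 0 (by omega) (by omega)
        simpa using this
      have h6 := congrArg (fun u => b.repr u j) hrel
      simp only [map_sum, map_smul, map_sub, Finsupp.coe_finset_sum, Finset.sum_apply,
        Finsupp.smul_apply, Finsupp.sub_apply, smul_eq_mul, map_zero, Finsupp.zero_apply] at h6
      rw [Finset.sum_eq_single t₀] at h6
      · rw [hv0j, sub_zero] at h6
        exact (mul_ne_zero ht₀ hj) h6
      · intro t _ ht
        have htl := t.isLt
        rw [hchar (t.val + 1) (by omega) (by intro h; apply ht; ext; omega), hv0j, sub_zero,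
          mul_zero]
      · intro h
        exact absurd (Finset.mem_univ _) h
  obtain ⟨c, hc⟩ := key
  have h7 := congrArg p hc
  rw [hρ.p_pow, map_smul, pow_two] at h7
  exact hx c (p v) h7

end joint

section count

/-- Counting characters: if at most `c` indices have a character shared with no other index, then
twice the number of characters is at most the number of indices plus `c`. -/
theorem card_image_char_le {ι X : Type*} [Fintype ι] [DecidableEq ι] [DecidableEq X] (χ : ι → X)
    (c : ℕ) (hs : (Finset.univ.filter (fun k => ∀ j, χ j = χ k → j = k)).card ≤ c) :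
    2 * (Finset.univ.image χ).card ≤ Fintype.card ι + c := by
  classical
  obtain ⟨S, hS⟩ : ∃ S : Finset ι, S = Finset.univ.filter (fun k => ∀ j, χ j = χ k → j = k) :=
    ⟨_, rfl⟩
  rw [← hS] at hs
  have h1 : Fintype.card ι =
      ∑ y ∈ Finset.univ.image χ, (Finset.univ.filter (fun k => χ k = y)).card := by
    rw [← Finset.card_univ]
    exact Finset.card_eq_sum_card_image χ Finset.univ
  have h2 : S.card = ∑ y ∈ Finset.univ.image χ, (S.filter (fun k => χ k = y)).card :=
    Finset.card_eq_sum_card_fiberwise (fun k _ => Finset.mem_image_of_mem χ (Finset.mem_univ k))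
  have h3 : ∀ y ∈ Finset.univ.image χ, 2 ≤ (Finset.univ.filter (fun k => χ k = y)).card +
      (S.filter (fun k => χ k = y)).card := by
    intro y hy
    obtain ⟨k, -, rfl⟩ := Finset.mem_image.mp hy
    by_cases hk : ∀ j, χ j = χ k → j = k
    · have a1 : 1 ≤ (Finset.univ.filter (fun k' => χ k' = χ k)).card :=
        Finset.card_pos.mpr ⟨k, by simp⟩
      have a2 : 1 ≤ (S.filter (fun k' => χ k' = χ k)).card :=
        Finset.card_pos.mpr ⟨k, by
          rw [hS]
          simp only [Finset.mem_filter, Finset.mem_univ, true_and, and_true]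
          exact hk⟩
      omega
    · push Not at hk
      obtain ⟨j, hj, hjk⟩ := hk
      have hsub : ({j, k} : Finset ι) ⊆ Finset.univ.filter (fun k' => χ k' = χ k) := by
        intro z hz
        rw [Finset.mem_insert, Finset.mem_singleton] at hz
        rcases hz with rfl | rfl <;> simp [hj]
      have := Finset.card_le_card hsub
      rw [Finset.card_pair hjk] at this
      omega
  calc 2 * (Finset.univ.image χ).card = ∑ _y ∈ Finset.univ.image χ, 2 := by
        rw [Finset.sum_const, smul_eq_mul, mul_comm]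
    _ ≤ ∑ y ∈ Finset.univ.image χ, ((Finset.univ.filter (fun k => χ k = y)).card +
          (S.filter (fun k => χ k = y)).card) := Finset.sum_le_sum h3
    _ = Fintype.card ι + S.card := by rw [Finset.sum_add_distrib, ← h1, ← h2]
    _ ≤ _ := by omega

end count

section block

variable {F : Type*} [Field F] {κ γ : Type*} [Fintype κ] [DecidableEq κ] [Fintype γ]
  [DecidableEq γ] {β : Type*} [Fintype β] [DecidableEq β]

theorem bdMat_mulVec_inl (k : κ → Matrix β β F) (d : γ → F) (u : (β × κ) ⊕ γ → F) (j : β)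
    (i : κ) : (bdMat k d *ᵥ u) (Sum.inl (j, i)) = (k i *ᵥ fun j' => u (Sum.inl (j', i))) j := by
  simp only [Matrix.mulVec, dotProduct, bdMat, Fintype.sum_sum_type, Matrix.fromBlocks_apply₁₁,
    Matrix.fromBlocks_apply₁₂, Matrix.zero_apply, zero_mul, Finset.sum_const_zero, add_zero,
    Fintype.sum_prod_type, Matrix.blockDiagonal_apply]
  refine Finset.sum_congr rfl fun j' _ => ?_
  rw [Finset.sum_eq_single i]
  · rw [if_pos rfl]
  · intro i' _ hi'
    rw [if_neg (fun h => hi' h.symm), zero_mul]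
  · intro h
    exact absurd (Finset.mem_univ _) h

theorem bdMat_mulVec_inr (k : κ → Matrix β β F) (d : γ → F) (u : (β × κ) ⊕ γ → F) (g : γ) :
    (bdMat k d *ᵥ u) (Sum.inr g) = d g * u (Sum.inr g) := by
  simp only [Matrix.mulVec, dotProduct, bdMat, Fintype.sum_sum_type, Matrix.fromBlocks_apply₂₁,
    Matrix.fromBlocks_apply₂₂, Matrix.zero_apply, zero_mul, Finset.sum_const_zero, zero_add]
  rw [Finset.sum_eq_single g]
  · rw [Matrix.diagonal_apply_eq]
  · intro g' _ hg'
    rw [Matrix.diagonal_apply_ne _ (fun h => hg' h.symm), zero_mul]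
  · intro h
    exact absurd (Finset.mem_univ _) h

/-- Projection onto the coordinates of the block `i`. -/
def blkProj (F : Type*) [Field F] {κ : Type*} (γ : Type*) (i : κ) :
    ((Fin 2 × κ) ⊕ γ → F) →ₗ[F] (Fin 2 → F) :=
  LinearMap.funLeft F F (fun j => Sum.inl (j, i))

theorem blkProj_apply (i : κ) (u : (Fin 2 × κ) ⊕ γ → F) (j : Fin 2) :
    blkProj F γ i u j = u (Sum.inl (j, i)) := rfl

/-- Extension by zero from the block `i`. -/
def blkExt (F : Type*) [Field F] {κ : Type*} [DecidableEq κ] (γ : Type*) (i : κ) :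
    (Fin 2 → F) →ₗ[F] ((Fin 2 × κ) ⊕ γ → F) where
  toFun w := Sum.elim (fun y : Fin 2 × κ => if y.2 = i then w y.1 else 0) (fun _ => 0)
  map_add' := by
    intro w w'
    funext s
    rcases s with ⟨j, i'⟩ | g
    · by_cases h : i' = i <;> simp [h]
    · simp
  map_smul' := by
    intro c w
    funext s
    rcases s with ⟨j, i'⟩ | g
    · by_cases h : i' = i <;> simp [h]
    · simp

theorem blkExt_inl (i : κ) (w : Fin 2 → F) (j : Fin 2) (i' : κ) :
    blkExt F γ i w (Sum.inl (j, i')) = if i' = i then w j else 0 := rfl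

theorem blkExt_inr (i : κ) (w : Fin 2 → F) (g : γ) : blkExt F γ i w (Sum.inr g) = 0 := rfl

theorem blockAct_bdMat (x : Matrix (Fin 2) (Fin 2) F) (i : κ) :
    BlockAct (bdMat (Function.update (fun _ : κ => (1 : Matrix (Fin 2) (Fin 2) F)) i x)
      (fun _ : γ => (1 : F))) x (blkProj F γ i) (blkExt F γ i) where
  pq := by
    intro w
    funext j
    rw [blkProj_apply, blkExt_inl, if_pos rfl]
  act := by
    intro u
    funext s
    rcases s with ⟨j, i'⟩ | g
    · rw [bdMat_mulVec_inl, Pi.add_apply, blkExt_inl]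
      by_cases h : i' = i
      · subst h
        rw [Function.update_self, if_pos rfl, Pi.sub_apply, blkProj_apply]
        have : (fun j' => u (Sum.inl (j', i'))) = blkProj F γ i' u := rfl
        rw [this]
        ring
      · rw [Function.update_of_ne h, if_neg h, Matrix.one_mulVec, add_zero]
    · rw [bdMat_mulVec_inr, Pi.add_apply, blkExt_inr, one_mul, add_zero]

/-- **Core bound**: an injective family of commuting involutory matrices of the index type
`(Fin 2 × κ) ⊕ γ` which is normalized by the block elements acting as `x` on one block, where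
`x ^ 8 = 1` and `x ^ 2` has no eigenvector, has at most `2 ^ (|κ| + |γ|)` members. -/
theorem card_le_of_block_normalized (h2 : (2 : F) ≠ 0) (x : Matrix (Fin 2) (Fin 2) F)
    (hx8 : x ^ 8 = 1) (hx : ∀ (μ : F) (w : Fin 2 → F), (x * x) *ᵥ w = μ • w → w = 0)
    {α : Type*} [Finite α] (M : α → Matrix ((Fin 2 × κ) ⊕ γ) ((Fin 2 × κ) ⊕ γ) F)
    (hM : Function.Injective M) (hinv : ∀ a, M a * M a = 1)
    (hcomm : ∀ a b, M a * M b = M b * M a)
    (hnorm : ∀ (i : κ) (a : α), ∃ a',
      M a * bdMat (Function.update (fun _ : κ => (1 : Matrix (Fin 2) (Fin 2) F)) i x)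
        (fun _ : γ => (1 : F)) =
      bdMat (Function.update (fun _ : κ => (1 : Matrix (Fin 2) (Fin 2) F)) i x)
        (fun _ : γ => (1 : F)) * M a') :
    Nat.card α ≤ 2 ^ (Fintype.card κ + Fintype.card γ) := by
  classical
  obtain ⟨b, ε, hε, hb⟩ := exists_sign_basis h2 M hinv hcomm
  obtain ⟨χ, hχ⟩ : ∃ χ : (Fin 2 × κ) ⊕ γ → (α → F), χ = fun k a => ε a k := ⟨_, rfl⟩
  have hA : Nat.card α ≤ 2 ^ (Finset.univ.image χ).card := by
    have := card_le_two_pow_of_sign_inj (κ := ↥(Finset.univ.image χ))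
      (fun (a : α) (y : ↥(Finset.univ.image χ)) => (y : α → F) a) ?_ ?_
    · rwa [Fintype.card_coe] at this
    · intro a y
      obtain ⟨k, -, hk⟩ := Finset.mem_image.mp y.2
      rw [← hk, hχ]
      exact hε a k
    · intro a a' h
      apply hM
      apply Matrix.toLin'.injective
      apply b.ext
      intro k
      rw [Matrix.toLin'_apply, Matrix.toLin'_apply, hb, hb]
      have h1 := congrFun h ⟨χ k, Finset.mem_image_of_mem χ (Finset.mem_univ k)⟩
      have h2 : ε a k = ε a' k := by
        rw [hχ] at h1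
        exact h1
      rw [h2]
  have hB : (Finset.univ.filter (fun k => ∀ j, χ j = χ k → j = k)).card ≤ Fintype.card γ := by
    obtain ⟨S, hS⟩ : ∃ S : Finset ((Fin 2 × κ) ⊕ γ),
        S = Finset.univ.filter (fun k => ∀ j, χ j = χ k → j = k) := ⟨_, rfl⟩
    rw [← hS]
    have hzero : ∀ k ∈ S, ∀ (j : Fin 2) (i : κ), b k (Sum.inl (j, i)) = 0 := by
      intro k hk j i
      rw [hS, Finset.mem_filter] at hk
      have hk' : ∀ j', (∀ a, ε a j' = ε a k) → j' = k := by
        intro j' h
        apply hk.2 j'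
        rw [hχ]
        funext a
        exact h a
      have := block_coord_zero hb (blockAct_bdMat (γ := γ) x i) hx8 hx (hnorm i) hk'
      exact congrFun this j
    have hli : LinearIndependent F (fun k : ↥S => b k) :=
      b.linearIndependent.comp _ Subtype.val_injective
    have hli' : LinearIndependent F (fun k : ↥S =>
        LinearMap.funLeft F F (Sum.inr : γ → (Fin 2 × κ) ⊕ γ) (b k)) := by
      apply hli.map
      rw [Submodule.disjoint_def]
      intro w hw hPw
      have hle : Submodule.span F (Set.range fun k : ↥S => b k) ≤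
          LinearMap.ker (LinearMap.funLeft F F (Sum.inl : Fin 2 × κ → (Fin 2 × κ) ⊕ γ)) := by
        rw [Submodule.span_le]
        rintro _ ⟨k, rfl⟩
        rw [SetLike.mem_coe, LinearMap.mem_ker]
        funext s
        exact hzero k k.2 s.1 s.2
      have h1 := hle hw
      rw [LinearMap.mem_ker] at h1 hPw
      funext s
      rcases s with s | g
      · exact congrFun h1 s
      · exact congrFun hPw g
    have := hli'.fintype_card_le_finrank
    rwa [Fintype.card_coe, Module.finrank_fintype_fun_eq_card] at this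
  have hC := card_image_char_le χ (Fintype.card γ) hB
  have hι : Fintype.card ((Fin 2 × κ) ⊕ γ) = 2 * Fintype.card κ + Fintype.card γ := by
    simp
  have hX : (Finset.univ.image χ).card ≤ Fintype.card κ + Fintype.card γ := by omega
  exact hA.trans (Nat.pow_le_pow_right (by norm_num) hX)

end block

section order8

variable {F : Type*} [Field F] [Fintype F]

/-- Over a finite field with `q ≡ 3 (mod 4)` there is an element of `GL_2` with `x ^ 8 = 1` whose
square has no eigenvector. -/
theorem exists_order8_block (h3 : Fintype.card F % 4 = 3) :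
    ∃ x : Matrix.GeneralLinearGroup (Fin 2) F, x ^ 8 = 1 ∧
      ∀ (μ : F) (w : Fin 2 → F),
        ((x : Matrix (Fin 2) (Fin 2) F) * (x : Matrix (Fin 2) (Fin 2) F)) *ᵥ w = μ • w → w = 0 := by
  have hodd : Odd (Fintype.card F) := by
    rw [Nat.odd_iff]
    omega
  have h2 : (2 : F) ≠ 0 := two_ne_zero_of_odd_card hodd
  have hm1 : ¬ IsSquare (-1 : F) := by
    rw [FiniteField.isSquare_neg_one_iff]
    simp [h3]
  obtain ⟨c, s, hs, hc⟩ : ∃ c s : F, s * s = 1 ∧ c * c = 2 * s := by
    by_cases h : IsSquare (2 : F)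
    · obtain ⟨c, hc⟩ := h
      exact ⟨c, 1, by ring, by rw [← hc]; ring⟩
    · have h' : IsSquare (-2 : F) := isSquare_of_not_isSquare_neg hm1 (by rwa [neg_neg])
      obtain ⟨c, hc⟩ := h'
      exact ⟨c, -1, by ring, by rw [← hc]; ring⟩
  have hs0 : s ≠ 0 := by
    rintro rfl
    simp at hs
  have hc0 : c ≠ 0 := by
    rintro rfl
    rw [mul_zero] at hc
    exact mul_ne_zero h2 hs0 hc.symm
  obtain ⟨t, ht⟩ : ∃ t : F, t = c⁻¹ := ⟨_, rfl⟩
  have ht2 : 2 * s * (t * t) = 1 := by
    rw [ht, ← hc]
    field_simp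
  obtain ⟨A, hA⟩ : ∃ A : Matrix (Fin 2) (Fin 2) F, A = !![t, -(s * t); s * t, t] := ⟨_, rfl⟩
  obtain ⟨B, hB⟩ : ∃ B : Matrix (Fin 2) (Fin 2) F, B = !![s * t, t; -t, s * t] := ⟨_, rfl⟩
  have hAA : A * A = !![0, -1; 1, 0] := by
    rw [hA]
    ext i j
    fin_cases i <;> fin_cases j <;>
      simp [Matrix.mul_apply, Fin.sum_univ_two] <;>
      first
        | linear_combination (-(t * t)) * hs
        | linear_combination (-1 : F) * ht2
        | linear_combination ht2
  have hAB : A * B = 1 := by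
    rw [hA, hB]
    ext i j
    fin_cases i <;> fin_cases j <;>
      simp [Matrix.mul_apply, Fin.sum_univ_two] <;>
      first
        | linear_combination ht2
        | linear_combination (t * t) * hs
        | linear_combination (-(t * t)) * hs
        | ring
  have hBA : B * A = 1 := by
    rw [hA, hB]
    ext i j
    fin_cases i <;> fin_cases j <;>
      simp [Matrix.mul_apply, Fin.sum_univ_two] <;>
      first
        | linear_combination ht2
        | linear_combination (t * t) * hs
        | linear_combination (-(t * t)) * hs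
        | ring
  have hJJ : (!![0, -1; 1, 0] : Matrix (Fin 2) (Fin 2) F) * !![0, -1; 1, 0] = -1 := by
    ext i j
    fin_cases i <;> fin_cases j <;> simp [Matrix.mul_apply, Fin.sum_univ_two]
  have hA8 : A ^ 8 = 1 := by
    have e : A ^ 8 = ((A * A) * (A * A)) * ((A * A) * (A * A)) := by
      simp only [pow_succ, pow_zero, one_mul, mul_assoc]
    rw [e, hAA, hJJ]
    simp
  refine ⟨⟨A, B, hAB, hBA⟩, ?_, ?_⟩
  · apply Units.ext
    rw [Units.val_pow_eq_pow_val]
    exact hA8
  · intro μ w hw
    change (A * A) *ᵥ w = μ • w at hw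
    rw [hAA] at hw
    have e0 := congrFun hw 0
    have e1 := congrFun hw 1
    simp [Matrix.mulVec, dotProduct, Fin.sum_univ_two] at e0 e1
    have hμ : μ * μ + 1 ≠ 0 := by
      intro h
      apply hm1
      exact ⟨μ, by linear_combination (-1 : F) * h⟩
    have hw1 : w 1 = 0 := by
      have : (μ * μ + 1) * w 1 = 0 := by linear_combination (-1 : F) * e0 - μ * e1
      rcases mul_eq_zero.mp this with h | h
      · exact absurd h hμ
      · exact h
    have hw0 : w 0 = 0 := by
      rw [e1, hw1, mul_zero]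
    funext i
    fin_cases i
    · exact hw0
    · exact hw1

end order8

section sylow

variable {F : Type*} [Field F] [Fintype F] {κ γ : Type*} [Fintype κ] [DecidableEq κ] [Fintype γ]
  [DecidableEq γ]

/-- **Upper bound for the normal `2`-rank of `GL_n(q)`, `q ≡ 3 (mod 4)`**: a normal elementary
abelian subgroup of a Sylow `2`-subgroup of `GL_n(F)`, `n = 2 |κ| + |γ|`, has order at most
`2 ^ (|κ| + |γ|)`. -/
theorem card_normal_elemAb_GL_le (h3 : Fintype.card F % 4 = 3) {n : ℕ}
    (e : (Fin 2 × κ) ⊕ γ ≃ Fin n) (S : Sylow 2 (Matrix.GeneralLinearGroup (Fin n) F))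
    (E : Subgroup ↥(S : Subgroup (Matrix.GeneralLinearGroup (Fin n) F))) (hEn : E.Normal)
    (hE : Cfsg.IsElementaryAbelian 2 E) :
    Nat.card E ≤ 2 ^ (Fintype.card κ + Fintype.card γ) := by
  classical
  have hodd : Odd (Fintype.card F) := by
    rw [Nat.odd_iff]
    omega
  have h2 : (2 : F) ≠ 0 := two_ne_zero_of_odd_card hodd
  obtain ⟨x, hx8, hx⟩ := exists_order8_block h3
  obtain ⟨ψ, hψ⟩ : ∃ ψ : Matrix.GeneralLinearGroup ((Fin 2 × κ) ⊕ γ) F ≃*
      Matrix.GeneralLinearGroup (Fin n) F, ψ = glReindex F e := ⟨_, rfl⟩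
  obtain ⟨R₀, hR₀def⟩ : ∃ R₀ : Subgroup ((κ → Matrix.GeneralLinearGroup (Fin 2) F) × (γ → Fˣ)),
      R₀ = (Subgroup.pi Set.univ fun _ => Subgroup.zpowers x).prod ⊥ := ⟨_, rfl⟩
  have hR₀ : IsPGroup 2 R₀ := by
    intro g
    refine ⟨3, ?_⟩
    apply Subtype.ext
    obtain ⟨⟨f, d⟩, hg⟩ := g
    rw [hR₀def, Subgroup.mem_prod] at hg
    obtain ⟨hf, hd⟩ := hg
    have hd1 : d = 1 := Subgroup.mem_bot.mp hd
    have hf8 : ∀ i, f i ^ 8 = 1 := by
      intro i
      have hfi : f i ∈ Subgroup.zpowers x := (Subgroup.mem_pi _).mp hf i (Set.mem_univ i)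
      obtain ⟨z, hz⟩ := Subgroup.mem_zpowers_iff.mp hfi
      rw [← hz, ← zpow_natCast, ← _root_.zpow_mul, mul_comm, _root_.zpow_mul, zpow_natCast, hx8,
        _root_.one_zpow]
    change ((f, d) : (κ → Matrix.GeneralLinearGroup (Fin 2) F) × (γ → Fˣ)) ^ (2 ^ 3) = 1
    apply Prod.ext
    · funext i
      exact hf8 i
    · rw [hd1]
      simp
  obtain ⟨R, hRdef⟩ : ∃ R : Subgroup (Matrix.GeneralLinearGroup (Fin n) F),
      R = R₀.map (ψ.toMonoidHom.comp (bdHom F κ (Fin 2) γ)) := ⟨_, rfl⟩
  have hR : IsPGroup 2 R := by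
    rw [hRdef]
    exact hR₀.map _
  obtain ⟨P, hP⟩ := hR.exists_le_sylow
  obtain ⟨g, hg⟩ := MulAction.exists_smul_eq (Matrix.GeneralLinearGroup (Fin n) F) S P
  have hconj : ∀ r ∈ R, g⁻¹ * r * g ∈ (S : Subgroup (Matrix.GeneralLinearGroup (Fin n) F)) := by
    intro r hr
    have := hP hr
    rw [← hg, Sylow.coe_subgroup_smul, Subgroup.mem_pointwise_smul_iff_inv_smul_mem] at this
    simpa [MulAut.smul_def] using this
  have hρmem : ∀ i : κ, ψ (bdHom F κ (Fin 2) γ
      (Function.update (fun _ => 1) i x, fun _ => 1)) ∈ R := by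
    intro i
    rw [hRdef]
    refine ⟨(Function.update (fun _ => 1) i x, fun _ => 1), ?_, rfl⟩
    rw [hR₀def, SetLike.mem_coe, Subgroup.mem_prod]
    refine ⟨?_, Subgroup.mem_bot.mpr rfl⟩
    rw [Subgroup.mem_pi]
    intro i' _
    change Function.update (fun _ => (1 : Matrix.GeneralLinearGroup (Fin 2) F)) i x i' ∈
      Subgroup.zpowers x
    by_cases h : i' = i
    · subst h
      rw [Function.update_self]
      exact Subgroup.mem_zpowers x
    · rw [Function.update_of_ne h]
      exact Subgroup.one_mem _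
  obtain ⟨Φ, hΦdef⟩ : ∃ Φ : ↥E →* Matrix.GeneralLinearGroup ((Fin 2 × κ) ⊕ γ) F,
      Φ = ψ.symm.toMonoidHom.comp ((MulAut.conj g).toMonoidHom.comp
        ((S : Subgroup (Matrix.GeneralLinearGroup (Fin n) F)).subtype.comp E.subtype)) :=
    ⟨_, rfl⟩
  have hΦapp : ∀ a : ↥E, Φ a = ψ.symm (g *
      ((a : ↥(S : Subgroup (Matrix.GeneralLinearGroup (Fin n) F))) :
        Matrix.GeneralLinearGroup (Fin n) F) * g⁻¹) := by
    intro a
    rw [hΦdef]
    rfl
  have hΦinj : Function.Injective Φ := by
    intro a a' h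
    rw [hΦapp, hΦapp] at h
    have h' := ψ.symm.injective h
    have h'' := mul_left_cancel (mul_right_cancel h')
    exact Subtype.ext (Subtype.ext h'')
  refine card_le_of_block_normalized h2 (x : Matrix (Fin 2) (Fin 2) F) ?_ hx
    (fun a : ↥E => ((Φ a : Matrix.GeneralLinearGroup ((Fin 2 × κ) ⊕ γ) F) :
      Matrix ((Fin 2 × κ) ⊕ γ) ((Fin 2 × κ) ⊕ γ) F)) ?_ ?_ ?_ ?_
  · rw [← Units.val_pow_eq_pow_val, hx8]
    rfl
  · intro a a' h
    exact hΦinj (Units.ext h)
  · intro a
    rw [← Units.val_mul, ← map_mul]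
    have h1 : a * a = 1 := by
      apply Subtype.ext
      have := hE.2 a a.2
      rw [pow_two] at this
      exact this
    rw [h1, map_one]
    rfl
  · intro a a'
    rw [← Units.val_mul, ← Units.val_mul, ← map_mul, ← map_mul]
    have h1 : a * a' = a' * a := hE.1.is_comm.comm a a'
    rw [h1]
  · intro i a
    obtain ⟨ρ, hρ⟩ : ∃ ρ : Matrix.GeneralLinearGroup ((Fin 2 × κ) ⊕ γ) F,
        ρ = bdHom F κ (Fin 2) γ (Function.update (fun _ => 1) i x, fun _ => 1) := ⟨_, rfl⟩
    have hs := hconj (ψ ρ) (by rw [hρ]; exact hρmem i)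
    have ha' : (⟨g⁻¹ * ψ ρ * g, hs⟩ : ↥(S : Subgroup (Matrix.GeneralLinearGroup (Fin n) F)))⁻¹ *
        (a : ↥(S : Subgroup (Matrix.GeneralLinearGroup (Fin n) F))) * ⟨g⁻¹ * ψ ρ * g, hs⟩ ∈ E := by
      have := hEn.conj_mem (a : ↥(S : Subgroup (Matrix.GeneralLinearGroup (Fin n) F))) a.2
        (⟨g⁻¹ * ψ ρ * g, hs⟩ : ↥(S : Subgroup (Matrix.GeneralLinearGroup (Fin n) F)))⁻¹
      rwa [inv_inv] at this
    refine ⟨⟨_, ha'⟩, ?_⟩
    have hmat : ((ρ : Matrix.GeneralLinearGroup ((Fin 2 × κ) ⊕ γ) F) :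
        Matrix ((Fin 2 × κ) ⊕ γ) ((Fin 2 × κ) ⊕ γ) F) =
        bdMat (Function.update (fun _ : κ => (1 : Matrix (Fin 2) (Fin 2) F)) i
          (x : Matrix (Fin 2) (Fin 2) F)) (fun _ : γ => (1 : F)) := by
      rw [hρ, bdHom_coe]
      congr 1
      funext i'
      by_cases h : i' = i
      · subst h
        simp [Function.update_self]
      · simp [Function.update_of_ne h]
    rw [← hmat, ← Units.val_mul, ← Units.val_mul]
    congr 1
    rw [hΦapp, hΦapp]
    apply ψ.injective
    simp only [map_mul, map_inv, MulEquiv.apply_symm_apply, Subgroup.coe_mul, Subgroup.coe_inv]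
    group

end sylow

end Cfsg.Agent.H43
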