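import Mathlib

/-!
# Arithmetic of binomial coefficients used for Hall subgroups of symmetric groups

* `no_carry`: Kummer's theorem in the form used here;
* `choose_exc`: if `2 ≤ j ≤ K` and `C(K + j, j)` is coprime to every prime `≤ K`, then
  `(K, j) = (4, 3)`;
* `factorial_block`: `(a b)! = (a!)^b b! ∏_{i < b} C((i+1) a - 1, a - 1)`.
-/

set_option autoImplicit false

namespace Cfsg.Agent.H43

open Nat

/-- Kummer: if `p ∤ C(K + j, j)` there is no carry when adding `K` and `j` in base `p`. -/
theorem no_carry {p K j : ℕ} (hp : p.Prime) (h : ¬ p ∣ Nat.choose (K + j) j) (i : ℕ)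
    (hi : 1 ≤ i) : K % p ^ i + j % p ^ i < p ^ i := by
  by_contra hcon
  push Not at hcon
  have hb : Nat.log p (K + j) < max (Nat.log p (K + j) + 1) (i + 1) := by omega
  have hm := hp.emultiplicity_choose' hb (n := K) (k := j)
  have h0 : emultiplicity p (Nat.choose (K + j) j) = 0 := by
    rwa [emultiplicity_eq_zero]
  rw [h0] at hm
  have hmem : i ∈ Finset.filter (fun i => p ^ i ≤ j % p ^ i + K % p ^ i)
      (Finset.Ico 1 (max (Nat.log p (K + j) + 1) (i + 1))) := by
    simp only [Finset.mem_filter, Finset.mem_Ico]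
    exact ⟨⟨hi, by omega⟩, by omega⟩
  have hc : (Finset.filter (fun i => p ^ i ≤ j % p ^ i + K % p ^ i)
      (Finset.Ico 1 (max (Nat.log p (K + j) + 1) (i + 1)))).card = 0 := by
    exact_mod_cast hm.symm
  rw [Finset.card_eq_zero] at hc
  rw [hc] at hmem
  exact absurd hmem (Finset.notMem_empty _)

/-- If `q ∣ K + c` with `c ≤ q` then `K % q = q - c`, provided `1 ≤ c`. -/
theorem mod_of_dvd_add {K q c : ℕ} (hc1 : 1 ≤ c) (hcq : c ≤ q) (h : q ∣ K + c) :
    K % q = q - c := by
  obtain ⟨m, hm⟩ := h
  have hm1 : 1 ≤ m := by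
    rcases m with _ | m
    · simp at hm; omega
    · omega
  have h1 : q * m = q * (m - 1) + q := by
    conv_lhs => rw [show m = (m - 1) + 1 by omega]
    ring
  have h2 : K = (q - c) + q * (m - 1) := by omega
  rw [h2, Nat.add_mul_mod_self_left, Nat.mod_eq_of_lt (by omega)]

/-- A prime divisor of an even number `N` with `N ≤ 2 K`, `2 ≤ K`, is at most `K`. -/
theorem prime_le_of_dvd_even {p N K : ℕ} (hp : p.Prime) (hN : Even N) (hNK : N ≤ 2 * K)
    (hK : 2 ≤ K) (hN0 : 0 < N) (h : p ∣ N) : p ≤ K := by
  obtain ⟨m, hm⟩ := hN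
  have hm' : N = 2 * m := by omega
  rw [hm'] at h
  rcases (Nat.Prime.dvd_mul hp).mp h with h2 | h2
  · have := Nat.le_of_dvd (by norm_num) h2
    omega
  · have := Nat.le_of_dvd (by omega) h2
    omega

/-- The exceptional binomial coefficient `C(7, 3) = 35`: if `2 ≤ j ≤ K` and no prime `≤ K`
divides `C(K + j, j)`, then `K = 4` and `j = 3`. -/
theorem choose_exc {K j : ℕ} (hj : 2 ≤ j) (hjK : j ≤ K)
    (h : ∀ p : ℕ, p.Prime → p ≤ K → ¬ p ∣ Nat.choose (K + j) j) : K = 4 ∧ j = 3 := by
  have T : ∀ p : ℕ, p.Prime → p ≤ K → ∀ i, 1 ≤ i → K % p ^ i + j % p ^ i < p ^ i :=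
    fun p hp hpK i hi => no_carry hp (h p hp hpK) i hi
  -- `j < K`
  have hjK' : j < K := by
    rcases hjK.lt_or_eq with h1 | h1
    · exact h1
    · exfalso
      subst h1
      apply h 2 Nat.prime_two (by omega)
      have := Nat.two_dvd_centralBinom_of_one_le (n := j) (by omega)
      rwa [Nat.centralBinom_eq_two_mul_choose, two_mul] at this
  -- `K + 1` is prime
  have hK1 : (K + 1).Prime := by
    by_contra hnp
    have hdvd : K + 1 ∣ j := by
      rw [Nat.dvd_iff_prime_pow_dvd_dvd]
      intro p k hp hpk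
      rcases Nat.eq_zero_or_pos k with rfl | hk
      · simp
      have hpK1 : p ∣ K + 1 := dvd_trans (dvd_pow_self p hk.ne') hpk
      have hpK : p ≤ K := by
        have h1 := Nat.le_of_dvd (by omega) hpK1
        rcases h1.lt_or_eq with h2 | h2
        · omega
        · exact absurd (h2 ▸ hp) hnp
      have h3 := T p hp hpK k hk
      have hpos : 1 ≤ p ^ k := Nat.one_le_pow _ _ hp.pos
      have hmod := mod_of_dvd_add (le_refl 1) hpos hpk
      generalize p ^ k = q at h3 hpos hmod ⊢
      exact Nat.dvd_of_mod_eq_zero (by omega)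
    have := Nat.le_of_dvd (by omega) hdvd
    omega
  -- `j + 1 ∣ K`
  have hj1 : j + 1 ∣ K := by
    rw [Nat.dvd_iff_prime_pow_dvd_dvd]
    intro p k hp hpk
    rcases Nat.eq_zero_or_pos k with rfl | hk
    · simp
    have hpj1 : p ∣ j + 1 := dvd_trans (dvd_pow_self p hk.ne') hpk
    have hpK : p ≤ K := by
      have h1 := Nat.le_of_dvd (by omega) hpj1
      omega
    have h3 := T p hp hpK k hk
    have hpos : 1 ≤ p ^ k := Nat.one_le_pow _ _ hp.pos
    have hmod := mod_of_dvd_add (le_refl 1) hpos hpk
    generalize p ^ k = q at h3 hpos hmod ⊢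
    exact Nat.dvd_of_mod_eq_zero (by omega)
  -- `K + j` is prime
  have hKj : (K + j).Prime := by
    by_contra hnp
    have hdvd : K + j ∣ j := by
      rw [Nat.dvd_iff_prime_pow_dvd_dvd]
      intro p k hp hpk
      rcases Nat.eq_zero_or_pos k with rfl | hk
      · simp
      have hpKj : p ∣ K + j := dvd_trans (dvd_pow_self p hk.ne') hpk
      have hpK : p ≤ K := by
        obtain ⟨m, hm⟩ := hpKj
        have hm2 : 2 ≤ m := by
          rcases m with _ | _ | m
          · simp at hm; omega
          · exfalso; apply hnp; rw [hm]; simpa using hp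
          · omega
        have : 2 * p ≤ p * m := by
          calc 2 * p = p * 2 := by ring
            _ ≤ p * m := Nat.mul_le_mul_left p hm2
        omega
      have h3 := T p hp hpK k hk
      have hpos : 1 ≤ p ^ k := Nat.one_le_pow _ _ hp.pos
      have h4 : (K % p ^ k + j % p ^ k) % p ^ k = 0 := by
        rw [← Nat.add_mod]
        exact Nat.mod_eq_zero_of_dvd hpk
      rw [Nat.mod_eq_of_lt h3] at h4
      generalize p ^ k = q at h3 hpos h4 ⊢
      exact Nat.dvd_of_mod_eq_zero (by omega)
    have := Nat.le_of_dvd (by omega) hdvd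
    omega
  -- parities
  have hKeven : Even K := by
    rcases hK1.eq_two_or_odd' with h2 | h2
    · omega
    · rcases h2 with ⟨m, hm⟩
      exact ⟨m, by omega⟩
  have hjodd : Odd j := by
    rcases hKj.eq_two_or_odd' with h2 | h2
    · omega
    · rcases h2 with ⟨m, hm⟩
      rcases hKeven with ⟨e, he⟩
      exact ⟨m - e, by omega⟩
  have hj3 : 3 ≤ j := by
    rcases hjodd with ⟨m, hm⟩
    omega
  obtain ⟨c, hc⟩ := hj1
  have hc1 : 1 ≤ c := by
    rcases c with _ | c
    · simp at hc; omega
    · omega
  rcases hc1.lt_or_eq with hc2 | hc2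
  · -- `c ≥ 2`: contradiction
    exfalso
    have hNeven : Even (K + j - 1) := by
      rcases hKeven with ⟨e, he⟩
      rcases hjodd with ⟨m, hm⟩
      exact ⟨e + m, by omega⟩
    have hdvd : K + j - 1 ∣ (j - 1) * (c - 1) := by
      rw [Nat.dvd_iff_prime_pow_dvd_dvd]
      intro p k hp hpk
      rcases Nat.eq_zero_or_pos k with rfl | hk
      · simp
      have hpN : p ∣ K + j - 1 := dvd_trans (dvd_pow_self p hk.ne') hpk
      have hpK : p ≤ K := prime_le_of_dvd_even hp hNeven (by omega) (by omega) (by omega) hpN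
      have h3 := T p hp hpK k hk
      have hq2 : 2 ≤ p ^ k := by
        calc 2 ≤ p := hp.two_le
          _ = p ^ 1 := (pow_one p).symm
          _ ≤ p ^ k := Nat.pow_le_pow_right hp.pos hk
      generalize p ^ k = q at hpk h3 hq2 ⊢
      have h4 : (K % q + j % q) % q = 1 := by
        rw [← Nat.add_mod]
        obtain ⟨m, hm⟩ := hpk
        have : K + j = 1 + q * m := by omega
        rw [this, Nat.add_mul_mod_self_left, Nat.mod_eq_of_lt (by omega)]
      rw [Nat.mod_eq_of_lt h3] at h4
      have h5 : (K % q = 0 ∧ j % q = 1) ∨ (K % q = 1 ∧ j % q = 0) := by omega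
      rcases h5 with ⟨-, h6⟩ | ⟨h6, h7⟩
      · -- `q ∣ j - 1`
        have : q ∣ j - 1 := by
          have h8 := Nat.div_add_mod j q
          rw [h6] at h8
          exact ⟨j / q, by omega⟩
        exact dvd_mul_of_dvd_left this _
      · -- `q ∣ j` and `q ∣ K - 1`, so `q ∣ c - 1`
        have hqj : q ∣ j := Nat.dvd_of_mod_eq_zero h7
        have hqK : q ∣ K - 1 := by
          have h8 := Nat.div_add_mod K q
          rw [h6] at h8
          exact ⟨K / q, by omega⟩
        have hK' : K - 1 = c * j + (c - 1) := by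
          have : (j + 1) * c = c * j + c := by ring
          omega
        rw [hK'] at hqK
        have : q ∣ c - 1 := (Nat.dvd_add_right (dvd_mul_of_dvd_right hqj c)).mp hqK
        exact dvd_mul_of_dvd_right this _
    have hpos : 0 < (j - 1) * (c - 1) := Nat.mul_pos (by omega) (by omega)
    have hle := Nat.le_of_dvd hpos hdvd
    have h9 : (j - 1) * (c - 1) ≤ j * c := Nat.mul_le_mul (Nat.sub_le _ _) (Nat.sub_le _ _)
    have h10 : (j + 1) * c = j * c + c := by ring
    omega
  · -- `c = 1`, `K = j + 1`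
    subst hc2
    rw [mul_one] at hc
    have hNeven : Even (K + 2) := by
      rcases hKeven with ⟨e, he⟩
      exact ⟨e + 1, by omega⟩
    have hdvd : K + 2 ∣ 12 := by
      rw [Nat.dvd_iff_prime_pow_dvd_dvd]
      intro p k hp hpk
      rcases Nat.eq_zero_or_pos k with rfl | hk
      · simp
      have hpN : p ∣ K + 2 := dvd_trans (dvd_pow_self p hk.ne') hpk
      have hpK : p ≤ K := prime_le_of_dvd_even hp hNeven (by omega) (by omega) (by omega) hpN
      have hq2 : 2 ≤ p ^ k := by
        calc 2 ≤ p := hp.two_le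
          _ = p ^ 1 := (pow_one p).symm
          _ ≤ p ^ k := Nat.pow_le_pow_right hp.pos hk
      have h3 := T p hp hpK k hk
      generalize p ^ k = q at hpk h3 hq2 ⊢
      rcases hq2.lt_or_eq with hq3 | hq3
      · have hmod := mod_of_dvd_add (c := 2) (by norm_num) hq2 hpk
        have h5 : j % q = 0 ∨ j % q = 1 := by omega
        have hpk' : q ∣ j + 3 := by
          have : K + 2 = j + 3 := by omega
          rwa [this] at hpk
        rcases h5 with h6 | h6
        · have hqj : q ∣ j := Nat.dvd_of_mod_eq_zero h6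
          have : q ∣ 3 := (Nat.dvd_add_right hqj).mp hpk'
          exact dvd_trans this (by norm_num)
        · have hqj : q ∣ j - 1 := by
            have h8 := Nat.div_add_mod j q
            rw [h6] at h8
            exact ⟨j / q, by omega⟩
          have h9 : j + 3 = (j - 1) + 4 := by omega
          rw [h9] at hpk'
          have : q ∣ 4 := (Nat.dvd_add_right hqj).mp hpk'
          exact dvd_trans this (by norm_num)
      · rw [← hq3]; norm_num
    have hle := Nat.le_of_dvd (by norm_num) hdvd
    have hK12 : K ≤ 10 := by omega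
    have hKj' : K = j + 1 := by omega
    interval_cases K
    all_goals first
      | omega
      | (exfalso; revert hdvd; decide)
      | (exfalso
         have hj9 : j = 9 := by omega
         subst hj9
         exact h 2 Nat.prime_two (by norm_num) (by decide))

/-- If no prime `≤ K` divides `K + 1`, then `K + 1` is prime. -/
theorem prime_succ_of_coprime {K : ℕ} (hK : 1 ≤ K)
    (h : ∀ p : ℕ, p.Prime → p ≤ K → ¬ p ∣ K + 1) : (K + 1).Prime := by
  have hne : K + 1 ≠ 1 := by omega
  have hp := Nat.minFac_prime hne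
  have hd := Nat.minFac_dvd (K + 1)
  have hle := Nat.minFac_le (n := K + 1) (by omega)
  rcases hle.lt_or_eq with h1 | h1
  · exact absurd hd (h _ hp (by omega))
  · rw [← h1]; exact hp

/-- The number of partitions of `a b` points into `b` blocks of size `a`, as a product of
binomial coefficients. -/
theorem factorial_block (a b : ℕ) (ha : 1 ≤ a) :
    (a * b)! = (a !) ^ b * b ! *
      ∏ i ∈ Finset.range b, Nat.choose ((i + 1) * a - 1) (a - 1) := by
  induction b with
  | zero => simp
  | succ b ih =>
    have h1 : (a * b + a).choose a * (a * b)! * a ! = (a * b + a)! :=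
      Nat.add_choose_mul_factorial_mul_factorial (a * b) a
    have h2 : (a * b + a) * Nat.choose (a * b + a - 1) (a - 1) = Nat.choose (a * b + a) a * a := by
      have := Nat.add_one_mul_choose_eq (a * b + a - 1) (a - 1)
      rw [show a * b + a - 1 + 1 = a * b + a by omega, show a - 1 + 1 = a by omega] at this
      exact this
    have h3 : Nat.choose (a * b + a) a = (b + 1) * Nat.choose ((b + 1) * a - 1) (a - 1) := by
      have h4 : (b + 1) * a = a * b + a := by ring
      rw [h4]
      have h5 : a * ((b + 1) * Nat.choose (a * b + a - 1) (a - 1)) = a * Nat.choose (a * b + a) a := by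
        calc a * ((b + 1) * Nat.choose (a * b + a - 1) (a - 1))
            = (a * b + a) * Nat.choose (a * b + a - 1) (a - 1) := by ring
          _ = Nat.choose (a * b + a) a * a := h2
          _ = a * Nat.choose (a * b + a) a := by ring
      exact (Nat.eq_of_mul_eq_mul_left (by omega) h5).symm
    rw [Finset.prod_range_succ, show a * (b + 1) = a * b + a by ring, ← h1, h3, ih,
      Nat.factorial_succ, pow_succ]
    ring

/-- For odd `a ≥ 3` the binomial coefficient `C(2a - 1, a - 1)` is even. -/
theorem two_dvd_choose_of_odd {a : ℕ} (ha : Odd a) (ha3 : 3 ≤ a) :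
    2 ∣ Nat.choose (a + (a - 1)) (a - 1) := by
  by_contra hnd
  obtain ⟨e, m, hm, he⟩ := Nat.exists_eq_two_pow_mul_odd (n := a - 1) (by omega)
  have he1 : 1 ≤ e := by
    rcases e with _ | e
    · exfalso
      rw [pow_zero, one_mul] at he
      rcases ha with ⟨u, hu⟩
      rcases hm with ⟨w, hw⟩
      omega
    · omega
  have h := no_carry Nat.prime_two hnd (e + 1) (by omega)
  have h1 : (a - 1) % 2 ^ (e + 1) = 2 ^ e := by
    rw [he, pow_succ, Nat.mul_mod_mul_left]
    rcases hm with ⟨w, hw⟩
    have : m % 2 = 1 := by omega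
    rw [this, mul_one]
  have hlt : 1 < 2 ^ e := Nat.one_lt_two_pow (by omega)
  have h2 : a % 2 ^ (e + 1) = 2 ^ e + 1 := by
    have ha' : a = (a - 1) + 1 := by omega
    rw [ha', Nat.add_mod, h1, Nat.mod_eq_of_lt (a := 1) (by rw [pow_succ]; omega)]
    exact Nat.mod_eq_of_lt (by rw [pow_succ]; omega)
  rw [h1, h2, pow_succ] at h
  omega

/-- A prime `P` with `a < P ≤ b` divides the number of block systems. -/
theorem prime_dvd_block {a b P : ℕ} (hP : P.Prime) (ha2 : 2 ≤ a) (haP : a < P) (hPb : P ≤ b) :
    P ∣ ∏ i ∈ Finset.range b, Nat.choose ((i + 1) * a - 1) (a - 1) := by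
  have hfb := factorial_block a b (by omega)
  set F := ∏ i ∈ Finset.range b, Nat.choose ((i + 1) * a - 1) (a - 1) with hF
  set m₀ := (b / P + 1) * P with hm₀
  have hPpos := hP.pos
  have h1 : b < m₀ := by
    rw [hm₀]
    have := Nat.div_add_mod b P
    have h2 := Nat.mod_lt b hPpos
    have h3 : (b / P + 1) * P = P * (b / P) + P := by ring
    omega
  have h2 : m₀ ≤ a * b := by
    have h3 : (b / P + 1) * P = P * (b / P) + P := by ring
    have h4 : P * (b / P) ≤ b := Nat.mul_div_le b P
    have h5 : 2 * b ≤ a * b := Nat.mul_le_mul_right b ha2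
    omega
  have h3 : m₀ ! ∣ (a * b)! := Nat.factorial_dvd_factorial h2
  have h4 : m₀ ! = m₀ * (m₀ - 1)! := by
    conv_lhs => rw [show m₀ = (m₀ - 1) + 1 by omega]
    rw [Nat.factorial_succ]
    congr 1
    omega
  have h5 : b ! ∣ (m₀ - 1)! := Nat.factorial_dvd_factorial (by omega)
  have h6 : b ! * m₀ ∣ b ! * ((a !) ^ b * F) := by
    have : b ! * ((a !) ^ b * F) = (a * b)! := by rw [hfb]; ring
    rw [this]
    refine dvd_trans ?_ h3
    rw [h4, mul_comm]
    exact Nat.mul_dvd_mul_left m₀ h5
  have h7 : m₀ ∣ (a !) ^ b * F := Nat.dvd_of_mul_dvd_mul_left (Nat.factorial_pos b) h6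
  have h8 : P ∣ (a !) ^ b * F := dvd_trans (Dvd.intro_left _ rfl) h7
  rcases (Nat.Prime.dvd_mul hP).mp h8 with h9 | h9
  · exfalso
    have := hP.dvd_of_dvd_pow h9
    rw [hP.dvd_factorial] at this
    omega
  · exact h9

end Cfsg.Agent.H43
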