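import Mathlib
import Cfsg.Agent.H43.UMInst

/-!
# Hall subgroups: generic lemmas

`HallIn π M G` says that `M` is a Hall `π`-subgroup of `G` (both subgroups of an ambient group).
We collect the generic facts needed for the classification of the Hall subgroups of the symmetric
and alternating groups: monotonicity, maximality, images, conjugating `p`-subgroups into a Hall
subgroup, and the stabilizer of a colouring of the permuted set.
-/

set_option autoImplicit false

namespace Cfsg.Agent.H43

open Equiv Equiv.Perm MulAction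
open scoped Nat

section generic

variable {X : Type*} [Group X]

/-- `M` is a Hall `π`-subgroup of `G`. -/
def HallIn (π : Set ℕ) (M G : Subgroup X) : Prop :=
  M ≤ G ∧ (∀ p : ℕ, p.Prime → p ∣ Nat.card M → p ∈ π) ∧
    ∀ p : ℕ, p.Prime → p ∈ π → ¬ p ∣ M.relIndex G

theorem card_mul_relIndex' {H K : Subgroup X} (h : H ≤ K) :
    Nat.card H * H.relIndex K = Nat.card K := by
  rw [Subgroup.relIndex, ← Subgroup.card_mul_index (H.subgroupOf K),
    Nat.card_congr (Subgroup.subgroupOfEquivOfLe h).toEquiv]

theorem HallIn.mono {π : Set ℕ} {M G Y : Subgroup X} (h : HallIn π M G) (hMY : M ≤ Y)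
    (hYG : Y ≤ G) : HallIn π M Y := by
  refine ⟨hMY, h.2.1, fun p hp hpπ hd => h.2.2 p hp hpπ ?_⟩
  rw [← Subgroup.relIndex_mul_relIndex M Y G hMY hYG]
  exact dvd_mul_of_dvd_left hd _

/-- A Hall `π`-subgroup is a maximal `π`-subgroup. -/
theorem HallIn.eq_of_pi [Finite X] {π : Set ℕ} {M G Y : Subgroup X} (h : HallIn π M G)
    (hMY : M ≤ Y) (hYG : Y ≤ G) (hY : ∀ p : ℕ, p.Prime → p ∣ Nat.card Y → p ∈ π) : M = Y := by
  apply le_antisymm hMY
  rw [← Subgroup.relIndex_eq_one]
  by_contra hne
  obtain ⟨p, hp, hpd⟩ := Nat.exists_prime_and_dvd hne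
  have h1 : p ∣ Nat.card Y := dvd_trans hpd (Subgroup.relIndex_dvd_card M Y)
  have h2 : p ∣ M.relIndex G := by
    rw [← Subgroup.relIndex_mul_relIndex M Y G hMY hYG]
    exact dvd_mul_of_dvd_left hpd _
  exact h.2.2 p hp (hY p hp h1) h2

/-- The image of a Hall subgroup is a Hall subgroup of the image. -/
theorem HallIn.map [Finite X] {Q : Type*} [Group Q] {π : Set ℕ} {M G : Subgroup X}
    (h : HallIn π M G) (f : X →* Q) : HallIn π (M.map f) (G.map f) := by
  refine ⟨Subgroup.map_mono h.1,
    fun p hp hd => h.2.1 p hp (dvd_trans hd (Subgroup.card_map_dvd M f)),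
    fun p hp hpπ hd => h.2.2 p hp hpπ (dvd_trans hd ?_)⟩
  set f' : ↥G →* Q := f.comp G.subtype with hf'
  have hr : G.map f = f'.range := by
    ext y
    simp only [Subgroup.mem_map, MonoidHom.mem_range, hf', MonoidHom.coe_comp,
      Subgroup.coe_subtype, Function.comp_apply]
    constructor
    · rintro ⟨x, hx, rfl⟩; exact ⟨⟨x, hx⟩, rfl⟩
    · rintro ⟨x, rfl⟩; exact ⟨x, x.2, rfl⟩
  have hs : (M.map f).subgroupOf f'.range = (M.subgroupOf G).map f'.rangeRestrict := by
    ext ⟨y, hy⟩
    simp only [Subgroup.mem_subgroupOf, Subgroup.mem_map]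
    constructor
    · rintro ⟨x, hx, hxy⟩
      exact ⟨⟨x, h.1 hx⟩, hx, Subtype.ext hxy⟩
    · rintro ⟨x, hx, hxy⟩
      exact ⟨x, hx, congrArg Subtype.val hxy⟩
  rw [hr, Subgroup.relIndex, hs]
  exact Subgroup.index_map_dvd _ f'.rangeRestrict_surjective

/-- A `p`-subgroup can be conjugated into any subgroup of index prime to `p`. -/
theorem exists_conj_sub [Finite X] {p : ℕ} [Fact p.Prime] (M : Subgroup X) (hM : ¬ p ∣ M.index)
    (K : Subgroup X) (hK : IsPGroup p K) : ∃ g : X, ∀ k ∈ K, g * k * g⁻¹ ∈ M := by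
  obtain ⟨Q⟩ : Nonempty (Sylow p M) := inferInstance
  have hcard : Nat.card ((Q : Subgroup M).map M.subtype) = p ^ (Nat.card X).factorization p := by
    rw [Subgroup.card_map_of_injective M.subtype_injective, Q.card_eq_multiplicity]
    congr 1
    have h1 : Nat.card X = Nat.card M * M.index := (Subgroup.card_mul_index M).symm
    rw [h1, Nat.factorization_mul Nat.card_pos.ne' (fun h0 => hM (by rw [h0]; exact dvd_zero p)),
      Finsupp.add_apply, Nat.factorization_eq_zero_of_not_dvd hM, add_zero]
  let P₀ : Sylow p X := Sylow.ofCard _ hcard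
  obtain ⟨Q₁, hQ₁⟩ := hK.exists_le_sylow
  obtain ⟨g, hg⟩ := MulAction.exists_smul_eq X Q₁ P₀
  refine ⟨g, fun k hk => ?_⟩
  have h2 : g * k * g⁻¹ ∈ ((g • Q₁ : Sylow p X) : Subgroup X) := ⟨k, hQ₁ hk, rfl⟩
  rw [hg] at h2
  have h3 : (P₀ : Subgroup X) = (Q : Subgroup M).map M.subtype := Sylow.coe_ofCard _ hcard
  rw [h3] at h2
  obtain ⟨y, -, hy⟩ := h2
  rw [← hy]
  exact y.2

end generic

section perm

variable {α : Type*} [Fintype α] [DecidableEq α]

/-- A subgroup containing the alternating group is the alternating or the symmetric group. -/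
theorem alt_le_cases {G : Subgroup (Perm α)} (hG : alternatingGroup α ≤ G) :
    G = ⊤ ∨ G = alternatingGroup α := by
  rcases subsingleton_or_nontrivial α with hs | hn
  · left
    rw [eq_top_iff]
    intro g _
    have : g = 1 := Equiv.Perm.ext (fun x => Subsingleton.elim _ _)
    rw [this]
    exact G.one_mem
  · have h2 : G.index ∣ 2 := by
      rw [← alternatingGroup.index_eq_two (α := α)]
      exact Subgroup.index_dvd_of_le hG
    rcases (Nat.dvd_prime Nat.prime_two).mp h2 with h3 | h3
    · left; exact Subgroup.index_eq_one.mp h3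
    · right; exact Equiv.Perm.eq_alternatingGroup_of_index_eq_two h3

/-- The order of `G ∩ S` when `S` contains a transposition and `G` contains the alternating
group. -/
theorem card_inf_mul_index {G S : Subgroup (Perm α)} (hG : alternatingGroup α ≤ G)
    (hS : ∃ a b : α, a ≠ b ∧ swap a b ∈ S) :
    Nat.card (G ⊓ S : Subgroup (Perm α)) * G.index = Nat.card S := by
  obtain ⟨a, b, hab, hsw⟩ := hS
  have : Nontrivial α := ⟨⟨a, b, hab⟩⟩
  rcases alt_le_cases hG with rfl | rfl
  · rw [top_inf_eq, Subgroup.index_top, mul_one]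
  · rw [alternatingGroup.index_eq_two]
    have h1 : (alternatingGroup α ⊓ S).relIndex S = 2 := by
      rw [Subgroup.inf_relIndex_right]
      have h2 : (alternatingGroup α).relIndex S ∣ 2 := by
        rw [← alternatingGroup.index_eq_two (α := α)]
        exact Subgroup.relIndex_dvd_index_of_normal _ _
      rcases (Nat.dvd_prime Nat.prime_two).mp h2 with h3 | h3
      · exfalso
        rw [Subgroup.relIndex_eq_one] at h3
        have := h3 hsw
        rw [Equiv.Perm.mem_alternatingGroup, sign_swap hab] at this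
        exact absurd this (by decide)
      · exact h3
    have := card_mul_relIndex' (inf_le_right : alternatingGroup α ⊓ S ≤ S)
    rw [h1] at this
    exact this

/-- The index of a subgroup containing a transposition and a Hall subgroup is a `π'`-number. -/
theorem HallIn.not_dvd_of_card_mul {π : Set ℕ} {G M S : Subgroup (Perm α)}
    (hG : alternatingGroup α ≤ G) (hM : HallIn π M G)
    (hS : ∃ a b : α, a ≠ b ∧ swap a b ∈ S) (hMS : M ≤ S) {F : ℕ}
    (hF : Nat.card S * F = (Fintype.card α)!) {p : ℕ} (hp : p.Prime) (hpπ : p ∈ π) : ¬ p ∣ F := by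
  have h1 := card_inf_mul_index hG hS
  have h2 := card_mul_relIndex' (inf_le_left : G ⊓ S ≤ G)
  have h3 : Nat.card G * G.index = (Fintype.card α)! := by
    rw [Subgroup.card_mul_index, Nat.card_perm, Nat.card_eq_fintype_card]
  have h4 : F = (G ⊓ S).relIndex G := by
    have : Nat.card S * F = Nat.card S * (G ⊓ S).relIndex G := by
      rw [hF, ← h3, ← h2, ← h1]; ring
    exact Nat.eq_of_mul_eq_mul_left Nat.card_pos this
  rw [h4]
  intro hd
  apply hM.2.2 p hp hpπ
  rw [← Subgroup.relIndex_mul_relIndex M (G ⊓ S) G (le_inf hM.1 hMS) inf_le_left]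
  exact dvd_mul_of_dvd_right hd _

/-- The permutations preserving a colouring. -/
def colorStab {ι : Type*} (c : α → ι) : Subgroup (Perm α) where
  carrier := {g | ∀ x, c (g x) = c x}
  mul_mem' := fun {g h} hg hh x => by rw [Perm.mul_apply, hg, hh]
  one_mem' := fun x => rfl
  inv_mem' := fun {g} hg x => by
    have := hg (g⁻¹ x)
    simpa using this.symm

omit [Fintype α] [DecidableEq α] in
theorem mem_colorStab {ι : Type*} (c : α → ι) (g : Perm α) :
    g ∈ colorStab c ↔ ∀ x, c (g x) = c x := Iff.rfl

theorem card_colorStab {ι : Type*} [Fintype ι] [DecidableEq ι] (c : α → ι) :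
    Nat.card (colorStab c) = ∏ i, (Nat.card {a // c a = i})! := by
  have h := DomMulAct.stabilizer_card c
  rw [← Nat.card_eq_fintype_card] at h
  have h2 : Nat.card (colorStab c) = Nat.card {g : Perm α // c ∘ g = c} := by
    apply Nat.card_congr
    exact Equiv.subtypeEquivRight (fun g => by
      rw [mem_colorStab, funext_iff]; rfl)
  rw [h2, h]
  exact Finset.prod_congr rfl (fun i _ => by rw [Nat.card_eq_fintype_card])

/-- Restriction of a colour-preserving permutation to a colour class. -/
def fiberHom {ι : Type*} (c : α → ι) (i : ι) : ↥(colorStab c) →* Perm {a // c a = i} where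
  toFun g := (g : Perm α).subtypePerm (fun x => by rw [g.2 x])
  map_one' := by ext x; simp
  map_mul' := fun g h => by ext x; rfl

omit [Fintype α] [DecidableEq α] in
theorem fiberHom_apply {ι : Type*} (c : α → ι) (i : ι) (g : ↥(colorStab c))
    (a : {a // c a = i}) : ((fiberHom c i g a : {a // c a = i}) : α) = (g : Perm α) a := rfl

/-- A Hall subgroup of the colour stabilizer induces a Hall subgroup on each colour class. -/
theorem fiber_hall {ι : Type*} [DecidableEq ι] (c : α → ι) (i : ι) {π : Set ℕ}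
    {G N : Subgroup (Perm α)} (hG : alternatingGroup α ≤ G)
    (hN : HallIn π N (G ⊓ colorStab c)) :
    ∃ G' N' : Subgroup (Perm {a // c a = i}), alternatingGroup {a // c a = i} ≤ G' ∧
      HallIn π N' G' ∧
      ∀ g ∈ N, ∃ h ∈ N', ∀ a : {a // c a = i}, ((h a : {a // c a = i}) : α) = g a := by
  refine ⟨((G ⊓ colorStab c).subgroupOf (colorStab c)).map (fiberHom c i),
    (N.subgroupOf (colorStab c)).map (fiberHom c i), ?_, ?_, ?_⟩
  · intro σ hσ
    have hmem : ofSubtype σ ∈ colorStab c := by
      intro x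
      by_cases hx : c x = i
      · rw [ofSubtype_apply_of_mem σ hx, (σ ⟨x, hx⟩).2, hx]
      · rw [ofSubtype_apply_of_not_mem σ hx]
    refine ⟨⟨ofSubtype σ, hmem⟩, ?_, ?_⟩
    · refine ⟨hG ?_, hmem⟩
      change ofSubtype σ ∈ alternatingGroup α
      rw [mem_alternatingGroup, sign_ofSubtype]
      exact mem_alternatingGroup.mp hσ
    · exact subtypePerm_ofSubtype σ
  · have h1 : HallIn π (N.subgroupOf (colorStab c))
        ((G ⊓ colorStab c).subgroupOf (colorStab c)) := by
      refine ⟨fun x hx => hN.1 hx, fun p hp hd => hN.2.1 p hp ?_, fun p hp hpπ => ?_⟩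
      · rwa [Nat.card_congr
          (Subgroup.subgroupOfEquivOfLe (hN.1.trans inf_le_right)).toEquiv] at hd
      · rw [Subgroup.relIndex_subgroupOf inf_le_right]
        exact hN.2.2 p hp hpπ
    exact h1.map _
  · intro g hg
    exact ⟨fiberHom c i ⟨g, (hN.1 hg).2⟩, Subgroup.mem_map_of_mem _ hg, fun a => rfl⟩

end perm

end Cfsg.Agent.H43
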