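import Mathlib
import Cfsg.Agent.H43.HallBasic

/-!
# Hall subgroups of symmetric and alternating groups: the primitive case

A Hall `π`-subgroup `M` of `G ≥ Alt(α)` contains a `p`-cycle for each odd prime `p ∈ π`,
`p ≤ |α|`, and a Klein four-group on four points if `2 ∈ π`.  If `M` is primitive and `π`
contains two primes `≤ |α|`, then `M` contains the alternating group.
-/

set_option autoImplicit false

namespace Cfsg.Agent.H43

open Equiv Equiv.Perm MulAction SubMulAction
open scoped Pointwise Nat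

/-- A subgroup of index prime to `p` contains a Sylow `p`-subgroup. -/
theorem exists_sylow_le {X : Type*} [Group X] [Finite X] {p : ℕ} [Fact p.Prime] (M : Subgroup X)
    (hM : ¬ p ∣ M.index) : ∃ P : Sylow p X, (P : Subgroup X) ≤ M := by
  obtain ⟨Q⟩ : Nonempty (Sylow p M) := inferInstance
  have hcard : Nat.card ((Q : Subgroup M).map M.subtype) = p ^ (Nat.card X).factorization p := by
    rw [Subgroup.card_map_of_injective M.subtype_injective, Q.card_eq_multiplicity]
    congr 1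
    have h1 : Nat.card X = Nat.card M * M.index := (Subgroup.card_mul_index M).symm
    rw [h1, Nat.factorization_mul Nat.card_pos.ne' (fun h0 => hM (by rw [h0]; exact dvd_zero p)),
      Finsupp.add_apply, Nat.factorization_eq_zero_of_not_dvd hM, add_zero]
  refine ⟨Sylow.ofCard _ hcard, ?_⟩
  rw [Sylow.coe_ofCard]
  rintro y ⟨z, -, rfl⟩
  exact z.2

variable {α : Type*} [Fintype α] [DecidableEq α]

/-- A Hall `π`-subgroup contains a `p`-cycle for every odd prime `p ∈ π` with `p ≤ |α|`. -/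
theorem exists_cycle_mem {π : Set ℕ} {G M : Subgroup (Perm α)} (hG : alternatingGroup α ≤ G)
    (hM : HallIn π M G) {p : ℕ} (hp : p.Prime) (hpπ : p ∈ π) (hodd : p ≠ 2)
    (hpn : p ≤ Fintype.card α) : ∃ c ∈ M, c.cycleType = {p} := by
  haveI : Fact p.Prime := ⟨hp⟩
  obtain ⟨c₀, hc₀⟩ : ∃ g : Perm α, g.cycleType = {p} := by
    rw [Equiv.Perm.exists_with_cycleType_iff]
    refine ⟨by simpa using hpn, ?_⟩
    intro a ha
    rw [Multiset.mem_singleton] at ha
    rw [ha]
    exact hp.two_le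
  have hsign : c₀ ∈ alternatingGroup α := by
    rw [mem_alternatingGroup, sign_of_cycleType, hc₀]
    simp only [Multiset.sum_singleton, Multiset.card_singleton]
    have hpodd : Odd p := hp.odd_of_ne_two hodd
    exact Even.neg_one_pow (by rcases hpodd with ⟨m, hm⟩; exact ⟨m + 1, by omega⟩)
  have hc₀G : c₀ ∈ G := hG hsign
  have hord : c₀ ^ p = 1 := by
    have : orderOf c₀ = p := by
      rw [← lcm_cycleType, hc₀, Multiset.lcm_singleton, normalize_eq]
    rw [← this]
    exact pow_orderOf_eq_one c₀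
  set x : ↥G := ⟨c₀, hc₀G⟩ with hx
  have hxp : x ^ p = 1 := Subtype.ext (by simpa using hord)
  have hK : IsPGroup p (Subgroup.zpowers x) := by
    rintro ⟨k, hk⟩
    obtain ⟨j, rfl⟩ := Subgroup.mem_zpowers_iff.mp hk
    refine ⟨1, Subtype.ext ?_⟩
    change (x ^ j) ^ (p ^ 1) = 1
    rw [pow_one, ← zpow_natCast, ← zpow_mul, mul_comm, zpow_mul, zpow_natCast, hxp, one_zpow]
  obtain ⟨g, hg⟩ := exists_conj_sub (M.subgroupOf G) (hM.2.2 p hp hpπ) _ hK
  have h1 := hg x (Subgroup.mem_zpowers x)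
  rw [Subgroup.mem_subgroupOf] at h1
  refine ⟨(g : Perm α) * c₀ * (g : Perm α)⁻¹, by simpa using h1, ?_⟩
  rw [cycleType_conj, hc₀]

omit [Fintype α] in
theorem dswap_facts {p q r s : α} (hpq : p ≠ q) (hpr : p ≠ r) (hps : p ≠ s) (hqr : q ≠ r)
    (hqs : q ≠ s) (hrs : r ≠ s) :
    (swap p q * swap r s) p = q ∧ (swap p q * swap r s) q = p ∧ (swap p q * swap r s) r = s ∧
      (swap p q * swap r s) s = r ∧
      ∀ z, z ≠ p → z ≠ q → z ≠ r → z ≠ s → (swap p q * swap r s) z = z := by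
  refine ⟨?_, ?_, ?_, ?_, ?_⟩
  · rw [Perm.mul_apply, swap_apply_of_ne_of_ne hpr hps, swap_apply_left]
  · rw [Perm.mul_apply, swap_apply_of_ne_of_ne hqr hqs, swap_apply_right]
  · rw [Perm.mul_apply, swap_apply_left, swap_apply_of_ne_of_ne hps.symm hqs.symm]
  · rw [Perm.mul_apply, swap_apply_right, swap_apply_of_ne_of_ne hpr.symm hqr.symm]
  · intro z h1 h2 h3 h4
    rw [Perm.mul_apply, swap_apply_of_ne_of_ne h3 h4, swap_apply_of_ne_of_ne h1 h2]

omit [Fintype α] in
theorem dswap_sq {p q r s : α} (hpq : p ≠ q) (hpr : p ≠ r) (hps : p ≠ s) (hqr : q ≠ r)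
    (hqs : q ≠ s) (hrs : r ≠ s) : (swap p q * swap r s) ^ 2 = 1 := by
  obtain ⟨h1, h2, h3, h4, h5⟩ := dswap_facts hpq hpr hps hqr hqs hrs
  ext z
  rw [pow_two, Perm.mul_apply, Perm.one_apply]
  by_cases hzp : z = p
  · rw [hzp, h1, h2]
  by_cases hzq : z = q
  · rw [hzq, h2, h1]
  by_cases hzr : z = r
  · rw [hzr, h3, h4]
  by_cases hzs : z = s
  · rw [hzs, h4, h3]
  rw [h5 z hzp hzq hzr hzs, h5 z hzp hzq hzr hzs]

/-- A Hall `π`-subgroup with `2 ∈ π` contains a Klein four-group acting on four points. -/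
theorem exists_klein_mem {π : Set ℕ} {G M : Subgroup (Perm α)} (hG : alternatingGroup α ≤ G)
    (hM : HallIn π M G) (h2 : 2 ∈ π) (h4 : 4 ≤ Fintype.card α) :
    ∃ a b c d : α, a ≠ b ∧ a ≠ c ∧ a ≠ d ∧ b ≠ c ∧ b ≠ d ∧ c ≠ d ∧
      swap a b * swap c d ∈ M ∧ swap a c * swap b d ∈ M ∧ swap a d * swap b c ∈ M := by
  haveI : Fact (Nat.Prime 2) := ⟨Nat.prime_two⟩
  obtain ⟨a, b, c, d, hab, hac, had, hbc, hbd, hcd⟩ :=
    exists_four (α := α) (by rwa [Nat.card_eq_fintype_card])
  have hsA : ∀ p q r s : α, p ≠ q → r ≠ s → swap p q * swap r s ∈ G := by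
    intro p q r s hpq hrs
    apply hG
    rw [mem_alternatingGroup, map_mul, sign_swap hpq, sign_swap hrs]
    rfl
  have hs := hsA a b c d hab hcd
  have ht := hsA a c b d hac hbd
  obtain ⟨P, hP⟩ := exists_sylow_le (M.subgroupOf G) (hM.2.2 2 Nat.prime_two h2)
  have e1 : (⟨swap a b * swap c d, hs⟩ : ↥G) ^ 2 = 1 :=
    Subtype.ext (by simpa using dswap_sq hab hac had hbc hbd hcd)
  have e2 : (⟨swap a c * swap b d, ht⟩ : ↥G) ^ 2 = 1 :=
    Subtype.ext (by simpa using dswap_sq hac hab had hbc.symm hcd hbd)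
  have e3 : (⟨swap a b * swap c d, hs⟩ : ↥G) * ⟨swap a c * swap b d, ht⟩ =
      ⟨swap a c * swap b d, ht⟩ * ⟨swap a b * swap c d, hs⟩ := by
    apply Subtype.ext
    change swap a b * swap c d * (swap a c * swap b d) = swap a c * swap b d * (swap a b * swap c d)
    rw [klein_mul hab hac had hbc hbd hcd, klein_mul hac hab had hbc.symm hcd hbd, swap_comm c b]
  obtain ⟨g, hg1, hg2⟩ := exists_conj_mem_sylow_two _ _ e1 e2 e3 P
  have h1 := hP hg1
  have h2' := hP hg2
  rw [Subgroup.mem_subgroupOf] at h1 h2'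
  have c1 : ((g * ⟨swap a b * swap c d, hs⟩ * g⁻¹ : ↥G) : Perm α) =
      swap ((g : Perm α) a) ((g : Perm α) b) * swap ((g : Perm α) c) ((g : Perm α) d) :=
    conj_swap_mul_swap _ a b c d
  have c2 : ((g * ⟨swap a c * swap b d, ht⟩ * g⁻¹ : ↥G) : Perm α) =
      swap ((g : Perm α) a) ((g : Perm α) c) * swap ((g : Perm α) b) ((g : Perm α) d) :=
    conj_swap_mul_swap _ a c b d
  rw [c1] at h1
  rw [c2] at h2'
  have inj : ∀ {u v : α}, u ≠ v → (g : Perm α) u ≠ (g : Perm α) v :=
    fun h h' => h ((g : Perm α).injective h')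
  refine ⟨(g : Perm α) a, (g : Perm α) b, (g : Perm α) c, (g : Perm α) d, inj hab, inj hac,
    inj had, inj hbc, inj hbd, inj hcd, h1, h2', ?_⟩
  rw [← klein_mul (inj hab) (inj hac) (inj had) (inj hbc) (inj hbd) (inj hcd)]
  exact M.mul_mem h1 h2'

omit [Fintype α] [DecidableEq α] in
/-- An element with a `3`-cycle has order divisible by `3`. -/
theorem three_dvd_orderOf [Finite α] {z : Perm α} {u v w : α} (huw : u ≠ w) (huv : u ≠ v)
    (h1 : z u = w) (h2 : z w = v) (h3 : z v = u) : 3 ∣ orderOf z := by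
  have hz3 : (z ^ 3) u = u := by
    rw [pow_succ, pow_two, Perm.mul_apply, Perm.mul_apply, h1, h2, h3]
  have hz3m : ∀ m : ℕ, ((z ^ 3) ^ m) u = u := by
    intro m
    induction m with
    | zero => simp
    | succ m ih => rw [pow_succ, Perm.mul_apply, hz3, ih]
  have hk : (z ^ orderOf z) u = u := by rw [pow_orderOf_eq_one]; rfl
  have hdm := Nat.div_add_mod (orderOf z) 3
  have h4 : (z ^ (orderOf z % 3)) u = u := by
    rw [← hdm, add_comm, pow_add, pow_mul, Perm.mul_apply, hz3m] at hk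
    exact hk
  have h5 : orderOf z % 3 < 3 := Nat.mod_lt _ (by norm_num)
  rw [Nat.dvd_iff_mod_eq_zero]
  interval_cases h : orderOf z % 3
  · rfl
  · exfalso
    rw [pow_one, h1] at h4
    exact huw h4.symm
  · exfalso
    rw [pow_two, Perm.mul_apply, h1, h2] at h4
    exact huv h4.symm

/-- If `M` has no element of order divisible by `3` and contains the Klein four-group on
`{a, b, c, d}`, then every translate of `{a, b, c, d}` is equal to it or disjoint from it. -/
theorem klein_block (M : Subgroup (Perm α)) (hno : ∀ z ∈ M, ¬ 3 ∣ orderOf z) {a b c d : α}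
    (hab : a ≠ b) (hac : a ≠ c) (had : a ≠ d) (hbc : b ≠ c) (hbd : b ≠ d) (hcd : c ≠ d)
    (h1 : swap a b * swap c d ∈ M) (h2 : swap a c * swap b d ∈ M)
    (h3 : swap a d * swap b c ∈ M) :
    ∀ g ∈ M, (g '' ({a, b, c, d} : Set α) = {a, b, c, d}) ∨
      Disjoint (g '' ({a, b, c, d} : Set α)) ({a, b, c, d} : Set α) := by
  set B : Set α := {a, b, c, d} with hB
  -- regularity of the Klein group on `B`
  have K1 : ∀ u v : α, u ∈ B → v ∈ B → u ≠ v →
      ∃ x ∈ M, x u = v ∧ x v = u ∧ ∀ z, z ∉ B → x z = z := by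
    have f1 := dswap_facts hab hac had hbc hbd hcd
    have f2 := dswap_facts hac hab had hbc.symm hcd hbd
    have f3 := dswap_facts had hab hac hbd.symm hcd.symm hbc
    have out : ∀ z, z ∉ B → z ≠ a ∧ z ≠ b ∧ z ≠ c ∧ z ≠ d := by
      intro z hz
      simp only [hB, Set.mem_insert_iff, Set.mem_singleton_iff, not_or] at hz
      exact hz
    have g1 : ∀ z, z ∉ B → (swap a b * swap c d) z = z := fun z hz =>
      f1.2.2.2.2 z (out z hz).1 (out z hz).2.1 (out z hz).2.2.1 (out z hz).2.2.2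
    have g2 : ∀ z, z ∉ B → (swap a c * swap b d) z = z := fun z hz =>
      f2.2.2.2.2 z (out z hz).1 (out z hz).2.2.1 (out z hz).2.1 (out z hz).2.2.2
    have g3 : ∀ z, z ∉ B → (swap a d * swap b c) z = z := fun z hz =>
      f3.2.2.2.2 z (out z hz).1 (out z hz).2.2.2 (out z hz).2.1 (out z hz).2.2.1
    intro u v hu hv huv
    simp only [hB, Set.mem_insert_iff, Set.mem_singleton_iff] at hu hv
    rcases hu with rfl | rfl | rfl | rfl <;> rcases hv with rfl | rfl | rfl | rfl
    · exact absurd rfl huv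
    · exact ⟨_, h1, f1.1, f1.2.1, g1⟩
    · exact ⟨_, h2, f2.1, f2.2.1, g2⟩
    · exact ⟨_, h3, f3.1, f3.2.1, g3⟩
    · exact ⟨_, h1, f1.2.1, f1.1, g1⟩
    · exact absurd rfl huv
    · exact ⟨_, h3, f3.2.2.1, f3.2.2.2.1, g3⟩
    · exact ⟨_, h2, f2.2.2.1, f2.2.2.2.1, g2⟩
    · exact ⟨_, h2, f2.2.1, f2.1, g2⟩
    · exact ⟨_, h3, f3.2.2.2.1, f3.2.2.1, g3⟩
    · exact absurd rfl huv
    · exact ⟨_, h1, f1.2.2.1, f1.2.2.2.1, g1⟩
    · exact ⟨_, h3, f3.2.1, f3.1, g3⟩
    · exact ⟨_, h2, f2.2.2.2.1, f2.2.2.1, g2⟩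
    · exact ⟨_, h1, f1.2.2.2.1, f1.2.2.1, g1⟩
    · exact absurd rfl huv
  intro g hg
  by_contra hcon
  push Not at hcon
  obtain ⟨hne, hnd⟩ := hcon
  rw [Set.not_disjoint_iff] at hnd
  obtain ⟨u, hu1, hu2⟩ := hnd
  have hBfin : B.Finite := Set.toFinite B
  have hcard : (g '' B).ncard = B.ncard := Set.ncard_image_of_injective B g.injective
  -- a point of `g B` outside `B`
  obtain ⟨w, hw1, hw2⟩ : ∃ w ∈ g '' B, w ∉ B := by
    by_contra hcon2
    push Not at hcon2
    exact hne (Set.eq_of_subset_of_ncard_le hcon2 hcard.ge hBfin)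
  -- a point of `B` outside `g B`
  obtain ⟨v, hv1, hv2⟩ : ∃ v ∈ B, v ∉ g '' B := by
    by_contra hcon2
    push Not at hcon2
    exact hne (Set.eq_of_subset_of_ncard_le hcon2 hcard.le (Set.toFinite _)).symm
  obtain ⟨u₀, hu₀, rfl⟩ := hu1
  obtain ⟨w₀, hw₀, rfl⟩ := hw1
  have huw : u₀ ≠ w₀ := by
    rintro rfl
    exact hw2 hu2
  obtain ⟨x', hx'M, hx'1, hx'2, hx'3⟩ := K1 u₀ w₀ hu₀ hw₀ huw
  have huv : g u₀ ≠ v := by
    rintro rfl
    exact hv2 ⟨u₀, hu₀, rfl⟩
  obtain ⟨x, hxM, hx1, hx2, hx3⟩ := K1 (g u₀) v hu2 hv1 huv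
  have hvB : g⁻¹ v ∉ B := by
    intro h
    exact hv2 ⟨g⁻¹ v, h, by simp⟩
  have hy1 : (g * x' * g⁻¹) (g u₀) = g w₀ := by
    simp [Perm.mul_apply, hx'1]
  have hy2 : (g * x' * g⁻¹) (g w₀) = g u₀ := by
    simp [Perm.mul_apply, hx'2]
  have hy3 : (g * x' * g⁻¹) v = v := by
    rw [Perm.mul_apply, Perm.mul_apply, hx'3 _ hvB]
    simp
  have hyM : g * x' * g⁻¹ ∈ M := M.mul_mem (M.mul_mem hg hx'M) (M.inv_mem hg)
  have hzM : x * (g * x' * g⁻¹) ∈ M := M.mul_mem hxM hyM
  refine hno _ hzM (three_dvd_orderOf (u := g u₀) (v := v) (w := g w₀) ?_ huv ?_ ?_ ?_)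
  · intro h
    exact huw (g.injective h)
  · rw [Perm.mul_apply, hy1, hx3 _ hw2]
  · rw [Perm.mul_apply, hy2, hx1]
  · rw [Perm.mul_apply, hy3, hx2]

/-- A Hall subgroup containing the alternating group is everything: contradiction with a prime
`t ≤ |α|` outside `π`. -/
theorem alt_le_absurd {π : Set ℕ} {G M : Subgroup (Perm α)} (hM : HallIn π M G)
    (hAM : alternatingGroup α ≤ M) (h4 : 4 ≤ Fintype.card α) {t : ℕ} (ht : t.Prime)
    (htn : t ≤ Fintype.card α) (htπ : t ∉ π) : False := by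
  apply htπ
  apply hM.2.1 t ht
  have h1 : Nat.card (alternatingGroup α) ∣ Nat.card M := Subgroup.card_dvd_of_le hAM
  refine dvd_trans ?_ h1
  haveI : Nontrivial α := Fintype.one_lt_card_iff_nontrivial.mp (by omega)
  have h2 : 2 * Nat.card (alternatingGroup α) = (Fintype.card α)! := by
    rw [two_mul_nat_card_alternatingGroup, Nat.card_perm, Nat.card_eq_fintype_card]
  have h3 : t ∣ (Fintype.card α)! := (Nat.Prime.dvd_factorial ht).mpr htn
  by_cases ht2 : t = 2
  · subst ht2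
    have h4' : 4 ∣ (Fintype.card α)! :=
      dvd_trans (by decide : 4 ∣ 4!) (Nat.factorial_dvd_factorial h4)
    rw [← h2] at h4'
    exact Nat.dvd_of_mul_dvd_mul_left (by norm_num : 0 < 2) h4'
  · rw [← h2] at h3
    have hcop : Nat.Coprime t 2 := (Nat.coprime_primes ht Nat.prime_two).mpr ht2
    exact hcop.dvd_of_dvd_mul_left h3

/-- The primitive case: impossible. -/
theorem prim_case {π : Set ℕ} {G M : Subgroup (Perm α)} (hG : alternatingGroup α ≤ G)
    (hM : HallIn π M G) (hprim : IsPreprimitive M α) (h5 : 5 ≤ Fintype.card α)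
    {r s t : ℕ} (hr : r.Prime) (hs : s.Prime) (hrs : r < s) (hrπ : r ∈ π) (hsπ : s ∈ π)
    (hsn : s ≤ Fintype.card α) (ht : t.Prime) (htn : t ≤ Fintype.card α) (htπ : t ∉ π) :
    False := by
  have hcardα : Nat.card α = Fintype.card α := Nat.card_eq_fintype_card
  have hordM : ∀ z ∈ M, orderOf z ∣ Nat.card M := by
    intro z hz
    have := orderOf_dvd_natCard (⟨z, hz⟩ : ↥M)
    rwa [← Subgroup.orderOf_coe] at this
  -- Step 1: `2 ∈ π`
  have h2π : 2 ∈ π := by
    by_contra h2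
    have hr2 : r ≠ 2 := fun h => h2 (h ▸ hrπ)
    have hs2 : s ≠ 2 := fun h => h2 (h ▸ hsπ)
    have hrodd := hr.odd_of_ne_two hr2
    have hsodd := hs.odd_of_ne_two hs2
    have hrs2 : r + 2 ≤ s := by
      rcases hrodd with ⟨a, ha⟩
      rcases hsodd with ⟨b, hb⟩
      omega
    obtain ⟨g, hgM, hgc⟩ := exists_cycle_mem hG hM hr hrπ hr2 (by omega)
    have hcyc : g.IsCycle := by rw [← card_cycleType_eq_one, hgc, Multiset.card_singleton]
    have hsupp : g.support.card = r := by rw [← sum_cycleType, hgc, Multiset.sum_singleton]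
    obtain ⟨k, hk⟩ : ∃ k, Fintype.card α = r + (k + 2) := ⟨Fintype.card α - r - 2, by omega⟩
    have hsc : Set.ncard ((g.support : Set α)ᶜ) = (k + 1) + 1 := by
      apply Nat.add_left_cancel (n := (g.support : Set α).ncard)
      rw [Set.ncard_add_ncard_compl, Set.ncard_coe_finset, hsupp, hcardα, hk]
    have hprim' : IsPreprimitive (fixingSubgroup M ((g.support : Set α)ᶜ))
        (ofFixingSubgroup M ((g.support : Set α)ᶜ)) := by
      have := isPretransitive_of_isCycle_mem hcyc hgM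
      apply IsPreprimitive.of_prime_card
      convert hr
      rw [show Nat.card (ofFixingSubgroup M ((g.support : Set α)ᶜ))
        = ((g.support : Set α)ᶜ)ᶜ.ncard from Nat.card_coe_set_eq _, compl_compl,
        Set.ncard_coe_finset, hsupp]
    have h3 : IsMultiplyPreprimitive M α (k + 1 + 2) :=
      hprim.isMultiplyPreprimitive hsc (by rw [hcardα, hk]; have := hr.two_le; omega) hprim'
    have h3' : IsMultiplyPretransitive M α (k + 1 + 2) :=
      IsMultiplyPreprimitive.isMultiplyPretransitive ..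
    have h2t : IsMultiplyPretransitive M α 2 :=
      isMultiplyPretransitive_of_le (n := k + 1 + 2) (by omega)
        (by rw [hcardα, hk]; have := hr.two_le; omega)
    rw [is_two_pretransitive_iff] at h2t
    obtain ⟨a, b, hab⟩ : ∃ a b : α, a ≠ b := by
      haveI : Nontrivial α := Fintype.one_lt_card_iff_nontrivial.mp (by omega)
      exact exists_pair_ne α
    obtain ⟨z, hz1, hz2⟩ := h2t hab hab.symm
    have hz1' : (z : Perm α) a = b := hz1
    have hz2' : (z : Perm α) b = a := hz2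
    have heven : 2 ∣ orderOf (z : Perm α) := by
      by_contra hodd
      have hsq : ((z : Perm α) ^ 2) a = a := by
        rw [pow_two, Perm.mul_apply, hz1', hz2']
      have hsqm : ∀ m : ℕ, (((z : Perm α) ^ 2) ^ m) a = a := by
        intro m
        induction m with
        | zero => simp
        | succ m ih => rw [pow_succ, Perm.mul_apply, hsq, ih]
      have hdm := Nat.div_add_mod (orderOf (z : Perm α)) 2
      have hmod : orderOf (z : Perm α) % 2 = 1 := by omega
      have hk' : ((z : Perm α) ^ orderOf (z : Perm α)) a = a := by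
        rw [pow_orderOf_eq_one]; rfl
      rw [← hdm, hmod, add_comm, pow_add, pow_mul, pow_one, Perm.mul_apply, hsqm, hz1'] at hk'
      exact hab hk'.symm
    exact h2 (hM.2.1 2 Nat.prime_two (dvd_trans heven (hordM _ z.2)))
  -- Step 2: `3 ∈ π`
  have h3π : 3 ∈ π := by
    by_contra h3
    obtain ⟨a, b, c, d, hab, hac, had, hbc, hbd, hcd, k1, k2, k3⟩ :=
      exists_klein_mem hG hM h2π (by omega)
    have hno : ∀ z ∈ M, ¬ 3 ∣ orderOf z := fun z hz hd =>
      h3 (hM.2.1 3 Nat.prime_three (dvd_trans hd (hordM z hz)))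
    have hblk := klein_block M hno hab hac had hbc hbd hcd k1 k2 k3
    have hB : IsBlock M ({a, b, c, d} : Set α) := by
      rw [isBlock_iff_smul_eq_or_disjoint]
      intro g
      have hg : (g • ({a, b, c, d} : Set α)) = (g : Perm α) '' ({a, b, c, d} : Set α) := rfl
      rw [hg]
      exact hblk g g.2
    rcases hprim.isTrivialBlock_of_isBlock hB with h | h
    · exact hab (h (by simp) (by simp))
    · have h6 : ({a, b, c, d} : Set α).ncard ≤ 4 := by
        have := Set.ncard_coe_finset ({a, b, c, d} : Finset α)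
        have h7 : ({a, b, c, d} : Finset α).card ≤ 4 := Finset.card_le_four
        have h8 : (({a, b, c, d} : Finset α) : Set α) = {a, b, c, d} := by
          ext x; simp
        rw [h8] at this
        omega
      rw [h, Set.ncard_univ, hcardα] at h6
      omega
  -- Step 3: a `3`-cycle
  obtain ⟨g, hgM, hgc⟩ := exists_cycle_mem hG hM Nat.prime_three h3π (by norm_num) (by omega)
  have h3g : IsThreeCycle g := hgc
  exact alt_le_absurd hM (alternatingGroup_le_of_isPreprimitive_of_isThreeCycle_mem hprim h3g hgM)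
    (by omega) ht htn htπ

end Cfsg.Agent.H43
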