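import Mathlib
import Cfsg.Agent.H43.HallArith
import Cfsg.Agent.H43.HallBasic
import Cfsg.Agent.H43.HallPrim

/-!
# Hall subgroups of symmetric and alternating groups: colourings and orbits

Preparations for the classification: counting with colourings, the stabilizer of a partition
into two halves, the shape of the conclusion, and the two-orbit divisibility lemma.
-/

set_option autoImplicit false

namespace Cfsg.Agent.H43

open Equiv Equiv.Perm MulAction
open scoped Nat

universe u

section

variable {α : Type u} [Fintype α] [DecidableEq α]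

omit [DecidableEq α] in
/-- The fibres of a colouring partition the set. -/
theorem sum_fiber_card {ι : Type*} [Fintype ι] [DecidableEq ι] (c : α → ι) :
    ∑ i, Nat.card {a // c a = i} = Fintype.card α := by
  rw [← Fintype.card_congr (Equiv.sigmaFiberEquiv c), Fintype.card_sigma]
  exact Finset.sum_congr rfl (fun i _ => Nat.card_eq_fintype_card)

omit [Fintype α] in
theorem swap_mem_colorStab {ι : Type*} (c : α → ι) {a b : α} (h : c a = c b) :
    swap a b ∈ colorStab c := by
  intro x
  by_cases hxa : x = a
  · rw [hxa, swap_apply_left, h]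
  by_cases hxb : x = b
  · rw [hxb, swap_apply_right, h]
  rw [swap_apply_of_ne_of_ne hxa hxb]

/-- The index of the stabilizer of a colouring (with a monochromatic pair) containing a Hall
subgroup is a `π'`-number. -/
theorem color_not_dvd {ι : Type*} [Fintype ι] [DecidableEq ι] (c : α → ι) {π : Set ℕ}
    {G M : Subgroup (Perm α)} (hG : alternatingGroup α ≤ G) (hM : HallIn π M G)
    (hMc : M ≤ colorStab c) (hmono : ∃ a b : α, a ≠ b ∧ c a = c b) {F : ℕ}
    (hF : (∏ i, (Nat.card {a // c a = i})!) * F = (Fintype.card α)!) {p : ℕ} (hp : p.Prime)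
    (hpπ : p ∈ π) : ¬ p ∣ F := by
  obtain ⟨a, b, hab, hc⟩ := hmono
  refine hM.not_dvd_of_card_mul hG ⟨a, b, hab, swap_mem_colorStab c hc⟩ hMc ?_ hp hpπ
  rw [card_colorStab]
  exact hF

/-- The colouring attached to a set. -/
noncomputable def setColor (S : Set α) : α → Bool :=
  fun x => @decide (x ∈ S) (Classical.propDecidable _)

omit [Fintype α] [DecidableEq α] in
theorem setColor_eq_true {S : Set α} {x : α} : setColor S x = true ↔ x ∈ S := by
  simp [setColor]

omit [Fintype α] [DecidableEq α] in
theorem setColor_eq_false {S : Set α} {x : α} : setColor S x = false ↔ x ∉ S := by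
  simp [setColor]

omit [Fintype α] [DecidableEq α] in
theorem card_fiber_eq_ncard {ι : Type*} (c : α → ι) (i : ι) (S : Set α)
    (h : ∀ x, c x = i ↔ x ∈ S) : Nat.card {x // c x = i} = S.ncard := by
  rw [← Nat.card_coe_set_eq]
  exact Nat.card_congr (Equiv.subtypeEquivRight h)

omit [Fintype α] [DecidableEq α] in
theorem card_setColor_true (S : Set α) : Nat.card {x // setColor S x = true} = S.ncard :=
  card_fiber_eq_ncard _ _ S (fun _ => setColor_eq_true)

omit [DecidableEq α] in
theorem card_bool_fibers (c : α → Bool) :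
    Nat.card {x // c x = true} + Nat.card {x // c x = false} = Fintype.card α := by
  rw [← sum_fiber_card c, Fintype.sum_bool]

theorem card_colorStab_bool (c : α → Bool) :
    Nat.card (colorStab c) = (Nat.card {x // c x = true})! * (Nat.card {x // c x = false})! := by
  rw [card_colorStab, Fintype.prod_bool]

/-- The permutations preserving or exchanging the two colour classes. -/
def pairStab (c : α → Bool) : Subgroup (Perm α) where
  carrier := {g | (∀ x, c (g x) = c x) ∨ (∀ x, c (g x) = !c x)}
  mul_mem' := by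
    rintro g h (hg | hg) (hh | hh)
    · left; intro x; rw [Perm.mul_apply, hg, hh]
    · right; intro x; rw [Perm.mul_apply, hg, hh]
    · right; intro x; rw [Perm.mul_apply, hg, hh]
    · left; intro x; rw [Perm.mul_apply, hg, hh, Bool.not_not]
  one_mem' := Or.inl (fun x => rfl)
  inv_mem' := by
    rintro g (hg | hg)
    · left
      intro x
      have := hg (g⁻¹ x)
      simpa using this.symm
    · right
      intro x
      have := hg (g⁻¹ x)
      have e : g (g⁻¹ x) = x := by simp
      rw [e] at this
      rw [this, Bool.not_not]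

omit [Fintype α] [DecidableEq α] in
theorem mem_pairStab (c : α → Bool) (g : Perm α) :
    g ∈ pairStab c ↔ (∀ x, c (g x) = c x) ∨ (∀ x, c (g x) = !c x) := Iff.rfl

omit [Fintype α] [DecidableEq α] in
theorem colorStab_le_pairStab (c : α → Bool) : colorStab c ≤ pairStab c :=
  fun _ hg => Or.inl hg

omit [Fintype α] [DecidableEq α] in
/-- The order of the pair stabilizer: once or twice the order of the colour stabilizer, and twice
if some permutation exchanges the colours. -/
theorem card_pairStab (c : α → Bool) :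
    (Nat.card (pairStab c) = Nat.card (colorStab c) ∧ pairStab c = colorStab c) ∨
      (Nat.card (pairStab c) = 2 * Nat.card (colorStab c) ∧ ∃ g ∈ pairStab c, g ∉ colorStab c) := by
  by_cases h : pairStab c ≤ colorStab c
  · left
    have : pairStab c = colorStab c := le_antisymm h (colorStab_le_pairStab c)
    exact ⟨by rw [this], this⟩
  · right
    obtain ⟨g₀, hg₀, hg₀'⟩ := Set.not_subset.mp h
    refine ⟨?_, g₀, hg₀, hg₀'⟩
    have hflip : ∀ g ∈ pairStab c, g ∉ colorStab c → ∀ x, c (g x) = !c x := by
      intro g hg hg' 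
      rcases hg with h1 | h1
      · exact absurd h1 hg'
      · exact h1
    have hidx : ((colorStab c).subgroupOf (pairStab c)).index = 2 := by
      rw [Subgroup.index_eq_two_iff]
      refine ⟨⟨g₀, hg₀⟩, fun b => ?_⟩
      by_cases hb : (b : Perm α) ∈ colorStab c
      · right
        refine ⟨hb, fun hcon => hg₀' ?_⟩
        have h2 : (b : Perm α) * g₀ ∈ colorStab c := hcon
        have h3 := (colorStab c).mul_mem ((colorStab c).inv_mem hb) h2
        rwa [inv_mul_cancel_left] at h3
      · left
        refine ⟨?_, hb⟩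
        change (b : Perm α) * g₀ ∈ colorStab c
        intro x
        rw [Perm.mul_apply, hflip _ b.2 hb, hflip _ hg₀ hg₀', Bool.not_not]
    have h4 := Subgroup.card_mul_index ((colorStab c).subgroupOf (pairStab c))
    rw [hidx, Nat.card_congr
      (Subgroup.subgroupOfEquivOfLe (colorStab_le_pairStab c)).toEquiv] at h4
    omega

omit [Fintype α] [DecidableEq α] in
theorem card_pairStab_dvd (c : α → Bool) :
    Nat.card (pairStab c) ∣ 2 * Nat.card (colorStab c) := by
  rcases card_pairStab c with ⟨h, -⟩ | ⟨h, -⟩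
  · rw [h]; exact dvd_mul_left _ _
  · rw [h]

/-- The possible shapes of a Hall `π`-subgroup `M` of `G` (the symmetric or alternating group),
when `π` contains at least two but not all primes up to the degree. -/
def HallConcl (π : Set ℕ) (G M : Subgroup (Perm α)) : Prop :=
  ((Fintype.card α).Prime ∧
      (∀ q : ℕ, q.Prime → q ≤ Fintype.card α → (q ∈ π ↔ q < Fintype.card α)) ∧
      ∃ c : α → Bool, Nat.card {a // c a = true} = 1 ∧ M = G ⊓ colorStab c) ∨
  (Fintype.card α = 7 ∧ (∀ q : ℕ, q.Prime → q ≤ 7 → (q ∈ π ↔ q = 2 ∨ q = 3)) ∧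
      ∃ c : α → Bool, Nat.card {a // c a = true} = 3 ∧ M = G ⊓ colorStab c) ∨
  (Fintype.card α = 8 ∧ (∀ q : ℕ, q.Prime → q ≤ 8 → (q ∈ π ↔ q = 2 ∨ q = 3)) ∧
      ∃ c : α → Bool, Nat.card {a // c a = true} = 4 ∧ M = G ⊓ pairStab c)

omit [DecidableEq α] in
theorem not_trans_of_color (c : α → Bool) (H : Subgroup (Perm α)) (hH : H ≤ colorStab c)
    (htr : ∀ x y : α, ∃ g ∈ H, g x = y) {k : ℕ} (hk : Nat.card {a // c a = true} = k)
    (hk0 : 0 < k) (hkn : k < Fintype.card α) : False := by
  have h1 : ∃ x, c x = true := by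
    by_contra hcon
    push Not at hcon
    have : IsEmpty {a // c a = true} := ⟨fun a => hcon a.1 a.2⟩
    rw [Nat.card_of_isEmpty] at hk
    omega
  have h2 : ∃ y, c y = false := by
    by_contra hcon
    push Not at hcon
    have hall : ∀ y, c y = true := fun y => by simpa using hcon y
    have : Nat.card {a // c a = true} = Fintype.card α := by
      rw [← Nat.card_eq_fintype_card]
      exact Nat.card_congr (Equiv.subtypeUnivEquiv hall)
    omega
  obtain ⟨x, hx⟩ := h1
  obtain ⟨y, hy⟩ := h2
  obtain ⟨g, hg, hgx⟩ := htr x y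
  have := hH hg x
  rw [hgx, hx, hy] at this
  exact absurd this (by decide)

omit [DecidableEq α] in
/-- A transitive Hall subgroup of one of the listed shapes is of the third shape. -/
theorem trans_concl {π : Set ℕ} {G M : Subgroup (Perm α)} (h : HallConcl π G M)
    (htr : ∀ x y : α, ∃ g ∈ M, g x = y) (h2 : 2 ≤ Fintype.card α) :
    Fintype.card α = 8 ∧ ∀ q : ℕ, q.Prime → q ≤ 8 → (q ∈ π ↔ q = 2 ∨ q = 3) := by
  rcases h with ⟨-, -, c, hc, rfl⟩ | ⟨h7, -, c, hc, rfl⟩ | ⟨h8, hq, -⟩
  · exact (not_trans_of_color c _ inf_le_right htr hc (by norm_num) (by omega)).elim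
  · exact (not_trans_of_color c _ inf_le_right htr hc (by norm_num) (by omega)).elim
  · exact ⟨h8, hq⟩

/-- The orbit of a point under a permutation group. -/
def orb (M : Subgroup (Perm α)) (x : α) : Set α := {y | ∃ g ∈ M, g x = y}

omit [Fintype α] [DecidableEq α] in
theorem mem_orb_self (M : Subgroup (Perm α)) (x : α) : x ∈ orb M x := ⟨1, M.one_mem, rfl⟩

omit [Fintype α] [DecidableEq α] in
theorem orb_eq_of_mem {M : Subgroup (Perm α)} {x y : α} (h : y ∈ orb M x) :
    orb M y = orb M x := by
  obtain ⟨g, hg, rfl⟩ := h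
  ext z
  constructor
  · rintro ⟨h, hh, rfl⟩
    exact ⟨h * g, M.mul_mem hh hg, rfl⟩
  · rintro ⟨h, hh, rfl⟩
    exact ⟨h * g⁻¹, M.mul_mem hh (M.inv_mem hg), by simp⟩

omit [Fintype α] [DecidableEq α] in
theorem apply_mem_orb_iff {M : Subgroup (Perm α)} {g : Perm α} (hg : g ∈ M) (x z : α) :
    g z ∈ orb M x ↔ z ∈ orb M x := by
  constructor
  · rintro ⟨h, hh, hz⟩
    exact ⟨g⁻¹ * h, M.mul_mem (M.inv_mem hg) hh, by rw [Perm.mul_apply, hz]; simp⟩
  · rintro ⟨h, hh, rfl⟩
    exact ⟨g * h, M.mul_mem hg hh, rfl⟩

omit [Fintype α] [DecidableEq α] in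
theorem not_mem_orb_of_not_mem {M : Subgroup (Perm α)} {x y a : α} (hy : y ∉ orb M x)
    (ha : a ∈ orb M x) : a ∉ orb M y := by
  intro h
  apply hy
  rw [← orb_eq_of_mem ha, orb_eq_of_mem h]
  exact mem_orb_self M y

/-- Two distinct orbits of a Hall subgroup, of lengths `j` and `j'`: no prime of `π` divides
`(j + j').choose j'`. -/
theorem two_orbits {π : Set ℕ} {G M : Subgroup (Perm α)} (hG : alternatingGroup α ≤ G)
    (hM : HallIn π M G) {y y' : α} (hd : y' ∉ orb M y) {a b : α} (hab : a ≠ b)
    (h1 : a ∈ orb M y ↔ b ∈ orb M y) (h2 : a ∈ orb M y' ↔ b ∈ orb M y') {p : ℕ} (hp : p.Prime)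
    (hpπ : p ∈ π) :
    ¬ p ∣ Nat.choose ((orb M y).ncard + (orb M y').ncard) (orb M y').ncard := by
  classical
  set c : α → Fin 3 := fun x => if x ∈ orb M y then 0 else if x ∈ orb M y' then 1 else 2 with hc
  have hMc : M ≤ colorStab c := by
    intro g hg x
    simp only [hc, apply_mem_orb_iff hg]
  have hcab : c a = c b := by simp only [hc, h1, h2]
  have hf0 : Nat.card {x // c x = 0} = (orb M y).ncard := by
    apply card_fiber_eq_ncard
    intro x
    simp only [hc]
    split_ifs with h3 h4
    · simp [h3]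
    · simp [h3]
    · simp [h3]
  have hf1 : Nat.card {x // c x = 1} = (orb M y').ncard := by
    apply card_fiber_eq_ncard
    intro x
    simp only [hc]
    split_ifs with h3 h4
    · have : x ∉ orb M y' := fun h5 => hd (by
        rw [← orb_eq_of_mem h3, orb_eq_of_mem h5]; exact mem_orb_self M y')
      simp [this]
    · simp [h4]
    · simp [h4]
  set j := (orb M y).ncard with hj
  set j' := (orb M y').ncard with hj'
  set m := Nat.card {x // c x = 2} with hm
  have hsum := sum_fiber_card c
  rw [Fin.sum_univ_three, hf0, hf1] at hsum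
  have hF : (∏ i, (Nat.card {a // c a = i})!) *
      (Nat.choose (j + j' + m) m * Nat.choose (j + j') j') = (Fintype.card α)! := by
    rw [Fin.prod_univ_three, hf0, hf1, ← hsum, ← hm]
    have e1 := Nat.add_choose_mul_factorial_mul_factorial j j'
    have e2 := Nat.add_choose_mul_factorial_mul_factorial (j + j') m
    rw [← e2, ← e1]
    ring
  have := color_not_dvd c hG hM hMc ⟨a, b, hab, hcab⟩ hF hp hpπ
  exact fun hd' => this (dvd_mul_of_dvd_right hd' _)

end

end Cfsg.Agent.H43
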