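import Mathlib
import Cfsg.Agent.H43.HallMain1

/-!
# Hall subgroups of symmetric and alternating groups: the intransitive case
-/

set_option autoImplicit false

namespace Cfsg.Agent.H43

open Equiv Equiv.Perm MulAction
open scoped Nat

universe u

variable {α : Type u} [Fintype α] [DecidableEq α]

/-- The intransitive case of the classification. -/
theorem intrans_case {π : Set ℕ} {G M : Subgroup (Perm α)} (hG : alternatingGroup α ≤ G)
    (hM : HallIn π M G) (hnt : ¬ ∀ x y : α, ∃ g ∈ M, g x = y) (h5 : 5 ≤ Fintype.card α)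
    {r s : ℕ} (hr : r.Prime) (hs : s.Prime) (hrs : r < s) (hsπ : s ∈ π)
    (hsn : s ≤ Fintype.card α) (ht : ∃ t : ℕ, t.Prime ∧ t ≤ Fintype.card α ∧ t ∉ π)
    (IH : ∀ (β : Type u) [Fintype β] [DecidableEq β], Fintype.card β < Fintype.card α →
      ∀ (G' M' : Subgroup (Perm β)), alternatingGroup β ≤ G' → HallIn π M' G' →
      s ≤ Fintype.card β → (∃ t : ℕ, t.Prime ∧ t ≤ Fintype.card β ∧ t ∉ π) → HallConcl π G' M') :
    HallConcl π G M := by
  have hne : Nonempty α := Fintype.card_pos_iff.mp (by omega)
  obtain ⟨x₁, -, hx₁⟩ := Finset.exists_max_image Finset.univ (fun x : α => (orb M x).ncard)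
    ⟨hne.some, Finset.mem_univ _⟩
  set K := (orb M x₁).ncard with hK
  have hmax : ∀ x, (orb M x).ncard ≤ K := fun x => hx₁ x (Finset.mem_univ _)
  have hr2 := hr.two_le
  have hs2 : s ≠ 2 := by omega
  -- `s ≤ K`
  have hsK : s ≤ K := by
    obtain ⟨g, hgM, hgc⟩ := exists_cycle_mem hG hM hs hsπ hs2 hsn
    have hcyc : g.IsCycle := by rw [← card_cycleType_eq_one, hgc, Multiset.card_singleton]
    have hsupp : g.support.card = s := by rw [← sum_cycleType, hgc, Multiset.sum_singleton]
    obtain ⟨y, hy, hy2⟩ := hcyc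
    have hsub : (g.support : Set α) ⊆ orb M y := by
      intro z hz
      have hz' : g z ≠ z := by simpa using hz
      obtain ⟨i, hi⟩ := hy2 hz'
      exact ⟨g ^ i, M.zpow_mem hgM i, hi⟩
    have := Set.ncard_le_ncard hsub (Set.toFinite _)
    rw [Set.ncard_coe_finset, hsupp] at this
    exact this.trans (hmax y)
  have hK3 : 3 ≤ K := by omega
  -- two points in the big orbit
  obtain ⟨a, b, ha, hb, hab⟩ : ∃ a b, a ∈ orb M x₁ ∧ b ∈ orb M x₁ ∧ a ≠ b :=
    (Set.one_lt_ncard_iff (Set.toFinite _)).mp (by omega)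
  -- a point outside the big orbit
  obtain ⟨y₀, hy₀⟩ : ∃ y₀, y₀ ∉ orb M x₁ := by
    by_contra hcon
    push Not at hcon
    apply hnt
    intro x y
    have hx := hcon x
    have hy := hcon y
    rw [← orb_eq_of_mem hx] at hy
    exact hy
  -- the colouring
  set c : α → Bool := setColor (orb M x₁)ᶜ with hc
  have hcf : ∀ x, c x = false ↔ x ∈ orb M x₁ := by
    intro x
    rw [hc, setColor_eq_false, Set.mem_compl_iff, not_not]
  have hct : ∀ x, c x = true ↔ x ∉ orb M x₁ := by
    intro x
    rw [hc, setColor_eq_true, Set.mem_compl_iff]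
  have hMc : M ≤ colorStab c := by
    intro g hg x
    by_cases hx : x ∈ orb M x₁
    · rw [(hcf x).mpr hx, (hcf (g x)).mpr ((apply_mem_orb_iff hg _ _).mpr hx)]
    · rw [(hct x).mpr hx, (hct (g x)).mpr (fun h => hx ((apply_mem_orb_iff hg _ _).mp h))]
  have hf0 : Nat.card {x // c x = false} = K := card_fiber_eq_ncard c false _ hcf
  have hsum := card_bool_fibers c
  rw [hf0] at hsum
  have hf1pos : 0 < Nat.card {x // c x = true} := by
    haveI : Nonempty {x // c x = true} := ⟨⟨y₀, (hct y₀).mpr hy₀⟩⟩
    exact Nat.card_pos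
  have hKn : K < Fintype.card α := by omega
  -- the Hall subgroup induced on the big orbit
  have hM' : HallIn π M (G ⊓ colorStab c) := hM.mono (le_inf hM.1 hMc) inf_le_left
  obtain ⟨G₁, M₁, hG₁, hM₁, hlift⟩ := fiber_hall c false hG hM'
  have hcard₁ : Fintype.card {x // c x = false} = K := by
    rw [← Nat.card_eq_fintype_card]; exact hf0
  have htr₁ : ∀ u v : {x // c x = false}, ∃ g ∈ M₁, g u = v := by
    intro u v
    have hu : (u : α) ∈ orb M x₁ := (hcf _).mp u.2
    have hv : (v : α) ∈ orb M x₁ := (hcf _).mp v.2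
    rw [← orb_eq_of_mem hu] at hv
    obtain ⟨g, hg, hgu⟩ := hv
    obtain ⟨h, hh, hhg⟩ := hlift g hg
    exact ⟨h, hh, Subtype.ext (by rw [hhg, hgu])⟩
  have hcase : (∀ q : ℕ, q.Prime → q ≤ K → q ∈ π) ∨
      (K = 8 ∧ ∀ q : ℕ, q.Prime → q ≤ 8 → (q ∈ π ↔ q = 2 ∨ q = 3)) := by
    by_cases hfull : ∀ q : ℕ, q.Prime → q ≤ K → q ∈ π
    · exact Or.inl hfull
    · right
      push Not at hfull
      obtain ⟨t', ht', ht'K, ht'π⟩ := hfull
      have h1 := IH {x // c x = false} (by rw [hcard₁]; exact hKn) G₁ M₁ hG₁ hM₁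
        (by rw [hcard₁]; exact hsK) ⟨t', ht', by rw [hcard₁]; exact ht'K, ht'π⟩
      have h2 := trans_concl h1 htr₁ (by rw [hcard₁]; omega)
      rwa [hcard₁] at h2
  -- the other orbits
  have horb : ∀ y, y ∉ orb M x₁ → 1 ≤ (orb M y).ncard ∧ (orb M y).ncard ≤ K ∧
      ∀ p : ℕ, p.Prime → p ∈ π → ¬ p ∣ Nat.choose (K + (orb M y).ncard) (orb M y).ncard := by
    intro y hy
    refine ⟨?_, hmax y, fun p hp hpπ => ?_⟩
    · have : 0 < (orb M y).ncard := (Set.ncard_pos (Set.toFinite _)).mpr ⟨y, mem_orb_self M y⟩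
      exact this
    · exact two_orbits hG hM hy hab (iff_of_true ha hb)
        (iff_of_false (not_mem_orb_of_not_mem hy ha) (not_mem_orb_of_not_mem hy hb)) hp hpπ
  rcases hcase with hfull | ⟨hK8, hπ8⟩
  · -- all primes up to `K` lie in `π`
    have h2π : 2 ∈ π := hfull 2 Nat.prime_two (by omega)
    have hshape : ∀ y, y ∉ orb M x₁ → ((orb M y).ncard = 1 ∧ (K + 1).Prime) ∨
        (K = 4 ∧ (orb M y).ncard = 3) := by
      intro y hy
      obtain ⟨h1, h2, h3⟩ := horb y hy
      rcases Nat.lt_or_ge (orb M y).ncard 2 with hj | hj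
      · left
        have hj1 : (orb M y).ncard = 1 := by omega
        refine ⟨hj1, prime_succ_of_coprime (by omega) (fun p hp hpK => ?_)⟩
        have := h3 p hp (hfull p hp hpK)
        rwa [hj1, Nat.choose_one_right] at this
      · right
        exact choose_exc hj h2 (fun p hp hpK => h3 p hp (hfull p hp hpK))
    -- only one other orbit
    have hone : ∀ y y', y ∉ orb M x₁ → y' ∉ orb M x₁ → y' ∈ orb M y := by
      intro y y' hy hy'
      by_contra hd
      have h4 := two_orbits hG hM hd hab
        (iff_of_false (not_mem_orb_of_not_mem hy ha) (not_mem_orb_of_not_mem hy hb))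
        (iff_of_false (not_mem_orb_of_not_mem hy' ha) (not_mem_orb_of_not_mem hy' hb))
        Nat.prime_two h2π
      rcases hshape y hy with ⟨e1, -⟩ | ⟨-, e1⟩ <;> rcases hshape y' hy' with ⟨e2, -⟩ | ⟨-, e2⟩ <;>
        rw [e1, e2] at h4 <;> exact h4 (by decide)
    have hcompl : (orb M x₁)ᶜ = orb M y₀ := by
      ext z
      rw [Set.mem_compl_iff]
      constructor
      · intro hz
        exact hone y₀ z hy₀ hz
      · intro hz hz1
        exact not_mem_orb_of_not_mem hy₀ hz1 hz
    have hf1 : Nat.card {x // c x = true} = (orb M y₀).ncard := by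
      rw [hc, card_setColor_true, hcompl]
    have hMeq : (∀ p : ℕ, p.Prime → p ∣ (Nat.card {x // c x = true})! * K ! → p ∈ π) →
        M = G ⊓ colorStab c := by
      intro hpr
      refine hM.eq_of_pi (le_inf hM.1 hMc) inf_le_left (fun p hp hd => hpr p hp ?_)
      have h6 : Nat.card (G ⊓ colorStab c : Subgroup (Perm α)) ∣ Nat.card (colorStab c) :=
        Subgroup.card_dvd_of_le inf_le_right
      rw [card_colorStab_bool, hf0] at h6
      exact dvd_trans hd h6
    rcases hshape y₀ hy₀ with ⟨e1, hprime⟩ | ⟨hK4, e1⟩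
    · -- a point stabilizer
      left
      rw [hf1, e1] at hsum
      have hn : Fintype.card α = K + 1 := by omega
      refine ⟨by rw [hn]; exact hprime, fun q hq hqn => ?_, c, by rw [hf1, e1], ?_⟩
      · constructor
        · intro hqπ
          by_contra hcon
          obtain ⟨t, htp, htn, htπ⟩ := ht
          have hqe : q = Fintype.card α := by omega
          have htK : ¬ t ≤ K := fun h => htπ (hfull t htp h)
          have hte : t = Fintype.card α := by omega
          rw [hte, ← hqe] at htπ
          exact htπ hqπ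
        · intro hlt
          exact hfull q hq (by omega)
      · apply hMeq
        intro p hp hd
        rw [hf1, e1, Nat.factorial_one, one_mul] at hd
        exact hfull p hp ((Nat.Prime.dvd_factorial hp).mp hd)
    · -- the stabilizer of a `3`-set, `n = 7`
      right; left
      rw [hf1, e1] at hsum
      have hn : Fintype.card α = 7 := by omega
      have h3π : 3 ∈ π := hfull 3 Nat.prime_three (by omega)
      refine ⟨hn, fun q hq hq7 => ?_, c, by rw [hf1, e1], ?_⟩
      · constructor
        · intro hqπ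
          have h7 := (horb y₀ hy₀).2.2 q hq hqπ
          rw [e1, hK4] at h7
          have h8 : Nat.choose (4 + 3) 3 = 35 := by decide
          rw [h8] at h7
          have hq5 : q ≠ 5 := by rintro rfl; exact h7 (by decide)
          have hq7' : q ≠ 7 := by rintro rfl; exact h7 (by decide)
          have hq2 := hq.two_le
          interval_cases q
          · left; rfl
          · right; rfl
          · exact absurd hq (by decide)
          · exact absurd rfl hq5
          · exact absurd hq (by decide)
          · exact absurd rfl hq7'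
        · rintro (rfl | rfl)
          · exact h2π
          · exact h3π
      · apply hMeq
        intro p hp hd
        rw [hf1, e1, hK4] at hd
        have h9 : (3 ! * 4 ! : ℕ) = 2 ^ 4 * 3 ^ 2 := by decide
        rw [h9] at hd
        rcases (Nat.Prime.dvd_mul hp).mp hd with h10 | h10
        · have := (Nat.prime_dvd_prime_iff_eq hp Nat.prime_two).mp (hp.dvd_of_dvd_pow h10)
          rw [this]; exact h2π
        · have := (Nat.prime_dvd_prime_iff_eq hp Nat.prime_three).mp (hp.dvd_of_dvd_pow h10)
          rw [this]; exact h3π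
  · -- `K = 8`, `π ∩ {2, 3, 5, 7} = {2, 3}`: impossible
    exfalso
    obtain ⟨h1, h2, h3⟩ := horb y₀ hy₀
    have h2π : 2 ∈ π := (hπ8 2 Nat.prime_two (by norm_num)).mpr (Or.inl rfl)
    have h3π : 3 ∈ π := (hπ8 3 Nat.prime_three (by norm_num)).mpr (Or.inr rfl)
    have h4 := h3 2 Nat.prime_two h2π
    have h5' := h3 3 Nat.prime_three h3π
    rw [hK8] at h2 h4 h5'
    generalize (orb M y₀).ncard = j at h1 h2 h4 h5'
    interval_cases j
    · exact h5' (by decide)
    · exact h5' (by decide)
    · exact h5' (by decide)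
    · exact h5' (by decide)
    · exact h5' (by decide)
    · exact h5' (by decide)
    · exact h5' (by decide)
    · exact h4 (by decide)

end Cfsg.Agent.H43
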