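import Mathlib
import Cfsg.Agent.H43.HallMain1

/-!
# Hall subgroups of symmetric and alternating groups: the imprimitive case
-/

set_option autoImplicit false

namespace Cfsg.Agent.H43

open Equiv Equiv.Perm MulAction
open scoped Nat

universe u

variable {α : Type u} [Fintype α] [DecidableEq α]

omit [Fintype α] [DecidableEq α] in
theorem perm_inv_apply_self (g : Perm α) (x : α) : g⁻¹ (g x) = x := by simp

omit [Fintype α] [DecidableEq α] in
theorem perm_apply_inv_self (g : Perm α) (x : α) : g (g⁻¹ x) = x := by simp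

omit [Fintype α] [DecidableEq α] in
/-- The permutation of the colours induced by a group permuting the colour classes. -/
noncomputable def blockHom {ι : Type*} (c : α → ι) (hsurj : Function.Surjective c)
    (M : Subgroup (Perm α)) (hcompat : ∀ g ∈ M, ∀ x y, c x = c y → c (g x) = c (g y)) :
    ↥M →* Perm ι where
  toFun g :=
    { toFun := fun D => c ((g : Perm α) (Function.surjInv hsurj D))
      invFun := fun D => c ((g : Perm α)⁻¹ (Function.surjInv hsurj D))
      left_inv := fun D => by
        have h1 := hcompat _ (M.inv_mem g.2) _ _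
          (Function.surjInv_eq hsurj (c ((g : Perm α) (Function.surjInv hsurj D))))
        change c ((g : Perm α)⁻¹ (Function.surjInv hsurj
          (c ((g : Perm α) (Function.surjInv hsurj D))))) = D
        rw [h1, perm_inv_apply_self]
        exact Function.surjInv_eq hsurj D
      right_inv := fun D => by
        have h1 := hcompat _ g.2 _ _
          (Function.surjInv_eq hsurj (c ((g : Perm α)⁻¹ (Function.surjInv hsurj D))))
        change c ((g : Perm α) (Function.surjInv hsurj
          (c ((g : Perm α)⁻¹ (Function.surjInv hsurj D))))) = D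
        rw [h1, perm_apply_inv_self]
        exact Function.surjInv_eq hsurj D }
  map_one' := by
    ext D
    change c ((1 : Perm α) (Function.surjInv hsurj D)) = D
    rw [Perm.one_apply]
    exact Function.surjInv_eq hsurj D
  map_mul' := fun g h => by
    ext D
    change c (((g : Perm α) * (h : Perm α)) (Function.surjInv hsurj D)) =
      c ((g : Perm α) (Function.surjInv hsurj (c ((h : Perm α) (Function.surjInv hsurj D)))))
    rw [Perm.mul_apply]
    exact (hcompat _ g.2 _ _ (Function.surjInv_eq hsurj _)).symm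

omit [Fintype α] [DecidableEq α] in
theorem blockHom_apply {ι : Type*} (c : α → ι) (hsurj : Function.Surjective c)
    (M : Subgroup (Perm α)) (hcompat : ∀ g ∈ M, ∀ x y, c x = c y → c (g x) = c (g y))
    (g : ↥M) (x : α) : blockHom c hsurj M hcompat g (c x) = c ((g : Perm α) x) :=
  hcompat _ g.2 _ _ (Function.surjInv_eq hsurj (c x))

omit [DecidableEq α] in
/-- A block of a transitive group gives a colouring with classes of equal size. -/
theorem exists_block_coloring (M : Subgroup (Perm α)) (htr : ∀ x y : α, ∃ g ∈ M, g x = y)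
    (B : Set α) (hblk : ∀ g ∈ M, g '' B = B ∨ Disjoint (g '' B) B) (hB2 : 2 ≤ B.ncard)
    (hBne : B ≠ Set.univ) :
    ∃ (ι : Type u) (_ : Fintype ι) (_ : DecidableEq ι) (c : α → ι), Function.Surjective c ∧
      (∀ i, Nat.card {x // c x = i} = B.ncard) ∧
      (∀ g ∈ M, ∀ x y, c x = c y → c (g x) = c (g y)) ∧ 2 ≤ Fintype.card ι := by
  obtain ⟨b₀, hb₀⟩ : B.Nonempty := by
    rw [← Set.ncard_pos (Set.toFinite _)]; omega
  have hex : ∀ x : α, ∃ g ∈ M, x ∈ g '' B := by
    intro x
    obtain ⟨g, hg, hgx⟩ := htr b₀ x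
    exact ⟨g, hg, b₀, hb₀, hgx⟩
  choose γ hγM hγx using hex
  -- two translates that meet are equal
  have hmeet : ∀ h₁ ∈ M, ∀ h₂ ∈ M, ∀ z, z ∈ h₁ '' B → z ∈ h₂ '' B → h₁ '' B = h₂ '' B := by
    rintro h₁ hh₁ h₂ hh₂ z ⟨u, hu, rfl⟩ ⟨v, hv, huv⟩
    have h3 : (h₂⁻¹ * h₁) '' B = B := by
      rcases hblk _ (M.mul_mem (M.inv_mem hh₂) hh₁) with h | h
      · exact h
      · exfalso
        have h4 : (h₂⁻¹ * h₁) u ∈ (h₂⁻¹ * h₁) '' B := ⟨u, hu, rfl⟩
        have h5 : (h₂⁻¹ * h₁) u = v := by
          rw [Perm.mul_apply, ← huv, perm_inv_apply_self]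
        rw [h5] at h4
        exact Set.disjoint_left.mp h h4 hv
    have h6 : h₂ '' ((h₂⁻¹ * h₁) '' B) = h₁ '' B := by
      rw [Set.image_image]
      apply Set.image_congr
      intro w _
      rw [Perm.mul_apply, perm_apply_inv_self]
    rw [← h6, h3]
  set c₀ : α → Set α := fun x => (γ x) '' B with hc₀
  have hP3 : ∀ x y, y ∈ c₀ x → c₀ y = c₀ x := fun x y hy =>
    hmeet _ (hγM y) _ (hγM x) y (hγx y) hy
  have hP4 : ∀ h ∈ M, ∀ x, c₀ (h x) = h '' (c₀ x) := by
    intro h hh x
    have h1 : h '' (c₀ x) = (h * γ x) '' B := by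
      rw [hc₀, Set.image_image]; rfl
    rw [h1]
    apply hmeet _ (hγM (h x)) _ (M.mul_mem hh (hγM x)) (h x) (hγx (h x))
    rw [← h1]
    exact ⟨x, hγx x, rfl⟩
  refine ⟨↥(Set.range c₀), Fintype.ofFinite _, Classical.decEq _, Set.rangeFactorization c₀,
    Set.rangeFactorization_surjective, ?_, ?_, ?_⟩
  · rintro ⟨_, x₀, rfl⟩
    rw [card_fiber_eq_ncard (Set.rangeFactorization c₀) ⟨c₀ x₀, x₀, rfl⟩ (c₀ x₀)]
    · exact Set.ncard_image_of_injective B (γ x₀).injective
    · intro x
      rw [Subtype.ext_iff]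
      change c₀ x = c₀ x₀ ↔ x ∈ c₀ x₀
      constructor
      · intro h
        rw [← h]
        exact hγx x
      · exact hP3 x₀ x
  · intro g hg x y hxy
    rw [Subtype.ext_iff] at hxy ⊢
    change c₀ x = c₀ y at hxy
    change c₀ (g x) = c₀ (g y)
    rw [hP4 g hg, hP4 g hg, hxy]
  · obtain ⟨z, hz⟩ : ∃ z, z ∉ B := by
      by_contra hcon
      push Not at hcon
      exact hBne (Set.eq_univ_of_forall hcon)
    have h1 : c₀ b₀ = B := by
      have h2 : c₀ b₀ = (1 : Perm α) '' B :=
        hmeet _ (hγM b₀) 1 M.one_mem b₀ (hγx b₀) ⟨b₀, hb₀, rfl⟩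
      rw [h2]
      simp
    have hne : Set.rangeFactorization c₀ b₀ ≠ Set.rangeFactorization c₀ z := by
      intro h
      rw [Subtype.ext_iff] at h
      change c₀ b₀ = c₀ z at h
      apply hz
      rw [← h1, h]
      exact hγx z
    exact (@Fintype.one_lt_card_iff _ (Fintype.ofFinite _)).mpr ⟨_, _, hne⟩

end Cfsg.Agent.H43
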