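import Mathlib
import Cfsg.Agent.H43.HallMain2
import Cfsg.Agent.H43.HallMain3

/-!
# Hall subgroups of symmetric and alternating groups: the imprimitive case and the main theorem
-/

set_option autoImplicit false

namespace Cfsg.Agent.H43

open Equiv Equiv.Perm MulAction
open scoped Nat

universe u

variable {α : Type u} [Fintype α] [DecidableEq α]

/-- The imprimitive case of the classification. -/
theorem imprim_case {π : Set ℕ} {G M : Subgroup (Perm α)} (hG : alternatingGroup α ≤ G)
    (hM : HallIn π M G) (htr : ∀ x y : α, ∃ g ∈ M, g x = y)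
    {ι : Type u} [Fintype ι] [DecidableEq ι] (c : α → ι) (hsurj : Function.Surjective c)
    {a : ℕ} (hfib : ∀ i, Nat.card {x // c x = i} = a) (ha : 2 ≤ a) (hb : 2 ≤ Fintype.card ι)
    (hcompat : ∀ g ∈ M, ∀ x y, c x = c y → c (g x) = c (g y))
    {r s : ℕ} (hr : r.Prime) (hs : s.Prime) (hrs : r < s) (hsπ : s ∈ π)
    (hsn : s ≤ Fintype.card α)
    (IH : ∀ (β : Type u) [Fintype β] [DecidableEq β], Fintype.card β < Fintype.card α →
      ∀ (G' M' : Subgroup (Perm β)), alternatingGroup β ≤ G' → HallIn π M' G' →
      s ≤ Fintype.card β → (∃ t : ℕ, t.Prime ∧ t ≤ Fintype.card β ∧ t ∉ π) → HallConcl π G' M') :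
    HallConcl π G M := by
  set b := Fintype.card ι with hbdef
  have hn : Fintype.card α = a * b := by
    rw [← sum_fiber_card c]
    simp only [hfib, Finset.sum_const, Finset.card_univ, smul_eq_mul]
    rw [mul_comm]
  set ψ := blockHom c hsurj M hcompat with hψ
  have hψa : ∀ (g : ↥M) (x : α), ψ g (c x) = c ((g : Perm α) x) :=
    blockHom_apply c hsurj M hcompat
  set N := M ⊓ colorStab c with hN
  have hker : ψ.ker = N.subgroupOf M := by
    ext g
    rw [MonoidHom.mem_ker, Subgroup.mem_subgroupOf, hN, Subgroup.mem_inf]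
    constructor
    · intro h
      refine ⟨g.2, fun x => ?_⟩
      rw [← hψa, h]
      rfl
    · rintro ⟨-, h⟩
      ext D
      obtain ⟨x, rfl⟩ := hsurj D
      rw [hψa, h x]
      rfl
  have hcNR : Nat.card N * Nat.card ψ.range = Nat.card M := by
    rw [← Subgroup.index_ker, hker,
      ← Nat.card_congr (Subgroup.subgroupOfEquivOfLe (inf_le_left : N ≤ M)).toEquiv]
    exact Subgroup.card_mul_index _
  have hιne : Nonempty ι := Fintype.card_pos_iff.mp (by omega)
  obtain ⟨i₀⟩ := hιne
  -- a monochromatic pair
  obtain ⟨x, y, hxy, hcxy⟩ : ∃ x y : α, x ≠ y ∧ c x = c y := by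
    have h1 : 1 < Fintype.card {x // c x = i₀} := by
      rw [← Nat.card_eq_fintype_card, hfib]; omega
    obtain ⟨u, v, huv⟩ := Fintype.one_lt_card_iff.mp h1
    exact ⟨u.1, v.1, fun h => huv (Subtype.ext h), by rw [u.2, v.2]⟩
  have e1 := card_mul_relIndex' hM.1
  have e2 : Nat.card G * G.index = (Fintype.card α)! := by
    rw [Subgroup.card_mul_index, Nat.card_perm, Nat.card_eq_fintype_card]
  have e3 := card_inf_mul_index (S := colorStab c) hG ⟨x, y, hxy, swap_mem_colorStab c hcxy⟩
  have e4 : Nat.card (colorStab c) = a ! ^ b := by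
    rw [card_colorStab]
    simp only [hfib, Finset.prod_const, Finset.card_univ]
    rfl
  have hNle : N ≤ G ⊓ colorStab c := inf_le_inf_right _ hM.1
  have e5 := card_mul_relIndex' hNle
  have e6 : Nat.card ψ.range * ψ.range.index = b ! := by
    rw [Subgroup.card_mul_index, Nat.card_perm, Nat.card_eq_fintype_card]
  have e7 := factorial_block a b (by omega)
  set F := ∏ i ∈ Finset.range b, Nat.choose ((i + 1) * a - 1) (a - 1) with hF
  have key : M.relIndex G = N.relIndex (G ⊓ colorStab c) * ψ.range.index * F := by
    have hGi : 0 < G.index := Nat.pos_of_ne_zero (Subgroup.index_ne_zero_of_finite)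
    have hpos : 0 < Nat.card M * G.index := Nat.mul_pos Nat.card_pos hGi
    apply Nat.eq_of_mul_eq_mul_left hpos
    calc Nat.card M * G.index * M.relIndex G = (Nat.card M * M.relIndex G) * G.index := by ring
      _ = (Fintype.card α)! := by rw [e1, e2]
      _ = a ! ^ b * b ! * F := by rw [hn, e7]
      _ = (Nat.card (G ⊓ colorStab c : Subgroup (Perm α)) * G.index) *
            (Nat.card ψ.range * ψ.range.index) * F := by rw [e3, e4, e6]
      _ = (Nat.card N * N.relIndex (G ⊓ colorStab c) * G.index) *
            (Nat.card ψ.range * ψ.range.index) * F := by rw [e5]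
      _ = (Nat.card N * Nat.card ψ.range) * G.index *
            (N.relIndex (G ⊓ colorStab c) * ψ.range.index * F) := by ring
      _ = _ := by rw [hcNR]
  have hFπ : ∀ p : ℕ, p.Prime → p ∈ π → ¬ p ∣ F := by
    intro p hp hpπ hd
    apply hM.2.2 p hp hpπ
    rw [key]
    exact dvd_mul_of_dvd_right hd _
  have hNhall : HallIn π N (G ⊓ colorStab c) := by
    refine ⟨hNle, fun p hp hd => hM.2.1 p hp (dvd_trans hd (Dvd.intro _ hcNR)),
      fun p hp hpπ hd => hM.2.2 p hp hpπ ?_⟩
    rw [key]
    exact dvd_mul_of_dvd_left (dvd_mul_of_dvd_left hd _) _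
  have hRhall : HallIn π ψ.range ⊤ := by
    refine ⟨le_top, fun p hp hd => hM.2.1 p hp (dvd_trans hd (Dvd.intro_left _ hcNR)),
      fun p hp hpπ hd => hM.2.2 p hp hpπ ?_⟩
    rw [Subgroup.relIndex_top_right] at hd
    rw [key]
    exact dvd_mul_of_dvd_left (dvd_mul_of_dvd_right hd _) _
  have hRtr : ∀ D D' : ι, ∃ h ∈ ψ.range, h D = D' := by
    intro D D'
    obtain ⟨x, rfl⟩ := hsurj D
    obtain ⟨y, rfl⟩ := hsurj D'
    obtain ⟨g, hg, hgx⟩ := htr x y
    refine ⟨ψ ⟨g, hg⟩, ⟨_, rfl⟩, ?_⟩
    rw [hψa]
    exact congrArg c hgx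
  have hr2 := hr.two_le
  have hb1 : 1 ∈ Finset.range b := Finset.mem_range.mpr (by omega)
  have hfac1 : Nat.choose (a + (a - 1)) (a - 1) ∣ F := by
    have := Finset.dvd_prod_of_mem (fun i => Nat.choose ((i + 1) * a - 1) (a - 1)) hb1
    have e : (1 + 1) * a - 1 = a + (a - 1) := by omega
    rw [e] at this
    exact this
  -- `s ≤ a` or `s ≤ b`
  have hsab : s ≤ a ∨ s ≤ b := by
    have h1 : s ∣ a ! ^ b * b ! * F := by
      rw [← e7, ← hn]
      exact (Nat.Prime.dvd_factorial hs).mpr hsn
    rcases (Nat.Prime.dvd_mul hs).mp h1 with h2 | h2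
    · rcases (Nat.Prime.dvd_mul hs).mp h2 with h3 | h3
      · left
        exact (Nat.Prime.dvd_factorial hs).mp (hs.dvd_of_dvd_pow h3)
      · right
        exact (Nat.Prime.dvd_factorial hs).mp h3
    · exact absurd h2 (hFπ s hs hsπ)
  by_cases hsa : s ≤ a
  · -- the prime `s` lives inside the blocks
    obtain ⟨G', N', hG', hN', -⟩ := fiber_hall c i₀ hG hNhall
    have hcard' : Fintype.card {x // c x = i₀} = a := by
      rw [← Nat.card_eq_fintype_card]; exact hfib i₀
    have han : a < Fintype.card α := by
      rw [hn]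
      nlinarith
    by_cases hfull : ∀ q : ℕ, q.Prime → q ≤ a → q ∈ π
    · have h4 := choose_exc (K := a) (j := a - 1) (by omega) (by omega)
        (fun p hp hpa hd => hFπ p hp (hfull p hp hpa) (dvd_trans hd hfac1))
      have ha4 : a = 4 := h4.1
      have h2π : 2 ∈ π := hfull 2 Nat.prime_two (by omega)
      have h3π : 3 ∈ π := hfull 3 Nat.prime_three (by omega)
      have hb2 : b = 2 := by
        by_contra hne
        have hb3 : 2 ∈ Finset.range b := Finset.mem_range.mpr (by omega)
        have h6 : Nat.choose ((2 + 1) * a - 1) (a - 1) ∣ F :=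
          Finset.dvd_prod_of_mem (fun i => Nat.choose ((i + 1) * a - 1) (a - 1)) hb3
        have h5 : (3 : ℕ) ∣ Nat.choose ((2 + 1) * a - 1) (a - 1) := by rw [ha4]; decide
        exact hFπ 3 Nat.prime_three h3π (dvd_trans h5 h6)
      have hF35 : F = 35 := by
        rw [hF, hb2, ha4]
        decide
      have hn8 : Fintype.card α = 8 := by rw [hn, ha4, hb2]
      right; right
      set c₂ : α → Bool := fun x => decide (c x = i₀) with hc₂
      have hc₂t : ∀ x, c₂ x = true ↔ c x = i₀ := fun x => by simp [hc₂]
      have hct : Nat.card {x // c₂ x = true} = 4 := by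
        rw [← ha4, ← hfib i₀]
        exact Nat.card_congr (Equiv.subtypeEquivRight hc₂t)
      have hcf : Nat.card {x // c₂ x = false} = 4 := by
        have := card_bool_fibers c₂
        rw [hct, hn8] at this
        omega
      refine ⟨hn8, fun q hq hq8 => ?_, c₂, hct, ?_⟩
      · constructor
        · intro hqπ
          have h7 := hFπ q hq hqπ
          rw [hF35] at h7
          have hq5 : q ≠ 5 := by rintro rfl; exact h7 (by decide)
          have hq7' : q ≠ 7 := by rintro rfl; exact h7 (by decide)
          have hq2 := hq.two_le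
          interval_cases q
          · left; rfl
          · right; rfl
          · exact absurd hq (by decide)
          · exact absurd rfl hq5
          · exact absurd hq (by decide)
          · exact absurd rfl hq7'
          · exact absurd hq (by decide)
        · rintro (rfl | rfl)
          · exact h2π
          · exact h3π
      · have hMp : M ≤ pairStab c₂ := by
          intro g hg
          rw [mem_pairStab]
          have hσ : ∀ x, c (g x) = ψ ⟨g, hg⟩ (c x) := fun x => (hψa ⟨g, hg⟩ x).symm
          by_cases h : ψ ⟨g, hg⟩ i₀ = i₀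
          · left
            intro x
            rw [Bool.eq_iff_iff, hc₂t, hc₂t, hσ]
            constructor
            · intro h'
              exact (ψ ⟨g, hg⟩).injective (h'.trans h.symm)
            · intro h'
              rw [h', h]
          · right
            intro x
            have key2 : (c (g x) = i₀) ↔ ¬ (c x = i₀) := by
              rw [hσ]
              constructor
              · intro h' h''
                rw [h''] at h'
                exact h h'
              · intro h'
                by_contra h''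
                have hne1 : ψ ⟨g, hg⟩ (c x) ≠ ψ ⟨g, hg⟩ i₀ :=
                  fun h3 => h' ((ψ ⟨g, hg⟩).injective h3)
                have hcard3 : ({i₀, ψ ⟨g, hg⟩ i₀, ψ ⟨g, hg⟩ (c x)} : Finset ι).card = 3 := by
                  rw [Finset.card_insert_of_notMem, Finset.card_insert_of_notMem,
                    Finset.card_singleton]
                  · simpa using hne1.symm
                  · simp only [Finset.mem_insert, Finset.mem_singleton, not_or]
                    exact ⟨fun h3 => h h3.symm, fun h3 => h'' h3.symm⟩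
                have := Finset.card_le_univ ({i₀, ψ ⟨g, hg⟩ i₀, ψ ⟨g, hg⟩ (c x)} : Finset ι)
                rw [hcard3, ← hbdef, hb2] at this
                omega
            by_cases hx : c x = i₀
            · have h1 : c₂ x = true := (hc₂t x).mpr hx
              have h2 : c₂ (g x) = false := by
                rw [Bool.eq_false_iff, Ne, hc₂t]
                exact fun h3 => key2.mp h3 hx
              rw [h1, h2]
              rfl
            · have h1 : c₂ x = false := by
                rw [Bool.eq_false_iff, Ne, hc₂t]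
                exact hx
              have h2 : c₂ (g x) = true := (hc₂t _).mpr (key2.mpr hx)
              rw [h1, h2]
              rfl
        refine hM.eq_of_pi (le_inf hM.1 hMp) inf_le_left (fun p hp hd => ?_)
        have h6 : Nat.card (G ⊓ pairStab c₂ : Subgroup (Perm α)) ∣ Nat.card (pairStab c₂) :=
          Subgroup.card_dvd_of_le inf_le_right
        have h7 := dvd_trans hd (dvd_trans h6 (card_pairStab_dvd _))
        rw [card_colorStab_bool, hct, hcf] at h7
        have h9 : (2 * (4 ! * 4 !) : ℕ) = 2 ^ 7 * 3 ^ 2 := by decide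
        rw [h9] at h7
        rcases (Nat.Prime.dvd_mul hp).mp h7 with h10 | h10
        · have := (Nat.prime_dvd_prime_iff_eq hp Nat.prime_two).mp (hp.dvd_of_dvd_pow h10)
          rw [this]; exact h2π
        · have := (Nat.prime_dvd_prime_iff_eq hp Nat.prime_three).mp (hp.dvd_of_dvd_pow h10)
          rw [this]; exact h3π
    · exfalso
      push Not at hfull
      obtain ⟨t', ht', ht'a, ht'π⟩ := hfull
      have h1 := IH {x // c x = i₀} (by rw [hcard']; exact han) G' N' hG' hN'
        (by rw [hcard']; exact hsa) ⟨t', ht', by rw [hcard']; exact ht'a, ht'π⟩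
      rcases h1 with ⟨hp, hq, -⟩ | ⟨h7, hq, -⟩ | ⟨h8, hq, -⟩
      · rw [hcard'] at hp hq
        have ha3 : 3 ≤ a := by omega
        have h2π : 2 ∈ π := (hq 2 Nat.prime_two (by omega)).mpr (by omega)
        have hodd : Odd a := hp.odd_of_ne_two (by omega)
        exact hFπ 2 Nat.prime_two h2π (dvd_trans (two_dvd_choose_of_odd hodd ha3) hfac1)
      · rw [hcard'] at h7
        have h2π : 2 ∈ π := (hq 2 Nat.prime_two (by norm_num)).mpr (Or.inl rfl)
        rw [h7] at hfac1
        have h5 : (2 : ℕ) ∣ Nat.choose (7 + (7 - 1)) (7 - 1) := by decide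
        exact hFπ 2 Nat.prime_two h2π (dvd_trans h5 hfac1)
      · rw [hcard'] at h8
        have h3π : 3 ∈ π := (hq 3 Nat.prime_three (by norm_num)).mpr (Or.inr rfl)
        rw [h8] at hfac1
        have h5 : (3 : ℕ) ∣ Nat.choose (8 + (8 - 1)) (8 - 1) := by decide
        exact hFπ 3 Nat.prime_three h3π (dvd_trans h5 hfac1)
  · -- the prime `s` permutes the blocks
    exfalso
    have hsb : s ≤ b := by
      rcases hsab with h | h
      · exact absurd h hsa
      · exact h
    have hbn : b < Fintype.card α := by
      rw [hn]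
      nlinarith
    by_cases hfull : ∀ q : ℕ, q.Prime → q ≤ b → q ∈ π
    · exact hFπ s hs hsπ (prime_dvd_block hs ha (by omega) hsb)
    · push Not at hfull
      obtain ⟨t', ht', ht'b, ht'π⟩ := hfull
      have h1 := IH ι hbn ⊤ ψ.range le_top hRhall hsb ⟨t', ht', ht'b, ht'π⟩
      obtain ⟨h8, hq⟩ := trans_concl h1 hRtr hb
      have hs8 : s ≤ 8 := by rw [← h8]; exact hsb
      have hs3 : s = 3 := by
        rcases (hq s hs hs8).mp hsπ with h | h
        · omega
        · exact h
      have ha2 : a = 2 := by omega
      have h3π : 3 ∈ π := hs3 ▸ hsπ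
      rw [ha2] at hfac1
      have h5 : (3 : ℕ) ∣ Nat.choose (2 + (2 - 1)) (2 - 1) := by decide
      exact hFπ 3 Nat.prime_three h3π (dvd_trans h5 hfac1)

/-- **Hall–Thompson classification** of the Hall `π`-subgroups of the symmetric and alternating
groups, when `π` contains at least two but not all of the primes up to the degree. -/
theorem hall_main : ∀ (n : ℕ) (α : Type u) [Fintype α] [DecidableEq α], Fintype.card α = n →
    ∀ (π : Set ℕ) (G M : Subgroup (Perm α)), alternatingGroup α ≤ G → HallIn π M G →
    ∀ r s : ℕ, r.Prime → s.Prime → r < s → r ∈ π → s ∈ π → s ≤ n →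
    (∃ t : ℕ, t.Prime ∧ t ≤ n ∧ t ∉ π) → HallConcl π G M := by
  intro n
  induction n using Nat.strong_induction_on with
  | _ n ih =>
    intro α _ _ hcard π G M hG hM r s hr hs hrs hrπ hsπ hsn ht
    subst hcard
    have hr2 := hr.two_le
    have h5 : 5 ≤ Fintype.card α := by
      by_contra hlt
      push Not at hlt
      obtain ⟨t, htp, htn, htπ⟩ := ht
      have ht2 := htp.two_le
      have hs3 : s = 3 := by
        have hs4 : s ≠ 4 := by rintro rfl; exact absurd hs (by decide)
        omega
      have hr2' : r = 2 := by omega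
      have ht4 : t ≠ 4 := by rintro rfl; exact absurd htp (by decide)
      have : t = 2 ∨ t = 3 := by omega
      rcases this with rfl | rfl
      · exact htπ (hr2' ▸ hrπ)
      · exact htπ (hs3 ▸ hsπ)
    have IH : ∀ (β : Type u) [Fintype β] [DecidableEq β], Fintype.card β < Fintype.card α →
        ∀ (G' M' : Subgroup (Perm β)), alternatingGroup β ≤ G' → HallIn π M' G' →
        s ≤ Fintype.card β → (∃ t : ℕ, t.Prime ∧ t ≤ Fintype.card β ∧ t ∉ π) →
        HallConcl π G' M' := by
      intro β _ _ hlt G' M' hG' hM' hsβ htβ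
      exact ih (Fintype.card β) hlt β rfl π G' M' hG' hM' r s hr hs hrs hrπ hsπ hsβ htβ
    by_cases htr : ∀ x y : α, ∃ g ∈ M, g x = y
    · by_cases hprim : IsPreprimitive M α
      · obtain ⟨t, htp, htn, htπ⟩ := ht
        exact (prim_case hG hM hprim h5 hr hs hrs hrπ hsπ hsn htp htn htπ).elim
      · have hpt : IsPretransitive M α := ⟨fun x y => by
          obtain ⟨g, hg, h⟩ := htr x y
          exact ⟨⟨g, hg⟩, h⟩⟩
        obtain ⟨B, hB, hBnt⟩ : ∃ B : Set α, IsBlock M B ∧ ¬ IsTrivialBlock B := by
          by_contra hcon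
          push Not at hcon
          exact hprim ⟨fun {B} hB => hcon B hB⟩
        have hblk : ∀ g ∈ M, g '' B = B ∨ Disjoint (g '' B) B := by
          intro g hg
          have := isBlock_iff_smul_eq_or_disjoint.mp hB ⟨g, hg⟩
          exact this
        rw [IsTrivialBlock, not_or] at hBnt
        have hB2 : 2 ≤ B.ncard := by
          have : B.Nontrivial := Set.not_subsingleton_iff.mp hBnt.1
          exact Set.one_lt_ncard_iff_nontrivial.mpr this
        obtain ⟨ι, hι1, hι2, c, hsurj, hfib, hcompat, hb⟩ :=
          exists_block_coloring M htr B hblk hB2 hBnt.2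
        exact imprim_case hG hM htr c hsurj hfib hB2 hb hcompat hr hs hrs hsπ hsn IH
    · exact intrans_case hG hM htr h5 hr hs hrs hsπ hsn ht IH

end Cfsg.Agent.H43
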