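import Mathlib
import Cfsg.Prelude.Def_HallClasses
import Cfsg.Agent.H43.HallMain4

/-!
# Hall subgroups of symmetric groups: existence of the exceptional ones
-/

set_option autoImplicit false

namespace Cfsg.Agent.H43

open Equiv Equiv.Perm MulAction
open scoped Nat

universe u

theorem isPiHall_top {X : Type*} [Group X] {π : Set ℕ} {H : Subgroup X} :
    Cfsg.IsPiHall π H ↔ HallIn π H ⊤ := by
  constructor
  · rintro ⟨h1, h2⟩
    exact ⟨le_top, h1, fun p hp hpπ => by rw [Subgroup.relIndex_top_right]; exact h2 p hp hpπ⟩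
  · rintro ⟨-, h1, h2⟩
    exact ⟨h1, fun p hp hpπ => by rw [← Subgroup.relIndex_top_right]; exact h2 p hp hpπ⟩

theorem hallIn_top_of_card {X : Type*} [Group X] [Finite X] {π : Set ℕ} (H : Subgroup X)
    {m i : ℕ} (hm : Nat.card H = m) (hmi : m * i = Nat.card X)
    (h1 : ∀ p : ℕ, p.Prime → p ∣ m → p ∈ π) (h2 : ∀ p : ℕ, p.Prime → p ∈ π → ¬ p ∣ i) :
    HallIn π H ⊤ := by
  refine ⟨le_top, fun p hp hd => h1 p hp (hm ▸ hd), fun p hp hpπ => ?_⟩
  rw [Subgroup.relIndex_top_right]
  have : H.index = i := by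
    have h3 := Subgroup.card_mul_index H
    rw [hm, ← hmi] at h3
    exact Nat.eq_of_mul_eq_mul_left (by rw [← hm]; exact Nat.card_pos) h3
  rw [this]
  exact h2 p hp hpπ

theorem prime_dvd_two_three {p : ℕ} (hp : p.Prime) {a b : ℕ} (h : p ∣ 2 ^ a * 3 ^ b) :
    p = 2 ∨ p = 3 := by
  rcases (Nat.Prime.dvd_mul hp).mp h with h10 | h10
  · exact Or.inl ((Nat.prime_dvd_prime_iff_eq hp Nat.prime_two).mp (hp.dvd_of_dvd_pow h10))
  · exact Or.inr ((Nat.prime_dvd_prime_iff_eq hp Nat.prime_three).mp (hp.dvd_of_dvd_pow h10))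

theorem prime_dvd_35 {p : ℕ} (hp : p.Prime) (h : p ∣ 35) : p = 5 ∨ p = 7 := by
  have h35 : (35 : ℕ) = 5 * 7 := by norm_num
  rw [h35] at h
  rcases (Nat.Prime.dvd_mul hp).mp h with h10 | h10
  · exact Or.inl ((Nat.prime_dvd_prime_iff_eq hp (by norm_num)).mp h10)
  · exact Or.inr ((Nat.prime_dvd_prime_iff_eq hp (by norm_num)).mp h10)

section

variable {α : Type u} [Fintype α] [DecidableEq α]

/-- A point stabilizer in a symmetric group of prime degree is a Hall subgroup for the primes
below the degree. -/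
theorem hall_point_stab {π : Set ℕ} (c : α → Bool) (hc : Nat.card {a // c a = true} = 1)
    (hn : (Fintype.card α).Prime)
    (hπ : ∀ q : ℕ, q.Prime → q ≤ Fintype.card α → (q ∈ π ↔ q < Fintype.card α)) :
    HallIn π (colorStab c) ⊤ := by
  have hsum := card_bool_fibers c
  rw [hc] at hsum
  obtain ⟨k, hk⟩ : ∃ k, Fintype.card α = k + 1 :=
    ⟨Fintype.card α - 1, by have := hn.two_le; omega⟩
  have hf : Nat.card {a // c a = false} = k := by omega
  apply hallIn_top_of_card (colorStab c) (m := k !) (i := k + 1)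
  · rw [card_colorStab_bool, hc, hf]; simp
  · rw [Nat.card_perm, Nat.card_eq_fintype_card, hk, Nat.factorial_succ, mul_comm]
  · intro p hp hd
    have := (Nat.Prime.dvd_factorial hp).mp hd
    exact (hπ p hp (by omega)).mpr (by omega)
  · intro p hp hpπ hd
    rw [← hk] at hd
    have := (Nat.prime_dvd_prime_iff_eq hp hn).mp hd
    have h3 := (hπ p hp (by omega)).mp hpπ
    omega

/-- The stabilizer of a `3`-set in the symmetric group of degree `7` is a Hall
`{2, 3}`-subgroup. -/
theorem hall_three_set {π : Set ℕ} (c : α → Bool) (hc : Nat.card {a // c a = true} = 3)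
    (hn : Fintype.card α = 7) (hπ : ∀ q : ℕ, q.Prime → q ≤ 7 → (q ∈ π ↔ q = 2 ∨ q = 3)) :
    HallIn π (colorStab c) ⊤ := by
  have hsum := card_bool_fibers c
  rw [hc, hn] at hsum
  have hf : Nat.card {a // c a = false} = 4 := by omega
  apply hallIn_top_of_card (colorStab c) (m := 2 ^ 4 * 3 ^ 2) (i := 35)
  · rw [card_colorStab_bool, hc, hf]; decide
  · rw [Nat.card_perm, Nat.card_eq_fintype_card, hn]; decide
  · intro p hp hd
    rcases prime_dvd_two_three hp hd with rfl | rfl
    · exact (hπ 2 hp (by norm_num)).mpr (Or.inl rfl)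
    · exact (hπ 3 hp (by norm_num)).mpr (Or.inr rfl)
  · intro p hp hpπ hd
    rcases prime_dvd_35 hp hd with rfl | rfl
    · have := (hπ 5 hp (by norm_num)).mp hpπ
      omega
    · have := (hπ 7 hp (by norm_num)).mp hpπ
      omega

omit [Fintype α] [DecidableEq α] in
/-- A permutation exchanging two colour classes of equal size. -/
theorem exists_flip [Finite α] (c : α → Bool)
    (h : Nat.card {a // c a = true} = Nat.card {a // c a = false}) :
    ∃ g : Perm α, ∀ x, c (g x) = !c x := by
  obtain ⟨e⟩ := Finite.card_eq.mp h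
  set f : α → α := fun x => if hx : c x = true then (e ⟨x, hx⟩ : α)
    else (e.symm ⟨x, by simpa using hx⟩ : α) with hf
  have hf1 : ∀ x (hx : c x = true), f x = e ⟨x, hx⟩ := fun x hx => by
    simp only [hf, dif_pos hx]
  have hf2 : ∀ x (hx : c x = false), f x = e.symm ⟨x, hx⟩ := fun x hx => by
    have : ¬ c x = true := by simp [hx]
    simp only [hf, dif_neg this]
  have hinv : Function.Involutive f := by
    intro x
    by_cases hx : c x = true
    · rw [hf1 x hx, hf2 _ (e ⟨x, hx⟩).2]
      simp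
    · have hx' : c x = false := by simpa using hx
      rw [hf2 x hx', hf1 _ (e.symm ⟨x, hx'⟩).2]
      simp
  refine ⟨hinv.toPerm f, fun x => ?_⟩
  change c (f x) = !c x
  by_cases hx : c x = true
  · rw [hf1 x hx, (e ⟨x, hx⟩).2, hx]
    rfl
  · have hx' : c x = false := by simpa using hx
    rw [hf2 x hx', (e.symm ⟨x, hx'⟩).2, hx']
    rfl

/-- The stabilizer of a partition into two `4`-sets in the symmetric group of degree `8` is a
Hall `{2, 3}`-subgroup. -/
theorem hall_pair_stab {π : Set ℕ} (c : α → Bool) (hc : Nat.card {a // c a = true} = 4)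
    (hn : Fintype.card α = 8) (hπ : ∀ q : ℕ, q.Prime → q ≤ 8 → (q ∈ π ↔ q = 2 ∨ q = 3)) :
    HallIn π (pairStab c) ⊤ := by
  have hsum := card_bool_fibers c
  rw [hc, hn] at hsum
  have hf : Nat.card {a // c a = false} = 4 := by omega
  obtain ⟨g, hg⟩ := exists_flip c (by rw [hc, hf])
  have hcard : Nat.card (pairStab c) = 2 ^ 7 * 3 ^ 2 := by
    rcases card_pairStab c with ⟨-, h2⟩ | ⟨h1, -⟩
    · exfalso
      have h3 : g ∈ pairStab c := Or.inr hg
      rw [h2] at h3
      have hne : Nonempty α := Fintype.card_pos_iff.mp (by omega)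
      have h4 := h3 hne.some
      rw [hg] at h4
      cases hc' : c hne.some <;> simp [hc'] at h4
    · rw [h1, card_colorStab_bool, hc, hf]; decide
  apply hallIn_top_of_card (pairStab c) (m := 2 ^ 7 * 3 ^ 2) (i := 35) hcard
  · rw [Nat.card_perm, Nat.card_eq_fintype_card, hn]; decide
  · intro p hp hd
    rcases prime_dvd_two_three hp hd with rfl | rfl
    · exact (hπ 2 hp (by norm_num)).mpr (Or.inl rfl)
    · exact (hπ 3 hp (by norm_num)).mpr (Or.inr rfl)
  · intro p hp hpπ hd
    rcases prime_dvd_35 hp hd with rfl | rfl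
    · have := (hπ 5 hp (by norm_num)).mp hpπ
      omega
    · have := (hπ 7 hp (by norm_num)).mp hpπ
      omega

end

end Cfsg.Agent.H43
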