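import Mathlib
import Cfsg.Prelude.Def_HallClasses
import Cfsg.Agent.H43.HallExist

/-!
# Hall subgroups of symmetric and alternating groups: conjugacy and restriction
-/

set_option autoImplicit false

namespace Cfsg.Agent.H43

open Equiv Equiv.Perm MulAction
open scoped Nat

universe u

section generic

variable {X : Type*} [Group X]

/-- Two Hall `π`-subgroups have the same order. -/
theorem HallIn.card_eq [Finite X] {π : Set ℕ} {M M' G : Subgroup X} (h : HallIn π M G)
    (h' : HallIn π M' G) : Nat.card M = Nat.card M' := by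
  have e1 := card_mul_relIndex' h.1
  have e2 := card_mul_relIndex' h'.1
  have c1 : Nat.Coprime (Nat.card M) (M'.relIndex G) :=
    Nat.coprime_of_dvd (fun k hk hkd hkd' => h'.2.2 k hk (h.2.1 k hk hkd) hkd')
  have c2 : Nat.Coprime (Nat.card M') (M.relIndex G) :=
    Nat.coprime_of_dvd (fun k hk hkd hkd' => h.2.2 k hk (h'.2.1 k hk hkd) hkd')
  have d1 : Nat.card M ∣ Nat.card M' :=
    c1.dvd_of_dvd_mul_right (by rw [e2, ← e1]; exact dvd_mul_right _ _)
  have d2 : Nat.card M' ∣ Nat.card M :=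
    c2.dvd_of_dvd_mul_right (by rw [e1, ← e2]; exact dvd_mul_right _ _)
  exact Nat.dvd_antisymm d1 d2

/-- Hall subgroups that are `p`-groups are conjugate (Sylow). -/
theorem hall_conj_pgroup [Finite X] {π : Set ℕ} {G M M' : Subgroup X} (hM : HallIn π M G)
    (hM' : HallIn π M' G) {p : ℕ} (hp : p.Prime) (hpπ : p ∈ π) (hMp : IsPGroup p M) :
    ∃ g ∈ G, M' = M.map (MulAut.conj g).toMonoidHom := by
  haveI : Fact p.Prime := ⟨hp⟩
  have h1 : ¬ p ∣ (M'.subgroupOf G).index := hM'.2.2 p hp hpπ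
  have h2 : IsPGroup p (M.subgroupOf G) := hMp.comap_subtype
  obtain ⟨g, hg⟩ := exists_conj_sub (M'.subgroupOf G) h1 (M.subgroupOf G) h2
  refine ⟨g.1, g.2, ?_⟩
  symm
  apply Subgroup.eq_of_le_of_card_ge
  · rintro _ ⟨k, hk, rfl⟩
    exact hg ⟨k, hM.1 hk⟩ hk
  · rw [Subgroup.card_map_of_injective (MulEquiv.injective _)]
    exact (hM.card_eq hM').ge

/-- Hall subgroups of a subgroup, in terms of the ambient group. -/
theorem isPiHall_sub_iff {π : Set ℕ} {A : Subgroup X} (M : Subgroup ↥A) :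
    Cfsg.IsPiHall π M ↔ HallIn π (M.map A.subtype) A := by
  have hc : Nat.card (M.map A.subtype) = Nat.card M :=
    Subgroup.card_map_of_injective A.subtype_injective
  have hi : (M.map A.subtype).relIndex A = M.index := by
    rw [Subgroup.relIndex, Subgroup.subgroupOf,
      Subgroup.comap_map_eq_self_of_injective A.subtype_injective]
  constructor
  · rintro ⟨h1, h2⟩
    refine ⟨?_, fun p hp hd => h1 p hp (hc ▸ hd), fun p hp hpπ => by rw [hi]; exact h2 p hp hpπ⟩
    rintro _ ⟨x, -, rfl⟩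
    exact x.2
  · rintro ⟨-, h1, h2⟩
    exact ⟨fun p hp hd => h1 p hp (hc.symm ▸ hd), fun p hp hpπ => by rw [← hi]; exact h2 p hp hpπ⟩

/-- The intersection of a Hall subgroup with a normal subgroup is a Hall subgroup of it. -/
theorem hallIn_inf_normal [Finite X] {π : Set ℕ} {M₀ A : Subgroup X} [A.Normal]
    (h : HallIn π M₀ ⊤) : HallIn π (M₀ ⊓ A) A := by
  refine ⟨inf_le_right, fun p hp hd => h.2.1 p hp (dvd_trans hd (Subgroup.card_dvd_of_le inf_le_left)),
    fun p hp hpπ hd => ?_⟩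
  have h2 := h.2.2 p hp hpπ
  rw [Subgroup.relIndex_top_right] at h2
  apply h2
  refine dvd_trans hd ?_
  -- `(M₀ ⊓ A).relIndex A ∣ M₀.index`
  have e1 := card_mul_relIndex' (inf_le_right : M₀ ⊓ A ≤ A)
  have e2 := card_mul_relIndex' (inf_le_left : M₀ ⊓ A ≤ M₀)
  rw [Subgroup.inf_relIndex_left] at e2
  obtain ⟨f, hf⟩ := Subgroup.relIndex_dvd_index_of_normal A M₀
  have e3 := Subgroup.card_mul_index A
  have e4 := Subgroup.card_mul_index M₀
  have hd0 : 0 < A.relIndex M₀ := by
    rcases Nat.eq_zero_or_pos (A.relIndex M₀) with h0 | h0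
    · rw [h0, zero_mul] at hf
      exact absurd hf Subgroup.index_ne_zero_of_finite
    · exact h0
  have hpos : 0 < Nat.card (M₀ ⊓ A : Subgroup X) * A.relIndex M₀ := Nat.mul_pos Nat.card_pos hd0
  refine ⟨f, ?_⟩
  apply Nat.eq_of_mul_eq_mul_left hpos
  calc Nat.card (M₀ ⊓ A : Subgroup X) * A.relIndex M₀ * M₀.index
      = Nat.card M₀ * M₀.index := by rw [e2]
    _ = Nat.card A * A.index := by rw [e4, e3]
    _ = Nat.card (M₀ ⊓ A : Subgroup X) * (M₀ ⊓ A).relIndex A * (A.relIndex M₀ * f) := by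
        rw [e1, hf]
    _ = _ := by ring

end generic

section perm

variable {α : Type u} [Fintype α] [DecidableEq α]

omit [DecidableEq α] in
theorem prime_le_of_dvd_card_sub (H : Subgroup (Perm α)) {p : ℕ} (hp : p.Prime)
    (h : p ∣ Nat.card H) : p ≤ Fintype.card α := by
  have h1 : Nat.card H ∣ Nat.card (Perm α) := Subgroup.card_subgroup_dvd_card H
  rw [Nat.card_perm, Nat.card_eq_fintype_card (α := α)] at h1
  exact (Nat.Prime.dvd_factorial hp).mp (dvd_trans h h1)

omit [DecidableEq α] in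
theorem hall_case0 {π : Set ℕ} {G M : Subgroup (Perm α)} (hM : HallIn π M G)
    (h0 : ∀ q : ℕ, q.Prime → q ≤ Fintype.card α → q ∉ π) : M = ⊥ := by
  rw [← Subgroup.card_eq_one]
  by_contra hne
  obtain ⟨p, hp, hpd⟩ := Nat.exists_prime_and_dvd hne
  exact h0 p hp (prime_le_of_dvd_card_sub M hp hpd) (hM.2.1 p hp hpd)

omit [DecidableEq α] in
theorem hall_case1 {π : Set ℕ} {G M : Subgroup (Perm α)} (hM : HallIn π M G) {p : ℕ}
    (h1 : ∀ q : ℕ, q.Prime → q ∈ π → q ≤ Fintype.card α → q = p) : IsPGroup p M := by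
  have : Nat.card M = p ^ (Nat.card M).primeFactorsList.length :=
    Nat.eq_prime_pow_of_unique_prime_dvd Nat.card_pos.ne' (fun {d} hd hdvd =>
      h1 d hd (hM.2.1 d hd hdvd) (prime_le_of_dvd_card_sub M hd hdvd))
  exact IsPGroup.of_card this

omit [DecidableEq α] in
theorem hall_caseFull {π : Set ℕ} {G M : Subgroup (Perm α)} (hM : HallIn π M G)
    (hf : ∀ q : ℕ, q.Prime → q ≤ Fintype.card α → q ∈ π) : M = G :=
  hM.eq_of_pi hM.1 le_rfl (fun p hp hd => hf p hp (prime_le_of_dvd_card_sub G hp hd))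

omit [Fintype α] [DecidableEq α] in
/-- Two colourings with classes of the same sizes differ by a permutation. -/
theorem exists_perm_color [Finite α] {ι : Type*} (c c' : α → ι)
    (h : ∀ i, Nat.card {x // c x = i} = Nat.card {x // c' x = i}) :
    ∃ σ : Perm α, ∀ x, c' (σ x) = c x := by
  have e : ∀ i, {x // c x = i} ≃ {x // c' x = i} := fun i => (Finite.card_eq.mp (h i)).some
  refine ⟨(Equiv.sigmaFiberEquiv c).symm.trans
    ((Equiv.sigmaCongrRight e).trans (Equiv.sigmaFiberEquiv c')), fun x => ?_⟩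
  exact (e (c x) ⟨x, rfl⟩).2

/-- Two `Bool`-colourings with classes of the same sizes differ by a permutation in `G`. -/
theorem exists_mem_color {G : Subgroup (Perm α)} (hG : alternatingGroup α ≤ G)
    (h3 : 3 ≤ Fintype.card α) (c c' : α → Bool)
    (h : Nat.card {x // c x = true} = Nat.card {x // c' x = true}) :
    ∃ σ ∈ G, ∀ x, c' (σ x) = c x := by
  have hf : Nat.card {x // c x = false} = Nat.card {x // c' x = false} := by
    have s1 := card_bool_fibers c
    have s2 := card_bool_fibers c'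
    omega
  obtain ⟨σ₀, hσ₀⟩ := exists_perm_color c c' (fun i => by cases i <;> assumption)
  by_cases hmem : σ₀ ∈ G
  · exact ⟨σ₀, hmem, hσ₀⟩
  · obtain ⟨x, y, z, hxy, hxz, hyz⟩ := (Fintype.two_lt_card_iff (α := α)).mp (by omega)
    obtain ⟨u, v, huv, hcuv⟩ : ∃ u v : α, u ≠ v ∧ c' u = c' v := by
      cases hx : c' x <;> cases hy : c' y <;> cases hz : c' z
      · exact ⟨x, y, hxy, by rw [hx, hy]⟩
      · exact ⟨x, y, hxy, by rw [hx, hy]⟩
      · exact ⟨x, z, hxz, by rw [hx, hz]⟩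
      · exact ⟨y, z, hyz, by rw [hy, hz]⟩
      · exact ⟨y, z, hyz, by rw [hy, hz]⟩
      · exact ⟨x, z, hxz, by rw [hx, hz]⟩
      · exact ⟨x, y, hxy, by rw [hx, hy]⟩
      · exact ⟨x, y, hxy, by rw [hx, hy]⟩
    have hsign : sign σ₀ = -1 := by
      rcases Int.units_eq_one_or (sign σ₀) with h1 | h1
      · exact absurd (hG (mem_alternatingGroup.mpr h1)) hmem
      · exact h1
    refine ⟨swap u v * σ₀, hG ?_, fun x => ?_⟩
    · rw [mem_alternatingGroup, Perm.sign_mul, sign_swap huv, hsign]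
      rfl
    · rw [Perm.mul_apply, swap_mem_colorStab c' hcuv, hσ₀]

omit [Fintype α] [DecidableEq α] in
theorem inf_colorStab_conj {ι : Type*} {G : Subgroup (Perm α)} {σ : Perm α} (hσ : σ ∈ G)
    (c c' : α → ι) (h : ∀ x, c' (σ x) = c x) :
    G ⊓ colorStab c' = (G ⊓ colorStab c).map (MulAut.conj σ).toMonoidHom := by
  ext g
  simp only [Subgroup.mem_inf, Subgroup.mem_map, MulEquiv.coe_toMonoidHom, MulAut.conj_apply]
  constructor
  · rintro ⟨hg, hgc⟩
    refine ⟨σ⁻¹ * g * σ, ⟨G.mul_mem (G.mul_mem (G.inv_mem hσ) hg) hσ, fun x => ?_⟩, by group⟩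
    rw [← h, Perm.mul_apply, Perm.mul_apply, perm_apply_inv_self, hgc, h]
  · rintro ⟨k, ⟨hk, hkc⟩, rfl⟩
    refine ⟨G.mul_mem (G.mul_mem hσ hk) (G.inv_mem hσ), fun x => ?_⟩
    have e : c' x = c (σ⁻¹ x) := by rw [← h, perm_apply_inv_self]
    rw [Perm.mul_apply, Perm.mul_apply, h, hkc, e]

omit [Fintype α] [DecidableEq α] in
theorem inf_pairStab_conj {G : Subgroup (Perm α)} {σ : Perm α} (hσ : σ ∈ G)
    (c c' : α → Bool) (h : ∀ x, c' (σ x) = c x) :
    G ⊓ pairStab c' = (G ⊓ pairStab c).map (MulAut.conj σ).toMonoidHom := by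
  ext g
  simp only [Subgroup.mem_inf, Subgroup.mem_map, MulEquiv.coe_toMonoidHom, MulAut.conj_apply]
  constructor
  · rintro ⟨hg, hgc⟩
    refine ⟨σ⁻¹ * g * σ, ⟨G.mul_mem (G.mul_mem (G.inv_mem hσ) hg) hσ, ?_⟩, by group⟩
    rcases hgc with hgc | hgc
    · left
      intro x
      rw [← h, Perm.mul_apply, Perm.mul_apply, perm_apply_inv_self, hgc, h]
    · right
      intro x
      rw [← h, Perm.mul_apply, Perm.mul_apply, perm_apply_inv_self, hgc, h]
  · rintro ⟨k, ⟨hk, hkc⟩, rfl⟩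
    refine ⟨G.mul_mem (G.mul_mem hσ hk) (G.inv_mem hσ), ?_⟩
    rcases hkc with hkc | hkc
    · left
      intro x
      have e : c' x = c (σ⁻¹ x) := by rw [← h, perm_apply_inv_self]
      rw [Perm.mul_apply, Perm.mul_apply, h, hkc, e]
    · right
      intro x
      have e : c' x = c (σ⁻¹ x) := by rw [← h, perm_apply_inv_self]
      rw [Perm.mul_apply, Perm.mul_apply, h, hkc, e]

/-- Any two Hall `π`-subgroups of the symmetric or alternating group are conjugate. -/
theorem hall_conj {π : Set ℕ} {G M M' : Subgroup (Perm α)} (hG : alternatingGroup α ≤ G)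
    (hM : HallIn π M G) (hM' : HallIn π M' G) :
    ∃ g ∈ G, M' = M.map (MulAut.conj g).toMonoidHom := by
  have hone : ∀ H : Subgroup (Perm α), H = H.map (MulAut.conj (1 : Perm α)).toMonoidHom := by
    intro H
    ext g
    simp
  by_cases h2 : ∃ r s : ℕ, r.Prime ∧ s.Prime ∧ r < s ∧ r ∈ π ∧ s ∈ π ∧ s ≤ Fintype.card α
  · obtain ⟨r, s, hr, hs, hrs, hrπ, hsπ, hsn⟩ := h2
    by_cases hf : ∀ q : ℕ, q.Prime → q ≤ Fintype.card α → q ∈ π
    · refine ⟨1, G.one_mem, ?_⟩
      rw [hall_caseFull hM hf, hall_caseFull hM' hf]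
      exact hone G
    · push Not at hf
      obtain ⟨t, ht, htn, htπ⟩ := hf
      have k1 := hall_main _ α rfl π G M hG hM r s hr hs hrs hrπ hsπ hsn ⟨t, ht, htn, htπ⟩
      have k2 := hall_main _ α rfl π G M' hG hM' r s hr hs hrs hrπ hsπ hsn ⟨t, ht, htn, htπ⟩
      have h3 : 3 ≤ Fintype.card α := by have := hr.two_le; omega
      rcases k1 with ⟨hp, hq, c, hc, rfl⟩ | ⟨h7, hq, c, hc, rfl⟩ | ⟨h8, hq, c, hc, rfl⟩
      · rcases k2 with ⟨hp', hq', c', hc', rfl⟩ | ⟨h7', hq', c', hc', rfl⟩ |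
          ⟨h8', hq', c', hc', rfl⟩
        · obtain ⟨σ, hσ, h⟩ := exists_mem_color hG h3 c c' (by rw [hc, hc'])
          exact ⟨σ, hσ, inf_colorStab_conj hσ c c' h⟩
        · exfalso
          rw [h7'] at hq
          have h5 := (hq 5 (by norm_num) (by norm_num)).mpr (by norm_num)
          have h6 := (hq' 5 (by norm_num) (by norm_num)).mp h5
          omega
        · exfalso
          rw [h8'] at hp
          exact absurd hp (by decide)
      · rcases k2 with ⟨hp', hq', c', hc', rfl⟩ | ⟨h7', hq', c', hc', rfl⟩ |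
          ⟨h8', hq', c', hc', rfl⟩
        · exfalso
          rw [h7] at hq'
          have h5 := (hq' 5 (by norm_num) (by norm_num)).mpr (by norm_num)
          have h6 := (hq 5 (by norm_num) (by norm_num)).mp h5
          omega
        · obtain ⟨σ, hσ, h⟩ := exists_mem_color hG h3 c c' (by rw [hc, hc'])
          exact ⟨σ, hσ, inf_colorStab_conj hσ c c' h⟩
        · exfalso
          omega
      · rcases k2 with ⟨hp', hq', c', hc', rfl⟩ | ⟨h7', hq', c', hc', rfl⟩ |
          ⟨h8', hq', c', hc', rfl⟩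
        · exfalso
          rw [h8] at hp'
          exact absurd hp' (by decide)
        · exfalso
          omega
        · obtain ⟨σ, hσ, h⟩ := exists_mem_color hG h3 c c' (by rw [hc, hc'])
          exact ⟨σ, hσ, inf_pairStab_conj hσ c c' h⟩
  · push Not at h2
    by_cases h1 : ∃ p : ℕ, p.Prime ∧ p ∈ π ∧ p ≤ Fintype.card α
    · obtain ⟨p, hp, hpπ, hpn⟩ := h1
      have huniq : ∀ q : ℕ, q.Prime → q ∈ π → q ≤ Fintype.card α → q = p := by
        intro q hq hqπ hqn
        by_contra hne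
        rcases lt_or_gt_of_ne hne with h | h
        · exact absurd hpn (not_le.mpr (h2 q p hq hp h hqπ hpπ))
        · exact absurd hqn (not_le.mpr (h2 p q hp hq h hpπ hqπ))
      exact hall_conj_pgroup hM hM' hp hpπ (hall_case1 hM huniq)
    · push Not at h1
      refine ⟨1, G.one_mem, ?_⟩
      have h0 : ∀ q : ℕ, q.Prime → q ≤ Fintype.card α → q ∉ π :=
        fun q hq hqn hqπ => absurd hqn (not_le.mpr (h1 q hq hqπ))
      rw [hall_case0 hM h0, hall_case0 hM' h0]
      exact hone ⊥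

/-- Every Hall `π`-subgroup of the alternating group is the intersection with it of a Hall
`π`-subgroup of the symmetric group. -/
theorem exists_hall_sym_of_alt {π : Set ℕ} {M : Subgroup (Perm α)}
    (hM : HallIn π M (alternatingGroup α)) :
    ∃ M₀ : Subgroup (Perm α), HallIn π M₀ ⊤ ∧ M = M₀ ⊓ alternatingGroup α := by
  by_cases h2 : ∃ r s : ℕ, r.Prime ∧ s.Prime ∧ r < s ∧ r ∈ π ∧ s ∈ π ∧ s ≤ Fintype.card α
  · obtain ⟨r, s, hr, hs, hrs, hrπ, hsπ, hsn⟩ := h2
    by_cases hf : ∀ q : ℕ, q.Prime → q ≤ Fintype.card α → q ∈ π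
    · refine ⟨⊤, ⟨le_rfl, fun p hp hd => hf p hp (prime_le_of_dvd_card_sub ⊤ hp hd),
        fun p hp _ hd => ?_⟩, ?_⟩
      · rw [Subgroup.relIndex_self] at hd
        exact hp.one_lt.ne' (Nat.dvd_one.mp hd)
      · rw [top_inf_eq]
        exact hall_caseFull hM hf
    · push Not at hf
      obtain ⟨t, ht, htn, htπ⟩ := hf
      have k1 := hall_main _ α rfl π _ M le_rfl hM r s hr hs hrs hrπ hsπ hsn ⟨t, ht, htn, htπ⟩
      rcases k1 with ⟨hp, hq, c, hc, rfl⟩ | ⟨h7, hq, c, hc, rfl⟩ | ⟨h8, hq, c, hc, rfl⟩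
      · exact ⟨colorStab c, hall_point_stab c hc hp hq, inf_comm _ _⟩
      · exact ⟨colorStab c, hall_three_set c hc h7 hq, inf_comm _ _⟩
      · exact ⟨pairStab c, hall_pair_stab c hc h8 hq, inf_comm _ _⟩
  · push Not at h2
    by_cases h1 : ∃ p : ℕ, p.Prime ∧ p ∈ π ∧ p ≤ Fintype.card α
    · obtain ⟨p, hp, hpπ, hpn⟩ := h1
      haveI : Fact p.Prime := ⟨hp⟩
      have huniq : ∀ q : ℕ, q.Prime → q ∈ π → q ≤ Fintype.card α → q = p := by
        intro q hq hqπ hqn
        by_contra hne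
        rcases lt_or_gt_of_ne hne with h | h
        · exact absurd hpn (not_le.mpr (h2 q p hq hp h hqπ hpπ))
        · exact absurd hqn (not_le.mpr (h2 p q hp hq h hpπ hqπ))
      obtain ⟨P, hP⟩ := (hall_case1 hM huniq).exists_le_sylow
      have hPcard : ∀ q : ℕ, q.Prime → q ∣ Nat.card (P : Subgroup (Perm α)) → q = p := by
        intro q hq hqd
        rw [P.card_eq_multiplicity] at hqd
        exact (Nat.prime_dvd_prime_iff_eq hq hp).mp (hq.dvd_of_dvd_pow hqd)
      refine ⟨P, ⟨le_top, fun q hq hqd => (hPcard q hq hqd) ▸ hpπ, fun q hq hqπ hqd => ?_⟩, ?_⟩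
      · rw [Subgroup.relIndex_top_right] at hqd
        have hqn : q ≤ Fintype.card α := by
          have h3 : (P : Subgroup (Perm α)).index ∣ Nat.card (Perm α) := Subgroup.index_dvd_card _
          rw [Nat.card_perm, Nat.card_eq_fintype_card] at h3
          exact (Nat.Prime.dvd_factorial hq).mp (dvd_trans hqd h3)
        rw [huniq q hq hqπ hqn] at hqd
        exact P.not_dvd_index hqd
      · exact hM.eq_of_pi (le_inf hP hM.1) inf_le_right (fun q hq hqd =>
          (hPcard q hq (dvd_trans hqd (Subgroup.card_dvd_of_le inf_le_left))) ▸ hpπ)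
    · push Not at h1
      have h0 : ∀ q : ℕ, q.Prime → q ≤ Fintype.card α → q ∉ π :=
        fun q hq hqn hqπ => absurd hqn (not_le.mpr (h1 q hq hqπ))
      refine ⟨⊥, ⟨bot_le, fun p hp hd => ?_, fun p hp hpπ hd => ?_⟩, ?_⟩
      · rw [Subgroup.card_bot] at hd
        exact absurd (Nat.dvd_one.mp hd) hp.one_lt.ne'
      · rw [Subgroup.relIndex_top_right] at hd
        have h3 : (⊥ : Subgroup (Perm α)).index ∣ Nat.card (Perm α) := Subgroup.index_dvd_card _
        rw [Nat.card_perm, Nat.card_eq_fintype_card] at h3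
        exact h0 p hp ((Nat.Prime.dvd_factorial hp).mp (dvd_trans hd h3)) hpπ
      · rw [bot_inf_eq]
        exact hall_case0 hM h0

/-- Restriction of Hall subgroups from the symmetric to the alternating group. -/
theorem alt_hall_of_sym {π : Set ℕ} {M₀ : Subgroup (Perm α)} (h : Cfsg.IsPiHall π M₀) :
    Cfsg.IsPiHall π (M₀.subgroupOf (alternatingGroup α)) := by
  rw [isPiHall_sub_iff, Subgroup.subgroupOf_map_subtype]
  exact hallIn_inf_normal (isPiHall_top.mp h)

/-- Hall subgroups of the alternating group come from Hall subgroups of the symmetric group. -/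
theorem sym_hall_of_alt {π : Set ℕ} {M : Subgroup ↥(alternatingGroup α)}
    (h : Cfsg.IsPiHall π M) :
    ∃ M₀ : Subgroup (Perm α), Cfsg.IsPiHall π M₀ ∧ M = M₀.subgroupOf (alternatingGroup α) := by
  obtain ⟨M₀, h1, h2⟩ := exists_hall_sym_of_alt ((isPiHall_sub_iff M).mp h)
  refine ⟨M₀, isPiHall_top.mpr h1, ?_⟩
  rw [← Subgroup.inf_subgroupOf_right, ← h2, Subgroup.subgroupOf,
    Subgroup.comap_map_eq_self_of_injective (Subgroup.subtype_injective _)]

/-- Conjugacy of Hall subgroups of the alternating group. -/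
theorem alt_hall_conj {π : Set ℕ} {H K : Subgroup ↥(alternatingGroup α)}
    (hH : Cfsg.IsPiHall π H) (hK : Cfsg.IsPiHall π K) :
    ∃ g : ↥(alternatingGroup α), K = H.map (MulAut.conj g).toMonoidHom := by
  obtain ⟨g, hg, h⟩ := hall_conj le_rfl ((isPiHall_sub_iff H).mp hH) ((isPiHall_sub_iff K).mp hK)
  refine ⟨⟨g, hg⟩, ?_⟩
  apply Subgroup.map_injective (Subgroup.subtype_injective (alternatingGroup α))
  rw [h, Subgroup.map_map, Subgroup.map_map]
  rfl

end perm

end Cfsg.Agent.H43
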