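import Mathlib

/-!
# S3905 (centralizers of the non-central elements of a normal subgroup are maximal): basic lemmas

`Hyp N` is the hypothesis of S3905.  `ZN N = N ⊓ C_G(N)` is the centre of `N` as a subgroup of `G`.
-/

set_option autoImplicit false

namespace Cfsg.Agent.H43.MC

variable {G : Type*} [Group G]

/-- The hypothesis of S3905. -/
def Hyp (N : Subgroup G) : Prop :=
  ∀ x : G, x ∈ N → x ∉ Subgroup.centralizer (N : Set G) →
    IsCoatom (Subgroup.centralizer ({x} : Set G))

/-- The centre of `N`, as a subgroup of `G`. -/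
def ZN (N : Subgroup G) : Subgroup G := N ⊓ Subgroup.centralizer (N : Set G)

theorem mem_ZN {N : Subgroup G} {x : G} : x ∈ ZN N ↔ x ∈ N ∧ x ∈ Subgroup.centralizer (N : Set G) :=
  Iff.rfl

theorem mem_cent_singleton {x g : G} : g ∈ Subgroup.centralizer ({x} : Set G) ↔ g * x = x * g := by
  rw [Subgroup.mem_centralizer_iff]
  constructor
  · intro h; exact (h x rfl).symm
  · intro h y hy; rw [Set.mem_singleton_iff] at hy; subst hy; exact h.symm

theorem mem_cent_set {N : Subgroup G} {g : G} :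
    g ∈ Subgroup.centralizer (N : Set G) ↔ ∀ n ∈ N, n * g = g * n := by
  rw [Subgroup.mem_centralizer_iff]; rfl

/-- `G = N · C_G(x)` for `x ∈ N ∖ Z(N)`. -/
theorem gnm {N : Subgroup G} [N.Normal] (h : Hyp N) {x : G} (hxN : x ∈ N)
    (hxZ : x ∉ Subgroup.centralizer (N : Set G)) (g : G) :
    ∃ n ∈ N, ∃ m ∈ Subgroup.centralizer ({x} : Set G), g = n * m := by
  have hco := h x hxN hxZ
  have hle : Subgroup.centralizer ({x} : Set G) ≤ N ⊔ Subgroup.centralizer ({x} : Set G) := le_sup_right
  have hne : N ⊔ Subgroup.centralizer ({x} : Set G) ≠ Subgroup.centralizer ({x} : Set G) := by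
    intro heq
    have hN : N ≤ Subgroup.centralizer ({x} : Set G) := by
      rw [← heq]; exact le_sup_left
    apply hxZ
    rw [mem_cent_set]
    intro n hn
    have := hN hn
    rw [mem_cent_singleton] at this
    exact this
  have htop : N ⊔ Subgroup.centralizer ({x} : Set G) = ⊤ := by
    rcases eq_or_lt_of_le hle with h1 | h1
    · exact absurd h1.symm hne
    · exact hco.2 _ h1
  have hg : g ∈ N ⊔ Subgroup.centralizer ({x} : Set G) := by rw [htop]; trivial
  rw [Subgroup.mem_sup_of_normal_left] at hg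
  obtain ⟨n, hn, m, hm, rfl⟩ := hg
  exact ⟨n, hn, m, hm, rfl⟩

/-- (F6) A subgroup `L ≤ N` normalized by `C_G(x)` (`x ∈ N ∖ Z(N)`) lies in `C_G(x)` or
supplements `C_N(x)` in `N`. -/
theorem f6 {N : Subgroup G} (h : Hyp N) {x : G} (hxN : x ∈ N)
    (hxZ : x ∉ Subgroup.centralizer (N : Set G)) (L : Subgroup G) (hLN : L ≤ N)
    (hinv : ∀ m ∈ Subgroup.centralizer ({x} : Set G), ∀ l ∈ L, m * l * m⁻¹ ∈ L) :
    L ≤ Subgroup.centralizer ({x} : Set G) ∨
      ∀ n ∈ N, ∃ l ∈ L, ∃ c ∈ N, c ∈ Subgroup.centralizer ({x} : Set G) ∧ n = l * c := by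
  have hco := h x hxN hxZ
  by_cases hL : L ≤ Subgroup.centralizer ({x} : Set G)
  · exact Or.inl hL
  right
  -- the set L * C is a subgroup
  let S : Subgroup G :=
    { carrier := {g | ∃ l ∈ L, ∃ m ∈ Subgroup.centralizer ({x} : Set G), g = l * m}
      one_mem' := ⟨1, L.one_mem, 1, Subgroup.one_mem _, by simp⟩
      mul_mem' := by
        rintro a b ⟨l₁, hl₁, m₁, hm₁, rfl⟩ ⟨l₂, hl₂, m₂, hm₂, rfl⟩
        refine ⟨l₁ * (m₁ * l₂ * m₁⁻¹), L.mul_mem hl₁ (hinv m₁ hm₁ l₂ hl₂), m₁ * m₂,
          Subgroup.mul_mem _ hm₁ hm₂, by group⟩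
      inv_mem' := by
        rintro a ⟨l, hl, m, hm, rfl⟩
        refine ⟨m⁻¹ * l⁻¹ * m⁻¹⁻¹, hinv m⁻¹ (Subgroup.inv_mem _ hm) l⁻¹ (L.inv_mem hl), m⁻¹,
          Subgroup.inv_mem _ hm, by group⟩ }
  have hCS : Subgroup.centralizer ({x} : Set G) ≤ S := fun m hm => ⟨1, L.one_mem, m, hm, by simp⟩
  have hLS : L ≤ S := fun l hl => ⟨l, hl, 1, Subgroup.one_mem _, by simp⟩
  have hne : S ≠ Subgroup.centralizer ({x} : Set G) := fun heq => hL (heq ▸ hLS)
  have htop : S = ⊤ := by
    rcases eq_or_lt_of_le hCS with h1 | h1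
    · exact absurd h1.symm hne
    · exact hco.2 _ h1
  intro n hn
  have hnS : n ∈ S := by rw [htop]; trivial
  obtain ⟨l, hl, m, hm, rfl⟩ := hnS
  refine ⟨l, hl, m, ?_, hm, rfl⟩
  have : m = l⁻¹ * (l * m) := by group
  rw [this]
  exact N.mul_mem (N.inv_mem (hLN hl)) hn

/-- Lemma K: commuting elements of coprime orders, `x ∈ N ∖ Z(N)`, `y ∈ N`: `C_G(x) ≤ C_G(y)`. -/
theorem lemK [Finite G] {N : Subgroup G} (h : Hyp N) {x y : G} (hxN : x ∈ N)
    (hxZ : x ∉ Subgroup.centralizer (N : Set G)) (hyN : y ∈ N) (hxy : Commute x y)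
    (hcop : (orderOf x).Coprime (orderOf y)) :
    Subgroup.centralizer ({x} : Set G) ≤ Subgroup.centralizer ({y} : Set G) := by
  -- x and y are powers of x * y
  have hx1 : x ∈ Subgroup.zpowers (x * y) := by
    have h1 : (x * y) ^ (orderOf y) = x ^ (orderOf y) := by
      rw [hxy.mul_pow, pow_orderOf_eq_one, mul_one]
    have h2 : x ∈ Subgroup.zpowers (x ^ (orderOf y)) := by
      have hgen : Subgroup.zpowers (x ^ (orderOf y)) = Subgroup.zpowers x := by
        apply le_antisymm
        · rw [Subgroup.zpowers_le]; exact Subgroup.pow_mem _ (Subgroup.mem_zpowers x) _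
        · rw [Subgroup.zpowers_le]
          obtain ⟨m, -, hm⟩ := Nat.exists_mul_mod_eq_one_of_coprime hcop.symm
            (by
              by_contra hlt
              have : orderOf x = 1 := by
                have := orderOf_pos x
                omega
              rw [orderOf_eq_one_iff] at this
              subst this
              exact hxZ (Subgroup.one_mem _))
          have hxm : (x ^ orderOf y) ^ m = x := by
            rw [← pow_mul, ← pow_mod_orderOf, hm, pow_one]
          have hmem : (x ^ orderOf y) ^ m ∈ Subgroup.zpowers (x ^ orderOf y) :=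
            Subgroup.pow_mem _ (Subgroup.mem_zpowers _) _
          rw [hxm] at hmem
          exact hmem
      rw [hgen]; exact Subgroup.mem_zpowers x
    rw [← h1] at h2
    exact (Subgroup.zpowers_le.mpr (Subgroup.pow_mem _ (Subgroup.mem_zpowers _) _)) h2
  have hy1 : y ∈ Subgroup.zpowers (x * y) := by
    have hy' : x⁻¹ * (x * y) ∈ Subgroup.zpowers (x * y) :=
      Subgroup.mul_mem _ (Subgroup.inv_mem _ hx1) (Subgroup.mem_zpowers _)
    simpa using hy'
  have hxyN : x * y ∈ N := N.mul_mem hxN hyN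
  have hxyZ : x * y ∉ Subgroup.centralizer (N : Set G) := by
    intro hc
    apply hxZ
    have hle : Subgroup.zpowers (x * y) ≤ Subgroup.centralizer (N : Set G) :=
      Subgroup.zpowers_le.mpr hc
    exact hle hx1
  have hco := h (x * y) hxyN hxyZ
  have hcox := h x hxN hxZ
  -- C(xy) ≤ C(x) and C(xy) ≤ C(y)
  have hsub : ∀ z ∈ Subgroup.zpowers (x * y),
      Subgroup.centralizer ({x * y} : Set G) ≤ Subgroup.centralizer ({z} : Set G) := by
    intro z hz g hg
    rw [mem_cent_singleton] at hg ⊢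
    obtain ⟨k, rfl⟩ := Subgroup.mem_zpowers_iff.mp hz
    have : Commute g (x * y) := hg
    exact (this.zpow_right k)
  have h1 : Subgroup.centralizer ({x * y} : Set G) ≤ Subgroup.centralizer ({x} : Set G) := hsub x hx1
  have h2 : Subgroup.centralizer ({x * y} : Set G) ≤ Subgroup.centralizer ({y} : Set G) := hsub y hy1
  have heq : Subgroup.centralizer ({x * y} : Set G) = Subgroup.centralizer ({x} : Set G) := by
    rcases eq_or_lt_of_le h1 with h3 | h3
    · exact h3
    · exact absurd (hco.2 _ h3) hcox.1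
  rw [← heq]; exact h2

end Cfsg.Agent.H43.MC
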