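import Mathlib
import Cfsg.Agent.H74.MCDefs

/-!
# S4756-CONVA (helper43, for helper74's S4756 project)

In the situation `Alt G p P A`: for `a ∈ A`, `a ≠ 1`, `d₁, d ∈ D = ⁅A, P⁆`, if `a * d₁` commutes
with `d` then `d = 1`.  (`w ↦ a⁻¹ w⁻¹ a w` is a bijection of `D`, so `a d₁ = w⁻¹ a w`.)
-/

set_option autoImplicit false

namespace Cfsg.Agent.H43.MC

open Cfsg.Agent.H74.MC

universe u

theorem convA : StConvA.{u} := by
  intro G _ _ p _ P A h a ha ha1 d₁ hd₁ d hd hcomm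
  have hDn : (⁅A, P⁆).Normal := h.dnormal
  -- θ : D → D
  let θ : ↥(⁅A, P⁆) → ↥(⁅A, P⁆) := fun w => ⟨a⁻¹ * (w : G)⁻¹ * a * (w : G), by
    have h1 : a⁻¹ * (w : G)⁻¹ * a ∈ ⁅A, P⁆ := by
      have h2 := hDn.conj_mem _ ((⁅A, P⁆).inv_mem w.2) a⁻¹
      simpa [mul_assoc] using h2
    exact (⁅A, P⁆).mul_mem h1 w.2⟩
  have hinj : Function.Injective θ := by
    intro w w' hww
    have e : a⁻¹ * (w : G)⁻¹ * a * (w : G) = a⁻¹ * (w' : G)⁻¹ * a * (w' : G) :=
      congrArg Subtype.val hww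
    have e2 : (w : G)⁻¹ * a * (w : G) = (w' : G)⁻¹ * a * (w' : G) := by
      have e3 := congrArg (fun t => a * t) e
      simpa [mul_assoc] using e3
    have hc : a * ((w' : G) * (w : G)⁻¹) = ((w' : G) * (w : G)⁻¹) * a := by
      calc a * ((w' : G) * (w : G)⁻¹)
          = (w' : G) * ((w' : G)⁻¹ * a * (w' : G)) * (w : G)⁻¹ := by group
        _ = (w' : G) * ((w : G)⁻¹ * a * (w : G)) * (w : G)⁻¹ := by rw [e2]
        _ = ((w' : G) * (w : G)⁻¹) * a := by group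
    have h1 := h.fpf a ha ha1 _ ((⁅A, P⁆).mul_mem w'.2 ((⁅A, P⁆).inv_mem w.2)) hc
    have h2 : (w' : G) = (w : G) := mul_inv_eq_one.mp h1
    exact Subtype.ext h2.symm
  have hsurj : Function.Surjective θ := Finite.injective_iff_surjective.mp hinj
  obtain ⟨w, hw⟩ := hsurj ⟨d₁, hd₁⟩
  have e : a⁻¹ * (w : G)⁻¹ * a * (w : G) = d₁ := congrArg Subtype.val hw
  have e' : a * d₁ = (w : G)⁻¹ * a * (w : G) := by
    rw [← e]; group
  rw [e'] at hcomm
  have hc : a * ((w : G) * d * (w : G)⁻¹) = ((w : G) * d * (w : G)⁻¹) * a := by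
    calc a * ((w : G) * d * (w : G)⁻¹)
        = (w : G) * ((w : G)⁻¹ * a * (w : G) * d) * (w : G)⁻¹ := by group
      _ = (w : G) * (d * ((w : G)⁻¹ * a * (w : G))) * (w : G)⁻¹ := by rw [hcomm]
      _ = ((w : G) * d * (w : G)⁻¹) * a := by group
  have h1 := h.fpf a ha ha1 _ (hDn.conj_mem d hd w) hc
  have h2 : d = (w : G)⁻¹ * ((w : G) * d * (w : G)⁻¹) * (w : G) := by group
  rw [h2, h1]; group

example : Cfsg.Agent.H74.MC.StConvA.{u} := convA

end Cfsg.Agent.H43.MC
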