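import Mathlib
import Cfsg.Agent.H74.MCDefs

/-!
# S4756-CONVB (helper43, for helper74's S4756 project)

In the situation `Alt G p P A`: for `g ∉ P`, `g ^ |P| = a * d₁` with `a ∈ A`, `a ≠ 1`,
`d₁ ∈ D = ⁅A, P⁆`.
-/

set_option autoImplicit false

namespace Cfsg.Agent.H43.MC

open Cfsg.Agent.H74.MC

universe u

theorem convB : StConvB.{u} := by
  intro G _ _ p _ P A h g hg
  have hPn : P.Normal := h.normal
  have hDn : (⁅A, P⁆).Normal := h.dnormal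
  have hgtop : g ∈ A ⊔ P := by rw [h.sup]; exact Subgroup.mem_top g
  obtain ⟨a₀, ha₀, x, hx, rfl⟩ := Subgroup.mem_sup_of_normal_right.mp hgtop
  have hxs : x ∈ (P ⊓ Subgroup.centralizer (A : Set G)) ⊔ ⁅A, P⁆ := by
    rw [h.split_sup]; exact hx
  obtain ⟨c, hc, d₀, hd₀, rfl⟩ := Subgroup.mem_sup_of_normal_right.mp hxs
  have hcP : c ∈ P := hc.1
  have hcA : c ∈ Subgroup.centralizer (A : Set G) := hc.2
  have hDP : ⁅A, P⁆ ≤ P := by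
    have h1 : ⁅A, P⁆ ≤ (P ⊓ Subgroup.centralizer (A : Set G)) ⊔ ⁅A, P⁆ := le_sup_right
    rwa [h.split_sup] at h1
  have ha₀1 : a₀ ≠ 1 := by
    rintro rfl
    apply hg
    simpa using P.mul_mem hcP (hDP hd₀)
  have hcN : c ^ Nat.card ↥P = 1 := by
    have h1 : (⟨c, hcP⟩ : ↥P) ^ Nat.card ↥P = 1 := pow_card_eq_one'
    have h2 : (((⟨c, hcP⟩ : ↥P) ^ Nat.card ↥P : ↥P) : G) = ((1 : ↥P) : G) :=
      congrArg Subtype.val h1
    rw [Subgroup.coe_pow, Subgroup.coe_one] at h2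
    exact h2
  have hac : Commute a₀ c := Subgroup.mem_centralizer_iff.mp hcA a₀ ha₀
  have hq : (QuotientGroup.mk' (⁅A, P⁆)) (a₀ * (c * d₀)) =
      (QuotientGroup.mk' (⁅A, P⁆)) (a₀ * c) := by
    apply QuotientGroup.eq.mpr
    have e : (a₀ * (c * d₀))⁻¹ * (a₀ * c) = d₀⁻¹ := by group
    rw [e]; exact (⁅A, P⁆).inv_mem hd₀
  have hq2 : (QuotientGroup.mk' (⁅A, P⁆)) (a₀ ^ Nat.card ↥P) =
      (QuotientGroup.mk' (⁅A, P⁆)) ((a₀ * (c * d₀)) ^ Nat.card ↥P) := by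
    rw [map_pow, map_pow, hq, ← map_pow, ← map_pow, hac.mul_pow, hcN, mul_one]
  have hd₁ : (a₀ ^ Nat.card ↥P)⁻¹ * (a₀ * (c * d₀)) ^ Nat.card ↥P ∈ ⁅A, P⁆ :=
    QuotientGroup.eq.mp hq2
  refine ⟨a₀ ^ Nat.card ↥P, A.pow_mem ha₀ _, ?_,
    (a₀ ^ Nat.card ↥P)⁻¹ * (a₀ * (c * d₀)) ^ Nat.card ↥P, hd₁, by group⟩
  intro hpow
  obtain ⟨k, hk⟩ := IsPGroup.iff_card.mp h.pgroup
  have hdvd : orderOf a₀ ∣ Nat.card ↥P := orderOf_dvd_of_pow_eq_one hpow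
  have hdvdA : orderOf a₀ ∣ Nat.card ↥A := by
    have h1 := orderOf_dvd_natCard (⟨a₀, ha₀⟩ : ↥A)
    rwa [Subgroup.orderOf_mk] at h1
  have hcop : (orderOf a₀).Coprime (Nat.card ↥P) := by
    rw [hk]
    exact Nat.Coprime.pow_right k (h.coprime.coprime_dvd_left hdvdA)
  have h1 : orderOf a₀ = 1 := Nat.Coprime.eq_one_of_dvd hcop hdvd
  exact ha₀1 (orderOf_eq_one_iff.mp h1)

example : Cfsg.Agent.H74.MC.StConvB.{u} := convB

end Cfsg.Agent.H43.MC
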