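import Mathlib
import Cfsg.Agent.H74.MCDefs

/-!
# S4756-CONVCOMM (helper43, for helper74's S4756 project)

In the situation `Alt G p P A`: `commutator G ≤ ⁅A, P⁆`.
-/

set_option autoImplicit false

namespace Cfsg.Agent.H43.MC

open Cfsg.Agent.H74.MC

open scoped commutatorElement

universe u

theorem convComm : StConvComm.{u} := by
  intro G _ _ p _ P A h
  have hPn : P.Normal := h.normal
  have hDn : (⁅A, P⁆).Normal := h.dnormal
  have dec : ∀ g : G, ∃ a ∈ A, ∃ c ∈ P ⊓ Subgroup.centralizer (A : Set G),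
      (QuotientGroup.mk' (⁅A, P⁆)) g = (QuotientGroup.mk' (⁅A, P⁆)) (a * c) := by
    intro g
    have hgtop : g ∈ A ⊔ P := by rw [h.sup]; exact Subgroup.mem_top g
    obtain ⟨a₀, ha₀, x, hx, rfl⟩ := Subgroup.mem_sup_of_normal_right.mp hgtop
    have hxs : x ∈ (P ⊓ Subgroup.centralizer (A : Set G)) ⊔ ⁅A, P⁆ := by
      rw [h.split_sup]; exact hx
    obtain ⟨c, hc, d₀, hd₀, rfl⟩ := Subgroup.mem_sup_of_normal_right.mp hxs
    refine ⟨a₀, ha₀, c, hc, ?_⟩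
    apply QuotientGroup.eq.mpr
    have e : (a₀ * (c * d₀))⁻¹ * (a₀ * c) = d₀⁻¹ := by group
    rw [e]; exact (⁅A, P⁆).inv_mem hd₀
  rw [commutator_def, Subgroup.commutator_le]
  intro g₁ _ g₂ _
  obtain ⟨a₁, ha₁, c₁, hc₁, e₁⟩ := dec g₁
  obtain ⟨a₂, ha₂, c₂, hc₂, e₂⟩ := dec g₂
  have hcomm : Commute (a₁ * c₁) (a₂ * c₂) := by
    have h12 : a₁ * a₂ = a₂ * a₁ := h.abel a₁ ha₁ a₂ ha₂
    have hcc : c₁ * c₂ = c₂ * c₁ := h.cab c₁ hc₁ c₂ hc₂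
    have h1 : a₂ * c₁ = c₁ * a₂ := Subgroup.mem_centralizer_iff.mp hc₁.2 a₂ ha₂
    have h2 : a₁ * c₂ = c₂ * a₁ := Subgroup.mem_centralizer_iff.mp hc₂.2 a₁ ha₁
    show a₁ * c₁ * (a₂ * c₂) = a₂ * c₂ * (a₁ * c₁)
    calc a₁ * c₁ * (a₂ * c₂) = a₁ * (c₁ * a₂) * c₂ := by group
      _ = a₁ * (a₂ * c₁) * c₂ := by rw [h1]
      _ = (a₁ * a₂) * (c₁ * c₂) := by group
      _ = (a₂ * a₁) * (c₂ * c₁) := by rw [h12, hcc]
      _ = a₂ * (a₁ * c₂) * c₁ := by group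
      _ = a₂ * (c₂ * a₁) * c₁ := by rw [h2]
      _ = a₂ * c₂ * (a₁ * c₁) := by group
  have hfin : (QuotientGroup.mk' (⁅A, P⁆)) ⁅g₁, g₂⁆ = 1 := by
    rw [map_commutatorElement, e₁, e₂, ← map_commutatorElement,
      commutatorElement_eq_one_iff_commute.mpr hcomm, map_one]
  exact (QuotientGroup.eq_one_iff _).mp hfin

example : Cfsg.Agent.H74.MC.StConvComm.{u} := convComm

end Cfsg.Agent.H43.MC
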