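import Mathlib
import Cfsg.Agent.H74.MCDefs

/-!
# S4756-CONVOUT (helper43, for helper74's S4756 project)

`P ⊴ G` a `p`-group, `x, y ≠ 1` of prime-power orders for two different primes: not both in
`P`, and `x * y ∉ P`.
-/

set_option autoImplicit false

namespace Cfsg.Agent.H43.MC

open Cfsg.Agent.H74.MC

universe u

/-- In a `p`-subgroup, a nontrivial element of prime-power order `r ^ c` has `r = p`. -/
theorem primeEqOfMem {G : Type u} [Group G] {p : ℕ} [Fact p.Prime] {P : Subgroup G}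
    (hP : IsPGroup p ↥P) {g : G} (hg : g ∈ P) (hg1 : g ≠ 1) {r c : ℕ} (hr : r.Prime)
    (ho : orderOf g = r ^ c) : r = p := by
  obtain ⟨k, hk⟩ := (IsPGroup.iff_orderOf.mp hP) ⟨g, hg⟩
  have hk' : orderOf g = p ^ k := by
    rw [← hk]; exact (Subgroup.orderOf_mk g hg).symm
  have hne : orderOf g ≠ 1 := by rwa [Ne, orderOf_eq_one_iff]
  have hk0 : k ≠ 0 := by
    rintro rfl
    exact hne (by simpa using hk')
  have hdvd : p ∣ r ^ c := by
    rw [← ho, hk']; exact dvd_pow_self p hk0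
  have h2 : p ∣ r := (Fact.out : p.Prime).dvd_of_dvd_pow hdvd
  exact ((Nat.prime_dvd_prime_iff_eq Fact.out hr).mp h2).symm

theorem convOut : StConvOut.{u} := by
  intro G _ _ p _ P hN hP x y hx hy hex
  obtain ⟨p', q, a, b, hp', hq, hne, hox, hoy⟩ := hex
  have hPn : P.Normal := hN
  have h1 : x ∉ P ∨ y ∉ P := by
    by_contra hcon
    rw [not_or, not_not, not_not] at hcon
    have e1 := primeEqOfMem hP hcon.1 hx hp' hox
    have e2 := primeEqOfMem hP hcon.2 hy hq hoy
    exact hne (e1.trans e2.symm)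
  refine ⟨h1, fun hxy => ?_⟩
  have hq1 : (QuotientGroup.mk' P) x * (QuotientGroup.mk' P) y = 1 := by
    rw [← map_mul]
    exact (QuotientGroup.eq_one_iff _).mpr hxy
  have hxinv : (QuotientGroup.mk' P) x = ((QuotientGroup.mk' P) y)⁻¹ :=
    eq_inv_of_mul_eq_one_left hq1
  have d1 : orderOf ((QuotientGroup.mk' P) x) ∣ p' ^ a := by
    rw [← hox]; exact orderOf_map_dvd (QuotientGroup.mk' P) x
  have d2 : orderOf ((QuotientGroup.mk' P) x) ∣ q ^ b := by
    rw [hxinv, orderOf_inv, ← hoy]; exact orderOf_map_dvd (QuotientGroup.mk' P) y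
  have hcop : Nat.Coprime (p' ^ a) (q ^ b) :=
    Nat.Coprime.pow a b ((Nat.coprime_primes hp' hq).mpr hne)
  have ho1 : orderOf ((QuotientGroup.mk' P) x) = 1 :=
    Nat.Coprime.eq_one_of_dvd (Nat.Coprime.coprime_dvd_left d1 hcop) d2
  have hxP : x ∈ P := by
    have := orderOf_eq_one_iff.mp ho1
    exact (QuotientGroup.eq_one_iff x).mp this
  have hyP : y ∈ P := by
    have e : y = x⁻¹ * (x * y) := by group
    rw [e]; exact P.mul_mem (P.inv_mem hxP) hxy
  rcases h1 with h | h
  · exact h hxP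
  · exact h hyP

example : Cfsg.Agent.H74.MC.StConvOut.{u} := convOut

end Cfsg.Agent.H43.MC
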