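import Cfsg.Agent.H43.MCDefs

/-!
# S3905: assembly of the pieces (inside `G`)
-/

set_option autoImplicit false

namespace Cfsg.Agent.H43.MC

universe u

/-- The β-lemma from its two cases. -/
theorem beta_of (hN : StBetaN.{u}) (hF : StBetaF.{u}) : StBeta.{u} := by
  intro G _ _ N _ h p x y hce
  by_cases hn : (Subgroup.centralizer ({x} : Set G)).Normal
  · exact hN G N h p x y hce hn
  · exact hF G N h p x y hce hn

/-- `C_N(x)/Z` is a `q`-group for a `q`-element `x ∈ N ∖ Z`. -/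
theorem beta_pow (hS : StSplit.{u}) (hB : StBeta.{u}) {G : Type u} [Group G] [Finite G]
    {N : Subgroup G} [N.Normal] (h : Hyp N) {q : ℕ} {x c : G} (hq : q.Prime) (hxN : x ∈ N)
    (hxZ : x ∉ Subgroup.centralizer (N : Set G)) (hxo : ∃ k : ℕ, orderOf x = q ^ k)
    (hcN : c ∈ N) (hcx : Commute c x) : ∃ j : ℕ, c ^ (q ^ j) ∈ ZN N := by
  obtain ⟨a, b, hab, ⟨j, hj⟩, hcop⟩ := hS G q hq c
  have hbZ : c ^ b ∈ Subgroup.centralizer (N : Set G) := by
    by_contra hbZ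
    exact hB G N h q x (c ^ b)
      ⟨hq, hxN, hxZ, hxo, N.pow_mem hcN b, hbZ, (hcx.pow_left b).symm, hcop⟩
  refine ⟨j, ?_⟩
  have h1 : c ^ (q ^ j) = (c ^ b) ^ (q ^ j) := by
    have h2 : (c ^ a * c ^ b) ^ (q ^ j) = (c ^ b) ^ (q ^ j) := by
      rw [(Commute.pow_pow (Commute.refl c) a b).mul_pow, ← hj, pow_orderOf_eq_one, one_mul]
    rw [← hab] at h2
    exact h2
  rw [h1, mem_ZN]
  exact ⟨N.pow_mem (N.pow_mem hcN b) _, Subgroup.pow_mem _ hbZ _⟩

/-- `(l c)^m ∈ L · c^m` for `L` normalized by `c`. -/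
theorem mul_pow_mem {G : Type u} [Group G] (L : Subgroup G) {l c : G} (hl : l ∈ L)
    (hc : ∀ a ∈ L, ∀ i : ℕ, c ^ i * a * (c ^ i)⁻¹ ∈ L) (m : ℕ) :
    (l * c) ^ m * (c ^ m)⁻¹ ∈ L := by
  induction m with
  | zero => simp
  | succ m ih =>
    have h1 : (l * c) ^ (m + 1) * (c ^ (m + 1))⁻¹ =
        ((l * c) ^ m * (c ^ m)⁻¹) * (c ^ m * l * (c ^ m)⁻¹) := by
      rw [pow_succ, pow_succ]; group
    rw [h1]
    exact L.mul_mem ih (hc l hl m)

/-- The internal form of S3905. -/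
theorem main_int (hPrim : StPrim.{u}) (hSplit : StSplit.{u}) (hF5 : StF5.{u})
    (hBeta : StBeta.{u}) (hIntP : StIntP.{u}) (hPGrp : StPGrp.{u}) (hMainA : StMainA.{u})
    (hMainB : StMainB.{u}) (hD1 : StMainD1.{u}) (hD2 : StMainD2.{u}) (hCyc : StCyc.{u})
    {G : Type u} [Group G] [Finite G] (N : Subgroup G) [N.Normal] (h : Hyp N) :
    (∃ p : ℕ, p.Prime ∧ IntEA N p) ∨ (∃ (p r : ℕ) (L R : Subgroup G), IntFrob N p r L R) := by
  by_cases hab : N ≤ Subgroup.centralizer (N : Set G)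
  · left
    refine ⟨2, Nat.prime_two, ?_, ?_⟩
    · intro a ha b hb
      exact Subgroup.mul_mem _ (Subgroup.mul_mem _ (Subgroup.mul_mem _ (hab ha) (hab hb))
        (Subgroup.inv_mem _ (hab ha))) (Subgroup.inv_mem _ (hab hb))
    · intro a ha
      exact Subgroup.pow_mem _ (hab ha) 2
  -- a `p`-element `x ∈ N ∖ Z` with `C_N(x)` normal in `N`
  have hex : ∃ (p : ℕ) (x : G), p.Prime ∧ x ∈ N ∧ x ∉ Subgroup.centralizer (N : Set G) ∧
      (∃ k : ℕ, orderOf x = p ^ k) ∧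
      (∀ n ∈ N, ∀ c ∈ N, Commute c x → Commute (n * c * n⁻¹) x) := by
    by_contra hcon
    apply hab
    apply hIntP G N
    · intro p x y hp hxN hxZ hxo hyN hxy hyo
      by_contra hyZ
      exact hBeta G N h p x y ⟨hp, hxN, hxZ, hxo, hyN, hyZ, hxy, hyo⟩
    · intro x hxN hxZ hxo n hn hnorm
      rcases hF5 G N h x hxN hxZ with h1 | h2
      · exfalso
        obtain ⟨p, k, hp, hk⟩ := hxo
        exact hcon ⟨p, x, hp, hxN, hxZ, ⟨k, hk⟩, h1⟩
      · exact h2 n hn hnorm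
  obtain ⟨p, x, hp, hxN, hxZ, hxo, hxnorm⟩ := hex
  obtain ⟨L, hL⟩ := hMainA G N h p x hp hxN hxZ hxo hxnorm
  have hLnormal : L.Normal := hL.hnorm
  -- an `r`-element `y ∈ N` not centralizing `L`
  have hy0 : ∃ y0 ∈ N, y0 ∉ Subgroup.centralizer (L : Set G) := by
    by_contra hcon
    simp only [not_exists, not_and, not_not] at hcon
    apply hL.hLZ
    intro l hl
    rw [mem_ZN]
    refine ⟨hL.hLN hl, ?_⟩
    rw [mem_cent_set]
    intro n hn
    have h1 := hcon n hn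
    rw [Subgroup.mem_centralizer_iff] at h1
    exact (h1 l hl).symm
  obtain ⟨y0, hy0N, hy0L⟩ := hy0
  obtain ⟨r, m, k, hr, hym, hyo⟩ := hPrim G (Subgroup.centralizer (L : Set G)) y0 hy0L
  obtain ⟨y, hy⟩ : ∃ y : G, y = y0 ^ m := ⟨_, rfl⟩
  rw [← hy] at hym hyo
  have hyN : y ∈ N := by rw [hy]; exact N.pow_mem hy0N m
  have hyL : ∃ l ∈ L, ¬ Commute l y := by
    by_contra hcon
    simp only [not_exists, not_and, not_not] at hcon
    apply hym
    rw [Subgroup.mem_centralizer_iff]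
    intro l hl
    exact (hcon l hl).eq
  have hyZ : y ∉ Subgroup.centralizer (N : Set G) := by
    intro hc
    obtain ⟨l, hl, hly⟩ := hyL
    apply hly
    rw [mem_cent_set] at hc
    exact hc l (hL.hLN hl)
  obtain ⟨hprod, hint⟩ := hMainB G N h p L hL y hyN hyL
  have hLconj : ∀ (c : G) (a : G), a ∈ L → ∀ i : ℕ, c ^ i * a * (c ^ i)⁻¹ ∈ L := by
    intro c a ha i
    exact hL.hnorm.conj_mem a ha (c ^ i)
  by_cases hrp : r = p
  · left
    subst hrp
    refine ⟨r, hr, hPGrp G N h r hr ?_⟩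
    intro n hn
    obtain ⟨l, hl, c, hcN, hcy, rfl⟩ := hprod n hn
    obtain ⟨j, hj⟩ := beta_pow hSplit hBeta h hr hyN hyZ ⟨k, hyo⟩ hcN hcy
    refine ⟨j + 1, ?_⟩
    have hmem : (l * c) ^ (r ^ j) ∈ L := by
      have h1 := mul_pow_mem L hl (hLconj c) (r ^ j)
      have h2 : (l * c) ^ (r ^ j) = ((l * c) ^ (r ^ j) * (c ^ (r ^ j))⁻¹) * c ^ (r ^ j) := by group
      rw [h2]
      exact L.mul_mem h1 (hL.hZL hj)
    rw [pow_succ, pow_mul]
    exact hL.hpow _ hmem
  · right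
    have hfd : FData N p r L y := ⟨hL, hr, hrp, hyN, ⟨k, hyo⟩, hyL⟩
    obtain ⟨hLab, hfpf⟩ := hD1 G N h p r L y hfd
    obtain ⟨hRcomm, hRpow⟩ := hD2 G N h p r L y hfd
    have hZR : ZN N ≤ N ⊓ Subgroup.centralizer ({y} : Set G) := by
      intro z hz
      rw [mem_ZN] at hz
      have h2 := hz.2
      rw [mem_cent_set] at h2
      have h3 : z ∈ Subgroup.centralizer ({y} : Set G) := by
        rw [mem_cent_singleton]
        exact (h2 y hyN).symm
      exact Subgroup.mem_inf.mpr ⟨hz.1, h3⟩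
    have hRmem : ∀ t : G, t ∈ N ⊓ Subgroup.centralizer ({y} : Set G) → t ∈ N ∧ Commute t y := by
      intro t ht
      have ht' := Subgroup.mem_inf.mp ht
      refine ⟨ht'.1, ?_⟩
      have h2 := ht'.2
      rw [mem_cent_singleton] at h2
      exact h2
    have hfpf' : ∀ t ∈ N ⊓ Subgroup.centralizer ({y} : Set G), t ∉ ZN N → ∀ l ∈ L,
        t * l * t⁻¹ * l⁻¹ ∈ ZN N → l ∈ ZN N := by
      intro t ht htZ l hl hc
      obtain ⟨htN, hty⟩ := hRmem t ht
      exact hfpf t htN hty (fun hcN => htZ (mem_ZN.mpr ⟨htN, hcN⟩)) l hl hc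
    have hRZ : ¬ (N ⊓ Subgroup.centralizer ({y} : Set G)) ≤ ZN N := by
      intro hle
      have hyC : y ∈ Subgroup.centralizer ({y} : Set G) := by
        rw [mem_cent_singleton]
      have hyR : y ∈ N ⊓ Subgroup.centralizer ({y} : Set G) :=
        Subgroup.mem_inf.mpr ⟨hyN, hyC⟩
      exact hyZ (mem_ZN.mp (hle hyR)).2
    have hLnormN : ∀ n ∈ N, ∀ l ∈ L, n * l * n⁻¹ ∈ L := fun n _ l hl => hL.hnorm.conj_mem l hl n
    refine ⟨p, r, L, N ⊓ Subgroup.centralizer ({y} : Set G), ?_⟩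
    exact
      { hp := hL.hp
        hr := hr
        hZL := hL.hZL
        hLN := hL.hLN
        hZR := hZR
        hRN := inf_le_left
        hnorm := hLnormN
        hint := fun l hl hlR => hint l hl (hRmem l hlR).2
        hprod := by
          intro n hn
          obtain ⟨l, hl, c, hcN, hcy, rfl⟩ := hprod n hn
          have hcC : c ∈ Subgroup.centralizer ({y} : Set G) := by
            rw [mem_cent_singleton]
            exact hcy.eq
          exact ⟨l, hl, c, Subgroup.mem_inf.mpr ⟨hcN, hcC⟩, rfl⟩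
        hab := hLab
        hpow := hL.hpow
        hLZ := hL.hLZ
        hcard := hCyc G N r hr L (N ⊓ Subgroup.centralizer ({y} : Set G)) hL.hZL hL.hLN hZR
          inf_le_left hL.hLZ hRZ hLnormN hLab
          (fun a ha b hb => hRcomm a (hRmem a ha).1 (hRmem a ha).2 b (hRmem b hb).1 (hRmem b hb).2)
          (fun a ha => hRpow a (hRmem a ha).1 (hRmem a ha).2) hfpf'
        hfpf := hfpf' }

end Cfsg.Agent.H43.MC
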