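import Cfsg.Agent.H43.MCDefs

/-!
# S3905-XEA: transfer of `IntEA` to the quotient `N ⧸ Z(N)`
-/

set_option autoImplicit false

namespace Cfsg.Agent.H43.MC

universe u

theorem mem_center_sub {G : Type u} [Group G] {N : Subgroup G} (n : ↥N)
    (hn : (n : G) ∈ Subgroup.centralizer (N : Set G)) : n ∈ Subgroup.center ↥N := by
  rw [Subgroup.mem_center_iff]
  intro g
  apply Subtype.ext
  rw [mem_cent_set] at hn
  simpa using hn g g.2

theorem xferEA : StXferEA.{u} := by
  intro G _ N p hEA
  obtain ⟨hcomm, hpow⟩ := hEA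
  constructor
  · refine ⟨⟨?_⟩⟩
    rintro ⟨a, -⟩ ⟨b, -⟩
    apply Subtype.ext
    show a * b = b * a
    induction a using QuotientGroup.induction_on with
    | H a =>
      induction b using QuotientGroup.induction_on with
      | H b =>
        have h1 : (a * b * a⁻¹ * b⁻¹ : ↥N) ∈ Subgroup.center ↥N :=
          mem_center_sub _ (by simpa using hcomm a a.2 b b.2)
        have h2 : ((a * b * a⁻¹ * b⁻¹ : ↥N) : ↥N ⧸ Subgroup.center ↥N) = 1 :=
          (QuotientGroup.eq_one_iff _).mpr h1
        have h3 : ((a * b : ↥N) : ↥N ⧸ Subgroup.center ↥N) =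
            ((a * b * a⁻¹ * b⁻¹ : ↥N) : ↥N ⧸ Subgroup.center ↥N) * ((b * a : ↥N) : ↥N ⧸ Subgroup.center ↥N) := by
          rw [← QuotientGroup.mk_mul]
          congr 1
          group
        rw [h2, one_mul] at h3
        exact h3
  · intro a _
    induction a using QuotientGroup.induction_on with
    | H a =>
      have h1 : (a ^ p : ↥N) ∈ Subgroup.center ↥N :=
        mem_center_sub _ (by simpa using hpow a a.2)
      exact (QuotientGroup.eq_one_iff _).mpr h1

end Cfsg.Agent.H43.MC
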