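import Mathlib
import Cfsg.Agent.H43.NilBound
import Cfsg.Agent.H43.NilDecomp

set_option autoImplicit false

namespace Cfsg.Agent.H43

open Nat

/-- Two subgroups of `C` whose orders equal the `p`-part of `|C|` are conjugate under `C`. -/
theorem exists_conj_of_sylow_card {G : Type*} [Group G] [Finite G] (p : ℕ) [Fact p.Prime]
    (C A B : Subgroup G) (hA : A ≤ C) (hB : B ≤ C)
    (hAc : Nat.card A = p ^ (Nat.card C).factorization p)
    (hBc : Nat.card B = p ^ (Nat.card C).factorization p) :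
    ∃ h ∈ C, ∀ x : G, x ∈ B ↔ h⁻¹ * x * h ∈ A := by
  have hA' : Nat.card (A.subgroupOf C) = p ^ (Nat.card C).factorization p := by
    rw [Nat.card_congr (Subgroup.subgroupOfEquivOfLe hA).toEquiv, hAc]
  have hB' : Nat.card (B.subgroupOf C) = p ^ (Nat.card C).factorization p := by
    rw [Nat.card_congr (Subgroup.subgroupOfEquivOfLe hB).toEquiv, hBc]
  obtain ⟨h, hh⟩ := MulAction.exists_smul_eq C (Sylow.ofCard _ hA') (Sylow.ofCard _ hB')
  have key : ∀ y : C, y ∈ B.subgroupOf C ↔ h⁻¹ * y * h ∈ A.subgroupOf C := by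
    intro y
    have h1 : (B.subgroupOf C) = ((h • Sylow.ofCard _ hA' : Sylow p C) : Subgroup C) := by
      rw [hh]; rfl
    rw [h1, Sylow.coe_subgroup_smul, Subgroup.mem_pointwise_smul_iff_inv_smul_mem]
    simp [MulAut.smul_def, Sylow.ofCard]
  refine ⟨h, h.2, fun x => ?_⟩
  constructor
  · intro hx
    have := (key ⟨x, hB hx⟩).mp (by simpa [Subgroup.mem_subgroupOf] using hx)
    simpa [Subgroup.mem_subgroupOf] using this
  · intro hx
    have hxC : x ∈ C := by
      have h1 : (h : G)⁻¹ * x * (h : G) ∈ C := hA hx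
      have h2 : (h : G) * ((h : G)⁻¹ * x * (h : G)) * (h : G)⁻¹ ∈ C :=
        C.mul_mem (C.mul_mem h.2 h1) (C.inv_mem h.2)
      have e : (h : G) * ((h : G)⁻¹ * x * h) * (h : G)⁻¹ = x := by group
      rwa [e] at h2
    have := (key ⟨x, hxC⟩).mpr (by simpa [Subgroup.mem_subgroupOf] using hx)
    simpa [Subgroup.mem_subgroupOf] using this

theorem v2_pred_lt {m : ℕ} (hm : m % 4 = 0) (hpos : 0 < m) : v2 (m - 1) < v2 m := by
  rw [v2_rec m, v2_rec (m - 1)]
  have h1 : v2 ((m - 1) / 2) ≤ v2 (m / 2) := v2_mono (by omega)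
  omega

theorem v2_centralizer_lt (n j : ℕ) (hn : n % 4 = 3) (hj : 2 ≤ j) (hjn : 3 * j ≤ n) :
    v2 (n - 3 * j) + v2 j < v2 (n - 3) := by
  have h1 : v2 (n - 3 * j) + v2 j ≤ v2 (n - 3 * j + j) := v2_add _ _
  have h2 : v2 (n - 3 * j + j) ≤ v2 (n - 3 - 1) := v2_mono (by omega)
  have h3 : v2 (n - 3 - 1) < v2 (n - 3) := v2_pred_lt (by omega) (by omega)
  omega

/-- Structure of a nilpotent subgroup of `S_n` (`n ≡ 3 mod 4`) of the largest possible order. -/
theorem nil_extremal_structure (n : ℕ) (hn : n % 4 = 3) (N : Subgroup (Equiv.Perm (Fin n)))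
    (hN : Group.IsNilpotent N) (hcard : Nat.card N = 3 * g2 (n - 3)) :
    ∃ c ∈ N, c.cycleType = {3} ∧ ∃ T : Subgroup (Equiv.Perm (Fin n)), T ≤ N ∧
      Nat.card T = g2 (n - 3) ∧ T ≤ Subgroup.centralizer {c} ∧
      ∀ g ∈ N, ∃ u ∈ T, ∃ q ∈ Subgroup.zpowers c, g = u * q := by
  have : Fact (Nat.Prime 2) := ⟨Nat.prime_two⟩
  have : Fact (Nat.Prime 3) := ⟨Nat.prime_three⟩
  obtain ⟨P₂, Q, hP, hQcop, hPQ, hcomm, -, hgen⟩ := exists_sylow_hall_decomp (G := N) 2
  obtain ⟨k, hk⟩ := (IsPGroup.iff_card).mp hP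
  rw [hcard, hk] at hPQ
  have hg2 : g2 (n - 3) = 2 ^ v2 (n - 3) := rfl
  rw [hg2] at hPQ
  have hkv : k = v2 (n - 3) := by
    apply le_antisymm
    · have h1 : 2 ^ k ∣ 3 * 2 ^ v2 (n - 3) := ⟨_, hPQ.symm⟩
      have h2 : 2 ^ k ∣ 2 ^ v2 (n - 3) :=
        (Nat.Coprime.pow_left k (by norm_num : Nat.Coprime 2 3)).dvd_of_dvd_mul_left h1
      exact (Nat.pow_dvd_pow_iff_le_right (by norm_num)).mp h2
    · have h1 : 2 ^ v2 (n - 3) ∣ 2 ^ k * Nat.card Q := ⟨3, by rw [hPQ]; ring⟩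
      have h2 : 2 ^ v2 (n - 3) ∣ 2 ^ k :=
        (Nat.Coprime.pow_left _ hQcop.symm).dvd_of_dvd_mul_right h1
      exact (Nat.pow_dvd_pow_iff_le_right (by norm_num)).mp h2
  have hQ3 : Nat.card Q = 3 := by
    rw [hkv, mul_comm] at hPQ
    exact Nat.eq_of_mul_eq_mul_right (by positivity) hPQ
  -- an element of order 3
  haveI : Nontrivial Q := by
    rw [← Finite.one_lt_card_iff_nontrivial, hQ3]; norm_num
  obtain ⟨c', hc'⟩ := exists_ne (1 : Q)
  have hord' : orderOf c' = 3 := orderOf_eq_prime (by rw [← hQ3]; exact pow_card_eq_one') hc'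
  set c : Equiv.Perm (Fin n) := ((c' : N) : Equiv.Perm (Fin n)) with hc
  have hord : orderOf c = 3 := by
    rw [hc, Subgroup.orderOf_coe, Subgroup.orderOf_coe, hord']
  obtain ⟨j, hj⟩ := Equiv.Perm.cycleType_prime_order (σ := c) (by rw [hord]; exact Nat.prime_three)
  rw [hord] at hj
  set T : Subgroup (Equiv.Perm (Fin n)) := P₂.map N.subtype with hT
  have hTcard : Nat.card T = g2 (n - 3) := by
    rw [hT, Subgroup.card_map_of_injective N.subtype_injective, hk, hkv, hg2]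
  have hTcent : T ≤ Subgroup.centralizer {c} := by
    rintro u ⟨u', hu', rfl⟩
    rw [Subgroup.mem_centralizer_iff]
    intro x hx
    rw [Set.mem_singleton_iff] at hx
    subst hx
    have := hcomm u' hu' (c' : N) c'.2
    exact (congrArg Subtype.val this).symm
  have hj0 : j = 0 := by
    by_contra hne
    have hsum : 3 * (j + 1) ≤ n := by
      have h1 := Equiv.Perm.sum_cycleType c
      rw [hj, Multiset.sum_replicate, smul_eq_mul] at h1
      have h2 : c.support.card ≤ Fintype.card (Fin n) := Finset.card_le_univ _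
      rw [Fintype.card_fin] at h2
      omega
    have hcent := Equiv.Perm.nat_card_centralizer c
    rw [hj, Multiset.sum_replicate, smul_eq_mul, Multiset.prod_replicate,
      Multiset.toFinset_replicate, if_neg (by omega), Finset.prod_singleton,
      Multiset.count_replicate_self, Fintype.card_fin] at hcent
    have hdvd : Nat.card T ∣ Nat.card (Subgroup.centralizer {c}) := Subgroup.card_dvd_of_le hTcent
    rw [hTcard, hg2, hcent] at hdvd
    have hne0 : (n - (j + 1) * 3)! * 3 ^ (j + 1) * (j + 1)! ≠ 0 := by positivity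
    have hle := (padicValNat_dvd_iff_le hne0).mp hdvd
    rw [padicValNat.mul (by positivity) (by positivity),
      padicValNat.mul (by positivity) (by positivity),
      padicValNat.pow 3 (j + 1)] at hle
    have h3 : padicValNat 2 3 = 0 := padicValNat.eq_zero_of_not_dvd (by norm_num)
    rw [h3, mul_zero, add_zero] at hle
    have hlt := v2_centralizer_lt n (j + 1) hn (by omega) hsum
    rw [mul_comm 3 (j + 1)] at hlt
    change v2 (n - 3) ≤ v2 (n - (j + 1) * 3) + v2 (j + 1) at hle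
    omega
  subst hj0
  refine ⟨c, (c' : N).2, by simpa using hj, T, ?_, hTcard, hTcent, ?_⟩
  · rintro u ⟨u', -, rfl⟩
    exact u'.2
  · intro g hg
    obtain ⟨u, hu, q, hq, h⟩ := hgen ⟨g, hg⟩
    have hqz : (⟨q, hq⟩ : Q) ∈ Subgroup.zpowers c' := mem_zpowers_of_prime_card hQ3 hc'
    obtain ⟨i, hi⟩ := hqz
    refine ⟨u, ⟨u, hu, rfl⟩, q, ⟨i, ?_⟩, congrArg Subtype.val h⟩
    have h1 := congrArg (fun z : Q => ((z : N) : Equiv.Perm (Fin n))) hi
    simpa using h1

/-- Two nilpotent subgroups of `S_n` (`n ≡ 3 mod 4`) of the largest possible order are conjugate. -/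
theorem nil_extremal_conj (n : ℕ) (hn : n % 4 = 3) (N₁ N₂ : Subgroup (Equiv.Perm (Fin n)))
    (h₁ : Group.IsNilpotent N₁) (h₂ : Group.IsNilpotent N₂)
    (hc₁ : Nat.card N₁ = 3 * g2 (n - 3)) (hc₂ : Nat.card N₂ = 3 * g2 (n - 3)) :
    ∃ g : Equiv.Perm (Fin n), N₂ = N₁.map (MulAut.conj g).toMonoidHom := by
  have : Fact (Nat.Prime 2) := ⟨Nat.prime_two⟩
  obtain ⟨c₁, hc₁N, hct₁, T₁, hT₁N, hT₁c, hT₁C, hgen₁⟩ := nil_extremal_structure n hn N₁ h₁ hc₁
  obtain ⟨c₂, hc₂N, hct₂, T₂, hT₂N, hT₂c, hT₂C, hgen₂⟩ := nil_extremal_structure n hn N₂ h₂ hc₂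
  obtain ⟨g₁, hg₁⟩ := isConj_iff.mp (Equiv.Perm.isConj_iff_cycleType_eq.mpr (hct₁.trans hct₂.symm))
  set C : Subgroup (Equiv.Perm (Fin n)) := Subgroup.centralizer {c₂} with hC
  have hCcard : Nat.card C = (n - 3)! * 3 := by
    have hcent := Equiv.Perm.nat_card_centralizer c₂
    rw [hct₂] at hcent
    simpa using hcent
  have hfac : (Nat.card C).factorization 2 = v2 (n - 3) := by
    rw [hCcard, Nat.factorization_def _ Nat.prime_two,
      padicValNat.mul (by positivity) (by norm_num)]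
    have h3 : padicValNat 2 3 = 0 := padicValNat.eq_zero_of_not_dvd (by norm_num)
    rw [h3, add_zero]
    rfl
  set T₁' : Subgroup (Equiv.Perm (Fin n)) := T₁.map (MulAut.conj g₁).toMonoidHom with hT₁'
  have hT₁'C : T₁' ≤ C := by
    rintro x ⟨u, hu, rfl⟩
    rw [hC, Subgroup.mem_centralizer_iff]
    intro y hy
    rw [Set.mem_singleton_iff] at hy
    subst hy
    have hcu := hT₁C hu
    rw [Subgroup.mem_centralizer_iff] at hcu
    have hcu' : c₁ * u = u * c₁ := hcu c₁ rfl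
    rw [← hg₁]
    simp only [MulEquiv.coe_toMonoidHom, MulAut.conj_apply]
    calc g₁ * c₁ * g₁⁻¹ * (g₁ * u * g₁⁻¹) = g₁ * (c₁ * u) * g₁⁻¹ := by group
      _ = g₁ * (u * c₁) * g₁⁻¹ := by rw [hcu']
      _ = g₁ * u * g₁⁻¹ * (g₁ * c₁ * g₁⁻¹) := by group
  have hT₁'card : Nat.card T₁' = 2 ^ (Nat.card C).factorization 2 := by
    rw [hT₁', Subgroup.card_map_of_injective (MulAut.conj g₁).injective, hT₁c, hfac]
    rfl
  have hT₂card : Nat.card T₂ = 2 ^ (Nat.card C).factorization 2 := by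
    rw [hT₂c, hfac]
    rfl
  obtain ⟨h, hhC, hh⟩ := exists_conj_of_sylow_card 2 C T₁' T₂ hT₁'C hT₂C hT₁'card hT₂card
  have hhc : h * c₂ * h⁻¹ = c₂ := by
    rw [hC, Subgroup.mem_centralizer_iff] at hhC
    have := hhC c₂ rfl
    rw [← this, mul_inv_cancel_right]
  refine ⟨h * g₁, ?_⟩
  have hle : N₁.map (MulAut.conj (h * g₁)).toMonoidHom ≤ N₂ := by
    rintro y ⟨x, hx, rfl⟩
    obtain ⟨u, hu, q, ⟨i, rfl⟩, rfl⟩ := hgen₁ x hx
    simp only [MulEquiv.coe_toMonoidHom]
    rw [map_mul, map_zpow]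
    apply N₂.mul_mem
    · apply hT₂N
      rw [hh]
      refine ⟨u, hu, ?_⟩
      simp only [MulEquiv.coe_toMonoidHom, MulAut.conj_apply]
      group
    · apply N₂.zpow_mem
      have : MulAut.conj (h * g₁) c₁ = c₂ := by
        rw [MulAut.conj_apply]
        calc h * g₁ * c₁ * (h * g₁)⁻¹ = h * (g₁ * c₁ * g₁⁻¹) * h⁻¹ := by group
          _ = c₂ := by rw [hg₁, hhc]
      rw [this]
      exact hc₂N
  have hcardle : Nat.card N₂ ≤ Nat.card (N₁.map (MulAut.conj (h * g₁)).toMonoidHom) := by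
    rw [Subgroup.card_map_of_injective (MulAut.conj (h * g₁)).injective, hc₁, hc₂]
  exact (Subgroup.eq_of_le_of_card_ge hle hcardle).symm

end Cfsg.Agent.H43
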