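import Mathlib
import Cfsg.Agent.H43.NilBound
import Cfsg.Agent.H43.NilDecomp
import Cfsg.Agent.H43.NilConj

set_option autoImplicit false

namespace Cfsg.Agent.H43

open Nat

theorem v2_pred_add_two_le {m : ℕ} (hm : m % 4 = 0) (hpos : 0 < m) : v2 (m - 1) + 2 ≤ v2 m := by
  rw [v2_rec4 m, v2_rec4 (m - 1)]
  have h1 : v2 ((m - 1) / 4) ≤ v2 (m / 4) := v2_mono (by omega)
  omega

theorem v2_centralizer_add_two_le (n j : ℕ) (hn : n % 4 = 3) (hj : 2 ≤ j) (hjn : 3 * j ≤ n) :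
    v2 (n - 3 * j) + v2 j + 2 ≤ v2 (n - 3) := by
  have h1 : v2 (n - 3 * j) + v2 j ≤ v2 (n - 3 * j + j) := v2_add _ _
  have h2 : v2 (n - 3 * j + j) ≤ v2 (n - 3 - 1) := v2_mono (by omega)
  have h3 : v2 (n - 3 - 1) + 2 ≤ v2 (n - 3) := v2_pred_add_two_le (by omega) (by omega)
  omega

/-- Structure of a nilpotent subgroup of `S_n` (`n ≡ 3 mod 4`) of order `3 · 2^k` with `2^k` at
least half of the order of a Sylow `2`-subgroup of `S_{n-3}`. -/
theorem nil_structure_gen (n : ℕ) (hn : n % 4 = 3) (N : Subgroup (Equiv.Perm (Fin n)))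
    (hN : Group.IsNilpotent N) (k : ℕ) (hcard : Nat.card N = 3 * 2 ^ k)
    (hk : v2 (n - 3) ≤ k + 1) :
    ∃ c ∈ N, c.cycleType = {3} ∧ ∃ T : Subgroup (Equiv.Perm (Fin n)), T ≤ N ∧
      Nat.card T = 2 ^ k ∧ T ≤ Subgroup.centralizer {c} ∧
      ∀ g ∈ N, ∃ u ∈ T, ∃ q ∈ Subgroup.zpowers c, g = u * q := by
  have : Fact (Nat.Prime 2) := ⟨Nat.prime_two⟩
  have : Fact (Nat.Prime 3) := ⟨Nat.prime_three⟩
  obtain ⟨P₂, Q, hP, hQcop, hPQ, hcomm, -, hgen⟩ := exists_sylow_hall_decomp (G := N) 2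
  obtain ⟨kk, hkk⟩ := (IsPGroup.iff_card).mp hP
  rw [hcard, hkk] at hPQ
  have hkv : kk = k := by
    apply le_antisymm
    · have h1 : 2 ^ kk ∣ 3 * 2 ^ k := ⟨_, hPQ.symm⟩
      have h2 : 2 ^ kk ∣ 2 ^ k :=
        (Nat.Coprime.pow_left kk (by norm_num : Nat.Coprime 2 3)).dvd_of_dvd_mul_left h1
      exact (Nat.pow_dvd_pow_iff_le_right (by norm_num)).mp h2
    · have h1 : 2 ^ k ∣ 2 ^ kk * Nat.card Q := ⟨3, by rw [hPQ]; ring⟩
      have h2 : 2 ^ k ∣ 2 ^ kk :=
        (Nat.Coprime.pow_left _ hQcop.symm).dvd_of_dvd_mul_right h1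
      exact (Nat.pow_dvd_pow_iff_le_right (by norm_num)).mp h2
  have hQ3 : Nat.card Q = 3 := by
    rw [hkv, mul_comm] at hPQ
    exact Nat.eq_of_mul_eq_mul_right (by positivity) hPQ
  have : Nontrivial Q := by
    rw [← Finite.one_lt_card_iff_nontrivial, hQ3]; norm_num
  obtain ⟨c', hc'⟩ := exists_ne (1 : Q)
  have hord' : orderOf c' = 3 := orderOf_eq_prime (by rw [← hQ3]; exact pow_card_eq_one') hc'
  set c : Equiv.Perm (Fin n) := ((c' : N) : Equiv.Perm (Fin n)) with hc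
  have hord : orderOf c = 3 := by
    rw [hc, Subgroup.orderOf_coe, Subgroup.orderOf_coe, hord']
  obtain ⟨j, hj⟩ := Equiv.Perm.cycleType_prime_order (σ := c) (by rw [hord]; exact Nat.prime_three)
  rw [hord] at hj
  set T : Subgroup (Equiv.Perm (Fin n)) := P₂.map N.subtype with hT
  have hTcard : Nat.card T = 2 ^ k := by
    rw [hT, Subgroup.card_map_of_injective N.subtype_injective, hkk, hkv]
  have hTcent : T ≤ Subgroup.centralizer {c} := by
    rintro u ⟨u', hu', rfl⟩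
    rw [Subgroup.mem_centralizer_iff]
    intro x hx
    rw [Set.mem_singleton_iff] at hx
    subst hx
    have := hcomm u' hu' (c' : N) c'.2
    exact (congrArg Subtype.val this).symm
  have hj0 : j = 0 := by
    by_contra hne
    have hsum : 3 * (j + 1) ≤ n := by
      have h1 := Equiv.Perm.sum_cycleType c
      rw [hj, Multiset.sum_replicate, smul_eq_mul] at h1
      have h2 : c.support.card ≤ Fintype.card (Fin n) := Finset.card_le_univ _
      rw [Fintype.card_fin] at h2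
      omega
    have hcent := Equiv.Perm.nat_card_centralizer c
    rw [hj, Multiset.sum_replicate, smul_eq_mul, Multiset.prod_replicate,
      Multiset.toFinset_replicate, if_neg (by omega), Finset.prod_singleton,
      Multiset.count_replicate_self, Fintype.card_fin] at hcent
    have hdvd : Nat.card T ∣ Nat.card (Subgroup.centralizer {c}) := Subgroup.card_dvd_of_le hTcent
    rw [hTcard, hcent] at hdvd
    have hne0 : (n - (j + 1) * 3)! * 3 ^ (j + 1) * (j + 1)! ≠ 0 := by positivity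
    have hle := (padicValNat_dvd_iff_le hne0).mp hdvd
    rw [padicValNat.mul (by positivity) (by positivity),
      padicValNat.mul (by positivity) (by positivity),
      padicValNat.pow 3 (j + 1)] at hle
    have h3 : padicValNat 2 3 = 0 := padicValNat.eq_zero_of_not_dvd (by norm_num)
    rw [h3, mul_zero, add_zero] at hle
    have hlt := v2_centralizer_add_two_le n (j + 1) hn (by omega) hsum
    rw [mul_comm 3 (j + 1)] at hlt
    change k ≤ v2 (n - (j + 1) * 3) + v2 (j + 1) at hle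
    omega
  subst hj0
  refine ⟨c, (c' : N).2, by simpa using hj, T, ?_, hTcard, hTcent, ?_⟩
  · rintro u ⟨u', -, rfl⟩
    exact u'.2
  · intro g hg
    obtain ⟨u, hu, q, hq, h⟩ := hgen ⟨g, hg⟩
    have hqz : (⟨q, hq⟩ : Q) ∈ Subgroup.zpowers c' := mem_zpowers_of_prime_card hQ3 hc'
    obtain ⟨i, hi⟩ := hqz
    refine ⟨u, ⟨u, hu, rfl⟩, q, ⟨i, ?_⟩, congrArg Subtype.val h⟩
    have h1 := congrArg (fun z : Q => ((z : N) : Equiv.Perm (Fin n))) hi
    simpa using h1

/-- An odd permutation centralizing a given `3`-cycle. -/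
theorem exists_odd_centralizing (n : ℕ) (hn : 5 ≤ n) (c : Equiv.Perm (Fin n))
    (hc : c.cycleType = {3}) :
    ∃ t : Equiv.Perm (Fin n), Equiv.Perm.sign t = -1 ∧ t * c = c * t := by
  have hsupp : c.support.card = 3 := by
    rw [← Equiv.Perm.sum_cycleType, hc]
    rfl
  have hcompl : 1 < (Finset.univ \ c.support).card := by
    rw [Finset.card_sdiff_of_subset (Finset.subset_univ _), Finset.card_univ, Fintype.card_fin,
      hsupp]
    omega
  obtain ⟨a, ha, b, hb, hab⟩ := Finset.one_lt_card.mp hcompl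
  have ha' : c a = a := Equiv.Perm.notMem_support.mp (Finset.mem_sdiff.mp ha).2
  have hb' : c b = b := Equiv.Perm.notMem_support.mp (Finset.mem_sdiff.mp hb).2
  refine ⟨Equiv.swap a b, Equiv.Perm.sign_swap hab, ?_⟩
  have hdis : Equiv.Perm.Disjoint (Equiv.swap a b) c := by
    intro x
    by_cases hxa : x = a
    · right; rw [hxa]; exact ha'
    · by_cases hxb : x = b
      · right; rw [hxb]; exact hb'
      · left; exact Equiv.swap_apply_of_ne_of_ne hxa hxb
  exact hdis.commute.eq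

/-- Two nilpotent subgroups of `A_n` (`n ≡ 3 mod 4`, `n ≥ 7`) of the largest possible order are
conjugate in `A_n`. -/
theorem alt_nil_extremal_conj (n : ℕ) (hn : n % 4 = 3) (h7 : 7 ≤ n)
    (N₁ N₂ : Subgroup (Equiv.Perm (Fin n)))
    (hA₁ : N₁ ≤ alternatingGroup (Fin n)) (hA₂ : N₂ ≤ alternatingGroup (Fin n))
    (h₁ : Group.IsNilpotent N₁) (h₂ : Group.IsNilpotent N₂)
    (hc₁ : 2 * Nat.card N₁ = 3 * g2 (n - 3)) (hc₂ : 2 * Nat.card N₂ = 3 * g2 (n - 3)) :
    ∃ g ∈ alternatingGroup (Fin n), N₂ = N₁.map (MulAut.conj g).toMonoidHom := by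
  have : Fact (Nat.Prime 2) := ⟨Nat.prime_two⟩
  have hv1 : 1 ≤ v2 (n - 3) := by
    have h1 : v2 4 ≤ v2 (n - 3) := v2_mono (by omega)
    have h2 : v2 4 = 3 := by rw [v2_rec4]; simp [v2]
    omega
  obtain ⟨k, hk⟩ : ∃ k, v2 (n - 3) = k + 1 := ⟨v2 (n - 3) - 1, by omega⟩
  have hg2 : g2 (n - 3) = 2 * 2 ^ k := by
    unfold g2
    rw [hk, _root_.pow_succ']
  have hk₁ : Nat.card N₁ = 3 * 2 ^ k := by rw [hg2] at hc₁; omega
  have hk₂ : Nat.card N₂ = 3 * 2 ^ k := by rw [hg2] at hc₂; omega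
  obtain ⟨c₁, hc₁N, hct₁, T₁, hT₁N, hT₁c, hT₁C, hgen₁⟩ :=
    nil_structure_gen n hn N₁ h₁ k hk₁ hk.le
  obtain ⟨c₂, hc₂N, hct₂, T₂, hT₂N, hT₂c, hT₂C, hgen₂⟩ :=
    nil_structure_gen n hn N₂ h₂ k hk₂ hk.le
  obtain ⟨t, ht, htc⟩ := exists_odd_centralizing n (by omega) c₂ hct₂
  obtain ⟨g₀, hg₀⟩ := isConj_iff.mp (Equiv.Perm.isConj_iff_cycleType_eq.mpr (hct₁.trans hct₂.symm))
  obtain ⟨g₁, hg₁A, hg₁⟩ : ∃ g₁ ∈ alternatingGroup (Fin n), g₁ * c₁ * g₁⁻¹ = c₂ := by
    rcases Int.units_eq_one_or (Equiv.Perm.sign g₀) with h | h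
    · exact ⟨g₀, Equiv.Perm.mem_alternatingGroup.mpr h, hg₀⟩
    · refine ⟨t * g₀, Equiv.Perm.mem_alternatingGroup.mpr (by rw [map_mul, ht, h]; rfl), ?_⟩
      calc t * g₀ * c₁ * (t * g₀)⁻¹ = t * (g₀ * c₁ * g₀⁻¹) * t⁻¹ := by group
        _ = t * c₂ * t⁻¹ := by rw [hg₀]
        _ = c₂ := by rw [htc, mul_inv_cancel_right]
  set A : Subgroup (Equiv.Perm (Fin n)) := alternatingGroup (Fin n) with hA
  set C : Subgroup (Equiv.Perm (Fin n)) := Subgroup.centralizer {c₂} with hC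
  have hCcard : Nat.card C = (n - 3)! * 3 := by
    have hcent := Equiv.Perm.nat_card_centralizer c₂
    rw [hct₂] at hcent
    simpa using hcent
  have htC : t ∈ C := by
    rw [hC, Subgroup.mem_centralizer_iff]
    intro y hy
    rw [Set.mem_singleton_iff] at hy
    subst hy
    exact htc.symm
  have htA : t ∉ A := by
    rw [hA, Equiv.Perm.mem_alternatingGroup, ht]
    decide
  have hnt : Nontrivial (Fin n) := Fin.nontrivial_iff_two_le.mpr (by omega)
  have hrel : A.relIndex C = 2 := by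
    have h1 : A.relIndex C ∣ A.index := Subgroup.relIndex_dvd_index_of_normal A C
    rw [hA, alternatingGroup.index_eq_two] at h1
    rcases (Nat.dvd_prime Nat.prime_two).mp h1 with h | h
    · exact absurd (Subgroup.relIndex_eq_one.mp h htC) htA
    · exact h
  have hCp : 2 * Nat.card (A ⊓ C : Subgroup (Equiv.Perm (Fin n))) = Nat.card C := by
    have h1 := Subgroup.card_mul_index (A.subgroupOf C)
    have h2 : Nat.card (A.subgroupOf C) = Nat.card (A ⊓ C : Subgroup (Equiv.Perm (Fin n))) := by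
      rw [← Subgroup.inf_subgroupOf_right]
      exact Nat.card_congr (Subgroup.subgroupOfEquivOfLe inf_le_right).toEquiv
    have h3 : (A.subgroupOf C).index = 2 := hrel
    rw [h2, h3] at h1
    omega
  have hfac : (Nat.card (A ⊓ C : Subgroup (Equiv.Perm (Fin n)))).factorization 2 = k := by
    have hpos : Nat.card (A ⊓ C : Subgroup (Equiv.Perm (Fin n))) ≠ 0 := Nat.card_pos.ne'
    have h1 : (2 * Nat.card (A ⊓ C : Subgroup (Equiv.Perm (Fin n)))).factorization 2 =
        1 + (Nat.card (A ⊓ C : Subgroup (Equiv.Perm (Fin n)))).factorization 2 := by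
      rw [Nat.factorization_mul (by norm_num) hpos]
      simp [Nat.Prime.factorization_self Nat.prime_two]
    rw [hCp, hCcard, Nat.factorization_def _ Nat.prime_two,
      padicValNat.mul (by positivity) (by norm_num)] at h1
    have h3 : padicValNat 2 3 = 0 := padicValNat.eq_zero_of_not_dvd (by norm_num)
    rw [h3, add_zero] at h1
    change v2 (n - 3) = _ at h1
    omega
  set T₁' : Subgroup (Equiv.Perm (Fin n)) := T₁.map (MulAut.conj g₁).toMonoidHom with hT₁'
  have hT₁'C : T₁' ≤ A ⊓ C := by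
    rintro x ⟨u, hu, rfl⟩
    refine Subgroup.mem_inf.mpr ⟨?_, ?_⟩
    · have huA : u ∈ A := hA₁ (hT₁N hu)
      simp only [MulEquiv.coe_toMonoidHom, MulAut.conj_apply]
      exact A.mul_mem (A.mul_mem hg₁A huA) (A.inv_mem hg₁A)
    · rw [hC, Subgroup.mem_centralizer_iff]
      intro y hy
      rw [Set.mem_singleton_iff] at hy
      subst hy
      have hcu := hT₁C hu
      rw [Subgroup.mem_centralizer_iff] at hcu
      have hcu' : c₁ * u = u * c₁ := hcu c₁ rfl
      rw [← hg₁]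
      simp only [MulEquiv.coe_toMonoidHom, MulAut.conj_apply]
      calc g₁ * c₁ * g₁⁻¹ * (g₁ * u * g₁⁻¹) = g₁ * (c₁ * u) * g₁⁻¹ := by group
        _ = g₁ * (u * c₁) * g₁⁻¹ := by rw [hcu']
        _ = g₁ * u * g₁⁻¹ * (g₁ * c₁ * g₁⁻¹) := by group
  have hT₂C' : T₂ ≤ A ⊓ C := fun x hx => Subgroup.mem_inf.mpr ⟨hA₂ (hT₂N hx), hT₂C hx⟩
  have hT₁'card : Nat.card T₁' =
      2 ^ (Nat.card (A ⊓ C : Subgroup (Equiv.Perm (Fin n)))).factorization 2 := by
    rw [hT₁', Subgroup.card_map_of_injective (MulAut.conj g₁).injective, hT₁c, hfac]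
  have hT₂card : Nat.card T₂ =
      2 ^ (Nat.card (A ⊓ C : Subgroup (Equiv.Perm (Fin n)))).factorization 2 := by
    rw [hT₂c, hfac]
  obtain ⟨h, hhC, hh⟩ := exists_conj_of_sylow_card 2 (A ⊓ C) T₁' T₂ hT₁'C hT₂C' hT₁'card hT₂card
  have hhc : h * c₂ * h⁻¹ = c₂ := by
    have hhC' := (Subgroup.mem_inf.mp hhC).2
    rw [hC, Subgroup.mem_centralizer_iff] at hhC'
    have := hhC' c₂ rfl
    rw [← this, mul_inv_cancel_right]
  refine ⟨h * g₁, A.mul_mem (Subgroup.mem_inf.mp hhC).1 hg₁A, ?_⟩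
  have hle : N₁.map (MulAut.conj (h * g₁)).toMonoidHom ≤ N₂ := by
    rintro y ⟨x, hx, rfl⟩
    obtain ⟨u, hu, q, ⟨i, rfl⟩, rfl⟩ := hgen₁ x hx
    simp only [MulEquiv.coe_toMonoidHom]
    rw [map_mul, map_zpow]
    apply N₂.mul_mem
    · apply hT₂N
      rw [hh]
      refine ⟨u, hu, ?_⟩
      simp only [MulEquiv.coe_toMonoidHom, MulAut.conj_apply]
      group
    · apply N₂.zpow_mem
      have : MulAut.conj (h * g₁) c₁ = c₂ := by
        rw [MulAut.conj_apply]
        calc h * g₁ * c₁ * (h * g₁)⁻¹ = h * (g₁ * c₁ * g₁⁻¹) * h⁻¹ := by group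
          _ = c₂ := by rw [hg₁, hhc]
      rw [this]
      exact hc₂N
  have hcardle : Nat.card N₂ ≤ Nat.card (N₁.map (MulAut.conj (h * g₁)).toMonoidHom) := by
    rw [Subgroup.card_map_of_injective (MulAut.conj (h * g₁)).injective, hk₁, hk₂]
  exact (Subgroup.eq_of_le_of_card_ge hle hcardle).symm

end Cfsg.Agent.H43
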