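import Mathlib

set_option autoImplicit false

namespace Cfsg.Agent.H43

open Subgroup

/-- If a finite group contains elements `r`, `s` generating a non-abelian dihedral-like 2-group
(`r ^ 4 = 1`, `s ^ 2 = 1`, `s r s⁻¹ = r⁻¹`, `r ^ 2 ≠ 1`), its Sylow 2-subgroups are not abelian. -/
theorem not_isMulCommutative_sylow_two {G : Type*} [Group G] [Finite G] (r s : G)
    (hr : r ^ 4 = 1) (hs : s ^ 2 = 1) (hrs : s * r * s⁻¹ = r⁻¹) (hr2 : r ^ 2 ≠ 1)
    (P : Sylow 2 G) : ¬ IsMulCommutative (P : Subgroup G) := by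
  have h1 : IsPGroup 2 (zpowers r) := by
    rintro ⟨g, hg⟩
    obtain ⟨k, rfl⟩ := mem_zpowers_iff.mp hg
    refine ⟨2, Subtype.ext ?_⟩
    change (r ^ k) ^ (2 ^ 2) = 1
    rw [← zpow_natCast, ← zpow_mul, mul_comm, zpow_mul, zpow_natCast]
    norm_num [hr]
  have h2 : IsPGroup 2 (zpowers s) := by
    rintro ⟨g, hg⟩
    obtain ⟨k, rfl⟩ := mem_zpowers_iff.mp hg
    refine ⟨1, Subtype.ext ?_⟩
    change (s ^ k) ^ (2 ^ 1) = 1
    rw [← zpow_natCast, ← zpow_mul, mul_comm, zpow_mul, zpow_natCast]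
    norm_num [hs]
  have hsinv : s⁻¹ = s := by
    rw [inv_eq_iff_mul_eq_one, ← pow_two]; exact hs
  have hconj : ∀ k : ℤ, s * r ^ k * s⁻¹ = (r ^ k)⁻¹ := by
    intro k
    have : s * r ^ k * s⁻¹ = (s * r * s⁻¹) ^ k := by
      rw [conj_zpow]
    rw [this, hrs, inv_zpow]
  have hsn : s ∈ normalizer ((zpowers r : Subgroup G) : Set G) := by
    rw [mem_normalizer_iff]
    intro h
    constructor
    · intro hh
      obtain ⟨k, rfl⟩ := mem_zpowers_iff.mp hh
      rw [hconj k]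
      exact inv_mem (zpow_mem (mem_zpowers r) k)
    · intro hh
      obtain ⟨k, hk⟩ := mem_zpowers_iff.mp hh
      have : h = s * r ^ k * s⁻¹ := by
        rw [hk]
        simp only [hsinv]
        have hss : s * s = 1 := by rw [← pow_two]; exact hs
        calc h = (s * s) * h * (s * s) := by rw [hss]; simp
          _ = s * (s * h * s) * s := by group
      rw [this, hconj k]
      exact inv_mem (zpow_mem (mem_zpowers r) k)
  have hnorm : zpowers s ≤ normalizer ((zpowers r : Subgroup G) : Set G) := by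
    rw [zpowers_le]; exact hsn
  have hH : IsPGroup 2 (zpowers s ⊔ zpowers r : Subgroup G) :=
    h2.to_sup_of_normal_right' h1 hnorm
  obtain ⟨Q, hQ⟩ := hH.exists_le_sylow
  obtain ⟨g, rfl⟩ := MulAction.exists_smul_eq G Q P
  intro hcomm
  have hrQ : r ∈ Q := hQ (mem_sup_right (mem_zpowers r))
  have hsQ : s ∈ Q := hQ (mem_sup_left (mem_zpowers s))
  have hr' : g * r * g⁻¹ ∈ ((g • Q : Sylow 2 G) : Subgroup G) := ⟨r, hrQ, rfl⟩
  have hs' : g * s * g⁻¹ ∈ ((g • Q : Sylow 2 G) : Subgroup G) := ⟨s, hsQ, rfl⟩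
  have hc := hcomm.is_comm.comm
    (⟨g * s * g⁻¹, hs'⟩ : ((g • Q : Sylow 2 G) : Subgroup G)) ⟨g * r * g⁻¹, hr'⟩
  have hc' : g * s * g⁻¹ * (g * r * g⁻¹) = g * r * g⁻¹ * (g * s * g⁻¹) := congrArg Subtype.val hc
  have hsr : s * r = r * s := by
    have : g * (s * r) * g⁻¹ = g * (r * s) * g⁻¹ := by
      calc g * (s * r) * g⁻¹ = g * s * g⁻¹ * (g * r * g⁻¹) := by group
        _ = g * r * g⁻¹ * (g * s * g⁻¹) := hc'
        _ = g * (r * s) * g⁻¹ := by group
    exact mul_left_cancel (mul_right_cancel this)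
  apply hr2
  have : r = r⁻¹ := by
    rw [← hrs, hsr, mul_inv_cancel_right]
  rw [pow_two]
  nth_rewrite 2 [this]
  exact mul_inv_cancel r

end Cfsg.Agent.H43
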