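import Mathlib
import Cfsg.Prelude.Def_LocalEven

set_option autoImplicit false

/-! Helper lemmas (helper43): an element-wise notion of `p`-closure (the `p`-elements are closed under
multiplication) and its behaviour under sections, via the Frattini argument. -/

namespace Cfsg.Agent.H43

/-- `x` is a `p`-element. -/
def IsPElt (p : ℕ) {G : Type*} [Monoid G] (x : G) : Prop := ∃ k : ℕ, x ^ (p ^ k) = 1

/-- The `p`-elements of `G` are closed under multiplication. -/
def PMulClosed (p : ℕ) (G : Type*) [Group G] : Prop :=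
  ∀ x y : G, IsPElt p x → IsPElt p y → IsPElt p (x * y)

theorem IsPElt.map {p : ℕ} {G H : Type*} [Monoid G] [Monoid H] (f : G →* H) {x : G}
    (hx : IsPElt p x) : IsPElt p (f x) := by
  obtain ⟨k, hk⟩ := hx
  exact ⟨k, by rw [← map_pow, hk, map_one]⟩

theorem IsPElt.of_map {p : ℕ} {G H : Type*} [Monoid G] [Monoid H] (f : G →* H)
    (hf : Function.Injective f) {x : G} (hx : IsPElt p (f x)) : IsPElt p x := by
  obtain ⟨k, hk⟩ := hx
  exact ⟨k, hf (by rw [map_pow, hk, map_one])⟩

/-- A `p`-element times an element of a normal `p`-subgroup is a `p`-element. -/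
theorem isPElt_mul_of_normal {p : ℕ} [Fact p.Prime] {H : Type*} [Group H] (E : Subgroup H) [E.Normal]
    (hE : IsPGroup p E) {x e : H} (hx : IsPElt p x) (he : e ∈ E) : IsPElt p (x * e) := by
  have hZ : IsPGroup p (Subgroup.zpowers x) := by
    intro g
    obtain ⟨k, hk⟩ := hx
    refine ⟨k, ?_⟩
    obtain ⟨g, hg⟩ := g
    obtain ⟨i, rfl⟩ := Subgroup.mem_zpowers_iff.mp hg
    apply Subtype.ext
    rw [Subgroup.coe_pow, Subgroup.coe_one]
    show (x ^ i) ^ p ^ k = 1
    rw [← zpow_natCast, ← zpow_mul, mul_comm, zpow_mul, zpow_natCast, hk, one_zpow]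
  have hS : IsPGroup p (Subgroup.zpowers x ⊔ E : Subgroup H) := hZ.to_sup_of_normal_right hE
  have hmem : x * e ∈ (Subgroup.zpowers x ⊔ E : Subgroup H) :=
    mul_mem (Subgroup.mem_sup_left (Subgroup.mem_zpowers x)) (Subgroup.mem_sup_right he)
  obtain ⟨k, hk⟩ := hS ⟨x * e, hmem⟩
  exact ⟨k, by simpa using congrArg Subtype.val hk⟩

/-- Lifting a `p`-element through a homomorphism: some power of `n` is a `p`-element with the same image. -/
theorem exists_pElt_lift {p : ℕ} [Fact p.Prime] {A H : Type*} [Group A] [Finite A] [Group H] (f : A →* H)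
    (n : A) (hn : IsPElt p (f n)) : ∃ m : ℕ, IsPElt p (n ^ m) ∧ f (n ^ m) = f n := by
  have hp := (Fact.out : p.Prime)
  obtain ⟨i, r, hr, hord⟩ := Nat.exists_eq_pow_mul_and_not_dvd (orderOf_pos n).ne' p hp.ne_one
  obtain ⟨k, hk⟩ := hn
  have hdvd : orderOf (f n) ∣ p ^ k := orderOf_dvd_of_pow_eq_one hk
  obtain ⟨j, _, hj⟩ := (Nat.dvd_prime_pow hp).mp hdvd
  have hcop : r.Coprime (orderOf (f n)) := by
    rw [hj]
    exact Nat.Coprime.pow_right _ ((Nat.Coprime.symm ((Nat.Prime.coprime_iff_not_dvd hp).mpr hr)))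
  obtain ⟨s, hs⟩ := exists_pow_eq_self_of_coprime hcop
  refine ⟨r * s, ⟨i, ?_⟩, ?_⟩
  · rw [← pow_mul, mul_comm (r * s), ← mul_assoc, ← hord, pow_mul, pow_orderOf_eq_one, one_pow]
  · rw [map_pow, pow_mul, hs]

/-- **Frattini-type lemma.** Suppose that in the finite group `G` the `p`-elements of the normalizer of
any non-trivial `p`-subgroup are closed under multiplication. Then every section `H` of `G` with a
non-trivial normal `p`-subgroup has its `p`-elements closed under multiplication. -/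
theorem pMulClosed_of_section {p : ℕ} [Fact p.Prime] {G H : Type*} [Group G] [Finite G] [Group H]
    (hG : ∀ P : Subgroup G, IsPGroup p P → P ≠ ⊥ → ∀ x ∈ Subgroup.normalizer (P : Set G),
      ∀ y ∈ Subgroup.normalizer (P : Set G), IsPElt p x → IsPElt p y → IsPElt p (x * y))
    (K : Subgroup G) (f : K →* H) (hf : Function.Surjective f)
    (E : Subgroup H) [E.Normal] (hE : IsPGroup p E) (hE1 : E ≠ ⊥) : PMulClosed p H := by
  classical
  have hp := (Fact.out : p.Prime)
  obtain ⟨P⟩ : Nonempty (Sylow p ↥(E.comap f)) := inferInstance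
  have hfr := Sylow.normalizer_sup_eq_top P
  obtain ⟨P', hP'⟩ : ∃ P' : Subgroup K, P' = Subgroup.map (E.comap f).subtype ↑P := ⟨_, rfl⟩
  rw [← hP'] at hfr
  have hP'p : IsPGroup p P' := by
    rw [hP']
    exact P.isPGroup'.map _
  have hP'ne : P' ≠ ⊥ := by
    intro h0
    rw [hP', Subgroup.map_eq_bot_iff_of_injective _ (Subgroup.subtype_injective _)] at h0
    have hdiv : p ∣ Nat.card ↥(E.comap f) := by
      have h1 : Nat.card E ∣ Nat.card ↥(E.comap f) := by
        have h2 := Subgroup.card_map_dvd (E.comap f) f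
        rwa [Subgroup.map_comap_eq_self_of_surjective hf] at h2
      rcases hE.card_eq_or_dvd with h3 | h3
      · exact absurd ((Subgroup.card_eq_one).mp h3) hE1
      · exact h3.trans h1
    exact Sylow.ne_bot_of_dvd_card P hdiv h0
  obtain ⟨P₁, hP₁⟩ : ∃ P₁ : Subgroup G, P₁ = P'.map K.subtype := ⟨_, rfl⟩
  have hP₁p : IsPGroup p P₁ := by
    rw [hP₁]
    exact hP'p.map _
  have hP₁ne : P₁ ≠ ⊥ := by
    intro h0
    rw [hP₁, Subgroup.map_eq_bot_iff_of_injective _ (Subgroup.subtype_injective _)] at h0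
    exact hP'ne h0
  -- every `p`-element of `H` is `f n * e` with `n` a `p`-element normalizing `P'` and `e ∈ E`
  have key : ∀ x : H, IsPElt p x → ∃ n : K, n ∈ Subgroup.normalizer (P' : Set K) ∧ IsPElt p n ∧
      ∃ e ∈ E, x = f n * e := by
    intro x hx
    obtain ⟨a, rfl⟩ := hf x
    have ha : a ∈ (Subgroup.normalizer (P' : Set K) ⊔ E.comap f : Subgroup K) := by
      rw [hfr]
      exact Subgroup.mem_top a
    have ha' : a ∈ ((Subgroup.normalizer (P' : Set K) ⊔ E.comap f : Subgroup K) : Set K) := ha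
    rw [Subgroup.mul_normal] at ha'
    obtain ⟨n, hn, e, he, hne⟩ := Set.mem_mul.mp ha'
    subst hne
    have he' : f e ∈ E := he
    have hfn : IsPElt p (f n) := by
      have h1 : f n = f (n * e) * (f e)⁻¹ := by rw [map_mul, mul_inv_cancel_right]
      rw [h1]
      exact isPElt_mul_of_normal E hE hx (inv_mem he')
    obtain ⟨m, hm1, hm2⟩ := exists_pElt_lift f n hfn
    refine ⟨n ^ m, pow_mem hn m, hm1, f e, he', ?_⟩
    rw [hm2, map_mul]
  intro x y hx hy
  obtain ⟨n₁, hn₁, hn₁p, e₁, he₁, rfl⟩ := key x hx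
  obtain ⟨n₂, hn₂, hn₂p, e₂, he₂, rfl⟩ := key y hy
  have hnorm : ∀ n : K, n ∈ Subgroup.normalizer (P' : Set K) →
      (n : G) ∈ Subgroup.normalizer (P₁ : Set G) := by
    intro n hn
    rw [hP₁]
    exact Subgroup.le_normalizer_map K.subtype (Subgroup.mem_map_of_mem K.subtype hn)
  have h12 : IsPElt p ((n₁ : G) * (n₂ : G)) :=
    hG P₁ hP₁p hP₁ne _ (hnorm n₁ hn₁) _ (hnorm n₂ hn₂) (hn₁p.map K.subtype) (hn₂p.map K.subtype)
  have h12' : IsPElt p (n₁ * n₂) := by
    apply IsPElt.of_map K.subtype K.subtype_injective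
    rw [map_mul]
    exact h12
  have h3 : f n₁ * e₁ * (f n₂ * e₂) = f (n₁ * n₂) * ((f n₂)⁻¹ * e₁ * f n₂ * e₂) := by
    rw [map_mul]
    group
  rw [h3]
  apply isPElt_mul_of_normal E hE (h12'.map f)
  apply mul_mem _ he₂
  have := (inferInstance : E.Normal).conj_mem e₁ he₁ (f n₂)⁻¹
  simpa using this

/-- A section of `G ⧸ Z` is a section of `G`: from `Involves H (G ⧸ Z)` we get a subgroup of `G` mapping onto `H`. -/
theorem exists_surj_of_involves_quot {G H : Type*} [Group G] [Group H] (Z : Subgroup G) [Z.Normal]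
    (h : Cfsg.Involves H (G ⧸ Z)) : ∃ (K : Subgroup G) (f : K →* H), Function.Surjective f := by
  obtain ⟨K, R, hN, ⟨e⟩⟩ := h
  refine ⟨K.comap (QuotientGroup.mk' Z),
    (e.toMonoidHom.comp (QuotientGroup.mk' (R.subgroupOf K))).comp
      ((QuotientGroup.mk' Z).subgroupComap K), ?_⟩
  rw [MonoidHom.coe_comp, MonoidHom.coe_comp]
  exact (e.surjective.comp (QuotientGroup.mk'_surjective _)).comp
    (MonoidHom.subgroupComap_surjective_of_surjective _ _ (QuotientGroup.mk'_surjective Z))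

end Cfsg.Agent.H43
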