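import Mathlib
import Cfsg.Agent.H43.G1a
import Cfsg.Agent.H43.HallAlt
import Cfsg.Agent.H59.UniqueOrderP

/-!
# Groups whose abelian subgroups of equal order are conjugate: basic lemmas (for S3912)
-/

set_option autoImplicit false

namespace Cfsg.Agent.H43.QB

universe u

open scoped commutatorElement

/-- Abelian subgroups of equal order are conjugate. -/
def PB (G : Type*) [Group G] : Prop :=
  ∀ A B : Subgroup G, IsMulCommutative ↥A → IsMulCommutative ↥B → Nat.card ↥A = Nat.card ↥B →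
    ∃ g : G, B = A.map (MulAut.conj g).toMonoidHom

/-- A minimal normal subgroup. -/
def IsMinNormal {G : Type*} [Group G] (N : Subgroup G) : Prop :=
  N.Normal ∧ N ≠ ⊥ ∧ ∀ K : Subgroup G, K.Normal → K ≤ N → K = ⊥ ∨ K = N

theorem comm_iff {G : Type*} [Group G] (A : Subgroup G) :
    IsMulCommutative ↥A ↔ ∀ a ∈ A, ∀ b ∈ A, a * b = b * a := by
  rw [← Subgroup.le_centralizer_iff_isMulCommutative]
  constructor
  · intro h a ha b hb
    exact (Subgroup.mem_centralizer_iff.mp (h hb)) a ha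
  · intro h b hb
    exact Subgroup.mem_centralizer_iff.mpr (fun a ha => h a ha b hb)

theorem mem_map_conj {G : Type*} [Group G] (A : Subgroup G) (g x : G) :
    x ∈ A.map (MulAut.conj g).toMonoidHom ↔ g⁻¹ * x * g ∈ A := by
  constructor
  · rintro ⟨a, ha, rfl⟩
    simpa [mul_assoc] using ha
  · intro h
    exact ⟨g⁻¹ * x * g, h, by simp [mul_assoc]⟩

theorem map_conj_normal {G : Type*} [Group G] (N : Subgroup G) [hN : N.Normal] (g : G) :
    N.map (MulAut.conj g).toMonoidHom = N := by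
  ext x
  rw [mem_map_conj]
  constructor
  · intro h
    have := hN.conj_mem _ h g
    simpa [mul_assoc] using this
  · intro h
    have := hN.conj_mem _ h g⁻¹
    simpa [mul_assoc] using this

theorem lift_conj {G H : Type*} [Group G] [Group H] (f : G →* H) (A₁ B₁ : Subgroup G) (g : G)
    (h : B₁ = A₁.map (MulAut.conj g).toMonoidHom) :
    B₁.map f = (A₁.map f).map (MulAut.conj (f g)).toMonoidHom := by
  rw [h, Subgroup.map_map, Subgroup.map_map]
  congr 1
  ext x
  simp

theorem exists_minNormal {G : Type*} [Group G] [Finite G] (K : Subgroup G) (hK : K.Normal)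
    (hne : K ≠ ⊥) : ∃ N : Subgroup G, IsMinNormal N ∧ N ≤ K := by
  classical
  let S : ℕ → Prop := fun n => ∃ N : Subgroup G, N.Normal ∧ N ≠ ⊥ ∧ N ≤ K ∧ Nat.card N = n
  have hS : ∃ n, S n := ⟨_, K, hK, hne, le_rfl, rfl⟩
  obtain ⟨N, hNn, hNne, hNK, hNc⟩ := Nat.find_spec hS
  refine ⟨N, ⟨hNn, hNne, fun M hM hMN => ?_⟩, hNK⟩
  by_cases hM1 : M = ⊥
  · exact Or.inl hM1
  · right
    have : Nat.card N ≤ Nat.card M :=
      hNc ▸ Nat.find_min' hS ⟨M, hM, hM1, hMN.trans hNK, rfl⟩
    exact Subgroup.eq_of_le_of_card_ge hMN this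

theorem minNormal_elem {G : Type*} [Group G] [Finite G] (hsol : Group.IsSolvable G)
    (N : Subgroup G) (hN : IsMinNormal N) :
    ∃ q : ℕ, q.Prime ∧ (∀ x ∈ N, ∀ y ∈ N, x * y = y * x) ∧ (∀ x ∈ N, x ^ q = 1) := by
  obtain ⟨hNn, hNne, hmin⟩ := hN
  have hcomlt : ⁅N, N⁆ < N := Group.IsSolvable.commutator_lt_of_ne_bot hNne
  have hcomn : (⁅N, N⁆ : Subgroup G).Normal := Subgroup.commutator_normal N N
  have hcom : ⁅N, N⁆ = ⊥ := (hmin _ hcomn hcomlt.le).resolve_right hcomlt.ne
  have hab : ∀ x ∈ N, ∀ y ∈ N, x * y = y * x := by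
    intro x hx y hy
    have : ⁅x, y⁆ ∈ ⁅N, N⁆ := Subgroup.commutator_mem_commutator hx hy
    rw [hcom, Subgroup.mem_bot] at this
    exact commutatorElement_eq_one_iff_mul_comm.mp this
  have hcard : Nat.card N ≠ 1 := fun h => hNne (Subgroup.eq_bot_of_card_eq N h)
  obtain ⟨q, hq, hqd⟩ := Nat.exists_prime_and_dvd hcard
  have : Fact q.Prime := ⟨hq⟩
  obtain ⟨x₀, hx₀⟩ := exists_prime_orderOf_dvd_card' q hqd
  let Nq : Subgroup G :=
    { carrier := {x | x ∈ N ∧ x ^ q = 1}
      mul_mem' := by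
        rintro a b ⟨ha, ha'⟩ ⟨hb, hb'⟩
        refine ⟨N.mul_mem ha hb, ?_⟩
        have hc : Commute a b := hab a ha b hb
        rw [hc.mul_pow, ha', hb', one_mul]
      one_mem' := ⟨N.one_mem, one_pow _⟩
      inv_mem' := by
        rintro a ⟨ha, ha'⟩
        exact ⟨N.inv_mem ha, by rw [inv_pow, ha', inv_one]⟩ }
  have hNqn : Nq.Normal := ⟨by
    rintro a ⟨ha, ha'⟩ g
    exact ⟨hNn.conj_mem a ha g, by rw [conj_pow, ha', mul_one, mul_inv_cancel]⟩⟩
  have hNqle : Nq ≤ N := fun x hx => hx.1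
  have hNqne : Nq ≠ ⊥ := by
    intro h
    have hx : (x₀ : G) ∈ Nq := ⟨x₀.2, by
      have h1 := pow_orderOf_eq_one x₀
      rw [hx₀] at h1
      exact_mod_cast congrArg Subtype.val h1⟩
    rw [h, Subgroup.mem_bot] at hx
    have h2 : x₀ = 1 := Subtype.ext hx
    rw [h2, orderOf_one] at hx₀
    exact hq.one_lt.ne hx₀
  have hNq : Nq = N := (hmin _ hNqn hNqle).resolve_left hNqne
  exact ⟨q, hq, hab, fun x hx => (hNq ▸ hx : x ∈ Nq).2⟩

theorem card_comap_mk {G : Type*} [Group G] [Finite G] (N : Subgroup G) [N.Normal]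
    (A : Subgroup (G ⧸ N)) :
    Nat.card (A.comap (QuotientGroup.mk' N)) = Nat.card N * Nat.card A := by
  have h1 := Subgroup.card_mul_index (A.comap (QuotientGroup.mk' N))
  have h2 := Subgroup.card_mul_index A
  have h3 : (A.comap (QuotientGroup.mk' N)).index = A.index :=
    Subgroup.index_comap_of_surjective A (QuotientGroup.mk'_surjective N)
  have h4 : Nat.card G = Nat.card (G ⧸ N) * Nat.card N :=
    Subgroup.card_eq_card_quotient_mul_card_subgroup N
  have hpos : 0 < A.index := Nat.pos_of_ne_zero Subgroup.index_ne_zero_of_finite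
  rw [h3] at h1
  have h5 : Nat.card (A.comap (QuotientGroup.mk' N)) * A.index =
      (Nat.card N * Nat.card A) * A.index := by
    rw [h1, h4, ← h2]; ring
  exact Nat.eq_of_mul_eq_mul_right hpos h5

/-- Commutators of the preimage of an abelian subgroup of `G ⧸ N` lie in `N`. -/
theorem comm_mem_of_comap {G : Type*} [Group G] (N : Subgroup G) [N.Normal]
    (A : Subgroup (G ⧸ N)) (hA : IsMulCommutative ↥A) (a b : G)
    (ha : a ∈ A.comap (QuotientGroup.mk' N)) (hb : b ∈ A.comap (QuotientGroup.mk' N)) :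
    a * b * a⁻¹ * b⁻¹ ∈ N := by
  rw [← QuotientGroup.eq_one_iff]
  have h := (comm_iff A).mp hA _ ha _ hb
  simp only [QuotientGroup.mk'_apply] at h
  simp only [QuotientGroup.mk_mul, QuotientGroup.mk_inv]
  rw [h]; group

/-- A complement to `N` in the preimage of an abelian subgroup of coprime order. -/
theorem exists_compl {G : Type u} [Group G] [Finite G] (N : Subgroup G) [N.Normal]
    (A : Subgroup (G ⧸ N)) (hA : IsMulCommutative ↥A)
    (hcop : (Nat.card N).Coprime (Nat.card A)) :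
    ∃ A₁ : Subgroup G, A₁.map (QuotientGroup.mk' N) = A ∧ Nat.card A₁ = Nat.card A ∧
      IsMulCommutative ↥A₁ := by
  set As := A.comap (QuotientGroup.mk' N) with hAs
  have hNle : N ≤ As := by
    intro x hx
    rw [hAs, Subgroup.mem_comap, QuotientGroup.mk'_apply, (QuotientGroup.eq_one_iff x).mpr hx]
    exact A.one_mem
  have hcardAs : Nat.card As = Nat.card N * Nat.card A := card_comap_mk N A
  have hN'card : Nat.card (N.subgroupOf As) = Nat.card N :=
    Nat.card_congr (Subgroup.subgroupOfEquivOfLe hNle).toEquiv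
  have hidx : (N.subgroupOf As).index = Nat.card A := by
    have h := Subgroup.card_mul_index (N.subgroupOf As)
    rw [hN'card, hcardAs] at h
    exact Nat.eq_of_mul_eq_mul_left Nat.card_pos h
  obtain ⟨H, hH⟩ := Subgroup.exists_left_complement'_of_coprime (N := N.subgroupOf As)
    (by rw [hN'card, hidx]; exact hcop)
  have hHcard : Nat.card H = Nat.card A := by
    have h := hH.card_mul_card
    rw [hN'card, hcardAs, mul_comm] at h
    exact Nat.eq_of_mul_eq_mul_left Nat.card_pos h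
  have hdisj : ∀ x ∈ H.map As.subtype, x ∈ N → x = 1 := by
    rintro _ ⟨h, hh, rfl⟩ hN
    have h1 : h ∈ H ⊓ N.subgroupOf As := Subgroup.mem_inf.mpr ⟨hh, hN⟩
    rw [hH.disjoint.eq_bot, Subgroup.mem_bot] at h1
    rw [h1]; rfl
  have hle : H.map As.subtype ≤ As := by
    rintro _ ⟨h, -, rfl⟩
    exact h.2
  have hcard₁ : Nat.card (H.map As.subtype) = Nat.card A := by
    rw [Subgroup.card_map_of_injective As.subtype_injective, hHcard]
  refine ⟨H.map As.subtype, ?_, hcard₁, ?_⟩
  · apply Subgroup.eq_of_le_of_card_ge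
    · rintro _ ⟨x, hx, rfl⟩
      exact hle hx
    · have hinj : Function.Injective ((QuotientGroup.mk' N).subgroupMap (H.map As.subtype)) := by
        rw [injective_iff_map_eq_one]
        intro x hx
        have hx' : (x : G) ∈ N := by
          rw [← QuotientGroup.eq_one_iff]
          exact congrArg Subtype.val hx
        exact Subtype.ext (hdisj x x.2 hx')
      have h := Nat.card_congr (Equiv.ofBijective _
        ⟨hinj, (QuotientGroup.mk' N).subgroupMap_surjective (H.map As.subtype)⟩)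
      rw [← h, hcard₁]
  · rw [comm_iff]
    intro a ha b hb
    have h1 : a * b * a⁻¹ * b⁻¹ ∈ N := comm_mem_of_comap N A hA a b (hle ha) (hle hb)
    have h2 : a * b * a⁻¹ * b⁻¹ ∈ H.map As.subtype :=
      Subgroup.mul_mem _ (Subgroup.mul_mem _ (Subgroup.mul_mem _ ha hb) (Subgroup.inv_mem _ ha))
        (Subgroup.inv_mem _ hb)
    have h3 := hdisj _ h2 h1
    calc a * b = (a * b * a⁻¹ * b⁻¹) * (b * a) := by group
      _ = b * a := by rw [h3, one_mul]

/-- Sylow conjugacy inside a subgroup, in terms of orders. -/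
theorem syl_conj {G : Type*} [Group G] [Finite G] (p : ℕ) [hp : Fact p.Prime]
    (L Q₁ Q₂ : Subgroup G) (h1 : Q₁ ≤ L) (h2 : Q₂ ≤ L)
    (hc1 : Nat.card Q₁ = p ^ (Nat.card G).factorization p)
    (hc2 : Nat.card Q₂ = p ^ (Nat.card G).factorization p) :
    ∃ c ∈ L, Q₂ = Q₁.map (MulAut.conj c).toMonoidHom := by
  have key : ∀ Q : Subgroup G, Q ≤ L → Nat.card Q = p ^ (Nat.card G).factorization p →
      HallIn {p} Q L := by
    intro Q hQ hc
    refine ⟨hQ, fun r hr hrd => ?_, fun r hr hrp hrd => ?_⟩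
    · rw [hc] at hrd
      exact (Nat.prime_dvd_prime_iff_eq hr hp.out).mp (hr.dvd_of_dvd_pow hrd)
    · have hrp' : r = p := hrp
      subst hrp'
      have e := card_mul_relIndex' hQ
      have hd : Nat.card L ∣ Nat.card G := Subgroup.card_subgroup_dvd_card L
      have : r ^ ((Nat.card G).factorization r + 1) ∣ Nat.card G := by
        refine dvd_trans ?_ hd
        rw [← e, hc, pow_succ]
        exact Nat.mul_dvd_mul_left _ hrd
      exact Nat.pow_succ_factorization_not_dvd Nat.card_pos.ne' hr this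
  exact hall_conj_pgroup (key Q₁ h1 hc1) (key Q₂ h2 hc2) hp.out rfl (IsPGroup.of_card hc1)

end Cfsg.Agent.H43.QB
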