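import Mathlib
import Cfsg.Agent.H43.QB1

/-!
# S3912 support: the minimal normal subgroup case
-/

set_option autoImplicit false

namespace Cfsg.Agent.H43.QB

universe u

open scoped commutatorElement

/-- A finite group with abelian quotient by a subgroup `N` of exponent `q` inside a cyclic
Sylow `q`-subgroup of order at least `q ^ 2` is abelian. -/
theorem cyc_comm {T : Type*} [Group T] [Finite T] (q : ℕ) [hq : Fact q.Prime] (N : Subgroup T)
    (hcomm : ∀ a b : T, a * b * a⁻¹ * b⁻¹ ∈ N) (hNq : ∀ n ∈ N, n ^ q = 1)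
    (P : Sylow q T) (hNP : N ≤ P) (hcyc : IsCyclic P) (hq2 : q ^ 2 ∣ Nat.card P) :
    ∀ a b : T, a * b = b * a := by
  obtain ⟨c, hc⟩ := hcyc.exists_generator
  have hcP : ∀ x ∈ (P : Subgroup T), ∃ i : ℤ, (c : T) ^ i = x := by
    intro x hx
    obtain ⟨i, hi⟩ := Subgroup.mem_zpowers_iff.mp (hc ⟨x, hx⟩)
    exact ⟨i, by have := congrArg Subtype.val hi; simpa using this⟩
  have hord : orderOf (c : T) = Nat.card P := by
    rw [← orderOf_eq_card_of_forall_mem_zpowers hc]; exact Subgroup.orderOf_coe c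
  set c' : T := (c : T) with hc'
  have h1 : ∀ n ∈ N, ∃ i : ℤ, (c' ^ q) ^ i = n := by
    intro n hn
    obtain ⟨i, hi⟩ := hcP n (hNP hn)
    have h := hNq n hn
    rw [← hi, ← zpow_natCast, ← zpow_mul] at h
    have hd : (orderOf c' : ℤ) ∣ i * q := orderOf_dvd_iff_zpow_eq_one.mpr h
    rw [hord] at hd
    have hd2 : ((q : ℤ) ^ 2) ∣ i * q := dvd_trans (by exact_mod_cast hq2) hd
    have hd3 : (q : ℤ) ∣ i := by
      rw [pow_two] at hd2
      exact Int.dvd_of_mul_dvd_mul_right (by exact_mod_cast hq.out.ne_zero) hd2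
    obtain ⟨j, rfl⟩ := hd3
    exact ⟨j, by rw [← hi, ← zpow_natCast, ← zpow_mul]⟩
  have h1' : ∀ n ∈ N, Commute n c' := by
    intro n hn
    obtain ⟨i, hi⟩ := hcP n (hNP hn)
    rw [← hi]
    exact (Commute.refl c').zpow_left i
  have h2 : ∀ a : T, Commute a (c' ^ q) := by
    intro a
    have hn := hcomm a c'
    have e1 : a * c' * a⁻¹ = (a * c' * a⁻¹ * c'⁻¹) * c' := by group
    have e2 : a * c' ^ q * a⁻¹ = c' ^ q := by
      rw [← conj_pow, e1, (h1' _ hn).mul_pow, hNq _ hn, one_mul]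
    show a * c' ^ q = c' ^ q * a
    calc a * c' ^ q = (a * c' ^ q * a⁻¹) * a := by group
      _ = c' ^ q * a := by rw [e2]
  have h3 : ∀ a : T, ∀ n ∈ N, Commute a n := by
    intro a n hn
    obtain ⟨i, hi⟩ := h1 n hn
    rw [← hi]
    exact (h2 a).zpow_right i
  have h4 : ∀ a : T, Commute (a ^ q) c' := by
    intro a
    obtain ⟨n, hn_def⟩ : ∃ n, n = a * c' * a⁻¹ * c'⁻¹ := ⟨_, rfl⟩
    have hn : n ∈ N := hn_def ▸ hcomm a c'
    have e1 : a * c' * a⁻¹ = n * c' := by rw [hn_def]; group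
    have key : ∀ t : ℕ, a ^ t * c' * (a ^ t)⁻¹ = n ^ t * c' := by
      intro t
      induction t with
      | zero => simp
      | succ t ih =>
        have e3 : a ^ (t + 1) * c' * (a ^ (t + 1))⁻¹ = a * (a ^ t * c' * (a ^ t)⁻¹) * a⁻¹ := by
          rw [pow_succ']; group
        have hcn : a * n ^ t * a⁻¹ = n ^ t := by
          have h5 := (h3 a n hn).pow_right t
          calc a * n ^ t * a⁻¹ = n ^ t * a * a⁻¹ := by rw [h5.eq]
            _ = n ^ t := by group
        calc a ^ (t + 1) * c' * (a ^ (t + 1))⁻¹ = a * (a ^ t * c' * (a ^ t)⁻¹) * a⁻¹ := e3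
          _ = a * (n ^ t * c') * a⁻¹ := by rw [ih]
          _ = (a * n ^ t * a⁻¹) * (a * c' * a⁻¹) := by group
          _ = n ^ t * (n * c') := by rw [hcn, e1]
          _ = n ^ (t + 1) * c' := by rw [pow_succ, mul_assoc]
    have h6 := key q
    rw [hNq n hn, one_mul] at h6
    show a ^ q * c' = c' * a ^ q
    calc a ^ q * c' = (a ^ q * c' * (a ^ q)⁻¹) * a ^ q := by group
      _ = c' * a ^ q := by rw [h6]
  have hPn : (P : Subgroup T).Normal := by
    refine ⟨fun x hx a => ?_⟩
    have hn := hcomm a x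
    have e5 : a * x * a⁻¹ = (a * x * a⁻¹ * x⁻¹) * x := by group
    rw [e5]
    exact Subgroup.mul_mem _ (hNP hn) hx
  set m := (P : Subgroup T).index with hm
  have hqm : ¬ q ∣ m := P.not_dvd_index
  have h5 : ∀ a : T, a ^ m ∈ (P : Subgroup T) := fun a => Subgroup.pow_index_mem _ a
  have h5' : ∀ a : T, Commute (a ^ m) c' := by
    intro a
    obtain ⟨i, hi⟩ := hcP _ (h5 a)
    rw [← hi]
    exact (Commute.refl c').zpow_left i
  have hcop : Nat.Coprime q m := (Nat.Prime.coprime_iff_not_dvd hq.out).mpr hqm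
  have h6 : ∀ a : T, Commute a c' := by
    intro a
    have hb : (1 : ℤ) = q * Nat.gcdA q m + m * Nat.gcdB q m := by
      have h7 := Nat.gcd_eq_gcd_ab q m
      rw [hcop] at h7
      exact_mod_cast h7
    have ha : a = (a ^ q) ^ (Nat.gcdA q m) * (a ^ m) ^ (Nat.gcdB q m) := by
      rw [← zpow_natCast, ← zpow_natCast, ← zpow_mul, ← zpow_mul, ← zpow_add, ← hb, zpow_one]
    rw [ha]
    exact ((h4 a).zpow_left _).mul_left ((h5' a).zpow_left _)
  intro a b
  have hn := hcomm a b
  have hnq := hNq _ hn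
  have e : ⁅a, b⁆ = a * b * a⁻¹ * b⁻¹ := commutatorElement_def a b
  have hc1 : ⁅a, b⁆ * a = a * ⁅a, b⁆ := by rw [e]; exact ((h3 a _ hn).eq).symm
  have hc2 : a ^ m * b = b * a ^ m := by
    obtain ⟨i, hi⟩ := hcP _ (h5 a)
    rw [← hi]
    exact (((h6 b).zpow_right i).eq).symm
  have hpm := g1a_comm_pow a b m hc1 hc2
  rw [e] at hpm
  have hone : a * b * a⁻¹ * b⁻¹ = 1 := by
    have hd1 : orderOf (a * b * a⁻¹ * b⁻¹) ∣ q := orderOf_dvd_of_pow_eq_one hnq
    have hd2 : orderOf (a * b * a⁻¹ * b⁻¹) ∣ m := orderOf_dvd_of_pow_eq_one hpm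
    exact orderOf_eq_one_iff.mp (Nat.eq_one_of_dvd_coprimes hcop hd1 hd2)
  calc a * b = (a * b * a⁻¹ * b⁻¹) * (b * a) := by group
    _ = b * a := by rw [hone, one_mul]

/-- The preimage of an abelian subgroup is abelian when its Sylow `q`-subgroup is cyclic. -/
theorem pre_comm {G : Type u} [Group G] [Finite G] (q : ℕ) [hq : Fact q.Prime] (N : Subgroup G)
    [N.Normal] (hNcard : Nat.card N = q) (huniq : ∀ H : Subgroup G, Nat.card H = q → H = N)
    (A : Subgroup (G ⧸ N)) (hA : IsMulCommutative ↥A) (hqA : q ∣ Nat.card A)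
    (As : Subgroup G) (hAs : As = A.comap (QuotientGroup.mk' N))
    (P : Sylow q ↥As) (hcyc : IsCyclic P) :
    IsMulCommutative ↥As := by
  have hcardAs : Nat.card As = Nat.card N * Nat.card A := by rw [hAs]; exact card_comap_mk N A
  have hq2 : q ^ 2 ∣ Nat.card P := by
    rw [P.card_eq_multiplicity]
    apply pow_dvd_pow
    have h1 : q ^ 2 ∣ Nat.card As := by
      rw [hcardAs, hNcard, pow_two]; exact Nat.mul_dvd_mul_left q hqA
    exact (hq.out.pow_dvd_iff_le_factorization Nat.card_pos.ne').mp h1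
  have hqP : q ∣ Nat.card P := dvd_trans (dvd_pow_self q (by norm_num)) hq2
  obtain ⟨x, hx⟩ := exists_prime_orderOf_dvd_card' q hqP
  have hxG : orderOf (((x : As) : G)) = q := by
    rw [Subgroup.orderOf_coe, Subgroup.orderOf_coe]; exact hx
  have hzN : Subgroup.zpowers (((x : As) : G)) = N := huniq _ (by rw [Nat.card_zpowers, hxG])
  have hN'P : N.subgroupOf As ≤ (P : Subgroup As) := by
    intro n hn
    rw [Subgroup.mem_subgroupOf, ← hzN] at hn
    obtain ⟨i, hi⟩ := Subgroup.mem_zpowers_iff.mp hn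
    have h2 : n = (x : As) ^ i := by
      apply Subtype.ext
      rw [← hi]; simp
    rw [h2]
    exact Subgroup.zpow_mem _ x.2 i
  have key := cyc_comm q (N.subgroupOf As)
    (fun a b => by
      rw [Subgroup.mem_subgroupOf]
      have h3 := comm_mem_of_comap N A hA a b (hAs ▸ a.2) (hAs ▸ b.2)
      simpa using h3)
    (fun n hn => by
      rw [Subgroup.mem_subgroupOf] at hn
      have h1 : (n : G) ^ Nat.card N = 1 := by
        have h4 := pow_card_eq_one' (x := (⟨n, hn⟩ : N))
        have h5 := congrArg Subtype.val h4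
        rw [Subgroup.coe_pow] at h5
        exact h5
      rw [hNcard] at h1
      exact Subtype.ext (by simpa using h1))
    P hN'P hcyc hq2
  exact ⟨⟨fun a b => key a b⟩⟩

/-- A non-cyclic `2`-group with a unique subgroup of order `2` has order at least `8`. -/
theorem card_ge_eight {P : Type*} [Group P] [Finite P] (hP : IsPGroup 2 P)
    (huniq : ∀ H K : Subgroup P, Nat.card H = 2 → Nat.card K = 2 → H = K) (hnc : ¬ IsCyclic P) :
    8 ≤ Nat.card P := by
  obtain ⟨j, hj⟩ := IsPGroup.iff_card.mp hP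
  have hj3 : 3 ≤ j := by
    by_contra h
    push Not at h
    apply hnc
    interval_cases j
    · have h1 : Nat.card P = 1 := by simpa using hj
      have : Subsingleton P := (Nat.card_eq_one_iff_unique.mp h1).1
      exact isCyclic_of_subsingleton
    · have : Fact (Nat.Prime 2) := ⟨Nat.prime_two⟩
      exact isCyclic_of_prime_card (p := 2) (by simpa using hj)
    · by_contra hnc'
      have hord : ∀ x : P, x ≠ 1 → orderOf x = 2 := by
        intro x hx
        have hd : orderOf x ∣ 2 ^ 2 := by rw [← hj]; exact orderOf_dvd_natCard x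
        have h4 : orderOf x ≠ 4 := fun h4 =>
          hnc' (isCyclic_of_orderOf_eq_card x (by rw [h4, hj]; norm_num))
        have h1 : orderOf x ≠ 1 := fun h => hx (orderOf_eq_one_iff.mp h)
        obtain ⟨i, hi, hio⟩ := (Nat.dvd_prime_pow Nat.prime_two).mp hd
        interval_cases i
        · exact absurd (by simpa using hio) h1
        · simpa using hio
        · exact absurd (by simpa using hio) h4
      obtain ⟨x, hx⟩ : ∃ x : P, x ≠ 1 := by
        by_contra h
        push Not at h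
        have h1 : Nat.card P = 1 :=
          Nat.card_eq_one_iff_unique.mpr ⟨⟨fun a b => (h a).trans (h b).symm⟩, ⟨1⟩⟩
        rw [hj] at h1; norm_num at h1
      have hzx : Nat.card (Subgroup.zpowers x) = 2 := by rw [Nat.card_zpowers, hord x hx]
      obtain ⟨y, hy⟩ : ∃ y : P, y ∉ Subgroup.zpowers x := by
        by_contra h
        push Not at h
        have h1 : Subgroup.zpowers x = ⊤ := by rw [eq_top_iff]; intro y _; exact h y
        rw [h1, Subgroup.card_top, hj] at hzx; norm_num at hzx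
      have hy1 : y ≠ 1 := fun h => hy (h ▸ Subgroup.one_mem _)
      have hzy : Nat.card (Subgroup.zpowers y) = 2 := by rw [Nat.card_zpowers, hord y hy1]
      exact hy (huniq _ _ hzy hzx ▸ Subgroup.mem_zpowers y)
  rw [hj]
  calc 8 = 2 ^ 3 := by norm_num
    _ ≤ 2 ^ j := Nat.pow_le_pow_right (by norm_num) hj3

end Cfsg.Agent.H43.QB
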