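import Mathlib
import Cfsg.Agent.H43.QB2

/-!
# S3912 support: the quaternion side lemma and the minimal normal subgroup case
-/

set_option autoImplicit false

namespace Cfsg.Agent.H43.QB

universe u

/-- A normal subgroup of order two which is the only subgroup of order two is central. -/
theorem central_of_card_two {G : Type u} [Group G] (N : Subgroup G) [hNn : N.Normal]
    (hNcard : Nat.card N = 2) (huniq : ∀ H : Subgroup G, Nat.card H = 2 → H = N) :
    ∀ n ∈ N, ∀ g : G, g * n = n * g := by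
  have : Fact (Nat.Prime 2) := ⟨Nat.prime_two⟩
  have hfin : Finite N := Nat.finite_of_card_ne_zero (by rw [hNcard]; norm_num)
  intro n hn g
  by_cases h1 : n = 1
  · rw [h1]; simp
  have hsq : n ^ 2 = 1 := by
    have h4 := pow_card_eq_one' (x := (⟨n, hn⟩ : N))
    have h5 := congrArg Subtype.val h4
    rw [Subgroup.coe_pow, hNcard] at h5
    exact h5
  have hcN : g * n * g⁻¹ ∈ N := hNn.conj_mem n hn g
  have hc1 : g * n * g⁻¹ ≠ 1 := by
    intro h
    apply h1
    have : n = g⁻¹ * (g * n * g⁻¹) * g := by group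
    rw [this, h]; group
  have hzn : Subgroup.zpowers n = N :=
    huniq _ (by rw [Nat.card_zpowers]; exact orderOf_eq_prime hsq h1)
  have hmem : g * n * g⁻¹ ∈ Subgroup.zpowers n := hzn ▸ hcN
  obtain ⟨i, hi⟩ := Subgroup.mem_zpowers_iff.mp hmem
  have hnn : n * n = 1 := by rw [← pow_two]; exact hsq
  rcases Cfsg.Agent.H59.zpow_involution hnn i with h | h
  · rw [h] at hi; exact absurd hi.symm hc1
  · rw [h] at hi
    calc g * n = (g * n * g⁻¹) * g := by group
      _ = n * g := by rw [← hi]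

/-- Structure of the preimage of an abelian subgroup containing a full Sylow `2`-subgroup. -/
theorem side {G : Type u} [Group G] [Finite G] (N : Subgroup G) [hNn : N.Normal]
    (hNcard : Nat.card N = 2) (huniq : ∀ H : Subgroup G, Nat.card H = 2 → H = N)
    (A : Subgroup (G ⧸ N)) (hA : IsMulCommutative ↥A) (As : Subgroup G)
    (hAs : As = A.comap (QuotientGroup.mk' N)) (Q : Subgroup G) (hQA : Q ≤ As)
    (hQc : Nat.card Q = 2 ^ (Nat.card G).factorization 2) (hQ2 : 2 ∣ Nat.card Q) :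
    ∃ A₁ : Subgroup G, IsMulCommutative ↥A₁ ∧ Q ⊔ A₁ = As ∧
      Nat.card Q * Nat.card A₁ = Nat.card As ∧ ∀ x ∈ As, ∀ b ∈ A₁, x * b * x⁻¹ = b := by
  have : Fact (Nat.Prime 2) := ⟨Nat.prime_two⟩
  have hcomm : ∀ a ∈ As, ∀ b ∈ As, a * b * a⁻¹ * b⁻¹ ∈ N := fun a ha b hb =>
    comm_mem_of_comap N A hA a b (hAs ▸ ha) (hAs ▸ hb)
  -- `N ≤ Q`
  have hNQ : N ≤ Q := by
    obtain ⟨t, ht⟩ := exists_prime_orderOf_dvd_card' 2 hQ2
    have htG : orderOf (t : G) = 2 := by rw [Subgroup.orderOf_coe]; exact ht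
    have hz : Subgroup.zpowers (t : G) = N := huniq _ (by rw [Nat.card_zpowers, htG])
    rw [← hz]
    exact Subgroup.zpowers_le.mpr t.2
  have hNsq : ∀ n ∈ N, n ^ 2 = 1 := by
    intro n hn
    have h4 := pow_card_eq_one' (x := (⟨n, hn⟩ : N))
    have h5 := congrArg Subtype.val h4
    rw [Subgroup.coe_pow, hNcard] at h5
    exact h5
  have hNcent := central_of_card_two N hNcard huniq
  -- `Q` is normal in `As`
  have hQ'n : (Q.subgroupOf As).Normal := by
    refine ⟨fun x hx a => ?_⟩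
    rw [Subgroup.mem_subgroupOf] at hx ⊢
    have h1 := hcomm a a.2 x x.2
    have e : ((a * x * a⁻¹ : As) : G) = ((a : G) * x * (a : G)⁻¹ * (x : G)⁻¹) * x := by
      simp
    rw [e]
    exact Q.mul_mem (hNQ h1) hx
  have hQ'card : Nat.card (Q.subgroupOf As) = Nat.card Q :=
    Nat.card_congr (Subgroup.subgroupOfEquivOfLe hQA).toEquiv
  have hidx : ¬ 2 ∣ (Q.subgroupOf As).index := by
    intro h
    have h1 := Subgroup.card_mul_index (Q.subgroupOf As)
    rw [hQ'card, hQc] at h1
    have hd : Nat.card As ∣ Nat.card G := Subgroup.card_subgroup_dvd_card As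
    have h2 : 2 ^ ((Nat.card G).factorization 2 + 1) ∣ Nat.card G := by
      refine dvd_trans ?_ hd
      rw [← h1, pow_succ]
      exact Nat.mul_dvd_mul_left _ h
    exact Nat.pow_succ_factorization_not_dvd Nat.card_pos.ne' Nat.prime_two h2
  have hcop : (Nat.card (Q.subgroupOf As)).Coprime (Q.subgroupOf As).index := by
    rw [hQ'card, hQc]
    exact Nat.Coprime.pow_left _ ((Nat.Prime.coprime_iff_not_dvd Nat.prime_two).mpr hidx)
  obtain ⟨H, hH⟩ := Subgroup.exists_left_complement'_of_coprime (N := Q.subgroupOf As) hcop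
  have hHcard : Nat.card H * Nat.card Q = Nat.card As := by
    have h := hH.card_mul_card
    rwa [hQ'card] at h
  have hHidx : Nat.card H = (Q.subgroupOf As).index := by
    have h1 := Subgroup.card_mul_index (Q.subgroupOf As)
    rw [hQ'card, ← hHcard, mul_comm] at h1
    exact (Nat.eq_of_mul_eq_mul_right Nat.card_pos h1).symm
  have hcard₁ : Nat.card (H.map As.subtype) = Nat.card H :=
    Subgroup.card_map_of_injective As.subtype_injective
  have hodd : ¬ 2 ∣ Nat.card (H.map As.subtype) := by rw [hcard₁, hHidx]; exact hidx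
  have hle : H.map As.subtype ≤ As := by
    rintro _ ⟨h, -, rfl⟩
    exact h.2
  have hdisj : ∀ x ∈ H.map As.subtype, x ∈ Q → x = 1 := by
    rintro _ ⟨h, hh, rfl⟩ hQ
    have h1 : h ∈ H ⊓ Q.subgroupOf As := Subgroup.mem_inf.mpr ⟨hh, hQ⟩
    rw [hH.disjoint.eq_bot, Subgroup.mem_bot] at h1
    rw [h1]; rfl
  refine ⟨H.map As.subtype, ?_, ?_, ?_, ?_⟩
  · rw [comm_iff]
    intro a ha b hb
    have h1 : a * b * a⁻¹ * b⁻¹ ∈ N := hcomm a (hle ha) b (hle hb)
    have h2 : a * b * a⁻¹ * b⁻¹ ∈ H.map As.subtype :=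
      Subgroup.mul_mem _ (Subgroup.mul_mem _ (Subgroup.mul_mem _ ha hb) (Subgroup.inv_mem _ ha))
        (Subgroup.inv_mem _ hb)
    have h3 := hdisj _ h2 (hNQ h1)
    calc a * b = (a * b * a⁻¹ * b⁻¹) * (b * a) := by group
      _ = b * a := by rw [h3, one_mul]
  · have h1 : (Q.subgroupOf As).map As.subtype = Q := Subgroup.map_subgroupOf_eq_of_le hQA
    calc Q ⊔ H.map As.subtype = (Q.subgroupOf As).map As.subtype ⊔ H.map As.subtype := by rw [h1]
      _ = (Q.subgroupOf As ⊔ H).map As.subtype := (Subgroup.map_sup _ _ _).symm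
      _ = (⊤ : Subgroup As).map As.subtype := by rw [sup_comm, hH.sup_eq_top]
      _ = As := by rw [← MonoidHom.range_eq_map, Subgroup.range_subtype]
  · rw [hcard₁, mul_comm]; exact hHcard
  · intro x hx b hb
    have hn : x * b * x⁻¹ * b⁻¹ ∈ N := hcomm x hx b (hle hb)
    obtain ⟨n, hn_def⟩ : ∃ n, n = x * b * x⁻¹ * b⁻¹ := ⟨_, rfl⟩
    rw [← hn_def] at hn
    have e1 : x * b * x⁻¹ = n * b := by rw [hn_def]; group
    set m := Nat.card (H.map As.subtype) with hm
    have hbm : b ^ m = 1 := by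
      have h4 := pow_card_eq_one' (x := (⟨b, hb⟩ : H.map As.subtype))
      have h5 := congrArg Subtype.val h4
      rw [Subgroup.coe_pow] at h5
      exact h5
    have hnb : Commute n b := (hNcent n hn b).symm
    have h6 : (x * b * x⁻¹) ^ m = 1 := by rw [conj_pow, hbm]; group
    rw [e1, hnb.mul_pow, hbm, mul_one] at h6
    have hn1 : n = 1 := by
      have hd1 : orderOf n ∣ 2 := orderOf_dvd_of_pow_eq_one (hNsq n hn)
      have hd2 : orderOf n ∣ m := orderOf_dvd_of_pow_eq_one h6
      have hc : Nat.Coprime 2 m := (Nat.Prime.coprime_iff_not_dvd Nat.prime_two).mpr hodd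
      exact orderOf_eq_one_iff.mp (Nat.eq_one_of_dvd_coprimes hc hd1 hd2)
    rw [e1, hn1, one_mul]

end Cfsg.Agent.H43.QB
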