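import Mathlib
import Cfsg.Agent.H43.QB3

/-!
# S3912 support: quotient by a minimal normal subgroup
-/

set_option autoImplicit false

namespace Cfsg.Agent.H43.QB

universe u

/-- The quotient by a minimal normal subgroup inherits the property, given a bound on
non-cyclic Sylow `2`-subgroups in the case `|N| = 2`. -/
theorem min_case {G : Type u} [Group G] [Finite G] (hB : PB G) (hsol : Group.IsSolvable G)
    (N : Subgroup G) [hNn : N.Normal] (hN : IsMinNormal N)
    (hQ : Nat.card N = 2 → ∀ S : Sylow 2 G, ¬ IsCyclic S → Nat.card S ≤ 8) : PB (G ⧸ N) := by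
  obtain ⟨q, hq, hab, hNq⟩ := minNormal_elem hsol N hN
  have : Fact q.Prime := ⟨hq⟩
  have hfs : Function.Surjective (QuotientGroup.mk' N) := QuotientGroup.mk'_surjective N
  have hNp : IsPGroup q N := fun x => ⟨1, by
    rw [pow_one]
    apply Subtype.ext
    rw [Subgroup.coe_pow]
    exact hNq x x.2⟩
  have hNne : N ≠ ⊥ := hN.2.1
  obtain ⟨x₀, hx₀N, hx₀1⟩ : ∃ x₀ ∈ N, x₀ ≠ 1 := by
    by_contra h
    push Not at h
    exact hNne (by rw [eq_bot_iff]; intro x hx; rw [Subgroup.mem_bot]; exact h x hx)
  have hx₀ord : orderOf x₀ = q := orderOf_eq_prime (hNq x₀ hx₀N) hx₀1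
  -- elements with `x ^ q = 1` lie in `N`
  have hord : ∀ x : G, x ^ q = 1 → x ∈ N := by
    intro x hx
    by_cases hx1 : x = 1
    · rw [hx1]; exact N.one_mem
    have hxo : orderOf x = q := orderOf_eq_prime hx hx1
    have hcard : Nat.card (Subgroup.zpowers x₀) = Nat.card (Subgroup.zpowers x) := by
      rw [Nat.card_zpowers, Nat.card_zpowers, hx₀ord, hxo]
    obtain ⟨g, hg⟩ := hB (Subgroup.zpowers x₀) (Subgroup.zpowers x) inferInstance inferInstance
      hcard
    have hx' : x ∈ (Subgroup.zpowers x₀).map (MulAut.conj g).toMonoidHom :=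
      hg ▸ Subgroup.mem_zpowers x
    have hle : (Subgroup.zpowers x₀).map (MulAut.conj g).toMonoidHom ≤ N := by
      rw [← map_conj_normal N g]
      exact Subgroup.map_mono (Subgroup.zpowers_le.mpr hx₀N)
    exact hle hx'
  intro A B hA hB' hAB
  have fin_compl : (Nat.card N).Coprime (Nat.card A) →
      ∃ g : G ⧸ N, B = A.map (MulAut.conj g).toMonoidHom := by
    intro hcop
    obtain ⟨A₁, hA₁, hA₁c, hA₁ab⟩ := exists_compl N A hA hcop
    obtain ⟨B₁, hB₁, hB₁c, hB₁ab⟩ := exists_compl N B hB' (hAB ▸ hcop)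
    obtain ⟨g, hg⟩ := hB A₁ B₁ hA₁ab hB₁ab (by rw [hA₁c, hB₁c, hAB])
    refine ⟨QuotientGroup.mk' N g, ?_⟩
    have h1 := lift_conj (QuotientGroup.mk' N) A₁ B₁ g hg
    rwa [hA₁, hB₁] at h1
  obtain ⟨As, hAs⟩ : ∃ As, As = A.comap (QuotientGroup.mk' N) := ⟨_, rfl⟩
  obtain ⟨Bs, hBs⟩ : ∃ Bs, Bs = B.comap (QuotientGroup.mk' N) := ⟨_, rfl⟩
  have hAsmap : As.map (QuotientGroup.mk' N) = A := by
    rw [hAs]; exact Subgroup.map_comap_eq_self_of_surjective hfs A
  have hBsmap : Bs.map (QuotientGroup.mk' N) = B := by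
    rw [hBs]; exact Subgroup.map_comap_eq_self_of_surjective hfs B
  have hAscard : Nat.card As = Nat.card N * Nat.card A := by rw [hAs]; exact card_comap_mk N A
  have hBscard : Nat.card Bs = Nat.card N * Nat.card B := by rw [hBs]; exact card_comap_mk N B
  have fin_pre : ∀ g : G, Bs = As.map (MulAut.conj g).toMonoidHom →
      ∃ g : G ⧸ N, B = A.map (MulAut.conj g).toMonoidHom := by
    intro g hg
    refine ⟨QuotientGroup.mk' N g, ?_⟩
    have h1 := lift_conj (QuotientGroup.mk' N) As Bs g hg
    rwa [hAsmap, hBsmap] at h1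
  by_cases hNcard : Nat.card N = q
  swap
  · -- Case A: `|N| ≥ q ^ 2`
    obtain ⟨a, ha⟩ := IsPGroup.iff_card.mp hNp
    have ha2 : 2 ≤ a := by
      by_contra h
      push Not at h
      interval_cases a
      · rw [pow_zero] at ha; exact hNne (Subgroup.eq_bot_of_card_eq N ha)
      · rw [pow_one] at ha; exact hNcard ha
    have hq2 : q ^ 2 ∣ Nat.card N := by rw [ha]; exact pow_dvd_pow q ha2
    obtain ⟨K, hK⟩ := Sylow.exists_subgroup_card_pow_prime q hq2
    have hEcard : Nat.card (K.map N.subtype) = q ^ 2 := by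
      rw [Subgroup.card_map_of_injective N.subtype_injective, hK]
    have hEN : K.map N.subtype ≤ N := Subgroup.map_subtype_le K
    have hEab : IsMulCommutative ↥(K.map N.subtype) :=
      (comm_iff _).mpr (fun x hx y hy => hab x (hEN hx) y (hEN hy))
    have hno : ∀ c : G, orderOf c ≠ q ^ 2 := by
      intro c hc
      have hcard : Nat.card (K.map N.subtype) = Nat.card (Subgroup.zpowers c) := by
        rw [hEcard, Nat.card_zpowers, hc]
      obtain ⟨g, hg⟩ := hB (K.map N.subtype) (Subgroup.zpowers c) hEab inferInstance hcard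
      have hcN : c ∈ N := by
        have h1 : c ∈ (K.map N.subtype).map (MulAut.conj g).toMonoidHom :=
          hg ▸ Subgroup.mem_zpowers c
        have h2 : (K.map N.subtype).map (MulAut.conj g).toMonoidHom ≤ N :=
          (Subgroup.map_mono hEN).trans (map_conj_normal N g).le
        exact h2 h1
      have h3 := orderOf_dvd_of_pow_eq_one (hNq c hcN)
      rw [hc] at h3
      have h4 := Nat.le_of_dvd hq.pos h3
      have h5 := hq.one_lt
      nlinarith
    have hqel : ∀ x : G, (∃ k, x ^ q ^ k = 1) → x ∈ N := by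
      rintro x ⟨k, hk⟩
      obtain ⟨j, hj⟩ : ∃ j, orderOf x = q ^ j := by
        obtain ⟨j, -, hj⟩ := (Nat.dvd_prime_pow hq).mp (orderOf_dvd_of_pow_eq_one hk)
        exact ⟨j, hj⟩
      apply hord
      by_contra hx
      have hj2 : 2 ≤ j := by
        by_contra h
        push Not at h
        apply hx
        have h1 : orderOf x ∣ q := by
          rw [hj]
          calc q ^ j ∣ q ^ 1 := pow_dvd_pow q (by omega)
            _ = q := pow_one q
        exact orderOf_dvd_iff_pow_eq_one.mp h1
      apply hno (x ^ q ^ (j - 2))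
      rw [orderOf_pow_of_dvd (pow_ne_zero _ hq.ne_zero)
        (by rw [hj]; exact pow_dvd_pow q (by omega)), hj, Nat.pow_div (by omega) hq.pos]
      congr 1
      omega
    obtain ⟨P⟩ : Nonempty (Sylow q G) := inferInstance
    have hPN : (P : Subgroup G) ≤ N := fun x hx => hqel x (by
      obtain ⟨k, hk⟩ := P.2 ⟨x, hx⟩
      refine ⟨k, ?_⟩
      have h5 := congrArg Subtype.val hk
      rw [Subgroup.coe_pow] at h5
      exact h5)
    have hidx : ¬ q ∣ N.index := fun h =>
      P.not_dvd_index (dvd_trans h (Subgroup.index_dvd_of_le hPN))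
    have hcopA : (Nat.card N).Coprime (Nat.card A) := by
      rw [ha]
      apply Nat.Coprime.pow_left
      rw [Nat.Prime.coprime_iff_not_dvd hq]
      intro h
      apply hidx
      have h1 : Nat.card A ∣ Nat.card (G ⧸ N) := Subgroup.card_subgroup_dvd_card A
      rw [Subgroup.index_eq_card]; exact dvd_trans h h1
    exact fin_compl hcopA
  · -- Case B: `|N| = q`
    have huniqG : ∀ H : Subgroup G, Nat.card H = q → H = N := by
      intro H hH
      have hfinH : Finite H := Nat.finite_of_card_ne_zero (by rw [hH]; exact hq.ne_zero)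
      apply Subgroup.eq_of_le_of_card_ge
      · intro x hx
        apply hord
        have h4 := pow_card_eq_one' (x := (⟨x, hx⟩ : H))
        have h5 := congrArg Subtype.val h4
        rw [Subgroup.coe_pow, hH] at h5
        exact h5
      · rw [hH, hNcard]
    have huniq2 : ∀ H K : Subgroup G, Nat.card H = q → Nat.card K = q → H = K :=
      fun H K h1 h2 => (huniqG H h1).trans (huniqG K h2).symm
    by_cases hqA : q ∣ Nat.card A
    swap
    · exact fin_compl (by rw [hNcard]; exact (Nat.Prime.coprime_iff_not_dvd hq).mpr hqA)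
    have hqB : q ∣ Nat.card B := hAB ▸ hqA
    obtain ⟨PA⟩ : Nonempty (Sylow q As) := inferInstance
    obtain ⟨PB'⟩ : Nonempty (Sylow q Bs) := inferInstance
    by_cases hcyc : IsCyclic PA ∧ IsCyclic PB'
    · have h1 := pre_comm q N hNcard huniqG A hA hqA As hAs PA hcyc.1
      have h2 := pre_comm q N hNcard huniqG B hB' hqB Bs hBs PB' hcyc.2
      obtain ⟨g, hg⟩ := hB As Bs h1 h2 (by rw [hAscard, hBscard, hAB])
      exact fin_pre g hg
    · -- the quaternion case
      have hq2 : q = 2 := by
        by_contra hq2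
        apply hcyc
        exact ⟨Cfsg.Agent.H59.isCyclic_of_unique_odd q hq2 _ (↥(PA : Subgroup ↥As)) rfl PA.2
            (Cfsg.Agent.H59.unique_subgroup_of_subgroup q
              (Cfsg.Agent.H59.unique_subgroup_of_subgroup q huniq2 As) (PA : Subgroup As)),
          Cfsg.Agent.H59.isCyclic_of_unique_odd q hq2 _ (↥(PB' : Subgroup ↥Bs)) rfl PB'.2
            (Cfsg.Agent.H59.unique_subgroup_of_subgroup q
              (Cfsg.Agent.H59.unique_subgroup_of_subgroup q huniq2 Bs) (PB' : Subgroup Bs))⟩
      subst hq2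
      have hcardPA : Nat.card PA = 2 ^ (Nat.card As).factorization 2 := PA.card_eq_multiplicity
      have hcardPB : Nat.card PB' = 2 ^ (Nat.card Bs).factorization 2 :=
        PB'.card_eq_multiplicity
      have hAsBs : Nat.card As = Nat.card Bs := by rw [hAscard, hBscard, hAB]
      obtain ⟨QA, hQA⟩ : ∃ QA : Subgroup G, QA = (PA : Subgroup As).map As.subtype := ⟨_, rfl⟩
      obtain ⟨QB, hQB⟩ : ∃ QB : Subgroup G, QB = (PB' : Subgroup Bs).map Bs.subtype := ⟨_, rfl⟩
      have hQAc : Nat.card QA = Nat.card PA := by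
        rw [hQA]; exact Subgroup.card_map_of_injective As.subtype_injective
      have hQBc : Nat.card QB = Nat.card PB' := by
        rw [hQB]; exact Subgroup.card_map_of_injective Bs.subtype_injective
      have hQQ : Nat.card QA = Nat.card QB := by rw [hQAc, hQBc, hcardPA, hcardPB, hAsBs]
      have full : ∀ (X : Subgroup G) (PX : Sylow 2 X), ¬ IsCyclic PX →
          Nat.card PX = 2 ^ (Nat.card G).factorization 2 ∧ 8 ≤ Nat.card PX := by
        intro X PX hnc
        have h8 : 8 ≤ Nat.card PX := card_ge_eight PX.2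
          (Cfsg.Agent.H59.unique_subgroup_of_subgroup 2
            (Cfsg.Agent.H59.unique_subgroup_of_subgroup 2 huniq2 X) (PX : Subgroup X)) hnc
        have hQXc : Nat.card ((PX : Subgroup X).map X.subtype) = Nat.card PX :=
          Subgroup.card_map_of_injective X.subtype_injective
        have hQXp : IsPGroup 2 ((PX : Subgroup X).map X.subtype) := PX.2.map X.subtype
        obtain ⟨S, hS⟩ := hQXp.exists_le_sylow
        have hSnc : ¬ IsCyclic S := by
          intro hSc
          apply hnc
          have e1 : ↥(PX : Subgroup X) ≃* ↥((PX : Subgroup X).map X.subtype) :=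
            (PX : Subgroup X).equivMapOfInjective X.subtype X.subtype_injective
          have e2 : ↥(((PX : Subgroup X).map X.subtype).subgroupOf (S : Subgroup G)) ≃*
              ↥((PX : Subgroup X).map X.subtype) := Subgroup.subgroupOfEquivOfLe hS
          have hc2 : IsCyclic ↥(((PX : Subgroup X).map X.subtype).subgroupOf (S : Subgroup G)) :=
            Subgroup.isCyclic _
          exact (e2.trans e1.symm).isCyclic.mp hc2
        have hS8 := hQ hNcard S hSnc
        have hle : Nat.card ((PX : Subgroup X).map X.subtype) ≤ Nat.card S :=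
          Subgroup.card_le_of_le hS
        have hScard : Nat.card S = 2 ^ (Nat.card G).factorization 2 := S.card_eq_multiplicity
        refine ⟨?_, h8⟩
        rw [← hScard]
        omega
      have hfullA : Nat.card QA = 2 ^ (Nat.card G).factorization 2 ∧ 8 ≤ Nat.card QA := by
        by_cases hA' : IsCyclic PA
        · have hB'' : ¬ IsCyclic PB' := fun h => hcyc ⟨hA', h⟩
          obtain ⟨h1, h2⟩ := full Bs PB' hB''
          rw [hQQ, hQBc]; exact ⟨h1, h2⟩
        · obtain ⟨h1, h2⟩ := full As PA hA'
          rw [hQAc]; exact ⟨h1, h2⟩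
      have hfullB : Nat.card QB = 2 ^ (Nat.card G).factorization 2 := hQQ ▸ hfullA.1
      have hQA2 : 2 ∣ Nat.card QA := by
        have h8 := hfullA.2
        rw [hfullA.1] at h8 ⊢
        apply dvd_pow_self
        intro h0
        rw [h0] at h8
        norm_num at h8
      have hQAle : QA ≤ As := by
        rw [hQA]; rintro _ ⟨x, -, rfl⟩; exact x.2
      have hQBle : QB ≤ Bs := by
        rw [hQB]; rintro _ ⟨x, -, rfl⟩; exact x.2
      obtain ⟨A₁, hA₁ab, hA₁sup, hA₁card, hA₁c⟩ :=
        side N hNcard huniqG A hA As hAs QA hQAle hfullA.1 hQA2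
      obtain ⟨B₁, hB₁ab, hB₁sup, hB₁card, hB₁c⟩ :=
        side N hNcard huniqG B hB' Bs hBs QB hQBle hfullB (hQQ ▸ hQA2)
      have hc11 : Nat.card A₁ = Nat.card B₁ := by
        have h1 : Nat.card QA * Nat.card A₁ = Nat.card QA * Nat.card B₁ := by
          rw [hA₁card, hAsBs, ← hB₁card, hQQ]
        exact Nat.eq_of_mul_eq_mul_left Nat.card_pos h1
      obtain ⟨g, hg⟩ := hB A₁ B₁ hA₁ab hB₁ab hc11
      have hQBL : QB ≤ Subgroup.centralizer (B₁ : Set G) := by
        intro x hx
        rw [Subgroup.mem_centralizer_iff]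
        intro b hb
        have h1 := hB₁c x (hQBle hx) b hb
        calc b * x = (x * b * x⁻¹) * x := by rw [h1]
          _ = x * b := by group
      have hQAL : QA.map (MulAut.conj g).toMonoidHom ≤ Subgroup.centralizer (B₁ : Set G) := by
        rintro _ ⟨x, hx, rfl⟩
        rw [Subgroup.mem_centralizer_iff]
        intro b hb
        rw [hg] at hb
        obtain ⟨a, ha, rfl⟩ := hb
        have h1 := hA₁c x (hQAle hx) a ha
        simp only [MulEquiv.coe_toMonoidHom, MulAut.conj_apply]
        calc g * a * g⁻¹ * (g * x * g⁻¹) = g * (a * x) * g⁻¹ := by group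
          _ = g * ((x * a * x⁻¹) * x) * g⁻¹ := by rw [h1]
          _ = g * x * g⁻¹ * (g * a * g⁻¹) := by group
      obtain ⟨c, hcL, hc⟩ := syl_conj 2 (Subgroup.centralizer (B₁ : Set G))
        (QA.map (MulAut.conj g).toMonoidHom) QB hQAL hQBL
        (by rw [Subgroup.card_map_of_injective (MulEquiv.injective _)]; exact hfullA.1) hfullB
      have hcc : ∀ b ∈ B₁, b * c = c * b := Subgroup.mem_centralizer_iff.mp hcL
      have hB₁c' : B₁ = B₁.map (MulAut.conj c).toMonoidHom := by
        ext x
        rw [mem_map_conj]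
        constructor
        · intro hx
          have h1 := hcc x hx
          have e : c⁻¹ * x * c = x := by rw [mul_assoc, h1]; group
          rw [e]; exact hx
        · intro hx
          have h1 := hcc _ hx
          have e : x = c⁻¹ * x * c := by
            calc x = c * (c⁻¹ * x * c) * c⁻¹ := by group
              _ = (c⁻¹ * x * c) * c * c⁻¹ := by rw [h1]
              _ = c⁻¹ * x * c := by group
          rw [e]; exact hx
      have hconj : ∀ X : Subgroup G,
          (X.map (MulAut.conj g).toMonoidHom).map (MulAut.conj c).toMonoidHom =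
            X.map (MulAut.conj (c * g)).toMonoidHom := by
        intro X
        rw [Subgroup.map_map]
        congr 1
        ext x
        simp [mul_assoc]
      have hBs' : Bs = As.map (MulAut.conj (c * g)).toMonoidHom := by
        rw [← hA₁sup, Subgroup.map_sup, ← hconj QA, ← hconj A₁, ← hc, ← hg, ← hB₁c', hB₁sup]
      exact fin_pre (c * g) hBs'

end Cfsg.Agent.H43.QB
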