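import Mathlib
import Cfsg.Agent.H43.QB4

/-!
# S3912 support: non-cyclic Sylow `2`-subgroups with a unique involution have order `8`
-/

set_option autoImplicit false

namespace Cfsg.Agent.H43.QB

universe u

/-- A unique involution gives a unique subgroup of order two. -/
theorem uniq_sub_of_inv {P : Type*} [Group P]
    (h : ∀ x y : P, x * x = 1 → y * y = 1 → x ≠ 1 → y ≠ 1 → x = y) :
    ∀ H K : Subgroup P, Nat.card H = 2 → Nat.card K = 2 → H = K := by
  have : Fact (Nat.Prime 2) := ⟨Nat.prime_two⟩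
  have key : ∀ H : Subgroup P, Nat.card H = 2 →
      ∃ x, x * x = 1 ∧ x ≠ 1 ∧ H = Subgroup.zpowers x := by
    intro H hH
    have hfin : Finite H := Nat.finite_of_card_ne_zero (by rw [hH]; norm_num)
    have hne : H ≠ ⊥ := by
      intro hb
      rw [hb, Subgroup.card_bot] at hH
      norm_num at hH
    obtain ⟨a, ha⟩ := (Subgroup.ne_bot_iff_exists_ne_one).mp hne
    have hx1 : (a : P) ≠ 1 := fun h1 => ha (Subtype.ext h1)
    have hsq : (a : P) ^ 2 = 1 := by
      have h4 := pow_card_eq_one' (x := a)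
      have h5 := congrArg Subtype.val h4
      rw [Subgroup.coe_pow, hH] at h5
      exact h5
    refine ⟨(a : P), by rw [← pow_two]; exact hsq, hx1, ?_⟩
    symm
    apply Subgroup.eq_of_le_of_card_ge (Subgroup.zpowers_le.mpr a.2)
    rw [hH, Nat.card_zpowers, orderOf_eq_prime hsq hx1]
  intro H K hH hK
  obtain ⟨x, hxx, hx1, rfl⟩ := key H hH
  obtain ⟨y, hyy, hy1, rfl⟩ := key K hK
  rw [h x y hxx hyy hx1 hy1]

/-- A normal `p`-subgroup lies in every Sylow `p`-subgroup. -/
theorem normal_le_sylow {G : Type*} [Group G] [Finite G] (p : ℕ) [Fact p.Prime] (K : Subgroup G)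
    (hKn : K.Normal) (hKp : IsPGroup p K) (S : Sylow p G) : K ≤ (S : Subgroup G) := by
  obtain ⟨S', hS'⟩ := hKp.exists_le_sylow
  obtain ⟨g, hg⟩ := MulAction.exists_smul_eq G S' S
  intro x hx
  have h1 : g⁻¹ * x * g ∈ K := by
    have h := hKn.conj_mem x hx g⁻¹
    simpa using h
  have h2 : g * (g⁻¹ * x * g) * g⁻¹ ∈ ((g • S' : Sylow p G) : Subgroup G) := ⟨_, hS' h1, rfl⟩
  rw [hg] at h2
  have e : g * (g⁻¹ * x * g) * g⁻¹ = x := by group
  rwa [e] at h2

/-- A subgroup of prime order in a group with `PB`, when normal, is the only one of its order. -/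
theorem uniq_of_card_prime {G : Type*} [Group G] (hB : PB G) (N : Subgroup G) [N.Normal]
    (q : ℕ) [Fact q.Prime] (hN : Nat.card N = q) : ∀ H : Subgroup G, Nat.card H = q → H = N := by
  intro H hH
  have h1 : IsCyclic N := isCyclic_of_prime_card hN
  have h2 : IsCyclic H := isCyclic_of_prime_card hH
  obtain ⟨g, hg⟩ := hB N H inferInstance inferInstance (by rw [hN, hH])
  rw [hg, map_conj_normal]

end Cfsg.Agent.H43.QB
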