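import Mathlib
import Cfsg.Agent.H43.QB5

/-!
# S3912 support: the quaternion bound
-/

set_option autoImplicit false

namespace Cfsg.Agent.H43.QB

universe u

open scoped commutatorElement

/-- The case of a normal Sylow `2`-subgroup: a non-cyclic Sylow `2`-subgroup `S` with a unique
involution, all elements of order `4` of `G` lying in a normal `2`-subgroup `K`. -/
theorem quat_normal_case {G : Type u} [Group G] [Finite G] (hB : PB G) (S : Sylow 2 G)
    (hinv : ∀ x ∈ (S : Subgroup G), ∀ y ∈ (S : Subgroup G), x * x = 1 → y * y = 1 → x ≠ 1 →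
      y ≠ 1 → x = y)
    (hnc : ¬ IsCyclic S) (K : Subgroup G) (hKn : K.Normal) (hKS : K ≤ (S : Subgroup G))
    (hfour : ∀ c : G, orderOf c = 4 → c ∈ K) : Nat.card S ≤ 8 := by
  have : Fact (Nat.Prime 2) := ⟨Nat.prime_two⟩
  have huS : ∀ H K : Subgroup ↥(S : Subgroup G), Nat.card H = 2 → Nat.card K = 2 → H = K :=
    uniq_sub_of_inv (fun x y hxx hyy hx1 hy1 => Subtype.ext
      (hinv x x.2 y y.2 (by simpa using congrArg Subtype.val hxx)
        (by simpa using congrArg Subtype.val hyy) (fun h => hx1 (Subtype.ext h))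
        (fun h => hy1 (Subtype.ext h))))
  obtain ⟨a, g, k, hk1, hka, hg, hga, hgg, hcos, hout, -⟩ :=
    Cfsg.Agent.H59.quaternion_structure_of_unique_two S.2 huS hnc
  -- the central involution
  have hz1 : a ^ (2 ^ (k - 1)) ≠ 1 := by
    apply pow_ne_one_of_lt_orderOf (by positivity)
    rw [hka]
    exact Nat.pow_lt_pow_right (by norm_num) (by omega)
  have hzz : a ^ (2 ^ (k - 1)) * a ^ (2 ^ (k - 1)) = 1 := by
    rw [← pow_add, ← two_mul, ← pow_succ', Nat.sub_add_cancel hk1, ← hka, pow_orderOf_eq_one]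
  -- elements outside `⟨a⟩` have order four
  have hord4 : ∀ h : ↥(S : Subgroup G), h ∉ Subgroup.zpowers a → orderOf (h : G) = 4 := by
    intro h hh
    have h2 := (hout h hh).2
    rw [Subgroup.orderOf_coe]
    have e1 : ¬ h ^ 2 ^ 1 = 1 := by
      rw [pow_one, pow_two, h2]; exact hz1
    have e2 : h ^ 2 ^ (1 + 1) = 1 := by
      have : h ^ 2 ^ (1 + 1) = (h * h) * (h * h) := by
        rw [show (2 : ℕ) ^ (1 + 1) = 2 * 2 from rfl, pow_mul, pow_two, pow_two]
      rw [this, h2, hzz]
    have := orderOf_eq_prime_pow e1 e2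
    simpa using this
  have hmemK : ∀ h : ↥(S : Subgroup G), (h : G) ∈ K := by
    have hgK : (g : G) ∈ K := hfour _ (hord4 g hg)
    have hga' : g * a ∉ Subgroup.zpowers a := by
      intro h
      apply hg
      have : g = (g * a) * a⁻¹ := by group
      rw [this]
      exact Subgroup.mul_mem _ h (Subgroup.inv_mem _ (Subgroup.mem_zpowers a))
    have hgaK : ((g * a : ↥(S : Subgroup G)) : G) ∈ K := hfour _ (hord4 _ hga')
    have haK : (a : G) ∈ K := by
      have : (a : G) = (g : G)⁻¹ * ((g * a : ↥(S : Subgroup G)) : G) := by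
        simp
      rw [this]
      exact K.mul_mem (K.inv_mem hgK) hgaK
    intro h
    by_cases hh : h ∈ Subgroup.zpowers a
    · obtain ⟨i, hi⟩ := Subgroup.mem_zpowers_iff.mp hh
      rw [← hi]
      simp only [Subgroup.coe_zpow]
      exact K.zpow_mem haK i
    · exact hfour _ (hord4 h hh)
  -- `S` is normal in `G`
  have hSn : ∀ x ∈ (S : Subgroup G), ∀ y : G, y * x * y⁻¹ ∈ (S : Subgroup G) := by
    intro x hx y
    exact hKS (hKn.conj_mem x (hmemK ⟨x, hx⟩) y)
  -- `k ≤ 2`
  have hk2 : k ≤ 2 := by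
    by_contra hk3
    push Not at hk3
    have haG : orderOf (a : G) = 2 ^ k := by rw [Subgroup.orderOf_coe]; exact hka
    have ha4 : orderOf ((a : G) ^ 2 ^ (k - 2)) = 4 := by
      rw [orderOf_pow_of_dvd (by positivity) (by rw [haG]; exact pow_dvd_pow 2 (by omega)), haG,
        Nat.pow_div (by omega) (by norm_num)]
      have : k - (k - 2) = 2 := by omega
      rw [this]
    have hg4 : orderOf (g : G) = 4 := hord4 g hg
    obtain ⟨x, hx⟩ := hB (Subgroup.zpowers ((a : G) ^ 2 ^ (k - 2))) (Subgroup.zpowers (g : G))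
      inferInstance inferInstance (by rw [Nat.card_zpowers, Nat.card_zpowers, ha4, hg4])
    have hgm : (g : G) ∈ (Subgroup.zpowers ((a : G) ^ 2 ^ (k - 2))).map
        (MulAut.conj x).toMonoidHom := hx ▸ Subgroup.mem_zpowers (g : G)
    obtain ⟨y, hy, hyg⟩ := hgm
    obtain ⟨i, hi⟩ := Subgroup.mem_zpowers_iff.mp hy
    -- the conjugate of `a` lies in `⟨a⟩`
    have hw : (⟨x * (a : G) * x⁻¹, hSn a a.2 x⟩ : ↥(S : Subgroup G)) ∈ Subgroup.zpowers a := by
      by_contra hw
      have h4 := hord4 _ hw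
      have h5 : orderOf (x * (a : G) * x⁻¹) = 2 ^ k := by
        rw [← haG]
        exact orderOf_injective (MulAut.conj x).toMonoidHom (MulEquiv.injective _) (a : G)
      rw [h5] at h4
      have : 2 ^ 3 ≤ 2 ^ k := Nat.pow_le_pow_right (by norm_num) hk3
      omega
    obtain ⟨j, hj⟩ := Subgroup.mem_zpowers_iff.mp hw
    have hj' : (a : G) ^ j = x * (a : G) * x⁻¹ := by
      have := congrArg Subtype.val hj
      simpa using this
    apply hg
    rw [Subgroup.mem_zpowers_iff]
    refine ⟨j * ((2 ^ (k - 2) : ℕ) * i), ?_⟩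
    apply Subtype.ext
    rw [Subgroup.coe_zpow, zpow_mul, hj', ← hyg, ← hi]
    simp only [MulEquiv.coe_toMonoidHom, MulAut.conj_apply]
    rw [zpow_mul, zpow_natCast]
    rw [conj_pow, conj_zpow]
  -- count
  have hsurj : Function.Surjective (fun p : Bool × ↥(Subgroup.zpowers a) =>
      (if p.1 then g else 1) * (p.2 : ↥(S : Subgroup G))) := by
    intro h
    rcases hcos h with hh | hh
    · exact ⟨(false, ⟨h, hh⟩), by simp⟩
    · exact ⟨(true, ⟨g⁻¹ * h, hh⟩), by simp⟩
  have hle := Nat.card_le_card_of_surjective _ hsurj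
  rw [Nat.card_prod, Nat.card_zpowers, hka] at hle
  have h2 : Nat.card Bool = 2 := by simp
  rw [h2] at hle
  have h3 : 2 ^ k ≤ 2 ^ 2 := Nat.pow_le_pow_right (by norm_num) hk2
  omega

end Cfsg.Agent.H43.QB
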