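import Mathlib
import Cfsg.Agent.H43.QB6

/-!
# S3912 support: the quaternion bound (induction) and the main theorem
-/

set_option autoImplicit false

namespace Cfsg.Agent.H43.QB

universe u

open scoped commutatorElement

theorem quat_bound : ∀ (n : ℕ) (G : Type u) [Group G] [Finite G], Nat.card G = n → PB G →
    Group.IsSolvable G → ∀ S : Sylow 2 G,
      (∀ x ∈ (S : Subgroup G), ∀ y ∈ (S : Subgroup G), x * x = 1 → y * y = 1 → x ≠ 1 → y ≠ 1 →
        x = y) →
      ¬ IsCyclic S → Nat.card S ≤ 8 := by
  intro n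
  induction n using Nat.strong_induction_on with
  | _ n ih =>
  intro G _ _ hn hB hsol S hinv hnc
  have : Fact (Nat.Prime 2) := ⟨Nat.prime_two⟩
  by_cases hodd : ∃ R : Subgroup G, IsMinNormal R ∧ ¬ 2 ∣ Nat.card R
  · -- Case 1: a minimal normal subgroup of odd order
    obtain ⟨R, hR, hR2⟩ := hodd
    have hRn : R.Normal := hR.1
    have hBq : PB (G ⧸ R) := min_case hB hsol R hR (fun h => absurd (by rw [h]) hR2)
    have hsolq : Group.IsSolvable (G ⧸ R) :=
      Group.isSolvable_of_surjective (QuotientGroup.mk'_surjective R)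
    have hlt : Nat.card (G ⧸ R) < n := by
      rw [← hn, Subgroup.card_eq_card_quotient_mul_card_subgroup R]
      have h1 : 1 < Nat.card R := by
        rcases Nat.lt_or_ge 1 (Nat.card R) with h | h
        · exact h
        · exfalso
          apply hR.2.1
          apply Subgroup.eq_bot_of_card_eq
          have h0 := Nat.card_pos (α := R)
          omega
      have h2 : 0 < Nat.card (G ⧸ R) := Nat.card_pos
      nlinarith
    have hSR : ∀ x ∈ (S : Subgroup G), x ∈ R → x = 1 := by
      intro x hxS hxR
      obtain ⟨k, hk⟩ := S.2 ⟨x, hxS⟩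
      have hk' : x ^ 2 ^ k = 1 := by
        have h5 := congrArg Subtype.val hk
        rw [Subgroup.coe_pow] at h5
        exact h5
      have h1 : orderOf x ∣ 2 ^ k := orderOf_dvd_of_pow_eq_one hk'
      have h2 : orderOf x ∣ Nat.card R := by
        have h6 := orderOf_dvd_natCard (⟨x, hxR⟩ : R)
        rwa [← Subgroup.orderOf_coe] at h6
      have hc : Nat.Coprime (2 ^ k) (Nat.card R) :=
        Nat.Coprime.pow_left _ ((Nat.Prime.coprime_iff_not_dvd Nat.prime_two).mpr hR2)
      exact orderOf_eq_one_iff.mp (Nat.eq_one_of_dvd_coprimes hc h1 h2)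
    obtain ⟨Sb, hSb⟩ : ∃ Sb : Sylow 2 (G ⧸ R),
        (Sb : Subgroup (G ⧸ R)) = (S : Subgroup G).map (QuotientGroup.mk' R) :=
      ⟨S.mapSurjective (QuotientGroup.mk'_surjective R), Sylow.coe_mapSurjective _ _⟩
    have hinj : Function.Injective ((QuotientGroup.mk' R).subgroupMap (S : Subgroup G)) := by
      rw [injective_iff_map_eq_one]
      intro x hx
      have hx' : (x : G) ∈ R := by
        rw [← QuotientGroup.eq_one_iff]
        exact congrArg Subtype.val hx
      exact Subtype.ext (hSR x x.2 hx')
    have e : ↥(S : Subgroup G) ≃* ↥((S : Subgroup G).map (QuotientGroup.mk' R)) :=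
      MulEquiv.ofBijective ((QuotientGroup.mk' R).subgroupMap (S : Subgroup G))
        ⟨hinj, (QuotientGroup.mk' R).subgroupMap_surjective _⟩
    have hcardS : Nat.card Sb = Nat.card S := by
      have h1 : Nat.card Sb = Nat.card ((S : Subgroup G).map (QuotientGroup.mk' R)) := by
        rw [← hSb]
      rw [h1]
      exact (Nat.card_congr e.toEquiv).symm
    have hncb : ¬ IsCyclic Sb := by
      intro hc
      apply hnc
      have hc' : IsCyclic ↥((S : Subgroup G).map (QuotientGroup.mk' R)) := hSb ▸ hc
      exact e.isCyclic.mpr hc'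
    have hinvb : ∀ x ∈ (Sb : Subgroup (G ⧸ R)), ∀ y ∈ (Sb : Subgroup (G ⧸ R)), x * x = 1 →
        y * y = 1 → x ≠ 1 → y ≠ 1 → x = y := by
      intro x hx y hy hxx hyy hx1 hy1
      rw [hSb] at hx hy
      obtain ⟨x', hx', rfl⟩ := hx
      obtain ⟨y', hy', rfl⟩ := hy
      have h1 : x' * x' = 1 := by
        apply hSR _ (Subgroup.mul_mem _ hx' hx')
        rw [← QuotientGroup.eq_one_iff]
        simpa using hxx
      have h2 : y' * y' = 1 := by
        apply hSR _ (Subgroup.mul_mem _ hy' hy')
        rw [← QuotientGroup.eq_one_iff]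
        simpa using hyy
      have h3 : x' ≠ 1 := fun h => hx1 (by rw [h]; exact map_one _)
      have h4 : y' ≠ 1 := fun h => hy1 (by rw [h]; exact map_one _)
      rw [hinv x' hx' y' hy' h1 h2 h3 h4]
    have h8 := ih _ hlt (G ⧸ R) rfl hBq hsolq Sb hinvb hncb
    rw [hcardS] at h8
    exact h8
  · -- Case 2: every minimal normal subgroup has even order
    push Not at hodd
    have htop : (⊤ : Subgroup G) ≠ ⊥ := by
      intro h
      apply hnc
      have hsub : Subsingleton G := ⟨fun a b => by
        have ha : a ∈ (⊥ : Subgroup G) := h ▸ Subgroup.mem_top a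
        have hb : b ∈ (⊥ : Subgroup G) := h ▸ Subgroup.mem_top b
        rw [Subgroup.mem_bot] at ha hb
        rw [ha, hb]⟩
      exact isCyclic_of_subsingleton
    obtain ⟨R, hR, -⟩ := exists_minNormal ⊤ inferInstance htop
    have hRn : R.Normal := hR.1
    have hR2 : 2 ∣ Nat.card R := hodd R hR
    obtain ⟨r, hr, hRab, hRr⟩ := minNormal_elem hsol R hR
    have hr2 : r = 2 := by
      have : Fact r.Prime := ⟨hr⟩
      have hRp : IsPGroup r R := fun x => ⟨1, by
        rw [pow_one]
        apply Subtype.ext
        rw [Subgroup.coe_pow]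
        exact hRr x x.2⟩
      obtain ⟨a, ha⟩ := IsPGroup.iff_card.mp hRp
      rw [ha] at hR2
      exact ((Nat.prime_dvd_prime_iff_eq Nat.prime_two hr).mp
        (Nat.prime_two.dvd_of_dvd_pow hR2)).symm
    subst hr2
    have hRsq : ∀ x ∈ R, x * x = 1 := fun x hx => by rw [← pow_two]; exact hRr x hx
    have hRp : IsPGroup 2 R := fun x => ⟨1, by
      rw [pow_one]
      apply Subtype.ext
      rw [Subgroup.coe_pow]
      exact hRr x x.2⟩
    have hRS : R ≤ (S : Subgroup G) := normal_le_sylow 2 R hRn hRp S
    obtain ⟨z, hzR, hz1⟩ : ∃ z ∈ R, z ≠ 1 := by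
      by_contra h
      push Not at h
      exact hR.2.1 (by rw [eq_bot_iff]; intro x hx; rw [Subgroup.mem_bot]; exact h x hx)
    have hzz : z * z = 1 := hRsq z hzR
    have hRz : ∀ x ∈ R, x = 1 ∨ x = z := by
      intro x hx
      by_cases h : x = 1
      · exact Or.inl h
      · exact Or.inr (hinv x (hRS hx) z (hRS hzR) (hRsq x hx) hzz h hz1)
    -- `z` is the unique involution of `G`
    have hinvG : ∀ t : G, t * t = 1 → t ≠ 1 → t = z := by
      intro t ht ht1
      have htp : IsPGroup 2 (Subgroup.zpowers t) := by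
        apply IsPGroup.of_card (n := 1)
        rw [Nat.card_zpowers, pow_one]
        exact orderOf_eq_prime (by rw [pow_two]; exact ht) ht1
      obtain ⟨S', hS'⟩ := htp.exists_le_sylow
      obtain ⟨g, hg⟩ := MulAction.exists_smul_eq G S' S
      have h2 : g * t * g⁻¹ ∈ ((g • S' : Sylow 2 G) : Subgroup G) :=
        ⟨t, hS' (Subgroup.mem_zpowers t), rfl⟩
      rw [hg] at h2
      have h3 : g * t * g⁻¹ = z := by
        apply hinv _ h2 z (hRS hzR) _ hzz _ hz1
        · calc g * t * g⁻¹ * (g * t * g⁻¹) = g * (t * t) * g⁻¹ := by group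
            _ = 1 := by rw [ht]; group
        · intro h
          apply ht1
          calc t = g⁻¹ * (g * t * g⁻¹) * g := by group
            _ = 1 := by rw [h]; group
      have h4 : t = g⁻¹ * z * g := by rw [← h3]; group
      have h5 : t ∈ R := by
        rw [h4]
        have h6 := hRn.conj_mem z hzR g⁻¹
        simpa using h6
      exact (hRz t h5).resolve_left ht1
    have hzc : ∀ g : G, g * z = z * g := by
      intro g
      have h1 : g * z * g⁻¹ = z := by
        apply hinvG
        · calc g * z * g⁻¹ * (g * z * g⁻¹) = g * (z * z) * g⁻¹ := by group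
            _ = 1 := by rw [hzz]; group
        · intro h
          apply hz1
          calc z = g⁻¹ * (g * z * g⁻¹) * g := by group
            _ = 1 := by rw [h]; group
      calc g * z = (g * z * g⁻¹) * g := by group
        _ = z * g := by rw [h1]
    have hRzp : R = Subgroup.zpowers z := by
      apply le_antisymm
      · intro x hx
        rcases hRz x hx with h | h
        · rw [h]; exact Subgroup.one_mem _
        · rw [h]; exact Subgroup.mem_zpowers z
      · exact Subgroup.zpowers_le.mpr hzR
    have hzord : orderOf z = 2 := orderOf_eq_prime (by rw [pow_two]; exact hzz) hz1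
    have hRcard : Nat.card R = 2 := by rw [hRzp, Nat.card_zpowers]; exact hzord
    have hsolq : Group.IsSolvable (G ⧸ R) :=
      Group.isSolvable_of_surjective (QuotientGroup.mk'_surjective R)
    by_cases htopq : (⊤ : Subgroup (G ⧸ R)) = ⊥
    · have h1 : Nat.card (G ⧸ R) = 1 := by
        have h2 := congrArg (fun X : Subgroup (G ⧸ R) => Nat.card X) htopq
        simpa using h2
      have h3 : Nat.card G = 2 := by
        rw [Subgroup.card_eq_card_quotient_mul_card_subgroup R, h1, hRcard]
      have h4 : Nat.card S ≤ Nat.card G := Subgroup.card_le_card_group _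
      omega
    obtain ⟨Kb, hKb, -⟩ := exists_minNormal ⊤ inferInstance htopq
    have hKbn : Kb.Normal := hKb.1
    obtain ⟨s, hs, hKab, hKs⟩ := minNormal_elem hsolq Kb hKb
    have : Fact s.Prime := ⟨hs⟩
    have hKbp : IsPGroup s Kb := fun x => ⟨1, by
      rw [pow_one]
      apply Subtype.ext
      rw [Subgroup.coe_pow]
      exact hKs x x.2⟩
    obtain ⟨b, hb⟩ := IsPGroup.iff_card.mp hKbp
    have hb1 : b ≠ 0 := by
      intro h0
      rw [h0, pow_zero] at hb
      exact hKb.2.1 (Subgroup.eq_bot_of_card_eq Kb hb)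
    obtain ⟨K, hKdef⟩ : ∃ K : Subgroup G, K = Kb.comap (QuotientGroup.mk' R) := ⟨_, rfl⟩
    have hKn : K.Normal := by rw [hKdef]; exact hKbn.comap _
    have hKcard : Nat.card K = 2 * s ^ b := by
      rw [hKdef, card_comap_mk R Kb, hRcard, hb]
    have hKbab : IsMulCommutative ↥Kb := (comm_iff Kb).mpr hKab
    have hKcomm : ∀ x ∈ K, ∀ y ∈ K, x * y * x⁻¹ * y⁻¹ ∈ R := fun x hx y hy =>
      comm_mem_of_comap R Kb hKbab x y (hKdef ▸ hx) (hKdef ▸ hy)
    by_cases hs2 : s = 2
    · -- `K` is a normal `2`-subgroup of order at least four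
      subst hs2
      have hKp : IsPGroup 2 K := IsPGroup.of_card (n := b + 1) (by rw [hKcard, pow_succ']) 
      have hKS : K ≤ (S : Subgroup G) := normal_le_sylow 2 K hKn hKp S
      have hK4 : 4 ≤ Nat.card K := by
        rw [hKcard]
        have : 2 ^ 1 ≤ 2 ^ b := Nat.pow_le_pow_right (by norm_num) (by omega)
        omega
      obtain ⟨u, huK, huu⟩ : ∃ u ∈ K, u * u ≠ 1 := by
        by_contra h
        push Not at h
        have hle : K ≤ Subgroup.zpowers z := by
          intro x hx
          by_cases hx1 : x = 1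
          · rw [hx1]; exact Subgroup.one_mem _
          · rw [hinvG x (h x hx) hx1]; exact Subgroup.mem_zpowers z
        have h1 := Subgroup.card_le_of_le hle
        rw [Nat.card_zpowers, hzord] at h1
        omega
      -- an element of order four in `K`
      obtain ⟨j, hj⟩ : ∃ j, orderOf u = 2 ^ j := by
        obtain ⟨k, hk⟩ := hKp ⟨u, huK⟩
        have hk' : u ^ 2 ^ k = 1 := by
          have h5 := congrArg Subtype.val hk
          rw [Subgroup.coe_pow] at h5
          exact h5
        obtain ⟨j, -, hj⟩ := (Nat.dvd_prime_pow Nat.prime_two).mp (orderOf_dvd_of_pow_eq_one hk')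
        exact ⟨j, hj⟩
      have hj2 : 2 ≤ j := by
        by_contra h
        push Not at h
        apply huu
        have h1 : orderOf u ∣ 2 := by
          rw [hj]
          calc 2 ^ j ∣ 2 ^ 1 := pow_dvd_pow 2 (by omega)
            _ = 2 := pow_one 2
        rw [← pow_two]
        exact orderOf_dvd_iff_pow_eq_one.mp h1
      have hu4 : orderOf (u ^ 2 ^ (j - 2)) = 4 := by
        rw [orderOf_pow_of_dvd (by positivity) (by rw [hj]; exact pow_dvd_pow 2 (by omega)), hj,
          Nat.pow_div (by omega) (by norm_num)]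
        have : j - (j - 2) = 2 := by omega
        rw [this]
      have hfour : ∀ c : G, orderOf c = 4 → c ∈ K := by
        intro c hc
        obtain ⟨g, hg⟩ := hB (Subgroup.zpowers (u ^ 2 ^ (j - 2))) (Subgroup.zpowers c)
          inferInstance inferInstance (by rw [Nat.card_zpowers, Nat.card_zpowers, hu4, hc])
        have h1 : c ∈ (Subgroup.zpowers (u ^ 2 ^ (j - 2))).map (MulAut.conj g).toMonoidHom :=
          hg ▸ Subgroup.mem_zpowers c
        have h2 : (Subgroup.zpowers (u ^ 2 ^ (j - 2))).map (MulAut.conj g).toMonoidHom ≤ K :=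
          (Subgroup.map_mono (Subgroup.zpowers_le.mpr (K.pow_mem huK _))).trans
            (map_conj_normal K g).le
        exact h2 h1
      exact quat_normal_case hB S hinv hnc K hKn hKS hfour
    · -- `s` odd: there is a minimal normal subgroup of odd order, a contradiction
      exfalso
      have hsodd : Nat.Coprime s 2 := (Nat.coprime_primes hs Nat.prime_two).mpr hs2
      have hRcent : ∀ n ∈ R, ∀ g : G, g * n = n * g := by
        intro n hn g
        rcases hRz n hn with h | h
        · rw [h]; simp
        · rw [h]; exact hzc g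
      have hKabG : ∀ x ∈ K, ∀ y ∈ K, x * y = y * x := by
        intro x hx y hy
        have hn := hKcomm x hx y hy
        have e : ⁅x, y⁆ = x * y * x⁻¹ * y⁻¹ := commutatorElement_def x y
        have hxs : x ^ s ∈ R := by
          rw [← QuotientGroup.eq_one_iff]
          have hx' : x ∈ Kb.comap (QuotientGroup.mk' R) := hKdef ▸ hx
          have h1 := hKs (QuotientGroup.mk' R x) hx'
          simpa using h1
        have hc1 : ⁅x, y⁆ * x = x * ⁅x, y⁆ := by rw [e]; exact (hRcent _ hn x).symm
        have hc2 : x ^ s * y = y * x ^ s := (hRcent _ hxs y).symm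
        have hps := g1a_comm_pow x y s hc1 hc2
        rw [e] at hps
        have hone : x * y * x⁻¹ * y⁻¹ = 1 := by
          have hd1 : orderOf (x * y * x⁻¹ * y⁻¹) ∣ s := orderOf_dvd_of_pow_eq_one hps
          have hd2 : orderOf (x * y * x⁻¹ * y⁻¹) ∣ 2 :=
            orderOf_dvd_of_pow_eq_one (by rw [pow_two]; exact hRsq _ hn)
          exact orderOf_eq_one_iff.mp (Nat.eq_one_of_dvd_coprimes hsodd hd1 hd2)
        calc x * y = (x * y * x⁻¹ * y⁻¹) * (y * x) := by group
          _ = y * x := by rw [hone, one_mul]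
      let Ks : Subgroup G :=
        { carrier := {x | x ∈ K ∧ x ^ s = 1}
          mul_mem' := by
            rintro a c ⟨ha, ha'⟩ ⟨hc, hc'⟩
            refine ⟨K.mul_mem ha hc, ?_⟩
            have hcm : Commute a c := hKabG a ha c hc
            rw [hcm.mul_pow, ha', hc', one_mul]
          one_mem' := ⟨K.one_mem, one_pow _⟩
          inv_mem' := by
            rintro a ⟨ha, ha'⟩
            exact ⟨K.inv_mem ha, by rw [inv_pow, ha', inv_one]⟩ }
      have hKsn : Ks.Normal := ⟨by
        rintro a ⟨ha, ha'⟩ g
        exact ⟨hKn.conj_mem a ha g, by rw [conj_pow, ha', mul_one, mul_inv_cancel]⟩⟩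
      have hKsne : Ks ≠ ⊥ := by
        have hsK : s ∣ Nat.card K := by
          rw [hKcard]
          exact dvd_mul_of_dvd_right (dvd_pow_self s hb1) 2
        obtain ⟨x, hx⟩ := exists_prime_orderOf_dvd_card' s hsK
        intro h
        have hxm : (x : G) ∈ Ks := ⟨x.2, by
          have h1 := pow_orderOf_eq_one x
          rw [hx] at h1
          have h5 := congrArg Subtype.val h1
          rw [Subgroup.coe_pow] at h5
          exact h5⟩
        rw [h, Subgroup.mem_bot] at hxm
        have h2 : x = 1 := Subtype.ext hxm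
        rw [h2, orderOf_one] at hx
        exact hs.one_lt.ne hx
      obtain ⟨R', hR', hR'le⟩ := exists_minNormal Ks hKsn hKsne
      have h2R' : 2 ∣ Nat.card R' := hodd R' hR'
      obtain ⟨t, ht⟩ := exists_prime_orderOf_dvd_card' 2 h2R'
      have htG : orderOf (t : G) = 2 := by rw [Subgroup.orderOf_coe]; exact ht
      have hts : (t : G) ^ s = 1 := (hR'le t.2).2
      have hd1 : orderOf (t : G) ∣ s := orderOf_dvd_of_pow_eq_one hts
      rw [htG] at hd1
      exact hs2 ((Nat.prime_dvd_prime_iff_eq Nat.prime_two hs).mp hd1).symm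

end Cfsg.Agent.H43.QB
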