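import Mathlib
import Cfsg.Agent.H43.QB7

/-!
# S3912 support: the main theorem (surjective images inherit the property)
-/

set_option autoImplicit false

namespace Cfsg.Agent.H43.QB

universe u

theorem main_thm : ∀ (n : ℕ) (G : Type u) [Group G] [Finite G], Nat.card G = n → PB G →
    Group.IsSolvable G → ∀ (H : Type u) [Group H] (f : G →* H), Function.Surjective f →
      PB H := by
  intro n
  induction n using Nat.strong_induction_on with
  | _ n ih =>
  intro G _ _ hn hB hsol H _ f hf
  by_cases hker : f.ker = ⊥
  · have hinj : Function.Injective f := (MonoidHom.ker_eq_bot_iff f).mp hker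
    intro A B hA hB' hAB
    have hAm : (A.comap f).map f = A := Subgroup.map_comap_eq_self_of_surjective hf A
    have hBm : (B.comap f).map f = B := Subgroup.map_comap_eq_self_of_surjective hf B
    have hAc : IsMulCommutative ↥(A.comap f) := by
      rw [comm_iff]
      intro a ha b hb
      apply hinj
      rw [map_mul, map_mul]
      exact (comm_iff A).mp hA _ ha _ hb
    have hBc : IsMulCommutative ↥(B.comap f) := by
      rw [comm_iff]
      intro a ha b hb
      apply hinj
      rw [map_mul, map_mul]
      exact (comm_iff B).mp hB' _ ha _ hb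
    have hcard : Nat.card (A.comap f) = Nat.card (B.comap f) := by
      have h1 : Nat.card ((A.comap f).map f) = Nat.card (A.comap f) :=
        Subgroup.card_map_of_injective hinj
      have h2 : Nat.card ((B.comap f).map f) = Nat.card (B.comap f) :=
        Subgroup.card_map_of_injective hinj
      rw [hAm] at h1
      rw [hBm] at h2
      rw [← h1, ← h2, hAB]
    obtain ⟨g, hg⟩ := hB _ _ hAc hBc hcard
    refine ⟨f g, ?_⟩
    have h3 := lift_conj f _ _ g hg
    rwa [hAm, hBm] at h3
  · obtain ⟨N, hN, hNle⟩ := exists_minNormal f.ker (MonoidHom.normal_ker f) hker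
    have hNn : N.Normal := hN.1
    have hBq : PB (G ⧸ N) := min_case hB hsol N hN (by
      intro hN2 S hnc
      have : Fact (Nat.Prime 2) := ⟨Nat.prime_two⟩
      have huniqG : ∀ H' : Subgroup G, Nat.card H' = 2 → H' = N :=
        uniq_of_card_prime hB N 2 hN2
      refine quat_bound _ G rfl hB hsol S ?_ hnc
      intro x _ y _ hxx hyy hx1 hy1
      have h1 : Subgroup.zpowers x = N := huniqG _ (by
        rw [Nat.card_zpowers]; exact orderOf_eq_prime (by rw [pow_two]; exact hxx) hx1)
      have h2 : Subgroup.zpowers y = N := huniqG _ (by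
        rw [Nat.card_zpowers]; exact orderOf_eq_prime (by rw [pow_two]; exact hyy) hy1)
      have h3 : y ∈ Subgroup.zpowers x := by rw [h1, ← h2]; exact Subgroup.mem_zpowers y
      obtain ⟨i, hi⟩ := Subgroup.mem_zpowers_iff.mp h3
      rcases Cfsg.Agent.H59.zpow_involution hxx i with h | h
      · rw [h] at hi; exact absurd hi.symm hy1
      · rw [h] at hi; exact hi)
    have hsolq : Group.IsSolvable (G ⧸ N) :=
      Group.isSolvable_of_surjective (QuotientGroup.mk'_surjective N)
    have hlt : Nat.card (G ⧸ N) < n := by
      rw [← hn, Subgroup.card_eq_card_quotient_mul_card_subgroup N]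
      have h1 : 1 < Nat.card N := by
        rcases Nat.lt_or_ge 1 (Nat.card N) with h | h
        · exact h
        · exfalso
          apply hN.2.1
          apply Subgroup.eq_bot_of_card_eq
          have h0 := Nat.card_pos (α := N)
          omega
      have h2 : 0 < Nat.card (G ⧸ N) := Nat.card_pos
      nlinarith
    exact ih _ hlt (G ⧸ N) rfl hBq hsolq H (QuotientGroup.lift N f (fun x hx => hNle hx)) (by
      intro h
      obtain ⟨g, rfl⟩ := hf h
      exact ⟨QuotientGroup.mk g, by simp⟩)

/-- Quotients of a finite solvable group with `PB` have `PB`. -/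
theorem quotient_PB {G : Type u} [Group G] [Finite G] (hB : PB G) (hsol : Group.IsSolvable G)
    (M : Subgroup G) [M.Normal] : PB (G ⧸ M) :=
  main_thm _ G rfl hB hsol (G ⧸ M) (QuotientGroup.mk' M) (QuotientGroup.mk'_surjective M)

end Cfsg.Agent.H43.QB
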