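import Mathlib
import Cfsg.Prelude.Def_Classical
import Cfsg.Agent.H17.SUGen
import Cfsg.Agent.H43.PClosed

set_option autoImplicit false

/-! Helper lemmas (helper43): local structure of `SU₃(q)` at the defining characteristic.
The normalizer of a non-trivial `p`-subgroup stabilizes an isotropic line, and an element of `SU₃`
fixing a non-zero isotropic vector is unipotent. -/

namespace Cfsg.Agent.H43

open Matrix Cfsg.Agent.H17

section cols
variable {K : Type*} [Field K]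

/-- The `3 × 3` matrix with columns `e₀, e₁, e₂`. -/
def colMat (e₀ e₁ e₂ : Fin 3 → K) : Matrix (Fin 3) (Fin 3) K :=
  Matrix.of fun i j => ![e₀ i, e₁ i, e₂ i] j

theorem colMat_mulVec (e₀ e₁ e₂ c : Fin 3 → K) :
    colMat e₀ e₁ e₂ *ᵥ c = c 0 • e₀ + c 1 • e₁ + c 2 • e₂ := by
  ext i
  simp [colMat, Matrix.mulVec, dotProduct, Fin.sum_univ_three]
  ring

theorem mul_colMat (g : Matrix (Fin 3) (Fin 3) K) (e₀ e₁ e₂ : Fin 3 → K) :
    g * colMat e₀ e₁ e₂ = colMat (g *ᵥ e₀) (g *ᵥ e₁) (g *ᵥ e₂) := by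
  ext i j
  fin_cases j <;> simp [colMat, Matrix.mul_apply, Matrix.mulVec, dotProduct]

theorem det_colMat_ne_zero (e₀ e₁ e₂ : Fin 3 → K)
    (hind : ∀ a b c : K, a • e₀ + b • e₁ + c • e₂ = 0 → a = 0 ∧ b = 0 ∧ c = 0) :
    (colMat e₀ e₁ e₂).det ≠ 0 := by
  intro h0
  obtain ⟨c, hc, hc0⟩ := Matrix.exists_mulVec_eq_zero_iff.mpr h0
  rw [colMat_mulVec] at hc0
  obtain ⟨h1, h2, h3⟩ := hind _ _ _ hc0
  apply hc
  ext i
  fin_cases i <;> simp [h1, h2, h3]

theorem span_colMat (e₀ e₁ e₂ : Fin 3 → K) (hdet : (colMat e₀ e₁ e₂).det ≠ 0) (y : Fin 3 → K) :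
    ∃ a b c : K, y = a • e₀ + b • e₁ + c • e₂ := by
  refine ⟨((colMat e₀ e₁ e₂)⁻¹ *ᵥ y) 0, ((colMat e₀ e₁ e₂)⁻¹ *ᵥ y) 1,
    ((colMat e₀ e₁ e₂)⁻¹ *ᵥ y) 2, ?_⟩
  rw [← colMat_mulVec, Matrix.mulVec_mulVec, Matrix.mul_nonsing_inv _ (isUnit_iff_ne_zero.mpr hdet),
    Matrix.one_mulVec]

theorem det_colMat_combo (e₀ e₁ e₂ : Fin 3 → K) (μ a b c : K) :
    (colMat e₀ (a • e₀ + μ • e₁) (c • e₀ + b • e₁ + e₂)).det = μ * (colMat e₀ e₁ e₂).det := by
  simp [colMat, Matrix.det_fin_three]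
  ring

end cols

section herm
variable {K : Type*} [Field K] [Fintype K] {q : ℕ}

theorem herm_sub_left (u u' v : Fin 3 → K) :
    Cfsg.hermForm 3 K q (u - u') v = Cfsg.hermForm 3 K q u v - Cfsg.hermForm 3 K q u' v := by
  rw [sub_eq_add_neg, ← neg_one_smul K u', hermForm_add_left, hermForm_smul_left]
  ring

theorem exists_pair_one (hK : Fintype.card K = q ^ 2) (u : Fin 3 → K) (hu : u ≠ 0) :
    ∃ x : Fin 3 → K, Cfsg.hermForm 3 K q x u = 1 ∧ Cfsg.hermForm 3 K q u x = 1 := by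
  have h1 : ∃ x₀ : Fin 3 → K, Cfsg.hermForm 3 K q x₀ u ≠ 0 := by
    by_contra hno
    push Not at hno
    exact hu (hermForm_nd_left hK 3 u hno)
  obtain ⟨x₀, hx₀⟩ := h1
  have h2 : Cfsg.hermForm 3 K q ((Cfsg.hermForm 3 K q x₀ u)⁻¹ • x₀) u = 1 := by
    rw [hermForm_smul_left, inv_mul_cancel₀ hx₀]
  refine ⟨_, h2, ?_⟩
  rw [← hermForm_conj 3 hK, h2, one_pow]

/-- A totally isotropic subspace of the 3-dimensional Hermitian space has dimension at most one. -/
theorem ti_parallel (hK : Fintype.card K = q ^ 2) (u v : Fin 3 → K) (hu : u ≠ 0)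
    (huu : Cfsg.hermForm 3 K q u u = 0) (huv : Cfsg.hermForm 3 K q u v = 0)
    (hvv : Cfsg.hermForm 3 K q v v = 0) : ∃ c : K, v = c • u := by
  have hq := two_le_of_card_sq hK
  have hvu : Cfsg.hermForm 3 K q v u = 0 := by
    rw [← hermForm_conj 3 hK u v, huv, zero_pow (by omega)]
  obtain ⟨x, hxu, hux⟩ := exists_pair_one hK u hu
  obtain ⟨b, hb⟩ : ∃ b : K, b = Cfsg.hermForm 3 K q v x := ⟨_, rfl⟩
  refine ⟨b, ?_⟩
  by_contra hne
  obtain ⟨v₁, hv₁⟩ : ∃ v₁ : Fin 3 → K, v₁ = v + (-b) • u := ⟨_, rfl⟩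
  have hv₁ne : v₁ ≠ 0 := by
    intro h0
    apply hne
    rw [hv₁] at h0
    have h1 := eq_neg_of_add_eq_zero_left h0
    rw [h1]
    simp
  have h1 : Cfsg.hermForm 3 K q v₁ u = 0 := by
    rw [hv₁, hermForm_add_left, hermForm_smul_left, hvu, huu]
    ring
  have h2 : Cfsg.hermForm 3 K q v₁ x = 0 := by
    rw [hv₁, hermForm_add_left, hermForm_smul_left, hux, ← hb]
    ring
  have h3 : Cfsg.hermForm 3 K q v₁ v = 0 := by
    rw [hv₁, hermForm_add_left, hermForm_smul_left, hvv, huv]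
    ring
  have h4 : Cfsg.hermForm 3 K q v₁ v₁ = 0 := by
    have h5 : Cfsg.hermForm 3 K q v₁ v₁ = Cfsg.hermForm 3 K q v₁ (v + (-b) • u) := by rw [← hv₁]
    rw [h5, hermForm_add_right 3 hK, hermForm_smul_right, h3, h1]
    ring
  have hind : ∀ a b' c : K, a • u + b' • v₁ + c • x = 0 → a = 0 ∧ b' = 0 ∧ c = 0 := by
    intro a b' c h0
    have e1 : Cfsg.hermForm 3 K q (a • u + b' • v₁ + c • x) u = 0 := by
      rw [h0, hermForm_zero_left]
    rw [hermForm_add_left, hermForm_add_left, hermForm_smul_left, hermForm_smul_left,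
      hermForm_smul_left, huu, h1, hxu] at e1
    have hc : c = 0 := by simpa using e1
    have e2 : Cfsg.hermForm 3 K q (a • u + b' • v₁ + c • x) x = 0 := by
      rw [h0, hermForm_zero_left]
    rw [hermForm_add_left, hermForm_add_left, hermForm_smul_left, hermForm_smul_left,
      hermForm_smul_left, hux, h2, hc] at e2
    have ha : a = 0 := by simpa using e2
    rw [ha, hc, zero_smul, zero_smul, zero_add, add_zero] at h0
    exact ⟨ha, (smul_eq_zero.mp h0).resolve_right hv₁ne, hc⟩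
  have hdet := det_colMat_ne_zero u v₁ x hind
  apply hv₁ne
  apply hermForm_nd_right hK 3
  intro y
  obtain ⟨a, b', c, rfl⟩ := span_colMat u v₁ x hdet y
  rw [hermForm_add_right 3 hK, hermForm_add_right 3 hK, hermForm_smul_right, hermForm_smul_right,
    hermForm_smul_right, h1, h4, h2]
  ring

/-- An element of `SU₃` fixing a non-zero isotropic vector has order dividing `p`. -/
theorem su3_fix_iso_pow {p : ℕ} [Fact p.Prime] [CharP K p] (hp3 : 3 ≤ p)
    (hK : Fintype.card K = q ^ 2) (A : ↥(Cfsg.SU 3 K q)) (v₀ : Fin 3 → K) (hv₀ : v₀ ≠ 0)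
    (hiso : Cfsg.hermForm 3 K q v₀ v₀ = 0) (hfix : suAct A v₀ = v₀) : A ^ p = 1 := by
  obtain ⟨x, hxv, hvx⟩ := exists_pair_one hK v₀ hv₀
  obtain ⟨w, hw0, hwv, hwx⟩ : ∃ w : Fin 3 → K, w ≠ 0 ∧ Cfsg.hermForm 3 K q w v₀ = 0 ∧
      Cfsg.hermForm 3 K q w x = 0 := by
    let ψ : (Fin 3 → K) →ₗ[K] (Fin 2 → K) :=
      { toFun := fun y => ![Cfsg.hermForm 3 K q y v₀, Cfsg.hermForm 3 K q y x]
        map_add' := by
          intro y y'
          rw [hermForm_add_left, hermForm_add_left]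
          ext i
          fin_cases i <;> simp
        map_smul' := by
          intro c y
          rw [hermForm_smul_left, hermForm_smul_left]
          ext i
          fin_cases i <;> simp }
    have hker : LinearMap.ker ψ ≠ ⊥ := LinearMap.ker_ne_bot_of_finrank_lt (by simp)
    obtain ⟨w, hw, hw0⟩ := (Submodule.ne_bot_iff _).mp hker
    have hw' : ψ w = 0 := hw
    refine ⟨w, hw0, ?_, ?_⟩
    · have := congrFun hw' 0
      simpa [ψ] using this
    · have := congrFun hw' 1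
      simpa [ψ] using this
  have hind : ∀ a b c : K, a • v₀ + b • w + c • x = 0 → a = 0 ∧ b = 0 ∧ c = 0 := by
    intro a b c h0
    have e1 : Cfsg.hermForm 3 K q (a • v₀ + b • w + c • x) v₀ = 0 := by
      rw [h0, hermForm_zero_left]
    rw [hermForm_add_left, hermForm_add_left, hermForm_smul_left, hermForm_smul_left,
      hermForm_smul_left, hiso, hwv, hxv] at e1
    have hc : c = 0 := by simpa using e1
    have e2 : Cfsg.hermForm 3 K q (a • v₀ + b • w + c • x) x = 0 := by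
      rw [h0, hermForm_zero_left]
    rw [hermForm_add_left, hermForm_add_left, hermForm_smul_left, hermForm_smul_left,
      hermForm_smul_left, hvx, hwx, hc] at e2
    have ha : a = 0 := by simpa using e2
    rw [ha, hc, zero_smul, zero_smul, zero_add, add_zero] at h0
    exact ⟨ha, (smul_eq_zero.mp h0).resolve_right hw0, hc⟩
  have hdet := det_colMat_ne_zero v₀ w x hind
  obtain ⟨a1, μ, c1, hAw⟩ := span_colMat v₀ w x hdet (suAct A w)
  obtain ⟨a2, b2, c2, hAx⟩ := span_colMat v₀ w x hdet (suAct A x)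
  have hc1 : c1 = 0 := by
    have e : Cfsg.hermForm 3 K q (suAct A w) v₀ = 0 := by
      conv_lhs => rw [← hfix]
      rw [suAct_herm]
      exact hwv
    rw [hAw, hermForm_add_left, hermForm_add_left, hermForm_smul_left, hermForm_smul_left,
      hermForm_smul_left, hiso, hwv, hxv] at e
    simpa using e
  have hc2 : c2 = 1 := by
    have e : Cfsg.hermForm 3 K q (suAct A x) v₀ = 1 := by
      conv_lhs => rw [← hfix]
      rw [suAct_herm]
      exact hxv
    rw [hAx, hermForm_add_left, hermForm_add_left, hermForm_smul_left, hermForm_smul_left,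
      hermForm_smul_left, hiso, hwv, hxv] at e
    simpa using e
  obtain ⟨M, hM⟩ : ∃ M : Matrix (Fin 3) (Fin 3) K,
      M = ((A : Matrix.SpecialLinearGroup (Fin 3) K) : Matrix (Fin 3) (Fin 3) K) := ⟨_, rfl⟩
  have hMv : ∀ z, M *ᵥ z = suAct A z := by
    intro z
    rw [hM]
    rfl
  have hMdet : M.det = 1 := by
    rw [hM]
    exact (A : Matrix.SpecialLinearGroup (Fin 3) K).2
  have hμ : μ = 1 := by
    have h1 : (M * colMat v₀ w x).det = (colMat v₀ w x).det := by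
      rw [Matrix.det_mul, hMdet, one_mul]
    rw [mul_colMat, hMv, hMv, hMv, hfix, hAw, hAx, hc1, hc2, zero_smul, add_zero, one_smul,
      det_colMat_combo] at h1
    exact mul_right_cancel₀ hdet (h1.trans (one_mul _).symm)
  have hN1 : (M - 1) *ᵥ v₀ = 0 := by
    rw [Matrix.sub_mulVec, Matrix.one_mulVec, hMv, hfix, sub_self]
  have hN2 : (M - 1) *ᵥ w = a1 • v₀ := by
    rw [Matrix.sub_mulVec, Matrix.one_mulVec, hMv, hAw, hc1, hμ]
    simp
  have hN3 : (M - 1) *ᵥ x = a2 • v₀ + b2 • w := by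
    rw [Matrix.sub_mulVec, Matrix.one_mulVec, hMv, hAx, hc2]
    simp
  have hcube : (M - 1) ^ 3 = 0 := by
    apply matrix_ext_mulVec
    intro y
    obtain ⟨a, b, c, rfl⟩ := span_colMat v₀ w x hdet y
    rw [Matrix.zero_mulVec, pow_succ, pow_succ, pow_one, ← Matrix.mulVec_mulVec,
      ← Matrix.mulVec_mulVec]
    simp only [Matrix.mulVec_add, Matrix.mulVec_smul, hN1, hN2, hN3, smul_zero, zero_add]
  have hpow : M ^ p = 1 := by
    have h1 : (M - 1) ^ p = 0 := by
      have h2 : p = 3 + (p - 3) := by omega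
      rw [h2, pow_add, hcube, zero_mul]
    have h2 : M ^ p = ((M - 1) + 1) ^ p := by rw [sub_add_cancel]
    rw [h2, add_pow_char_of_commute p (Commute.one_right _), h1, one_pow, zero_add]
  apply Subtype.ext
  apply Subtype.ext
  rw [Subgroup.coe_pow, Matrix.SpecialLinearGroup.coe_pow, ← hM, hpow]
  rfl

/-- The normalizer of a non-trivial `p`-subgroup of `SU₃(q)` stabilizes an isotropic line. -/
theorem exists_iso_line {p : ℕ} [Fact p.Prime] (hK : Fintype.card K = q ^ 2)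
    (hKp : ∃ m : ℕ, Fintype.card K = p ^ m)
    (P₁ : Subgroup ↥(Cfsg.SU 3 K q)) (hP : IsPGroup p P₁) (hne : P₁ ≠ ⊥) :
    ∃ v₀ : Fin 3 → K, v₀ ≠ 0 ∧ Cfsg.hermForm 3 K q v₀ v₀ = 0 ∧
      ∀ g ∈ Subgroup.normalizer (P₁ : Set ↥(Cfsg.SU 3 K q)), ∃ c : K, suAct g v₀ = c • v₀ := by
  classical
  let Wp : AddSubgroup (Fin 3 → K) :=
    { carrier := {y | ∀ w : Fin 3 → K, (∀ g ∈ P₁, suAct g w = w) → Cfsg.hermForm 3 K q y w = 0}
      add_mem' := by
        intro a b ha hb w hw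
        rw [hermForm_add_left, ha w hw, hb w hw, add_zero]
      zero_mem' := by
        intro w _
        exact hermForm_zero_left 3 w
      neg_mem' := by
        intro a ha w hw
        rw [← neg_one_smul K a, hermForm_smul_left, ha w hw, mul_zero] }
  have hinv : ∀ g ∈ P₁, ∀ y ∈ Wp, suAct g y ∈ Wp := by
    intro g hg y hy w hw
    have h1 : Cfsg.hermForm 3 K q (suAct g y) w = Cfsg.hermForm 3 K q (suAct g y) (suAct g w) := by
      rw [hw g hg]
    rw [h1, suAct_herm]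
    exact hy w hw
  let act : MulAction ↥P₁ ↥Wp :=
    { smul := fun g y => ⟨suAct g.1 y.1, hinv g.1 g.2 y.1 y.2⟩
      one_smul := by
        intro y
        apply Subtype.ext
        exact suAct_one y.1
      mul_smul := by
        intro g g' y
        apply Subtype.ext
        exact suAct_mul g.1 g'.1 y.1 }
  have hsmul : ∀ (g : ↥P₁) (y : ↥Wp), ((g • y : ↥Wp) : Fin 3 → K) = suAct g.1 y.1 := fun _ _ => rfl
  obtain ⟨z, hz, hz1⟩ : ∃ z ∈ P₁, z ≠ 1 := by
    by_contra hno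
    push Not at hno
    exact hne ((Subgroup.eq_bot_iff_forall _).mpr hno)
  obtain ⟨u, hu⟩ : ∃ u : Fin 3 → K, suAct z u ≠ u := by
    by_contra hno
    push Not at hno
    exact hz1 (su_ext z 1 (fun t => by rw [hno t, suAct_one]))
  have hy₀ : suAct z u - u ∈ Wp := by
    intro w hw
    rw [herm_sub_left]
    have h1 : Cfsg.hermForm 3 K q (suAct z u) w = Cfsg.hermForm 3 K q (suAct z u) (suAct z w) := by
      rw [hw z hz]
    rw [h1, suAct_herm, sub_self]
  have hcard : p ∣ Nat.card ↥Wp := by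
    obtain ⟨m, hm⟩ := hKp
    have h1 : Nat.card ↥Wp ∣ Nat.card (Fin 3 → K) := AddSubgroup.card_addSubgroup_dvd_card Wp
    have h2 : Nat.card (Fin 3 → K) = p ^ (m * 3) := by
      rw [Nat.card_eq_fintype_card, Fintype.card_fun, hm, Fintype.card_fin, pow_mul]
    rw [h2] at h1
    obtain ⟨j, _, hj⟩ := (Nat.dvd_prime_pow (Fact.out : p.Prime)).mp h1
    have hj0 : j ≠ 0 := by
      rintro rfl
      rw [pow_zero] at hj
      have hsub : Subsingleton ↥Wp := (Nat.card_eq_one_iff_unique.mp hj).1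
      have h3 := congrArg Subtype.val (Subsingleton.elim (⟨suAct z u - u, hy₀⟩ : ↥Wp) 0)
      exact hu (sub_eq_zero.mp h3)
    rw [hj]
    exact dvd_pow_self p hj0
  have hP' : IsPGroup p ↥P₁ := hP
  have h0fix : (0 : ↥Wp) ∈ MulAction.fixedPoints ↥P₁ ↥Wp := by
    intro g
    apply Subtype.ext
    rw [hsmul]
    show suAct g.1 (0 : Fin 3 → K) = 0
    unfold suAct
    exact Matrix.mulVec_zero _
  obtain ⟨b, hb, hb0⟩ := hP'.exists_fixed_point_of_prime_dvd_card_of_fixed_point ↥Wp hcard h0fix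
  have hfixb : ∀ g ∈ P₁, suAct g b.1 = b.1 := by
    intro g hg
    have h1 := hb ⟨g, hg⟩
    have h2 := congrArg Subtype.val h1
    rw [hsmul] at h2
    exact h2
  have hb_ne : b.1 ≠ 0 := by
    intro h0
    exact hb0 (Subtype.ext h0.symm)
  have hbb : Cfsg.hermForm 3 K q b.1 b.1 = 0 := b.2 b.1 hfixb
  refine ⟨b.1, hb_ne, hbb, ?_⟩
  intro n hn
  have hconj : ∀ g ∈ P₁, n⁻¹ * g * n ∈ P₁ := by
    intro g hg
    have h1 := (Subgroup.mem_normalizer_iff.mp (inv_mem hn) g).mp hg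
    simpa using h1
  have hconj' : ∀ g ∈ P₁, n * g * n⁻¹ ∈ P₁ :=
    fun g hg => (Subgroup.mem_normalizer_iff.mp hn g).mp hg
  have hW : ∀ w : Fin 3 → K, (∀ g ∈ P₁, suAct g w = w) →
      ∀ g ∈ P₁, suAct g (suAct n w) = suAct n w := by
    intro w hw g hg
    have h1 := hw _ (hconj g hg)
    rw [suAct_mul, suAct_mul] at h1
    have h2 := congrArg (suAct n) h1
    rw [suAct_apply_inv] at h2
    exact h2
  have hW' : ∀ w : Fin 3 → K, (∀ g ∈ P₁, suAct g w = w) →
      ∀ g ∈ P₁, suAct g (suAct n⁻¹ w) = suAct n⁻¹ w := by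
    intro w hw g hg
    have h1 := hw _ (hconj' g hg)
    rw [suAct_mul, suAct_mul] at h1
    have h2 := congrArg (suAct n⁻¹) h1
    rw [suAct_inv_apply] at h2
    exact h2
  have hv₁W := hW b.1 hfixb
  have hv₁Wp : suAct n b.1 ∈ Wp := by
    intro w hw
    have h1 : Cfsg.hermForm 3 K q (suAct n b.1) w =
        Cfsg.hermForm 3 K q (suAct n b.1) (suAct n (suAct n⁻¹ w)) := by
      rw [suAct_apply_inv]
    rw [h1, suAct_herm]
    exact b.2 _ (hW' w hw)
  exact ti_parallel hK b.1 (suAct n b.1) hb_ne hbb (b.2 _ hv₁W) (hv₁Wp _ hv₁W)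

/-- In `SU₃(q)`, `q` a power of the odd prime `p`, the `p`-elements of the normalizer of a
non-trivial `p`-subgroup are closed under multiplication. -/
theorem su3_normalizer_pmul {p : ℕ} [Fact p.Prime] [CharP K p] (hp3 : 3 ≤ p)
    (hK : Fintype.card K = q ^ 2) (hKp : ∃ m : ℕ, Fintype.card K = p ^ m)
    (P₁ : Subgroup ↥(Cfsg.SU 3 K q)) (hP : IsPGroup p P₁) (hne : P₁ ≠ ⊥)
    (x : ↥(Cfsg.SU 3 K q)) (hx : x ∈ Subgroup.normalizer (P₁ : Set ↥(Cfsg.SU 3 K q)))
    (y : ↥(Cfsg.SU 3 K q)) (hy : y ∈ Subgroup.normalizer (P₁ : Set ↥(Cfsg.SU 3 K q)))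
    (hxp : IsPElt p x) (hyp : IsPElt p y) : IsPElt p (x * y) := by
  obtain ⟨v₀, hv₀, hiso, hline⟩ := exists_iso_line hK hKp P₁ hP hne
  have hfix : ∀ g : ↥(Cfsg.SU 3 K q), g ∈ Subgroup.normalizer (P₁ : Set ↥(Cfsg.SU 3 K q)) →
      IsPElt p g → suAct g v₀ = v₀ := by
    rintro g hg ⟨k, hk⟩
    obtain ⟨c, hc⟩ := hline g hg
    have hpow : ∀ m : ℕ, suAct (g ^ m) v₀ = c ^ m • v₀ := by
      intro m
      induction m with
      | zero => rw [pow_zero, pow_zero, suAct_one, one_smul]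
      | succ m ih => rw [pow_succ, suAct_mul, hc, suAct_smul, ih, smul_smul, pow_succ, mul_comm]
    have h1 := hpow (p ^ k)
    rw [hk, suAct_one] at h1
    have h2 : c ^ p ^ k = 1 := by
      have h3 : (c ^ p ^ k - 1) • v₀ = 0 := by rw [sub_smul, one_smul, ← h1, sub_self]
      exact sub_eq_zero.mp ((smul_eq_zero.mp h3).resolve_right hv₀)
    have h4 : (c - 1) ^ p ^ k = 0 := by rw [sub_pow_char_pow, h2, one_pow, sub_self]
    have h5 : c = 1 :=
      sub_eq_zero.mp ((pow_eq_zero_iff (pow_ne_zero _ (Fact.out : p.Prime).ne_zero)).mp h4)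
    rw [hc, h5, one_smul]
  refine ⟨1, ?_⟩
  rw [pow_one]
  apply su3_fix_iso_pow hp3 hK (x * y) v₀ hv₀ hiso
  rw [suAct_mul, hfix y hy hyp, hfix x hx hxp]

end herm

end Cfsg.Agent.H43
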