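import Mathlib

/-!
# S2799-TR (team piece for helper52)

A "trace" argument: a `K`-stable subset `Ω` of an abelian subgroup `V` whose non-fixed `K`-orbits
have products controlled by an index-`p` subgroup has product `x ^ |Ω|` and `|Ω| ≡ 1 (mod p)`.
-/

set_option autoImplicit false

namespace Cfsg.Agent.H43

universe u

/-- Coset decomposition for a normal subgroup of prime index. -/
theorem tc_coset {K : Type*} [Group K] (p : ℕ) [Fact p.Prime] (K₁ : Subgroup K) [K₁.Normal]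
    (hidx : K₁.index = p) (a : K) (ha : a ∉ K₁) :
    (∀ k : K, ∃ i < p, (a ^ i)⁻¹ * k ∈ K₁) ∧
    (∀ i < p, ∀ j < p, (a ^ j)⁻¹ * a ^ i ∈ K₁ → i = j) := by
  have hp : p.Prime := Fact.out
  have hcard : Nat.card (K ⧸ K₁) = p := by rw [← hidx]; exact (Subgroup.index_eq_card K₁).symm
  have : Finite (K ⧸ K₁) := Nat.finite_of_card_ne_zero (by rw [hcard]; exact hp.ne_zero)
  set q : K ⧸ K₁ := (a : K ⧸ K₁) with hq
  have hq1 : q ≠ 1 := by
    rw [hq, Ne, QuotientGroup.eq_one_iff]; exact ha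
  have hqp : q ^ p = 1 := by rw [← hcard]; exact pow_card_eq_one'
  have hord : orderOf q = p := orderOf_eq_prime hqp hq1
  refine ⟨fun k => ?_, fun i hi j hj h => ?_⟩
  · have hmem : (k : K ⧸ K₁) ∈ Submonoid.powers q := mem_powers_of_prime_card hcard hq1
    obtain ⟨n, hn⟩ := hmem
    refine ⟨n % p, Nat.mod_lt _ hp.pos, ?_⟩
    rw [← QuotientGroup.eq, QuotientGroup.mk_pow, ← hq]
    have := pow_mod_orderOf q n
    rw [hord] at this
    rw [this]; exact hn
  · have h1 : ((a ^ j : K) : K ⧸ K₁) = ((a ^ i : K) : K ⧸ K₁) := QuotientGroup.eq.mpr h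
    rw [QuotientGroup.mk_pow, QuotientGroup.mk_pow, ← hq] at h1
    have h2 := (pow_inj_mod).mp h1
    rw [hord, Nat.mod_eq_of_lt hi, Nat.mod_eq_of_lt hj] at h2
    exact h2.symm

/-- The product over a single orbit. -/
theorem tc_orbit {W : Type*} [CommGroup W] {K : Type*} [Group K] [Fintype K] [DecidableEq W]
    (p : ℕ) [Fact p.Prime] (φ : K →* MulAut W) (x u : W) (hpow : ∀ k : K, (φ k u) ^ p = x ^ p)
    (K₁ : Subgroup K) (a : K) (hn : K₁.Normal) (ha : a ∉ K₁)
    (hidx : K₁.index = p) (hstab : ∀ k : K, φ k u = u → k ∈ K₁)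
    (hprod : ∀ w : W, (∀ k ∈ K₁, φ k w = w) → ∏ i ∈ Finset.range p, φ (a ^ i) w = w ^ p) :
    ∏ v ∈ Finset.univ.image (fun k : K => φ k u), v =
        x ^ (Finset.univ.image (fun k : K => φ k u)).card ∧
      p ∣ (Finset.univ.image (fun k : K => φ k u)).card := by
  classical
  obtain ⟨hc1, hc2⟩ := tc_coset p K₁ hidx a ha
  set O₁ : Finset W := (Finset.univ.filter (fun k : K => k ∈ K₁)).image (fun k => φ k u) with hO₁
  set O : Finset W := Finset.univ.image (fun k : K => φ k u) with hO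
  have hO₁mem : ∀ v, v ∈ O₁ ↔ ∃ k ∈ K₁, φ k u = v := by
    intro v; simp [hO₁]
  have hOmem : ∀ v, v ∈ O ↔ ∃ k, φ k u = v := by intro v; simp [hO]
  have himg : ∀ (s : Finset W) (k : K), (∀ v ∈ s, φ k v ∈ s) → s.image (φ k) = s := by
    intro s k h
    apply Finset.eq_of_subset_of_card_le
    · intro v hv
      obtain ⟨v', hv', rfl⟩ := Finset.mem_image.mp hv
      exact h v' hv'
    · rw [Finset.card_image_of_injective _ (φ k).injective]
  set w : W := ∏ v ∈ O₁, v with hw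
  have hφprod : ∀ (k : K) (s : Finset W), φ k (∏ v ∈ s, v) = ∏ v ∈ s.image (φ k), v := by
    intro k s
    rw [map_prod, Finset.prod_image (fun a _ b _ h => (φ k).injective h)]
  have hwfix : ∀ k ∈ K₁, φ k w = w := by
    intro k hk
    rw [hw, hφprod, himg]
    intro v hv
    obtain ⟨k', hk', rfl⟩ := (hO₁mem v).mp hv
    exact (hO₁mem _).mpr ⟨k * k', K₁.mul_mem hk hk', by rw [map_mul]; rfl⟩
  have h1 := hprod w hwfix
  have hdisj : ∀ i ∈ Finset.range p, ∀ j ∈ Finset.range p, i ≠ j →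
      Disjoint (O₁.image (φ (a ^ i))) (O₁.image (φ (a ^ j))) := by
    intro i hi j hj hij
    rw [Finset.disjoint_left]
    intro v hvi hvj
    obtain ⟨v₁, hv₁, rfl⟩ := Finset.mem_image.mp hvi
    obtain ⟨v₂, hv₂, hv⟩ := Finset.mem_image.mp hvj
    obtain ⟨k₁, hk₁, rfl⟩ := (hO₁mem _).mp hv₁
    obtain ⟨k₂, hk₂, rfl⟩ := (hO₁mem _).mp hv₂
    have h2 : φ ((a ^ i * k₁)⁻¹ * (a ^ j * k₂)) u = u := by
      have e1 : φ ((a ^ i * k₁)⁻¹ * (a ^ j * k₂)) u = φ (a ^ i * k₁)⁻¹ (φ (a ^ j) (φ k₂ u)) := by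
        rw [map_mul, map_mul]; rfl
      have e2 : φ (a ^ i * k₁) u = φ (a ^ i) (φ k₁ u) := by
        rw [map_mul]; rfl
      rw [e1, hv, ← e2, map_inv]
      exact (φ (a ^ i * k₁)).symm_apply_apply u
    have h3 := hstab _ h2
    have h4 : (a ^ i)⁻¹ * a ^ j ∈ K₁ := by
      have : (a ^ i)⁻¹ * a ^ j = k₁ * ((a ^ i * k₁)⁻¹ * (a ^ j * k₂)) * k₂⁻¹ := by group
      rw [this]; exact K₁.mul_mem (K₁.mul_mem hk₁ h3) (K₁.inv_mem hk₂)
    exact hij (hc2 j (Finset.mem_range.mp hj) i (Finset.mem_range.mp hi) h4).symm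
  have hunion : (Finset.range p).biUnion (fun i => O₁.image (φ (a ^ i))) = O := by
    ext v
    simp only [Finset.mem_biUnion, Finset.mem_range, Finset.mem_image]
    constructor
    · rintro ⟨i, hi, v', hv', rfl⟩
      obtain ⟨k, hk, rfl⟩ := (hO₁mem _).mp hv'
      exact (hOmem _).mpr ⟨a ^ i * k, by rw [map_mul]; rfl⟩
    · intro hv
      obtain ⟨k, rfl⟩ := (hOmem _).mp hv
      obtain ⟨i, hi, hk⟩ := hc1 k
      refine ⟨i, hi, φ ((a ^ i)⁻¹ * k) u, (hO₁mem _).mpr ⟨_, hk, rfl⟩, ?_⟩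
      have : φ (a ^ i) (φ ((a ^ i)⁻¹ * k) u) = φ (a ^ i * ((a ^ i)⁻¹ * k)) u := by
        rw [map_mul (f := φ) (a ^ i)]; rfl
      rw [this, mul_inv_cancel_left]
  have hcard : O.card = p * O₁.card := by
    rw [← hunion, Finset.card_biUnion hdisj]
    rw [Finset.sum_congr rfl
      (fun i _ => Finset.card_image_of_injective _ (φ (a ^ i)).injective)]
    simp
  have hprodO : ∏ v ∈ O, v = w ^ p := by
    rw [← h1, ← hunion, Finset.prod_biUnion hdisj]
    refine Finset.prod_congr rfl (fun i _ => ?_)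
    rw [hw, hφprod]
  refine ⟨?_, ⟨O₁.card, hcard⟩⟩
  have h5 : ∏ v ∈ O₁, v ^ p = ∏ v ∈ O₁, x ^ p :=
    Finset.prod_congr rfl (fun v hv => by
      obtain ⟨k, hk, rfl⟩ := (hO₁mem v).mp hv
      exact hpow k)
  rw [hprodO, hcard, hw, ← Finset.prod_pow, h5, Finset.prod_const, ← pow_mul]

/-- Abstract form of the trace argument. -/
theorem tc_abs {W : Type*} [CommGroup W] {K : Type*} [Group K] [Finite K]
    (p : ℕ) [Fact p.Prime] (φ : K →* MulAut W) (Ω : Finset W)
    (hΩK : ∀ k : K, ∀ u ∈ Ω, φ k u ∈ Ω)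
    (x : W) (hxΩ : x ∈ Ω) (hpow : ∀ u ∈ Ω, u ^ p = x ^ p) (hxfix : ∀ k : K, φ k x = x)
    (hQ : ∀ u ∈ Ω, u ≠ x → ∃ (K₁ : Subgroup K) (a : K), K₁.Normal ∧ a ∉ K₁ ∧ K₁.index = p ∧
       (∀ k : K, φ k u = u → k ∈ K₁) ∧
       ∀ w : W, (∀ k ∈ K₁, φ k w = w) → ∏ i ∈ Finset.range p, φ (a ^ i) w = w ^ p) :
    ∏ u ∈ Ω, u = x ^ Ω.card ∧ Ω.card % p = 1 := by
  classical
  have := Fintype.ofFinite K
  have key : ∀ n : ℕ, ∀ Ω' : Finset W, Ω'.card = n → Ω' ⊆ Ω → x ∉ Ω' →
      (∀ k : K, ∀ u ∈ Ω', φ k u ∈ Ω') → ∏ u ∈ Ω', u = x ^ Ω'.card ∧ p ∣ Ω'.card := by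
    intro n
    induction n using Nat.strong_induction_on with
    | _ n ih =>
      intro Ω' hn hsub hx hstab
      rcases Finset.eq_empty_or_nonempty Ω' with rfl | ⟨u, hu⟩
      · simp
      · have hune : u ≠ x := fun h => hx (h ▸ hu)
        obtain ⟨K₁, a, hK₁n, ha, hidx, hst, hpr⟩ := hQ u (hsub hu) hune
        obtain ⟨hO1, hO2⟩ := tc_orbit p φ x u (fun k => hpow _ (hΩK k u (hsub hu)))
          K₁ a hK₁n ha hidx hst hpr
        set O : Finset W := Finset.univ.image (fun k : K => φ k u) with hO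
        have hOsub : O ⊆ Ω' := by
          intro v hv
          obtain ⟨k, -, rfl⟩ := Finset.mem_image.mp hv
          exact hstab k u hu
        have hOstab : ∀ k : K, ∀ v ∈ O, φ k v ∈ O := by
          intro k v hv
          obtain ⟨k', -, rfl⟩ := Finset.mem_image.mp hv
          exact Finset.mem_image.mpr ⟨k * k', Finset.mem_univ _, by rw [map_mul]; rfl⟩
        have huO : u ∈ O := Finset.mem_image.mpr ⟨1, Finset.mem_univ _, by simp⟩
        have hlt : (Ω' \ O).card < n := by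
          rw [← hn]; apply Finset.card_lt_card
          refine ⟨Finset.sdiff_subset, fun h => ?_⟩
          have := h hu
          rw [Finset.mem_sdiff] at this
          exact this.2 huO
        obtain ⟨h1, h2⟩ := ih _ hlt (Ω' \ O) rfl (Finset.sdiff_subset.trans hsub)
          (fun h => hx (Finset.mem_sdiff.mp h).1)
          (by
            intro k v hv
            rw [Finset.mem_sdiff] at hv ⊢
            refine ⟨hstab k v hv.1, fun h => hv.2 ?_⟩
            have h' := hOstab k⁻¹ _ h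
            have e : φ k⁻¹ (φ k v) = v := by
              rw [map_inv]; exact (φ k).symm_apply_apply v
            rwa [e] at h')
        have hcard : Ω'.card = (Ω' \ O).card + O.card :=
          (Finset.card_sdiff_add_card_eq_card hOsub).symm
        refine ⟨?_, ?_⟩
        · rw [← Finset.prod_sdiff hOsub, h1, hO1, ← pow_add, hcard]
        · rw [hcard]; exact dvd_add h2 hO2
  have hstab' : ∀ k : K, ∀ u ∈ Ω.erase x, φ k u ∈ Ω.erase x := by
    intro k u hu
    rw [Finset.mem_erase] at hu ⊢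
    refine ⟨fun h => hu.1 ?_, hΩK k u hu.2⟩
    have : φ k u = φ k x := by rw [h, hxfix]
    exact (φ k).injective this
  obtain ⟨h1, h2⟩ := key _ (Ω.erase x) rfl (Finset.erase_subset _ _)
    (Finset.notMem_erase _ _) hstab'
  have hcard : Ω.card = (Ω.erase x).card + 1 := (Finset.card_erase_add_one hxΩ).symm
  refine ⟨?_, ?_⟩
  · rw [← Finset.mul_prod_erase Ω _ hxΩ, h1, hcard, pow_succ']
  · rw [hcard]
    obtain ⟨m, hm⟩ := h2
    rw [hm, Nat.mul_add_mod]
    exact Nat.mod_eq_of_lt (Fact.out : p.Prime).one_lt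

/-- A hom applied to a product over `range n` is the corresponding list product. -/
theorem tc_map_prod_range {W M : Type*} [CommMonoid W] [Monoid M] (f : W →* M) (g : ℕ → W)
    (n : ℕ) :
    f (∏ i ∈ Finset.range n, g i) = ((List.range n).map (fun i => f (g i))).prod := by
  induction n with
  | zero => simp
  | succ n ih =>
    rw [Finset.prod_range_succ, map_mul, ih, List.range_succ, List.map_append, List.prod_append]
    simp

open scoped IsMulCommutative in
theorem trace_conj {G : Type u} [Group G] [Finite G] (p : ℕ) [Fact p.Prime] (K V : Subgroup G)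
    (hKp : IsPGroup p K) (hVc : ∀ a ∈ V, ∀ b ∈ V, a * b = b * a)
    (hKV : ∀ k ∈ K, ∀ v ∈ V, k * v * k⁻¹ ∈ V)
    (Ω : Set G) (hΩV : ∀ u ∈ Ω, u ∈ V) (hΩK : ∀ k ∈ K, ∀ u ∈ Ω, k * u * k⁻¹ ∈ Ω)
    (x : G) (hxΩ : x ∈ Ω) (hpow : ∀ u ∈ Ω, u ^ p = x ^ p)
    (hxfix : ∀ k ∈ K, k * x * k⁻¹ = x)
    (hfix : ∀ u ∈ Ω, (∀ k ∈ K, k * u * k⁻¹ = u) → u = x)
    (hQ : ∀ u ∈ Ω, u ≠ x → ∃ (K₁ : Subgroup G) (a : G), K₁ ≤ K ∧ a ∈ K ∧ a ∉ K₁ ∧
      (∀ k ∈ K, ∀ y ∈ K₁, k * y * k⁻¹ ∈ K₁) ∧ Nat.card K = p * Nat.card K₁ ∧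
      (∀ k ∈ K, k * u * k⁻¹ = u → k ∈ K₁) ∧
      ∀ w ∈ V, (∀ k ∈ K₁, k * w * k⁻¹ = w) →
        ((List.range p).map (fun i => a ^ i * w * (a ^ i)⁻¹)).prod = w ^ p) :
    (∀ h : G, (∀ v ∈ V, h * v * h⁻¹ ∈ V) → (∀ u ∈ Ω, h * u * h⁻¹ ∈ Ω) →
      h * x ^ Ω.ncard * h⁻¹ = x ^ Ω.ncard) ∧ Ω.ncard % p = 1 := by
  classical
  have hVmc : IsMulCommutative V := ⟨⟨fun a b => Subtype.ext (hVc a a.2 b b.2)⟩⟩
  have := Fintype.ofFinite G
  let φ : K →* MulAut V :=
    { toFun := fun k =>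
        { toFun := fun v => ⟨k * v * (k : G)⁻¹, hKV k k.2 v v.2⟩
          invFun := fun v => ⟨(k : G)⁻¹ * v * k, by
            have := hKV (k⁻¹ : K) (k⁻¹ : K).2 v v.2
            simpa using this⟩
          left_inv := fun v => Subtype.ext (by simp [mul_assoc])
          right_inv := fun v => Subtype.ext (by simp [mul_assoc])
          map_mul' := fun v v' => Subtype.ext (by simp [mul_assoc]) }
      map_one' := by
        apply MulEquiv.ext; intro v; apply Subtype.ext; simp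
      map_mul' := fun k k' => by
        apply MulEquiv.ext; intro v; apply Subtype.ext; simp [mul_assoc] }
  have hφ : ∀ (k : K) (v : V), ((φ k v : V) : G) = k * v * (k : G)⁻¹ := fun _ _ => rfl
  let Ω' : Finset V := Finset.univ.filter (fun v : V => (v : G) ∈ Ω)
  have hΩ'mem : ∀ v : V, v ∈ Ω' ↔ (v : G) ∈ Ω := by intro v; simp [Ω']
  have hcard : Ω.ncard = Ω'.card := by
    have h1 : Ω = Subtype.val '' (Ω' : Set V) := by
      ext g
      constructor
      · intro hg
        exact ⟨⟨g, hΩV g hg⟩, by simpa [Ω'] using hg, rfl⟩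
      · rintro ⟨v, hv, rfl⟩
        simpa [Ω'] using hv
    rw [h1, Set.ncard_image_of_injective _ Subtype.val_injective, Set.ncard_coe_finset]
  set x' : V := ⟨x, hΩV x hxΩ⟩ with hx'
  have hmain := tc_abs p φ Ω'
    (fun k u hu => (hΩ'mem _).mpr (by rw [hφ]; exact hΩK k k.2 u ((hΩ'mem u).mp hu)))
    x' ((hΩ'mem _).mpr hxΩ)
    (fun u hu => Subtype.ext (by
      have := hpow u ((hΩ'mem u).mp hu)
      simpa using this))
    (fun k => Subtype.ext (by rw [hφ]; exact hxfix k k.2))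
    (by
      intro u hu hux
      have hux' : (u : G) ≠ x := fun h => hux (Subtype.ext h)
      obtain ⟨K₁, a, hK₁K, haK, haK₁, hnorm, hcardK, hstab, hprod⟩ :=
        hQ u ((hΩ'mem u).mp hu) hux'
      refine ⟨K₁.subgroupOf K, ⟨a, haK⟩, ?_, ?_, ?_, ?_, ?_⟩
      · refine ⟨fun n hn g => ?_⟩
        rw [Subgroup.mem_subgroupOf] at hn ⊢
        simpa using hnorm g g.2 n hn
      · rw [Subgroup.mem_subgroupOf]; exact haK₁
      · have h1 := Subgroup.card_mul_index (K₁.subgroupOf K)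
        have h2 : Nat.card (K₁.subgroupOf K) = Nat.card K₁ :=
          Nat.card_congr (Subgroup.subgroupOfEquivOfLe hK₁K).toEquiv
        rw [h2, hcardK, mul_comm] at h1
        exact Nat.eq_of_mul_eq_mul_right Nat.card_pos h1
      · intro k hk
        rw [Subgroup.mem_subgroupOf]
        apply hstab k k.2
        have := congrArg Subtype.val hk
        rwa [hφ] at this
      · intro w hw
        apply Subtype.ext
        have h1 := hprod w w.2 (fun k hk => by
          have := hw ⟨k, hK₁K hk⟩ (by rw [Subgroup.mem_subgroupOf]; exact hk)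
          have := congrArg Subtype.val this
          rwa [hφ] at this)
        have h2 := tc_map_prod_range V.subtype (fun i => φ ((⟨a, haK⟩ : K) ^ i) w) p
        simp only [Subgroup.coe_subtype] at h2
        rw [h2]
        simpa [hφ] using h1)
  obtain ⟨hprodΩ, hmod⟩ := hmain
  refine ⟨?_, by rw [hcard]; exact hmod⟩
  intro h hhV hhΩ
  let ψ : V →* V := MonoidHom.mk' (fun v => ⟨h * v * h⁻¹, hhV v v.2⟩)
    (fun a b => Subtype.ext (by simp [mul_assoc]))
  have hψ : ∀ v : V, ((ψ v : V) : G) = h * v * h⁻¹ := fun _ => rfl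
  have hψinj : Function.Injective ψ := by
    intro v v' hvv
    have := congrArg Subtype.val hvv
    rw [hψ, hψ] at this
    apply Subtype.ext
    simpa using this
  have himg : Ω'.image ψ = Ω' := by
    apply Finset.eq_of_subset_of_card_le
    · intro v hv
      obtain ⟨v', hv', rfl⟩ := Finset.mem_image.mp hv
      exact (hΩ'mem _).mpr (by rw [hψ]; exact hhΩ v' ((hΩ'mem v').mp hv'))
    · rw [Finset.card_image_of_injective _ hψinj]
  have h1 : ψ (∏ u ∈ Ω', u) = ∏ u ∈ Ω', u := by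
    rw [map_prod, ← Finset.prod_image (s := Ω') (g := ψ) (f := fun u => u)
      (fun a _ b _ hab => hψinj hab), himg]
  rw [hprodΩ] at h1
  have h2 := congrArg Subtype.val h1
  rw [hψ] at h2
  rw [hcard]
  simpa using h2

end Cfsg.Agent.H43
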